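import Cfsg.Agent.Lib.BNPair.Parabolic

/-!
# Elements of minimal length in a coset of a parabolic subgroup

In a group with a `BN`-pair, let `Q ≥ B`, and let `n` have minimal length in its coset `W_Q n`. Then
lengths add, and `(B W_Q B) (B n B) = ⋃ B v n B`. In particular the chamber of minimal distance in a
residue is unique.
-/

set_option autoImplicit false

namespace Cfsg.Agent.Lib.SubMax.BNMin

open Cfsg Cfsg.Agent.Lib.BNPair.Basic Cfsg.Agent.Lib.BNPair.Parabolic

variable {G : Type*} [Group G] {P : Cfsg.BNPair G}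

/-- Lengths add on the minimal representative. -/
theorem len_add {J : Set G} (hJ : J ⊆ P.S) {n : G} (hn : n ∈ P.N)
    (hmin : ∀ v ∈ Subgroup.closure J, len P n ≤ len P (v * n)) :
    ∀ (k : ℕ) (v : G), v ∈ Subgroup.closure J → len P v = k → len P (v * n) = k + len P n := by
  intro k
  induction k with
  | zero =>
    intro v hv hk
    have hvN : v ∈ P.N := closure_le_N hJ hv
    have hvB : v ∈ P.B := (len_eq_zero_iff hvN).1 hk
    rw [zero_add]
    apply len_congr
    have e : (v * n)⁻¹ * n = n⁻¹ * v⁻¹ * n := by group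
    rw [e]
    exact conj_inv_B hn (P.B.inv_mem hvB) (P.N.inv_mem hvN)
  | succ k ih =>
    intro v hv hk
    have hvN : v ∈ P.N := closure_le_N hJ hv
    obtain ⟨l, hlJ, hrep, hlen⟩ := exists_reduced_word_of_mem_closure hJ hv
    rw [hk] at hlen
    cases l with
    | nil => simp at hlen
    | cons s l' =>
      have hsJ : s ∈ J := hlJ s (by simp)
      have hs : s ∈ P.S := hJ hsJ
      have hl'J : ∀ x ∈ l', x ∈ J := fun x hx => hlJ x (by simp [hx])
      have hl'S : ∀ x ∈ l', x ∈ P.S := fun x hx => hJ (hl'J x hx)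
      have hl'len : l'.length = k := by simpa using hlen
      set v' := l'.prod with hv'
      have hv'cl : v' ∈ Subgroup.closure J :=
        Subgroup.list_prod_mem _ (fun x hx => Subgroup.subset_closure (hl'J x hx))
      have hv'N : v' ∈ P.N := closure_le_N hJ hv'cl
      have hsN := S_mem_N hs
      have hprod : (s :: l').prod = s * v' := by simp [hv']
      have hrep2 : v⁻¹ * (s * v') ∈ P.B := by rw [← hprod]; exact hrep.2
      have hlen1 : len P (s * v') = k + 1 := by
        rw [← len_congr hrep2]; exact hk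
      have hv'len : len P v' = k := by
        have h1 : len P v' ≤ l'.length := len_prod_le hl'S
        have h2 := len_mul_le hs hv'N
        omega
      have hIH := ih v' hv'cl hv'len
      have hv'n : v' * n ∈ P.N := P.N.mul_mem hv'N hn
      -- comparison of `v n` and `s v' n`
      have hcmp : len P (v * n) = len P (s * (v' * n)) := by
        apply len_congr
        have e : (v * n)⁻¹ * (s * (v' * n)) = n⁻¹ * (v⁻¹ * (s * v')) * n := by group
        rw [e]
        refine conj_inv_B hn hrep2 ?_
        exact P.N.mul_mem (P.N.inv_mem hvN) (P.N.mul_mem hsN hv'N)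
      rw [hcmp]
      rcases len_mul_eq_or hs hv'n with h | h
      · rw [h, hIH]; omega
      · exfalso
        obtain ⟨ln, hln, hlnlen⟩ := exists_min hn
        have hlnS := hln.1
        have hW : (l' ++ ln).prod = v' * ln.prod := by simp [hv']
        have hWS : ∀ x ∈ l' ++ ln, x ∈ P.S := by
          intro x hx
          rcases List.mem_append.1 hx with hx | hx
          · exact hl'S x hx
          · exact hlnS x hx
        have hc1 : (v' * n)⁻¹ * (l' ++ ln).prod ∈ P.B := by
          have e : (v' * n)⁻¹ * (l' ++ ln).prod = n⁻¹ * ln.prod := by rw [hW]; group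
          rw [e]; exact hln.2
        have hc2 : (s * (v' * n))⁻¹ * (s * (l' ++ ln).prod) ∈ P.B := by
          have e : (s * (v' * n))⁻¹ * (s * (l' ++ ln).prod) = n⁻¹ * ln.prod := by rw [hW]; group
          rw [e]; exact hln.2
        have hWlen : (l' ++ ln).length = k + len P n := by
          simp [hl'len, hlnlen]
        have h1 : len P (l' ++ ln).prod = (l' ++ ln).length := by
          rw [← len_congr hc1, hIH, hWlen]
        have h2 : len P (s * (l' ++ ln).prod) < (l' ++ ln).length := by
          rw [← len_congr hc2, hWlen]; omega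
        obtain ⟨l₁, x, l₂, e, hb⟩ := exchange hs _ hWS h1 h2
        have hxS : x ∈ P.S := hWS x (by rw [e]; simp)
        have hl₁S : ∀ y ∈ l₁, y ∈ P.S := fun y hy => hWS y (by rw [e]; simp [hy])
        have hl₂S : ∀ y ∈ l₂, y ∈ P.S := fun y hy => hWS y (by rw [e]; simp [hy])
        have hpr := exchange_prod hxS hl₂S hb hs hl₁S
        rw [← e, hW] at hpr
        -- the first case: the letter lies in the word of `n`
        have case1 : ∀ a' : List G, l₁ = l' ++ a' → ln = a' ++ x :: l₂ → False := by
          intro a' h3 h4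
          have ha'S : ∀ y ∈ a', y ∈ P.S := fun y hy => hlnS y (by rw [h4]; simp [hy])
          have hn'' : (a' ++ l₂).prod ∈ P.N := prod_mem_N (fun y hy => by
            rcases List.mem_append.1 hy with hy | hy
            · exact ha'S y hy
            · exact hl₂S y hy)
          have h5 : (l₁ ++ l₂).prod = v' * (a' ++ l₂).prod := by
            rw [h3]; simp [hv', mul_assoc]
          rw [h5] at hpr
          set v₂ := v'⁻¹ * s * v' with hv₂
          have hv₂cl : v₂ ∈ Subgroup.closure J :=
            Subgroup.mul_mem _ (Subgroup.mul_mem _ (Subgroup.inv_mem _ hv'cl)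
              (Subgroup.subset_closure hsJ)) hv'cl
          have h6 : (v₂ * n)⁻¹ * (a' ++ l₂).prod ∈ P.B := by
            have e1 : (v₂ * n)⁻¹ * (a' ++ l₂).prod =
                (n⁻¹ * ln.prod) * ((s * (v' * ln.prod))⁻¹ * (v' * (a' ++ l₂).prod)) := by
              rw [hv₂]; group
            rw [e1]
            exact P.B.mul_mem hln.2 hpr
          have h7 := len_congr h6
          have h8 := hmin v₂ hv₂cl
          have h9 : len P (a' ++ l₂).prod ≤ (a' ++ l₂).length := len_prod_le (fun y hy => by
            rcases List.mem_append.1 hy with hy | hy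
            · exact ha'S y hy
            · exact hl₂S y hy)
          have h10 : ln.length = (a' ++ l₂).length + 1 := by
            rw [h4]; simp; omega
          omega
        rcases List.append_eq_append_iff.1 e with ⟨a', h3, h4⟩ | ⟨c', h3, h4⟩
        · exact case1 a' h3 h4
        · cases c' with
          | nil =>
            simp only [List.nil_append] at h4
            exact case1 [] (by simpa using h3.symm) (by simpa using h4.symm)
          | cons y c'' =>
            simp only [List.cons_append, List.cons.injEq] at h4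
            obtain ⟨rfl, h4⟩ := h4
            have hc''S : ∀ y ∈ c'', y ∈ P.S := fun y hy => hl'S y (by rw [h3]; simp [hy])
            have h5 : (l₁ ++ l₂).prod = (l₁ ++ c'').prod * ln.prod := by
              rw [h4]; simp [mul_assoc]
            rw [h5] at hpr
            set v'' := (l₁ ++ c'').prod with hv''
            have hv''S : ∀ y ∈ l₁ ++ c'', y ∈ P.S := fun y hy => by
              rcases List.mem_append.1 hy with hy | hy
              · exact hl₁S y hy
              · exact hc''S y hy
            have hv''N : v'' ∈ P.N := prod_mem_N hv''S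
            have hlnN : ln.prod ∈ P.N := prod_mem_N hlnS
            have h6 : (s * v')⁻¹ * v'' ∈ P.B := by
              have e1 : (s * v')⁻¹ * v'' = ln.prod * ((s * (v' * ln.prod))⁻¹ * (v'' * ln.prod)) *
                  ln.prod⁻¹ := by group
              rw [e1]
              refine conj_B hlnN hpr ?_
              exact P.N.mul_mem (P.N.inv_mem (P.N.mul_mem hsN (P.N.mul_mem hv'N hlnN)))
                (P.N.mul_mem hv''N hlnN)
            have h7 := len_congr h6
            have h8 : len P v'' ≤ (l₁ ++ c'').length := len_prod_le hv''S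
            have h9 : l'.length = (l₁ ++ c'').length + 1 := by
              rw [h3]; simp; omega
            omega

/-- The product of the double cosets. -/
theorem mul_mem_C {J : Set G} (hJ : J ⊆ P.S) {n : G} (hn : n ∈ P.N)
    (hmin : ∀ v ∈ Subgroup.closure J, len P n ≤ len P (v * n)) :
    ∀ (k : ℕ) (v : G), v ∈ Subgroup.closure J → len P v = k → ∀ b ∈ P.B, v * b * n ∈ C P (v * n) := by
  intro k
  induction k with
  | zero =>
    intro v hv hk b hb
    have hvB : v ∈ P.B := (len_eq_zero_iff (closure_le_N hJ hv)).1 hk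
    refine mem_C.2 ⟨v * b * v⁻¹, P.B.mul_mem (P.B.mul_mem hvB hb) (P.B.inv_mem hvB), 1, P.B.one_mem, ?_⟩
    group
  | succ k ih =>
    intro v hv hk b hb
    have hvN : v ∈ P.N := closure_le_N hJ hv
    obtain ⟨l, hlJ, hrep, hlen⟩ := exists_reduced_word_of_mem_closure hJ hv
    rw [hk] at hlen
    cases l with
    | nil => simp at hlen
    | cons s l' =>
      have hsJ : s ∈ J := hlJ s (by simp)
      have hs : s ∈ P.S := hJ hsJ
      have hl'J : ∀ x ∈ l', x ∈ J := fun x hx => hlJ x (by simp [hx])
      have hl'S : ∀ x ∈ l', x ∈ P.S := fun x hx => hJ (hl'J x hx)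
      have hl'len : l'.length = k := by simpa using hlen
      set v' := l'.prod with hv'
      have hv'cl : v' ∈ Subgroup.closure J :=
        Subgroup.list_prod_mem _ (fun x hx => Subgroup.subset_closure (hl'J x hx))
      have hv'N : v' ∈ P.N := closure_le_N hJ hv'cl
      have hsN := S_mem_N hs
      have hprod : (s :: l').prod = s * v' := by simp [hv']
      have hrep2 : v⁻¹ * (s * v') ∈ P.B := by rw [← hprod]; exact hrep.2
      have hlen1 : len P (s * v') = k + 1 := by
        rw [← len_congr hrep2]; exact hk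
      have hv'len : len P v' = k := by
        have h1 : len P v' ≤ l'.length := len_prod_le hl'S
        have h2 := len_mul_le hs hv'N
        omega
      have hadd1 := len_add hJ hn hmin k v' hv'cl hv'len
      have hadd2 := len_add hJ hn hmin (k + 1) v hv hk
      have hv'n : v' * n ∈ P.N := P.N.mul_mem hv'N hn
      have hcmp : len P (v * n) = len P (s * (v' * n)) := by
        apply len_congr
        have e : (v * n)⁻¹ * (s * (v' * n)) = n⁻¹ * (v⁻¹ * (s * v')) * n := by group
        rw [e]
        refine conj_inv_B hn hrep2 ?_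
        exact P.N.mul_mem (P.N.inv_mem hvN) (P.N.mul_mem hsN hv'N)
      set c := v⁻¹ * (s * v') with hc
      have hc' : c⁻¹ * b ∈ P.B := P.B.mul_mem (P.B.inv_mem hrep2) hb
      have h1 := ih v' hv'cl hv'len _ hc'
      obtain ⟨b₁, hb₁, b₂, hb₂, e1⟩ := mem_C.1 h1
      have h2 : s * b₁ * (v' * n) ∈ C P (s * (v' * n)) :=
        s_b_n_mem hv'n hs (by omega) hb₁
      have h3 := C_mul_right h2 hb₂
      have e2 : v * b * n = s * b₁ * (v' * n) * b₂ := by
        have e3 : s * b₁ * (v' * n) * b₂ = s * (b₁ * (v' * n) * b₂) := by group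
        rw [e3, ← e1, hc]
        group
      rw [e2]
      have e4 : C P (v * n) = C P (s * (v' * n)) := by
        apply C_eq_of_inv_mul_mem
        have e : (v * n)⁻¹ * (s * (v' * n)) = n⁻¹ * c * n := by rw [hc]; group
        rw [e]
        refine conj_inv_B hn hrep2 ?_
        exact P.N.mul_mem (P.N.inv_mem hvN) (P.N.mul_mem hsN hv'N)
      rw [e4]
      exact h3

/-- The generators lying in `Q`. -/
def JQ (P : Cfsg.BNPair G) (Q : Subgroup G) : Set G := {s | s ∈ P.S ∧ s ∈ Q}

theorem JQ_sub (Q : Subgroup G) : JQ P Q ⊆ P.S := fun _ h => h.1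

theorem closure_JQ_le (Q : Subgroup G) : Subgroup.closure (JQ P Q) ≤ Q := by
  rw [Subgroup.closure_le]
  exact fun _ h => h.2

/-- The minimal representative of a coset of `Q`. -/
theorem exists_min_rep (Q : Subgroup G) (hQ : P.B ≤ Q) (e : G) :
    ∃ p ∈ Q, ∃ n ∈ P.N, p * e ∈ C P n ∧
      ∀ v ∈ Subgroup.closure (JQ P Q), len P n ≤ len P (v * n) := by
  classical
  let S₀ : Set ℕ := {k | ∃ p ∈ Q, ∃ n ∈ P.N, p * e ∈ C P n ∧ len P n = k}
  have hne : S₀.Nonempty := by
    obtain ⟨n, hn, hm⟩ := bruhat_exists (P := P) e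
    exact ⟨_, 1, Q.one_mem, n, hn, by simpa using hm, rfl⟩
  obtain ⟨p, hp, n, hn, hpe, hlen⟩ := Nat.sInf_mem hne
  refine ⟨p, hp, n, hn, hpe, ?_⟩
  intro v hv
  rw [hlen]
  apply Nat.sInf_le
  obtain ⟨b, hb, b', hb', e1⟩ := mem_C.1 hpe
  have hvN : v ∈ P.N := closure_le_N (JQ_sub Q) hv
  refine ⟨v * b⁻¹ * p, Q.mul_mem (Q.mul_mem (closure_JQ_le Q hv) (Q.inv_mem (hQ hb))) hp, v * n,
    P.N.mul_mem hvN hn, ?_, rfl⟩
  refine mem_C.2 ⟨1, P.B.one_mem, b', hb', ?_⟩
  have e2 : v * b⁻¹ * p * e = v * b⁻¹ * (p * e) := by group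
  rw [e2, e1]
  group

/-- Uniqueness of the minimal chamber. -/
theorem mem_B_of_min (Q : Subgroup G) (hQ : P.B ≤ Q) {n : G} (hn : n ∈ P.N)
    (hmin : ∀ v ∈ Subgroup.closure (JQ P Q), len P n ≤ len P (v * n)) {x p : G} (hx : x ∈ C P n)
    (hp : p ∈ Q) (hpx : p * x ∈ C P n) : p ∈ P.B := by
  have hp' : p ∈ P.parabolic (JQ P Q) := by
    have h := eq_parabolic_of_le (P := P) hQ
    show p ∈ P.parabolic {s | s ∈ P.S ∧ s ∈ Q}
    rw [← h]
    exact hp
  obtain ⟨v, hv, hpv⟩ := (mem_parabolic_iff (JQ_sub Q) p).1 hp'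
  have hvN : v ∈ P.N := closure_le_N (JQ_sub Q) hv
  obtain ⟨b₁, hb₁, b₂, hb₂, e1⟩ := mem_C.1 hpv
  obtain ⟨b₃, hb₃, b₄, hb₄, e2⟩ := mem_C.1 hx
  have h1 := mul_mem_C (JQ_sub Q) hn hmin _ v hv rfl _ (P.B.mul_mem hb₂ hb₃)
  have h2 : p * x ∈ C P (v * n) := by
    have e3 : p * x = b₁ * (v * (b₂ * b₃) * n) * b₄ := by
      rw [e1, e2]; group
    rw [e3]
    exact C_mul_right (C_mul_left h1 hb₁) hb₄
  have h3 := C_eq_of_mem_both hpx h2
  have hvn : v * n ∈ P.N := P.N.mul_mem hvN hn
  have h4 := (C_eq_iff hn hvn).1 h3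
  have h5 := len_congr h4
  have h6 := len_add (JQ_sub Q) hn hmin _ v hv rfl
  have h7 : len P v = 0 := by omega
  have hvB := (len_eq_zero_iff hvN).1 h7
  exact C_one_eq_of_mem hvB hpv

end Cfsg.Agent.Lib.SubMax.BNMin
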