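import Cfsg.Agent.Lib.BorelTits.Cent
import Cfsg.Agent.Lib.SubMax.Fx

/-!
# Elements of a parabolic subgroup commuting with the rational radical

An element of `P_J` commuting with all the `x_r(1)`, `r` a root of the radical of `P_J`, lies in `B`.
-/

set_option autoImplicit false
set_option linter.unusedSectionVars false

namespace Cfsg.Agent.Lib.SubMax.CommB

open Cfsg.Lie Cfsg.Agent.Lib.ChevBN.Elem Cfsg.Agent.Lib.ChevBN.Entries Cfsg.Agent.Lib.ChevBN.Table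
open Cfsg.Agent.Lib.ChevBN.Collect Cfsg.Agent.Lib.ChevBN.Rel Cfsg.Agent.Lib.ChevBN.Torus
open Cfsg.Agent.Lib.ChevBN.Monomial Cfsg.Agent.Lib.ChevBN.Core Cfsg.Agent.Lib.ChevBN.Pair
open Cfsg.Agent.Lib.ChevBN.Stmts Cfsg.Agent.Lib.ChevBN.Levi
open Cfsg.Agent.Lib.BNPair.Basic Cfsg.Agent.Lib.BNPair.Parabolic
open Cfsg.Agent.Lib.ChevOrder.Chev
open Cfsg.Agent.Lib.BorelTits.Weight Cfsg.Agent.Lib.BorelTits.Tbl3 Cfsg.Agent.Lib.BorelTits.Funct
open Cfsg.Agent.Lib.BorelTits.Cent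

variable {D : ChevalleyDatum} {F : Type*} [Field F] {η : ℕ → ℕ → ℤ}

section Le

variable {ι : Type*} [Fintype ι] [DecidableEq ι]

theorem le_conj_sub_one' {w w' : ι → ℝ} {c : ℝ} {y : GL ι F} (h : Le w' w' c ((y : Matrix ι ι F) - 1))
    {g : GL ι F} (hg : Tr w w' g) : Le w w c (((g * y * g⁻¹ : GL ι F) : Matrix ι ι F) - 1) := by
  have e : ((g * y * g⁻¹ : GL ι F) : Matrix ι ι F) - 1 =
      (g : Matrix ι ι F) * ((y : Matrix ι ι F) - 1) * ((g⁻¹ : GL ι F) : Matrix ι ι F) := by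
    have hgg : (g : Matrix ι ι F) * ((g⁻¹ : GL ι F) : Matrix ι ι F) = 1 := by
      rw [← Units.val_mul, mul_inv_cancel, Units.val_one]
    rw [Units.val_mul, Units.val_mul, mul_sub, sub_mul, mul_one, hgg]
  rw [e]
  have := (hg.1.mul h).mul hg.2
  simpa using this

end Le

theorem funct_add {φ : Fin D.nroots → ℝ} (hφ : φ ∈ Funct D) {r r' a : Fin D.nroots}
    (h : ∀ k < D.rank, D.cartan k r' = D.cartan k r + D.cartan k a) : φ r' = φ r + φ a := by
  induction hφ using Submodule.span_induction with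
  | mem x hx =>
    obtain ⟨j, rfl⟩ := hx
    simp only [cf]
    rw [h j j.2]
    push_cast
    rfl
  | zero => simp
  | add x y _ _ h1 h2 =>
    simp only [Pi.add_apply, h1, h2]
    ring
  | smul c x _ h3 =>
    simp only [Pi.smul_apply, h3, smul_eq_mul]
    ring

theorem funct_ext (hT : Tbl D) {φ φ' : Fin D.nroots → ℝ} (hφ : φ ∈ Funct D) (hφ' : φ' ∈ Funct D)
    (h : ∀ (q : ℕ) (hq : q < D.rank), φ (sim hT hq) = φ' (sim hT hq)) : φ = φ' := by
  funext s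
  have key : ∀ r, Reach D Set.univ r → ∀ hr : r < D.nroots, φ ⟨r, hr⟩ = φ' ⟨r, hr⟩ := by
    intro r hrr
    induction hrr with
    | base _ hl => exact fun _ => h _ hl
    | @step q r _ hl hr' ih =>
      intro hr
      have h1 := funct_w hT hφ hl ⟨r, hr'.lt hT⟩
      have h2 := funct_w hT hφ' hl ⟨r, hr'.lt hT⟩
      have e : (Tbl.wPerm hT hl ⟨r, hr'.lt hT⟩ : Fin D.nroots) = ⟨D.reflectRoot q r, hr⟩ := rfl
      rw [e] at h1 h2
      rw [h1, h2, ih (hr'.lt hT), h q hl]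
  exact key s.val (reach_univ hT s.2) s.2

variable (hR : Sys D F η) (hT : Tbl D)
include hR hT

/-- The action of `N_J` on the roots preserves the radical. -/
theorem exists_act_NJ (hT2 : Tbl2 D) (J : Set ℕ) {n : GL D.Idx F} (hn : n ∈ NJ hR J) :
    ∃ π : Equiv.Perm (Fin D.nroots), π ∈ Wp hT ∧ IsAct n π ∧
      (∀ s : Fin D.nroots, s.val ∈ psiJ D J → (π s).val ∈ psiJ D J) ∧
      (∀ s : Fin D.nroots, s.val ∈ psiJ D J → (π⁻¹ s).val ∈ psiJ D J) := by
  rw [NJ] at hn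
  induction hn using Subgroup.closure_induction with
  | mem x hx =>
    obtain ⟨q, hqJ, hl, rfl⟩ := hx
    refine ⟨Tbl.wPerm hT hl, wPerm_mem_Wp hT hl, isAct_A hR hT hl, ?_, ?_⟩
    · intro s hs
      exact w_psiJ hR hT hT2 hqJ hl hs
    · intro s hs
      exact w_psiJ hR hT hT2 hqJ hl hs
  | one =>
    refine ⟨1, Subgroup.one_mem _, ?_, fun s hs => hs, fun s hs => hs⟩
    intro φ
    exact Tr.one _
  | mul a b _ _ ha hb =>
    obtain ⟨π, h1, h2, h3, h4⟩ := ha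
    obtain ⟨π', h1', h2', h3', h4'⟩ := hb
    refine ⟨π * π', Subgroup.mul_mem _ h1 h1', h2.mul h2', ?_, ?_⟩
    · intro s hs
      exact h3 _ (h3' _ hs)
    · intro s hs
      rw [mul_inv_rev]
      exact h4' _ (h4 _ hs)
  | inv a _ ha =>
    obtain ⟨π, h1, h2, h3, h4⟩ := ha
    refine ⟨π⁻¹, Subgroup.inv_mem _ h1, h2.inv, h4, ?_⟩
    intro s hs
    rw [inv_inv]
    exact h3 _ hs

/-- Elements of a standard parabolic subgroup are `b n b'`. -/
theorem parabolic_form (J : Set ℕ) {c : GL D.Idx F} (hc : c ∈ D.parabolicSubgroup F J) :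
    ∃ b₁ ∈ D.borelSubgroup F, ∃ n ∈ NJ hR J, ∃ b₂ ∈ D.borelSubgroup F, c = b₁ * n * b₂ := by
  have hBG := (B_N_G hR hT).1
  have hPG := Cfsg.Agent.Lib.SubMax.Fx.parabolic_le_G hR hT J
  let J' : Set ↥(D.group F) := {s | ∃ q ∈ J, q < D.rank ∧ (s : GL D.Idx F) = A hR q}
  have hJ' : J' ⊆ (pair hR hT).S := by
    rintro s ⟨q, -, hl, he⟩
    exact (mem_PS hR hT).2 ⟨q, hl, he⟩
  have hle : D.parabolicSubgroup F J ≤ ((pair hR hT).parabolic J').map (D.group F).subtype := by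
    rw [parabolic_eq hR hT]
    refine sup_le ?_ ?_
    · intro b hb
      exact ⟨⟨b, hBG hb⟩, Subgroup.mem_sup_left ((mem_PB hR hT).2 hb), rfl⟩
    · rw [NJ, Subgroup.closure_le]
      rintro g ⟨q, hq, hl, rfl⟩
      refine ⟨ee hR hT ⟨q, hl⟩, Subgroup.mem_sup_right (Subgroup.subset_closure ⟨q, hq, hl, rfl⟩), rfl⟩
  obtain ⟨c', hc', e⟩ := hle hc
  obtain ⟨v, hv, hm⟩ := (mem_parabolic_iff hJ' c').1 hc'
  obtain ⟨b, hb, b', hb', e2⟩ := mem_C.1 hm
  have hvN : (v : GL D.Idx F) ∈ NJ hR J := by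
    have : Subgroup.closure J' ≤ (NJ hR J).comap (D.group F).subtype := by
      rw [Subgroup.closure_le]
      rintro s ⟨q, hq, hl, he⟩
      show (s : GL D.Idx F) ∈ NJ hR J
      rw [he]
      exact A_mem_NJ hR hq hl
    exact this hv
  refine ⟨b, (mem_PB hR hT).1 hb, v, hvN, b', (mem_PB hR hT).1 hb', ?_⟩
  rw [← e]
  have := congrArg Subtype.val e2
  simpa only [Subgroup.coe_mul, Subgroup.subtype_apply] using this

theorem parabolic_Kφ_le {φ : Fin D.nroots → ℝ} (hreg : ∀ r (hr : D.IsPosRoot r), 0 < φ ⟨r, hr.1⟩) :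
    D.parabolicSubgroup F (Kφ hT φ) ≤ D.borelSubgroup F := by
  rw [parabolic_eq hR hT]
  refine sup_le le_rfl ?_
  rw [NJ, Subgroup.closure_le]
  rintro g ⟨q, ⟨hl, h0⟩, -, rfl⟩
  exact absurd h0 (ne_of_gt (hreg _ (hT.simple_pos q hl)))

/-- The main statement. -/
theorem mem_B_of_comm (hT2 : Tbl2 D) (hT3 : Tbl3 D) {J : Set ℕ} (hJ : ∃ i, i < D.rank ∧ i ∉ J) {c : GL D.Idx F}
    (hc : c ∈ D.parabolicSubgroup F J)
    (hcomm : ∀ r ∈ psiJ D J, c * X hR.toAddRel r 1 = X hR.toAddRel r 1 * c) :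
    c ∈ D.borelSubgroup F := by
  classical
  obtain ⟨b₁, hb₁, n, hn, b₂, hb₂, rfl⟩ := parabolic_form hR hT J hc
  obtain ⟨π, hπ, hact, hπ1, hπ2⟩ := exists_act_NJ hR hT hT2 J hn
  obtain ⟨ψ, hψ, hreg⟩ := exists_reg hT hT3
  have hdom : Dom hT ψ := fun q hq => (hreg _ (hT.simple_pos q hq)).le
  have hBP := borel_le_Par (F := F) hR hT hT3 hψ hdom
  set ψ' : Fin D.nroots → ℝ := ψ ∘ (π⁻¹ : Equiv.Perm (Fin D.nroots)) with hψ'
  have hψ'F : ψ' ∈ Funct D := funct_comp_Wp hT (Subgroup.inv_mem _ hπ) hψ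
  have hTr : Tr (wt ψ') (wt ψ) n := by
    have h1 := hact ψ'
    have e : ψ' ∘ π = ψ := by
      funext s
      simp [hψ']
    rwa [e] at h1
  -- the inequalities
  have hineq : ∀ s : Fin D.nroots, s.val ∈ psiJ D J → ψ s ≤ ψ' s := by
    intro s hs
    have hs0 : 0 < ψ s := hreg s.val hs.1
    set x := X hR.toAddRel s.val (1 : F) with hx
    have h1 : Le (wt ψ) (wt ψ) (ψ s) ((x : Matrix D.Idx D.Idx F) - 1) := by
      rw [hx, coe_X]
      exact le_x_sub_one hT hT3 hψ s 1 hs0.le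
    have h2 := le_conj_sub_one h1 (hBP hb₂)
    have h3 := le_conj_sub_one' h2 hTr
    have e1 : n * (b₂ * x * b₂⁻¹) * n⁻¹ = b₁⁻¹ * x * b₁ := by
      have h4 := hcomm s.val hs
      rw [← hx] at h4
      have h5 : b₁ * n * b₂ * x * (b₁ * n * b₂)⁻¹ = x := by
        rw [h4]
        group
      calc n * (b₂ * x * b₂⁻¹) * n⁻¹ = b₁⁻¹ * (b₁ * n * b₂ * x * (b₁ * n * b₂)⁻¹) * b₁ := by group
        _ = _ := by rw [h5]
    rw [e1] at h3
    -- `b₁⁻¹ = u k`
    obtain ⟨u, hu, k, hk, e2⟩ := (mem_B_iff hR hT).mp (Subgroup.inv_mem _ hb₁)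
    rw [diagonal_eq hR hT] at hk
    obtain ⟨a, ha, rfl⟩ := hk
    set κ := chi D a s.val * 1 with hκ
    have hκ0 : κ ≠ 0 := by
      rw [hκ, mul_one]
      exact chi_ne_zero ha _
    have e3 : b₁⁻¹ * x * b₁ = u * X hR.toAddRel s.val κ * u⁻¹ := by
      have h6 : b₁ = (u * hP hR a)⁻¹ := by
        rw [← e2, inv_inv]
      calc b₁⁻¹ * x * b₁ = (u * hP hR a) * x * (u * hP hR a)⁻¹ := by rw [← h6, ← e2]
        _ = u * (hP hR a * x * (hP hR a)⁻¹) * u⁻¹ := by group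
        _ = _ := by rw [hx, hP_conj hR ha s.2 1]
    rw [e3] at h3
    have hus := U_strict hR hT hT3 hψ hreg hu
    obtain ⟨i, hi⟩ := Tbl.exists_coroot_ne (F := F) hT s.2
    have hne : (negF hT s).val ≠ s.val := hT.pos_ne_neg hs.1 (hT.neg_of_pos hs.1) |>.symm
    have hA : Le (wt ψ) (wt ψ) (ψ s) ((X hR.toAddRel s.val κ : Matrix D.Idx D.Idx F) - 1) := by
      rw [coe_X]
      exact le_x_sub_one hT hT3 hψ s κ hs0.le
    have hA' := le_conj_sub_one hA (hBP (U_le_B hR hT hu))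
    have h7 : (u : Matrix D.Idx D.Idx F) * ((X hR.toAddRel s.val κ : Matrix D.Idx D.Idx F) - 1) =
        (((u * X hR.toAddRel s.val κ * u⁻¹ : GL D.Idx F) : Matrix D.Idx D.Idx F) - 1) *
          (u : Matrix D.Idx D.Idx F) := by
      have huu : ((u⁻¹ : GL D.Idx F) : Matrix D.Idx D.Idx F) * (u : Matrix D.Idx D.Idx F) = 1 := by
        rw [← Units.val_mul, inv_mul_cancel, Units.val_one]
      rw [sub_mul, Units.val_mul, Units.val_mul, mul_assoc, huu, mul_one, one_mul, mul_sub, mul_one]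
    have h8 := eq_entry_of_conj hus hA hA' h7 (i := Sum.inl i) (j := Sum.inr (negF hT s)) (by
      rw [wt_inl, wt_inr, funct_neg hT hψ]
      simp)
    have h9 : ((X hR.toAddRel s.val κ : Matrix D.Idx D.Idx F) - 1) (Sum.inl i) (Sum.inr (negF hT s)) ≠ 0 := by
      rw [coe_X, Matrix.sub_apply, Matrix.one_apply_ne (by simp), sub_zero,
        x_inl_inr_neg s.2 κ i (negF hT s) hne rfl]
      exact mul_ne_zero hi hκ0
    rw [h8] at h9
    have h10 := h3 _ _ h9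
    rw [wt_inl, wt_inr, funct_neg hT hψ'F] at h10
    simpa using h10
  -- equality on the radical
  let S : Finset (Fin D.nroots) := Finset.univ.filter fun s => s.val ∈ psiJ D J
  have hsum : ∑ s ∈ S, ψ s = ∑ s ∈ S, ψ' s := by
    symm
    refine Finset.sum_equiv (π⁻¹ : Equiv.Perm (Fin D.nroots)) ?_ ?_
    · intro s
      simp only [S, Finset.mem_filter, Finset.mem_univ, true_and]
      constructor
      · exact hπ2 s
      · intro h
        have := hπ1 _ h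
        simpa using this
    · intro s _
      rfl
  have heq := (Finset.sum_eq_sum_iff_of_le (s := S) (f := ψ) (g := ψ') (fun s hs =>
    hineq s (Finset.mem_filter.mp hs).2)).mp hsum
  have heq' : ∀ s : Fin D.nroots, s.val ∈ psiJ D J → ψ s = ψ' s := by
    intro s hs
    exact heq s (Finset.mem_filter.mpr ⟨Finset.mem_univ _, hs⟩)
  -- equality on the fundamental roots
  obtain ⟨i, hi, hiJ⟩ := hJ
  have hmem : ∀ r, D.IsPosRoot r → cr D r i ≠ 0 → r ∈ psiJ D J := by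
    intro r hr hc
    exact ⟨hr, fun h => hc (h.2 i hi hiJ)⟩
  have hsim : ∀ (q : ℕ) (hq : q < D.rank), ψ (sim hT hq) = ψ' (sim hT hq) := by
    intro q hq
    by_cases hqJ : q ∈ J
    · have hne : i ≠ q := by
        rintro rfl
        exact hiJ hqJ
      obtain ⟨r, r', h1, h2, h3, h4, h5⟩ := hT3.add_simple q hq i hi hne
      have h6 := funct_add (r := ⟨r, h1.1⟩) (r' := ⟨r', h2.1⟩) (a := sim hT hq) hψ h5
      have h7 := funct_add (r := ⟨r, h1.1⟩) (r' := ⟨r', h2.1⟩) (a := sim hT hq) hψ'F h5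
      have h8 := heq' ⟨r, h1.1⟩ (hmem r h1 h3)
      have h9 := heq' ⟨r', h2.1⟩ (hmem r' h2 h4)
      linarith
    · exact heq' _ ⟨hT.simple_pos q hq, not_inRootSub_simple hT hqJ hq⟩
  have hψψ' : ψ = ψ' := funct_ext hT hψ hψ'F hsim
  have hnPar : n ∈ Par (F := F) (wt ψ) := by
    have : Tr (wt ψ) (wt ψ) n := by
      have h := hTr
      rwa [← hψψ'] at h
    exact this
  have hcPar : b₁ * n * b₂ ∈ Par (F := F) (wt ψ) :=
    Subgroup.mul_mem _ (Subgroup.mul_mem _ (hBP hb₁) hnPar) (hBP hb₂)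
  have hcG := Cfsg.Agent.Lib.SubMax.Fx.parabolic_le_G hR hT J hc
  exact parabolic_Kφ_le hR hT hreg (mem_parabolic_of_mem_Par hR hT hT3 hψ hdom hcG hcPar)

end Cfsg.Agent.Lib.SubMax.CommB
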