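import Cfsg.Agent.Lib.SubMax.Tab

/-!
# Table data of type B2
-/

set_option autoImplicit false
set_option linter.unusedSectionVars false
set_option linter.unusedVariables false
set_option maxRecDepth 100000

namespace Cfsg.Agent.Lib.SubMax.DataB2

open Cfsg.Lie Cfsg.Agent.Lib.ChevBN.Elem Cfsg.Agent.Lib.ChevBN.Entries Cfsg.Agent.Lib.ChevBN.Table
open Cfsg.Agent.Lib.ChevBN.Rel Cfsg.Agent.Lib.ChevBN.Stmts Cfsg.Agent.Lib.ChevBN.Fix
open Cfsg.Agent.Lib.ChevBN.Fast Cfsg.Agent.Lib.ChevBN.FastData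
open Cfsg.Agent.Lib.BorelTits.Tbl3 Cfsg.Agent.Lib.BorelTits.Data
open Cfsg.Agent.Lib.SubMax.Fx Cfsg.Agent.Lib.SubMax.Orbit Cfsg.Agent.Lib.SubMax.TopElt
open Cfsg.Agent.Lib.SubMax.Gen Cfsg.Agent.Lib.SubMax.Fin Cfsg.Agent.Lib.SubMax.Tab

def vT : ℕ → ℤ := fun j => ([5, 6] : List ℤ).getD j 0
def vH : ℕ → ℤ := fun j => ([3, 4] : List ℤ).getD j 0

theorem hposL : chevB2.posRoots = List.range' 4 4 := by decide +kernel
theorem hnn : chevB2.nroots = 4 + 4 := by decide +kernel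

/-- The orbit of the central root. -/
def Ol : List ℕ := [0, 3, 4, 7]
def O : Set ℕ := {s | s ∈ Ol}

theorem hOm : ∀ s ∈ O, s ∈ Ol := fun s hs => hs

theorem hOchk : ∀ q ∈ List.range chevB2.rank, ∀ s ∈ Ol, chevB2.reflectRoot q s ∈ Ol := by decide +kernel

theorem hOO : ∀ q < chevB2.rank, ∀ s ∈ O, chevB2.reflectRoot q s ∈ O :=
  fun q hq s hs => hOchk q (List.mem_range.mpr hq) s hs

theorem hOlt : ∀ s ∈ Ol, s < chevB2.nroots := by decide +kernel

theorem hneg : chevB2.neg 7 = 0 := by decide +kernel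
theorem hcen : ∀ s ∈ List.range' 4 4, s ≠ 7 → chevB2.commTerms 7 s = [] := by decide +kernel
theorem hO2 : ∀ s ∈ Ol, s ≠ 0 → 0 < 2 + tabB2.Adf chevB2 7 s ∧ 0 < 2 + tabB2.Adf chevB2 s 7 := by
  decide +kernel
theorem hT1 : ∀ s ∈ List.range' 4 4, s ≠ 7 → tabB2.Adf chevB2 7 s = 0 ∨ tabB2.Adf chevB2 7 s = 1 := by
  decide +kernel
theorem hTc : ∀ s ∈ List.range' 4 4, tabB2.Adf chevB2 7 s = 0 → chevB2.commTerms 0 s = [] := by
  decide +kernel

theorem rootTab : RootTab chevB2 O 7 4 :=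
  RootTab.of_chk hC_B2 hR_B2 hposL hnn (fun s hs => hOlt s hs) hOm hOO (show 7 ∈ O by show 7 ∈ Ol; decide +kernel) (by decide) hneg hcen hO2 hT1 hTc (by decide)
    (by decide +kernel)

def linkW : ℕ → List ℕ := fun j => ([[], []] : List (List ℕ)).getD j []

theorem orbTab : OrbTab chevB2 1 0 :=
  OrbTab.of_chk (w := linkW) (by decide +kernel) (by decide +kernel) (by decide +kernel) (by decide +kernel)

def wit0 : ℕ → ℕ := fun a => ([5, 4, 5, 0] : List ℕ).getD (a - 4) 0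

theorem topTab0 {F : Type*} [Field F] (hgood : ∀ N ∈ ([1, (-1), 2, (-2)] : List ℤ), (N : F) ≠ 0)
    (hbad : ∀ N ∈ ([] : List ℤ), (N : F) = 0) : TopTab chevB2 F [7] vT :=
  TopTab.of_chk (T := tabB2) (m := 4) (wit := wit0) hC_B2 hposL hnn (by decide) (by decide) (by decide +kernel) (by decide +kernel)
    (by decide +kernel) (by decide +kernel) (by decide +kernel) (by decide) (by decide +kernel) hgood hbad

def wit1 : ℕ → ℕ := fun a => ([5, 4, 0, 0] : List ℕ).getD (a - 4) 0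

theorem topTab1 {F : Type*} [Field F] (hgood : ∀ N ∈ ([1, (-1)] : List ℤ), (N : F) ≠ 0)
    (hbad : ∀ N ∈ ([2, (-2)] : List ℤ), (N : F) = 0) : TopTab chevB2 F [6, 7] vT :=
  TopTab.of_chk (T := tabB2) (m := 4) (wit := wit1) hC_B2 hposL hnn (by decide) (by decide) (by decide +kernel) (by decide +kernel)
    (by decide +kernel) (by decide +kernel) (by decide +kernel) (by decide) (by decide +kernel) hgood hbad

theorem evPos : ∀ s ∈ List.range' 4 4, 0 < fAd tabB2 chevB2 vH s := by decide +kernel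
theorem evMin : ∀ s ∈ List.range' 4 4, fAd tabB2 chevB2 vH 5 ≤ fAd tabB2 chevB2 vH s := by decide +kernel

theorem evenT {F : Type*} [Field F] [CharP F 2] {η : ℕ → ℕ → ℤ} (hR : Sys chevB2 F η) (σ : F →+* F) :
    ∃ t ∈ Fx chevB2 σ, t * t = 1 ∧ t ≠ 1 ∧
      ∀ v ∈ chevB2.posUnipotent F, ∀ s ∈ O, ∀ d : F, d ≠ 0 → t ≠ v * X hR.toAddRel s d * v⁻¹ := by
  have hh := heights hC_B2 hposL hnn evPos evMin (a := 5) (by decide +kernel)
  exact Cfsg.Agent.Lib.SubMax.Tab.even_one hR tbl_chevB2 tbl3_chevB2 σ rootTab.hOl (a := 5) (by decide +kernel) (by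
    show ¬ (5 ∈ Ol)
    decide +kernel) hh.1 hh.2


open Cfsg.Agent.Lib.SubMax.FinB2 in
/-- Products in the long root groups, in odd characteristic. -/
theorem mulOdd {F : Type*} [Field F] (p : ℕ) [hp : Fact p.Prime] [CharP F p] (hp2 : p ≠ 2) {η : ℕ → ℕ → ℤ}
    (hR : Sys chevB2 F η) (σ : F →+* F) {H : Subgroup (GL chevB2.Idx F)} (hMH : Fx chevB2 σ ≤ H)
    (hc : CommG hR.toAddRel) :
    ∀ x ∈ RS hR.toAddRel H 4, ∀ y ∈ RS hR.toAddRel H 4, x * y ∈ RS hR.toAddRel H 4 := by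
  have hT := tbl_chevB2
  have n4' := n4 hR hT σ hMH hc
  have n5' := n5 hR hT σ hMH hc
  have n6' := n6 hR hT σ hMH hc
  have n7' := n7 hR hT σ hMH hc
  have l0' := l0 hR hT σ hMH hc
  have l1' := l1 hR hT σ hMH hc
  have hS56 : RS hR.toAddRel H 6 = RS hR.toAddRel H 5 := by
    have h1 := RS_reflect_eq hR hT σ hMH l1' n5'
    rwa [r15 hR hT σ hMH hc] at h1
  have hL47 : RS hR.toAddRel H 4 = RS hR.toAddRel H 7 := by
    have h1 := RS_reflect_eq hR hT σ hMH l0' n7'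
    rwa [r07 hR hT σ hMH hc] at h1
  have hLS : ∀ t ∈ RS hR.toAddRel H 7, t ∈ RS hR.toAddRel H 6 := by
    intro t ht
    have h1 : X hR.toAddRel 4 t ∈ H := by
      rw [← mem_RS, hL47]
      exact ht
    have h2 : X hR.toAddRel 5 (1 : F) ∈ H := RS_one hR hT σ hMH n5'
    have h3 := comm_mem_of hR hT σ hMH hc n4' n5' (by decide) (by decide +kernel) h1 h2
    rw [ChevalleyDatum.commWord, t45 hR hT σ hMH hc] at h3
    simp only [List.map_cons, List.map_nil, W_cons, W_nil, mul_one, pow_one, one_pow, Int.cast_one, Int.cast_neg,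
      one_mul, neg_mul, neg_neg] at h3
    have h4 : X hR.toAddRel 6 (-t) ∈ H := (H.mul_mem_cancel_right ht).mp h3
    exact neg_mem_iff.mp h4
  have hSS : ∀ x ∈ RS hR.toAddRel H 5, ∀ y ∈ RS hR.toAddRel H 6, x * y ∈ RS hR.toAddRel H 7 := by
    intro x hx y hy
    exact mul_closed hR hT σ hMH p hc n5' n6' (by decide) (by decide +kernel) (t56 hR hT σ hMH hc)
      (good12 p hp2 2 (by decide)) (by simp) hx hy
  intro x hx y hy
  rw [hL47] at hx hy ⊢
  have h1 := hLS x hx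
  rw [hS56] at h1
  exact hSS x h1 y (hLS y hy)

theorem main {F : Type*} [Field F] [Fintype F] (p : ℕ) [hp : Fact p.Prime] [CharP F p] {η : ℕ → ℕ → ℤ}
    (hR : Sys chevB2 F η) (σ : F →+* F) {q n : ℕ} (hq : 1 < q) (hn' : n.Prime) (hK : Fintype.card F = q ^ n)
    (hσ : ∀ x, σ x = x ^ q) {H : Subgroup (GL chevB2.Idx F)} (hMH : Fx chevB2 σ ≤ H) (hHG : H ≤ chevB2.group F) :
    H ≤ Fx chevB2 σ ∨ H = chevB2.group F := by
  have hT := tbl_chevB2
  have hcg : CommG hR.toAddRel := commG_of_mem _ (by simp)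
  refine Cfsg.Agent.Lib.SubMax.Tab.main_gen p hR hT tbl2_chevB2 tbl3_chevB2 σ hMH hHG hcg rootTab ?_ ?_
  · intro h2
    subst h2
    exact evenT hR σ
  · intro hne
    have e1 : chevB2.simple 1 = 4 := by decide +kernel
    by_cases h2 : p = 2
    · subst h2
      exact Cfsg.Agent.Lib.SubMax.FinB2.finish_even hR hT tbl3_chevB2 σ hMH hHG hcg hq hn' hK hσ
        (topTab1 (good1 2) (bad2 2 rfl)) hne
    · refine finish_one hR hT tbl3_chevB2 σ hMH hHG orbTab p hq hn' hK hσ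
        (topTab0 (good12 p h2) bad0) (⟨[0], by decide, by decide +kernel⟩ : Link chevB2 (chevB2.simple 1) 7) ?_ hne
      rw [e1]
      exact mulOdd p h2 hR σ hMH hcg

end Cfsg.Agent.Lib.SubMax.DataB2
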