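import Cfsg.Agent.Lib.SubMax.Tab

/-!
# Table data of type D4
-/

set_option autoImplicit false
set_option linter.unusedSectionVars false
set_option linter.unusedVariables false
set_option maxRecDepth 100000

namespace Cfsg.Agent.Lib.SubMax.DataD4

open Cfsg.Lie Cfsg.Agent.Lib.ChevBN.Elem Cfsg.Agent.Lib.ChevBN.Entries Cfsg.Agent.Lib.ChevBN.Table
open Cfsg.Agent.Lib.ChevBN.Rel Cfsg.Agent.Lib.ChevBN.Stmts Cfsg.Agent.Lib.ChevBN.Fix
open Cfsg.Agent.Lib.ChevBN.Fast Cfsg.Agent.Lib.ChevBN.FastData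
open Cfsg.Agent.Lib.BorelTits.Tbl3 Cfsg.Agent.Lib.BorelTits.Data
open Cfsg.Agent.Lib.SubMax.Fx Cfsg.Agent.Lib.SubMax.Orbit Cfsg.Agent.Lib.SubMax.TopElt
open Cfsg.Agent.Lib.SubMax.Gen Cfsg.Agent.Lib.SubMax.Fin Cfsg.Agent.Lib.SubMax.Tab

def vT : ℕ → ℤ := fun j => ([23, 32, 18, 17] : List ℤ).getD j 0
def vH : ℕ → ℤ := fun j => ([3, 5, 3, 3] : List ℤ).getD j 0

theorem hposL : chevD4.posRoots = List.range' 12 12 := by decide +kernel
theorem hnn : chevD4.nroots = 12 + 12 := by decide +kernel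

/-- The orbit of the central root. -/
def O : Set ℕ := {s | s < chevD4.nroots}

theorem hOm : ∀ s ∈ O, s ∈ List.range 24 := by
  intro s hs
  rw [List.mem_range]
  exact lt_of_lt_of_eq hs (by decide +kernel)

theorem hOO : ∀ q < chevD4.rank, ∀ s ∈ O, chevD4.reflectRoot q s ∈ O :=
  fun q hq s hs => tbl_chevD4.w_lt q hq s hs

theorem hneg : chevD4.neg 23 = 0 := by decide +kernel
theorem hcen : ∀ s ∈ List.range' 12 12, s ≠ 23 → chevD4.commTerms 23 s = [] := by decide +kernel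
theorem hO2 : ∀ s ∈ List.range 24, s ≠ 0 → 0 < 2 + tabD4.Adf chevD4 23 s ∧ 0 < 2 + tabD4.Adf chevD4 s 23 := by
  decide +kernel
theorem hT1 : ∀ s ∈ List.range' 12 12, s ≠ 23 → tabD4.Adf chevD4 23 s = 0 ∨ tabD4.Adf chevD4 23 s = 1 := by
  decide +kernel
theorem hTc : ∀ s ∈ List.range' 12 12, tabD4.Adf chevD4 23 s = 0 → chevD4.commTerms 0 s = [] := by
  decide +kernel

theorem rootTab : RootTab chevD4 O 23 12 :=
  RootTab.of_chk hC_D4 hR_D4 hposL hnn (fun s hs => hs) hOm hOO (show 23 ∈ O by show 23 < chevD4.nroots; decide +kernel) (by decide) hneg hcen hO2 hT1 hTc (by decide)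
    (by decide +kernel)

def linkW : ℕ → List ℕ := fun j => ([[], [0, 1], [1, 2, 0, 1], [1, 3, 0, 1]] : List (List ℕ)).getD j []

theorem orbTab : OrbTab chevD4 0 1 :=
  OrbTab.of_chk (w := linkW) (by decide +kernel) (by decide +kernel) (by decide +kernel) (by decide +kernel)

def wit0 : ℕ → ℕ := fun a => ([14, 14, 12, 13, 12, 18, 14, 12, 13, 12, 14, 0] : List ℕ).getD (a - 12) 0

theorem topTab0 {F : Type*} [Field F] (hgood : ∀ N ∈ ([1, (-1)] : List ℤ), (N : F) ≠ 0)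
    (hbad : ∀ N ∈ ([] : List ℤ), (N : F) = 0) : TopTab chevD4 F [23] vT :=
  TopTab.of_chk (T := tabD4) (m := 12) (wit := wit0) hC_D4 hposL hnn (by decide) (by decide) (by decide +kernel) (by decide +kernel)
    (by decide +kernel) (by decide +kernel) (by decide +kernel) (by decide) (by decide +kernel) hgood hbad

theorem evPos : ∀ s ∈ List.range' 12 12, 0 < fAd tabD4 chevD4 vH s := by decide +kernel
theorem evMin : ∀ s ∈ List.range' 12 12, fAd tabD4 chevD4 vH 12 ≤ fAd tabD4 chevD4 vH s := by decide +kernel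

theorem evenT {F : Type*} [Field F] [CharP F 2] {η : ℕ → ℕ → ℤ} (hR : Sys chevD4 F η) (σ : F →+* F) :
    ∃ t ∈ Fx chevD4 σ, t * t = 1 ∧ t ≠ 1 ∧
      ∀ v ∈ chevD4.posUnipotent F, ∀ s ∈ O, ∀ d : F, d ≠ 0 → t ≠ v * X hR.toAddRel s d * v⁻¹ := by
  have hh := heights hC_D4 hposL hnn evPos evMin (a := 12) (by decide +kernel)
  exact Cfsg.Agent.Lib.SubMax.Tab.even_two hR tbl_chevD4 tbl3_chevD4 σ rootTab.hOl (a := 12) (a' := 13) (by decide +kernel) (by decide +kernel)
    (by decide) (by decide +kernel) hh.1 hh.2 (by decide +kernel)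

theorem ct_L : chevD4.commTerms 18 14 = [(19, -1, 1, 1)] ++ [] := by decide +kernel

theorem main {F : Type*} [Field F] [Fintype F] (p : ℕ) [hp : Fact p.Prime] [CharP F p] {η : ℕ → ℕ → ℤ}
    (hR : Sys chevD4 F η) (σ : F →+* F) {q n : ℕ} (hq : 1 < q) (hn' : n.Prime) (hK : Fintype.card F = q ^ n)
    (hσ : ∀ x, σ x = x ^ q) {H : Subgroup (GL chevD4.Idx F)} (hMH : Fx chevD4 σ ≤ H) (hHG : H ≤ chevD4.group F) :
    H ≤ Fx chevD4 σ ∨ H = chevD4.group F := by
  have hT := tbl_chevD4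
  have hcg : CommG hR.toAddRel := commG_of_mem _ (by simp)
  refine Cfsg.Agent.Lib.SubMax.Tab.main_gen p hR hT tbl2_chevD4 tbl3_chevD4 σ hMH hHG hcg rootTab ?_ ?_
  · intro h2
    subst h2
    exact evenT hR σ
  · intro hne
    have e : chevD4.simple 0 = 18 := by decide +kernel
    refine finish_one hR hT tbl3_chevD4 σ hMH hHG orbTab p hq hn' hK hσ
      (topTab0 (good1 p) bad0) (⟨[1, 3, 2, 1], by decide, by decide +kernel⟩ : Link chevD4 (chevD4.simple 0) 23) ?_ hne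
    rw [e]
    exact (mul_of_trip p hR hT σ hMH hcg (e := 18) (a := 18) (b := 14) (q := 19) (N := -1) (rest := []) (by decide +kernel)
        (⟨[], by decide, by decide +kernel⟩ : Link chevD4 18 18)
        (⟨[0, 1], by decide, by decide +kernel⟩ : Link chevD4 18 14)
        (⟨[1], by decide, by decide +kernel⟩ : Link chevD4 18 19) (by decide +kernel) (by decide +kernel) (by decide) (by decide +kernel)
        ct_L (by simp) (by simp))

end Cfsg.Agent.Lib.SubMax.DataD4
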