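import Cfsg.Agent.Lib.SubMax.Tab

/-!
# Table data of type E7
-/

set_option autoImplicit false
set_option linter.unusedSectionVars false
set_option linter.unusedVariables false
set_option maxRecDepth 100000

namespace Cfsg.Agent.Lib.SubMax.DataE7

open Cfsg.Lie Cfsg.Agent.Lib.ChevBN.Elem Cfsg.Agent.Lib.ChevBN.Entries Cfsg.Agent.Lib.ChevBN.Table
open Cfsg.Agent.Lib.ChevBN.Rel Cfsg.Agent.Lib.ChevBN.Stmts Cfsg.Agent.Lib.ChevBN.Fix
open Cfsg.Agent.Lib.ChevBN.Fast Cfsg.Agent.Lib.ChevBN.FastData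
open Cfsg.Agent.Lib.BorelTits.Tbl3 Cfsg.Agent.Lib.BorelTits.Data
open Cfsg.Agent.Lib.SubMax.Fx Cfsg.Agent.Lib.SubMax.Orbit Cfsg.Agent.Lib.SubMax.TopElt
open Cfsg.Agent.Lib.SubMax.Gen Cfsg.Agent.Lib.SubMax.Fin Cfsg.Agent.Lib.SubMax.Tab

def vT : ℕ → ℤ := fun j => ([634, 811, 1112, 1558, 1177, 788, 395] : List ℤ).getD j 0
def vH : ℕ → ℤ := fun j => ([34, 49, 66, 96, 75, 52, 27] : List ℤ).getD j 0

theorem hposL : chevE7.posRoots = List.range' 63 63 := by decide +kernel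
theorem hnn : chevE7.nroots = 63 + 63 := by decide +kernel

/-- The orbit of the central root. -/
def O : Set ℕ := {s | s < chevE7.nroots}

theorem hOm : ∀ s ∈ O, s ∈ List.range 126 := by
  intro s hs
  rw [List.mem_range]
  exact lt_of_lt_of_eq hs (by decide +kernel)

theorem hOO : ∀ q < chevE7.rank, ∀ s ∈ O, chevE7.reflectRoot q s ∈ O :=
  fun q hq s hs => tbl_chevE7.w_lt q hq s hs

theorem hneg : chevE7.neg 125 = 0 := by decide +kernel
theorem hcen : ∀ s ∈ List.range' 63 63, s ≠ 125 → chevE7.commTerms 125 s = [] := by decide +kernel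
theorem hO2 : ∀ s ∈ List.range 126, s ≠ 0 → 0 < 2 + tabE7.Adf chevE7 125 s ∧ 0 < 2 + tabE7.Adf chevE7 s 125 := by
  decide +kernel
theorem hT1 : ∀ s ∈ List.range' 63 63, s ≠ 125 → tabE7.Adf chevE7 125 s = 0 ∨ tabE7.Adf chevE7 125 s = 1 := by
  decide +kernel
theorem hTc : ∀ s ∈ List.range' 63 63, tabE7.Adf chevE7 125 s = 0 → chevE7.commTerms 0 s = [] := by
  decide +kernel

theorem rootTab : RootTab chevE7 O 125 63 :=
  RootTab.of_chk hC_E7 hR_E7 hposL hnn (fun s hs => hs) hOm hOO (show 125 ∈ O by show 125 < chevE7.nroots; decide +kernel) (by decide) hneg hcen hO2 hT1 hTc (by decide)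
    (by decide +kernel)

def linkW : ℕ → List ℕ := fun j => ([[], [3, 2, 1, 3, 0, 2], [0, 2], [2, 3, 0, 2], [3, 4, 2, 3, 0, 2], [4, 5, 3, 4, 2, 3, 0, 2], [5, 6, 4, 5, 3, 4, 2, 3, 0, 2]] : List (List ℕ)).getD j []

theorem orbTab : OrbTab chevE7 0 2 :=
  OrbTab.of_chk (w := linkW) (by decide +kernel) (by decide +kernel) (by decide +kernel) (by decide +kernel)

def wit0 : ℕ → ℕ := fun a => ([64, 63, 66, 64, 63, 69, 66, 64, 63, 73, 69, 66, 64, 63, 78, 69, 66, 64, 63, 73, 66, 64, 63, 69, 64, 63, 66, 63, 64, 93, 73, 69, 66, 64, 63, 78, 66, 64, 63, 69, 64, 63, 66, 63, 64, 73, 64, 63, 66, 63, 64, 69, 63, 64, 66, 78, 63, 64, 66, 69, 73, 93, 0] : List ℕ).getD (a - 63) 0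

theorem topTab0 {F : Type*} [Field F] (hgood : ∀ N ∈ ([1, (-1)] : List ℤ), (N : F) ≠ 0)
    (hbad : ∀ N ∈ ([] : List ℤ), (N : F) = 0) : TopTab chevE7 F [125] vT :=
  TopTab.of_chk (T := tabE7) (m := 63) (wit := wit0) hC_E7 hposL hnn (by decide) (by decide) (by decide +kernel) (by decide +kernel)
    (by decide +kernel) (by decide +kernel) (by decide +kernel) (by decide) (by decide +kernel) hgood hbad

theorem evPos : ∀ s ∈ List.range' 63 63, 0 < fAd tabE7 chevE7 vH s := by decide +kernel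
theorem evMin : ∀ s ∈ List.range' 63 63, fAd tabE7 chevE7 vH 78 ≤ fAd tabE7 chevE7 vH s := by decide +kernel

theorem evenT {F : Type*} [Field F] [CharP F 2] {η : ℕ → ℕ → ℤ} (hR : Sys chevE7 F η) (σ : F →+* F) :
    ∃ t ∈ Fx chevE7 σ, t * t = 1 ∧ t ≠ 1 ∧
      ∀ v ∈ chevE7.posUnipotent F, ∀ s ∈ O, ∀ d : F, d ≠ 0 → t ≠ v * X hR.toAddRel s d * v⁻¹ := by
  have hh := heights hC_E7 hposL hnn evPos evMin (a := 78) (by decide +kernel)
  exact Cfsg.Agent.Lib.SubMax.Tab.even_two hR tbl_chevE7 tbl3_chevE7 σ rootTab.hOl (a := 78) (a' := 93) (by decide +kernel) (by decide +kernel)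
    (by decide) (by decide +kernel) hh.1 hh.2 (by decide +kernel)

theorem ct_L : chevE7.commTerms 93 73 = [(94, -1, 1, 1)] ++ [] := by decide +kernel

theorem main {F : Type*} [Field F] [Fintype F] (p : ℕ) [hp : Fact p.Prime] [CharP F p] {η : ℕ → ℕ → ℤ}
    (hR : Sys chevE7 F η) (σ : F →+* F) {q n : ℕ} (hq : 1 < q) (hn' : n.Prime) (hK : Fintype.card F = q ^ n)
    (hσ : ∀ x, σ x = x ^ q) {H : Subgroup (GL chevE7.Idx F)} (hMH : Fx chevE7 σ ≤ H) (hHG : H ≤ chevE7.group F) :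
    H ≤ Fx chevE7 σ ∨ H = chevE7.group F := by
  have hT := tbl_chevE7
  have hcg : CommG hR.toAddRel := commG_of_mem _ (by simp)
  refine Cfsg.Agent.Lib.SubMax.Tab.main_gen p hR hT tbl2_chevE7 tbl3_chevE7 σ hMH hHG hcg rootTab ?_ ?_
  · intro h2
    subst h2
    exact evenT hR σ
  · intro hne
    have e : chevE7.simple 0 = 93 := by decide +kernel
    refine finish_one hR hT tbl3_chevE7 σ hMH hHG orbTab p hq hn' hK hσ
      (topTab0 (good1 p) bad0) (⟨[0, 2, 3, 4, 5, 6, 1, 3, 4, 5, 2, 3, 4, 1, 3, 2], by decide, by decide +kernel⟩ : Link chevE7 (chevE7.simple 0) 125) ?_ hne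
    rw [e]
    exact (mul_of_trip p hR hT σ hMH hcg (e := 93) (a := 93) (b := 73) (q := 94) (N := -1) (rest := []) (by decide +kernel)
        (⟨[], by decide, by decide +kernel⟩ : Link chevE7 93 93)
        (⟨[0, 2], by decide, by decide +kernel⟩ : Link chevE7 93 73)
        (⟨[2], by decide, by decide +kernel⟩ : Link chevE7 93 94) (by decide +kernel) (by decide +kernel) (by decide) (by decide +kernel)
        ct_L (by simp) (by simp))

end Cfsg.Agent.Lib.SubMax.DataE7
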