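import Cfsg.Agent.Lib.SubMax.Tab

/-!
# Table data of type E8
-/

set_option autoImplicit false
set_option linter.unusedSectionVars false
set_option linter.unusedVariables false
set_option maxRecDepth 100000

namespace Cfsg.Agent.Lib.SubMax.DataE8

open Cfsg.Lie Cfsg.Agent.Lib.ChevBN.Elem Cfsg.Agent.Lib.ChevBN.Entries Cfsg.Agent.Lib.ChevBN.Table
open Cfsg.Agent.Lib.ChevBN.Rel Cfsg.Agent.Lib.ChevBN.Stmts Cfsg.Agent.Lib.ChevBN.Fix
open Cfsg.Agent.Lib.ChevBN.Fast Cfsg.Agent.Lib.ChevBN.FastData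
open Cfsg.Agent.Lib.BorelTits.Tbl3 Cfsg.Agent.Lib.BorelTits.Data
open Cfsg.Agent.Lib.SubMax.Fx Cfsg.Agent.Lib.SubMax.Orbit Cfsg.Agent.Lib.SubMax.TopElt
open Cfsg.Agent.Lib.SubMax.Gen Cfsg.Agent.Lib.SubMax.Fin Cfsg.Agent.Lib.SubMax.Tab

def vT : ℕ → ℤ := fun j => ([1434, 2009, 2710, 3954, 3173, 2384, 1591, 796] : List ℤ).getD j 0
def vH : ℕ → ℤ := fun j => ([46, 68, 91, 135, 110, 84, 57, 29] : List ℤ).getD j 0

theorem hposL : chevE8.posRoots = List.range' 120 120 := by decide +kernel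
theorem hnn : chevE8.nroots = 120 + 120 := by decide +kernel

/-- The orbit of the central root. -/
def O : Set ℕ := {s | s < chevE8.nroots}

theorem hOm : ∀ s ∈ O, s ∈ List.range 240 := by
  intro s hs
  rw [List.mem_range]
  exact lt_of_lt_of_eq hs (by decide +kernel)

theorem hOO : ∀ q < chevE8.rank, ∀ s ∈ O, chevE8.reflectRoot q s ∈ O :=
  fun q hq s hs => tbl_chevE8.w_lt q hq s hs

theorem hneg : chevE8.neg 239 = 0 := by decide +kernel
theorem hcen : ∀ s ∈ List.range' 120 120, s ≠ 239 → chevE8.commTerms 239 s = [] := by decide +kernel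
theorem hO2 : ∀ s ∈ List.range 240, s ≠ 0 → 0 < 2 + tabE8.Adf chevE8 239 s ∧ 0 < 2 + tabE8.Adf chevE8 s 239 := by
  decide +kernel
theorem hT1 : ∀ s ∈ List.range' 120 120, s ≠ 239 → tabE8.Adf chevE8 239 s = 0 ∨ tabE8.Adf chevE8 239 s = 1 := by
  decide +kernel
theorem hTc : ∀ s ∈ List.range' 120 120, tabE8.Adf chevE8 239 s = 0 → chevE8.commTerms 0 s = [] := by
  decide +kernel

theorem rootTab : RootTab chevE8 O 239 121 :=
  RootTab.of_chk hC_E8 hR_E8 hposL hnn (fun s hs => hs) hOm hOO (show 239 ∈ O by show 239 < chevE8.nroots; decide +kernel) (by decide) hneg hcen hO2 hT1 hTc (by decide)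
    (by decide +kernel)

def linkW : ℕ → List ℕ := fun j => ([[], [3, 2, 1, 3, 0, 2], [0, 2], [2, 3, 0, 2], [3, 4, 2, 3, 0, 2], [4, 5, 3, 4, 2, 3, 0, 2], [5, 6, 4, 5, 3, 4, 2, 3, 0, 2], [6, 7, 5, 6, 4, 5, 3, 4, 2, 3, 0, 2]] : List (List ℕ)).getD j []

theorem orbTab : OrbTab chevE8 0 2 :=
  OrbTab.of_chk (w := linkW) (by decide +kernel) (by decide +kernel) (by decide +kernel) (by decide +kernel)

def wit0 : ℕ → ℕ := fun a => ([121, 120, 123, 121, 120, 126, 123, 121, 120, 130, 126, 123, 121, 120, 135, 130, 126, 123, 121, 120, 141, 130, 126, 123, 121, 120, 135, 126, 123, 121, 120, 130, 123, 121, 120, 126, 121, 120, 123, 120, 121, 162, 135, 130, 126, 123, 121, 120, 141, 126, 123, 121, 120, 130, 123, 121, 120, 126, 121, 120, 123, 120, 121, 135, 123, 121, 120, 126, 121, 120, 123, 120, 121, 130, 121, 120, 123, 120, 121, 126, 120, 121, 123, 141, 121, 120, 123, 120, 121, 126, 120, 121, 123, 130, 120, 121, 123, 126, 135, 120, 121, 123, 126,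 130, 141, 162, 120, 121, 123, 126, 130, 135, 141, 135, 130, 126, 123, 121, 120, 0] : List ℕ).getD (a - 120) 0

theorem topTab0 {F : Type*} [Field F] (hgood : ∀ N ∈ ([1, (-1)] : List ℤ), (N : F) ≠ 0)
    (hbad : ∀ N ∈ ([] : List ℤ), (N : F) = 0) : TopTab chevE8 F [239] vT :=
  TopTab.of_chk (T := tabE8) (m := 120) (wit := wit0) hC_E8 hposL hnn (by decide) (by decide) (by decide +kernel) (by decide +kernel)
    (by decide +kernel) (by decide +kernel) (by decide +kernel) (by decide) (by decide +kernel) hgood hbad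

theorem evPos : ∀ s ∈ List.range' 120 120, 0 < fAd tabE8 chevE8 vH s := by decide +kernel
theorem evMin : ∀ s ∈ List.range' 120 120, fAd tabE8 chevE8 vH 141 ≤ fAd tabE8 chevE8 vH s := by decide +kernel

theorem evenT {F : Type*} [Field F] [CharP F 2] {η : ℕ → ℕ → ℤ} (hR : Sys chevE8 F η) (σ : F →+* F) :
    ∃ t ∈ Fx chevE8 σ, t * t = 1 ∧ t ≠ 1 ∧
      ∀ v ∈ chevE8.posUnipotent F, ∀ s ∈ O, ∀ d : F, d ≠ 0 → t ≠ v * X hR.toAddRel s d * v⁻¹ := by
  have hh := heights hC_E8 hposL hnn evPos evMin (a := 141) (by decide +kernel)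
  exact Cfsg.Agent.Lib.SubMax.Tab.even_two hR tbl_chevE8 tbl3_chevE8 σ rootTab.hOl (a := 141) (a' := 162) (by decide +kernel) (by decide +kernel)
    (by decide) (by decide +kernel) hh.1 hh.2 (by decide +kernel)

theorem ct_L : chevE8.commTerms 162 135 = [(163, -1, 1, 1)] ++ [] := by decide +kernel

theorem main {F : Type*} [Field F] [Fintype F] (p : ℕ) [hp : Fact p.Prime] [CharP F p] {η : ℕ → ℕ → ℤ}
    (hR : Sys chevE8 F η) (σ : F →+* F) {q n : ℕ} (hq : 1 < q) (hn' : n.Prime) (hK : Fintype.card F = q ^ n)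
    (hσ : ∀ x, σ x = x ^ q) {H : Subgroup (GL chevE8.Idx F)} (hMH : Fx chevE8 σ ≤ H) (hHG : H ≤ chevE8.group F) :
    H ≤ Fx chevE8 σ ∨ H = chevE8.group F := by
  have hT := tbl_chevE8
  have hcg : CommG hR.toAddRel := commG_of_mem _ (by simp)
  refine Cfsg.Agent.Lib.SubMax.Tab.main_gen p hR hT tbl2_chevE8 tbl3_chevE8 σ hMH hHG hcg rootTab ?_ ?_
  · intro h2
    subst h2
    exact evenT hR σ
  · intro hne
    have e : chevE8.simple 0 = 162 := by decide +kernel
    refine finish_one hR hT tbl3_chevE8 σ hMH hHG orbTab p hq hn' hK hσ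
      (topTab0 (good1 p) bad0) (⟨[7, 6, 5, 4, 3, 2, 1, 3, 4, 5, 6, 7, 0, 2, 3, 4, 5, 6, 1, 3, 4, 5, 2, 3, 4, 1, 3, 2], by decide, by decide +kernel⟩ : Link chevE8 (chevE8.simple 0) 239) ?_ hne
    rw [e]
    exact (mul_of_trip p hR hT σ hMH hcg (e := 162) (a := 162) (b := 135) (q := 163) (N := -1) (rest := []) (by decide +kernel)
        (⟨[], by decide, by decide +kernel⟩ : Link chevE8 162 162)
        (⟨[0, 2], by decide, by decide +kernel⟩ : Link chevE8 162 135)
        (⟨[2], by decide, by decide +kernel⟩ : Link chevE8 162 163) (by decide +kernel) (by decide +kernel) (by decide) (by decide +kernel)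
        ct_L (by simp) (by simp))

end Cfsg.Agent.Lib.SubMax.DataE8
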