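import Cfsg.Agent.Lib.SubMax.Tab

/-!
# Table data of type F4
-/

set_option autoImplicit false
set_option linter.unusedSectionVars false
set_option linter.unusedVariables false
set_option maxRecDepth 100000

namespace Cfsg.Agent.Lib.SubMax.DataF4

open Cfsg.Lie Cfsg.Agent.Lib.ChevBN.Elem Cfsg.Agent.Lib.ChevBN.Entries Cfsg.Agent.Lib.ChevBN.Table
open Cfsg.Agent.Lib.ChevBN.Rel Cfsg.Agent.Lib.ChevBN.Stmts Cfsg.Agent.Lib.ChevBN.Fix
open Cfsg.Agent.Lib.ChevBN.Fast Cfsg.Agent.Lib.ChevBN.FastData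
open Cfsg.Agent.Lib.BorelTits.Tbl3 Cfsg.Agent.Lib.BorelTits.Data
open Cfsg.Agent.Lib.SubMax.Fx Cfsg.Agent.Lib.SubMax.Orbit Cfsg.Agent.Lib.SubMax.TopElt
open Cfsg.Agent.Lib.SubMax.Gen Cfsg.Agent.Lib.SubMax.Fin Cfsg.Agent.Lib.SubMax.Tab

def vT : ℕ → ℤ := fun j => ([45, 76, 103, 52] : List ℤ).getD j 0
def vH : ℕ → ℤ := fun j => ([8, 15, 21, 11] : List ℤ).getD j 0

theorem hposL : chevF4.posRoots = List.range' 24 24 := by decide +kernel
theorem hnn : chevF4.nroots = 24 + 24 := by decide +kernel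

/-- The orbit of the central root. -/
def Ol : List ℕ := [0, 1, 2, 4, 5, 6, 15, 16, 17, 21, 22, 23, 24, 25, 26, 30, 31, 32, 41, 42, 43, 45, 46, 47]
def O : Set ℕ := {s | s ∈ Ol}

theorem hOm : ∀ s ∈ O, s ∈ Ol := fun s hs => hs

theorem hOchk : ∀ q ∈ List.range chevF4.rank, ∀ s ∈ Ol, chevF4.reflectRoot q s ∈ Ol := by decide +kernel

theorem hOO : ∀ q < chevF4.rank, ∀ s ∈ O, chevF4.reflectRoot q s ∈ O :=
  fun q hq s hs => hOchk q (List.mem_range.mpr hq) s hs

theorem hOlt : ∀ s ∈ Ol, s < chevF4.nroots := by decide +kernel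

theorem hneg : chevF4.neg 47 = 0 := by decide +kernel
theorem hcen : ∀ s ∈ List.range' 24 24, s ≠ 47 → chevF4.commTerms 47 s = [] := by decide +kernel
theorem hO2 : ∀ s ∈ Ol, s ≠ 0 → 0 < 2 + tabF4.Adf chevF4 47 s ∧ 0 < 2 + tabF4.Adf chevF4 s 47 := by
  decide +kernel
theorem hT1 : ∀ s ∈ List.range' 24 24, s ≠ 47 → tabF4.Adf chevF4 47 s = 0 ∨ tabF4.Adf chevF4 47 s = 1 := by
  decide +kernel
theorem hTc : ∀ s ∈ List.range' 24 24, tabF4.Adf chevF4 47 s = 0 → chevF4.commTerms 0 s = [] := by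
  decide +kernel

theorem rootTab : RootTab chevF4 O 47 25 :=
  RootTab.of_chk hC_F4 hR_F4 hposL hnn (fun s hs => hOlt s hs) hOm hOO (show 47 ∈ O by show 47 ∈ Ol; decide +kernel) (by decide) hneg hcen hO2 hT1 hTc (by decide)
    (by decide +kernel)

def linkW : ℕ → List ℕ := fun j => ([[1, 0], [], [], [2, 3]] : List (List ℕ)).getD j []

theorem orbTab : OrbTab chevF4 2 1 :=
  OrbTab.of_chk (w := linkW) (by decide +kernel) (by decide +kernel) (by decide +kernel) (by decide +kernel)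

def wit0 : ℕ → ℕ := fun a => ([25, 24, 27, 25, 24, 27, 24, 25, 33, 27, 25, 24, 27, 24, 25, 27, 33, 24, 25, 27, 27, 25, 24, 0] : List ℕ).getD (a - 24) 0

theorem topTab0 {F : Type*} [Field F] (hgood : ∀ N ∈ ([1, (-1), 2, (-2)] : List ℤ), (N : F) ≠ 0)
    (hbad : ∀ N ∈ ([] : List ℤ), (N : F) = 0) : TopTab chevF4 F [47] vT :=
  TopTab.of_chk (T := tabF4) (m := 24) (wit := wit0) hC_F4 hposL hnn (by decide) (by decide) (by decide +kernel) (by decide +kernel)
    (by decide +kernel) (by decide +kernel) (by decide +kernel) (by decide) (by decide +kernel) hgood hbad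

def wit1 : ℕ → ℕ := fun a => ([25, 24, 27, 25, 24, 33, 24, 25, 33, 27, 25, 24, 27, 24, 25, 27, 33, 24, 25, 27, 0, 25, 24, 0] : List ℕ).getD (a - 24) 0

theorem topTab1 {F : Type*} [Field F] (hgood : ∀ N ∈ ([1, (-1)] : List ℤ), (N : F) ≠ 0)
    (hbad : ∀ N ∈ ([2, (-2)] : List ℤ), (N : F) = 0) : TopTab chevF4 F [44, 47] vT :=
  TopTab.of_chk (T := tabF4) (m := 24) (wit := wit1) hC_F4 hposL hnn (by decide) (by decide) (by decide +kernel) (by decide +kernel)
    (by decide +kernel) (by decide +kernel) (by decide +kernel) (by decide) (by decide +kernel) hgood hbad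

theorem evPos : ∀ s ∈ List.range' 24 24, 0 < fAd tabF4 chevF4 vH s := by decide +kernel
theorem evMin : ∀ s ∈ List.range' 24 24, fAd tabF4 chevF4 vH 27 ≤ fAd tabF4 chevF4 vH s := by decide +kernel

theorem evenT {F : Type*} [Field F] [CharP F 2] {η : ℕ → ℕ → ℤ} (hR : Sys chevF4 F η) (σ : F →+* F) :
    ∃ t ∈ Fx chevF4 σ, t * t = 1 ∧ t ≠ 1 ∧
      ∀ v ∈ chevF4.posUnipotent F, ∀ s ∈ O, ∀ d : F, d ≠ 0 → t ≠ v * X hR.toAddRel s d * v⁻¹ := by
  have hh := heights hC_F4 hposL hnn evPos evMin (a := 27) (by decide +kernel)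
  exact Cfsg.Agent.Lib.SubMax.Tab.even_one hR tbl_chevF4 tbl3_chevF4 σ rootTab.hOl (a := 27) (by decide +kernel) (by
    show ¬ (27 ∈ Ol)
    decide +kernel) hh.1 hh.2

theorem ct_L : chevF4.commTerms 25 24 = [(26, -1, 1, 1)] ++ [] := by decide +kernel
theorem ct_S : chevF4.commTerms 27 33 = [(34, 1, 1, 1)] ++ [] := by decide +kernel

theorem main {F : Type*} [Field F] [Fintype F] (p : ℕ) [hp : Fact p.Prime] [CharP F p] {η : ℕ → ℕ → ℤ}
    (hR : Sys chevF4 F η) (σ : F →+* F) {q n : ℕ} (hq : 1 < q) (hn' : n.Prime) (hK : Fintype.card F = q ^ n)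
    (hσ : ∀ x, σ x = x ^ q) {H : Subgroup (GL chevF4.Idx F)} (hMH : Fx chevF4 σ ≤ H) (hHG : H ≤ chevF4.group F) :
    H ≤ Fx chevF4 σ ∨ H = chevF4.group F := by
  have hT := tbl_chevF4
  have hcg : CommG hR.toAddRel := commG_of_mem _ (by simp)
  refine Cfsg.Agent.Lib.SubMax.Tab.main_gen p hR hT tbl2_chevF4 tbl3_chevF4 σ hMH hHG hcg rootTab ?_ ?_
  · intro h2
    subst h2
    exact evenT hR σ
  · intro hne
    have e1 : chevF4.simple 2 = 25 := by decide +kernel
    have e2 : chevF4.simple 1 = 27 := by decide +kernel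
    by_cases h2 : p = 2
    · subst h2
      refine finish_two hR hT tbl3_chevF4 σ hMH hHG orbTab 2 hq hn' hK hσ hcg
        (topTab1 (good1 2) (bad2 2 rfl)) (⟨[0, 1, 2, 3, 1, 2, 0], by decide, by decide +kernel⟩ : Link chevF4 (chevF4.simple 1) 44) (⟨[3, 2, 1, 2, 3, 0, 1], by decide, by decide +kernel⟩ : Link chevF4 (chevF4.simple 2) 47) ?_ ?_
        (by decide +kernel) (r := 10) (q' := 36) (N := -1) (rest := []) (by decide +kernel) (by decide) (by decide +kernel)
        (by decide) (by decide +kernel) (by decide +kernel) (by simp) (by simp) (by decide +kernel) (by decide +kernel)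
        (⟨[3, 2, 0], by decide, by decide +kernel⟩ : Link chevF4 (chevF4.simple 1) 36) hne
      · rw [e1]
        exact (mul_of_trip 2 hR hT σ hMH hcg (e := 25) (a := 25) (b := 24) (q := 26) (N := -1) (rest := []) (by decide +kernel)
        (⟨[], by decide, by decide +kernel⟩ : Link chevF4 25 25)
        (⟨[2, 3], by decide, by decide +kernel⟩ : Link chevF4 25 24)
        (⟨[3], by decide, by decide +kernel⟩ : Link chevF4 25 26) (by decide +kernel) (by decide +kernel) (by decide) (by decide +kernel)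
        ct_L (by simp) (by simp))
      · rw [e2]
        exact (mul_of_trip 2 hR hT σ hMH hcg (e := 27) (a := 27) (b := 33) (q := 34) (N := 1) (rest := []) (by decide +kernel)
        (⟨[], by decide, by decide +kernel⟩ : Link chevF4 27 27)
        (⟨[1, 0], by decide, by decide +kernel⟩ : Link chevF4 27 33)
        (⟨[0], by decide, by decide +kernel⟩ : Link chevF4 27 34) (by decide +kernel) (by decide +kernel) (by decide) (by decide +kernel)
        ct_S (by simp) (by simp))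
    · refine finish_one hR hT tbl3_chevF4 σ hMH hHG orbTab p hq hn' hK hσ
        (topTab0 (good12 p h2) bad0) (⟨[3, 2, 1, 2, 3, 0, 1], by decide, by decide +kernel⟩ : Link chevF4 (chevF4.simple 2) 47) ?_ hne
      rw [e1]
      exact (mul_of_trip p hR hT σ hMH hcg (e := 25) (a := 25) (b := 24) (q := 26) (N := -1) (rest := []) (by decide +kernel)
        (⟨[], by decide, by decide +kernel⟩ : Link chevF4 25 25)
        (⟨[2, 3], by decide, by decide +kernel⟩ : Link chevF4 25 24)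
        (⟨[3], by decide, by decide +kernel⟩ : Link chevF4 25 26) (by decide +kernel) (by decide +kernel) (by decide) (by decide +kernel)
        ct_L (by simp) (by simp))

end Cfsg.Agent.Lib.SubMax.DataF4
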