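import Cfsg.Agent.Lib.SubMax.Tab

/-!
# Table data of type G2
-/

set_option autoImplicit false
set_option linter.unusedSectionVars false
set_option linter.unusedVariables false
set_option maxRecDepth 100000

namespace Cfsg.Agent.Lib.SubMax.DataG2

open Cfsg.Lie Cfsg.Agent.Lib.ChevBN.Elem Cfsg.Agent.Lib.ChevBN.Entries Cfsg.Agent.Lib.ChevBN.Table
open Cfsg.Agent.Lib.ChevBN.Rel Cfsg.Agent.Lib.ChevBN.Stmts Cfsg.Agent.Lib.ChevBN.Fix
open Cfsg.Agent.Lib.ChevBN.Fast Cfsg.Agent.Lib.ChevBN.FastData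
open Cfsg.Agent.Lib.BorelTits.Tbl3 Cfsg.Agent.Lib.BorelTits.Data
open Cfsg.Agent.Lib.SubMax.Fx Cfsg.Agent.Lib.SubMax.Orbit Cfsg.Agent.Lib.SubMax.TopElt
open Cfsg.Agent.Lib.SubMax.Gen Cfsg.Agent.Lib.SubMax.Fin Cfsg.Agent.Lib.SubMax.Tab

def vT : ℕ → ℤ := fun j => ([5, 8] : List ℤ).getD j 0
def vH : ℕ → ℤ := fun j => ([3, 5] : List ℤ).getD j 0

theorem hposL : chevG2.posRoots = List.range' 6 6 := by decide +kernel
theorem hnn : chevG2.nroots = 6 + 6 := by decide +kernel

/-- The orbit of the central root. -/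
def Ol : List ℕ := [0, 1, 5, 6, 10, 11]
def O : Set ℕ := {s | s ∈ Ol}

theorem hOm : ∀ s ∈ O, s ∈ Ol := fun s hs => hs

theorem hOchk : ∀ q ∈ List.range chevG2.rank, ∀ s ∈ Ol, chevG2.reflectRoot q s ∈ Ol := by decide +kernel

theorem hOO : ∀ q < chevG2.rank, ∀ s ∈ O, chevG2.reflectRoot q s ∈ O :=
  fun q hq s hs => hOchk q (List.mem_range.mpr hq) s hs

theorem hOlt : ∀ s ∈ Ol, s < chevG2.nroots := by decide +kernel

theorem hneg : chevG2.neg 11 = 0 := by decide +kernel
theorem hcen : ∀ s ∈ List.range' 6 6, s ≠ 11 → chevG2.commTerms 11 s = [] := by decide +kernel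
theorem hO2 : ∀ s ∈ Ol, s ≠ 0 → 0 < 2 + tabG2.Adf chevG2 11 s ∧ 0 < 2 + tabG2.Adf chevG2 s 11 := by
  decide +kernel
theorem hT1 : ∀ s ∈ List.range' 6 6, s ≠ 11 → tabG2.Adf chevG2 11 s = 0 ∨ tabG2.Adf chevG2 11 s = 1 := by
  decide +kernel
theorem hTc : ∀ s ∈ List.range' 6 6, tabG2.Adf chevG2 11 s = 0 → chevG2.commTerms 0 s = [] := by
  decide +kernel

theorem rootTab : RootTab chevG2 O 11 7 :=
  RootTab.of_chk hC_G2 hR_G2 hposL hnn (fun s hs => hOlt s hs) hOm hOO (show 11 ∈ O by show 11 ∈ Ol; decide +kernel) (by decide) hneg hcen hO2 hT1 hTc (by decide)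
    (by decide +kernel)

def linkW : ℕ → List ℕ := fun j => ([[], []] : List (List ℕ)).getD j []

theorem orbTab : OrbTab chevG2 1 0 :=
  OrbTab.of_chk (w := linkW) (by decide +kernel) (by decide +kernel) (by decide +kernel) (by decide +kernel)

def wit0 : ℕ → ℕ := fun a => ([7, 6, 9, 7, 6, 0] : List ℕ).getD (a - 6) 0

theorem topTab0 {F : Type*} [Field F] (hgood : ∀ N ∈ ([1, (-1), 3, (-3)] : List ℤ), (N : F) ≠ 0)
    (hbad : ∀ N ∈ ([] : List ℤ), (N : F) = 0) : TopTab chevG2 F [11] vT :=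
  TopTab.of_chk (T := tabG2) (m := 6) (wit := wit0) hC_G2 hposL hnn (by decide) (by decide) (by decide +kernel) (by decide +kernel)
    (by decide +kernel) (by decide +kernel) (by decide +kernel) (by decide) (by decide +kernel) hgood hbad

def wit1 : ℕ → ℕ := fun a => ([7, 6, 7, 0, 6, 0] : List ℕ).getD (a - 6) 0

theorem topTab1 {F : Type*} [Field F] (hgood : ∀ N ∈ ([1, (-1), 2, (-2)] : List ℤ), (N : F) ≠ 0)
    (hbad : ∀ N ∈ ([3, (-3)] : List ℤ), (N : F) = 0) : TopTab chevG2 F [9, 11] vT :=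
  TopTab.of_chk (T := tabG2) (m := 6) (wit := wit1) hC_G2 hposL hnn (by decide) (by decide) (by decide +kernel) (by decide +kernel)
    (by decide +kernel) (by decide +kernel) (by decide +kernel) (by decide) (by decide +kernel) hgood hbad

theorem evPos : ∀ s ∈ List.range' 6 6, 0 < fAd tabG2 chevG2 vH s := by decide +kernel
theorem evMin : ∀ s ∈ List.range' 6 6, fAd tabG2 chevG2 vH 7 ≤ fAd tabG2 chevG2 vH s := by decide +kernel

theorem evenT {F : Type*} [Field F] [CharP F 2] {η : ℕ → ℕ → ℤ} (hR : Sys chevG2 F η) (σ : F →+* F) :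
    ∃ t ∈ Fx chevG2 σ, t * t = 1 ∧ t ≠ 1 ∧
      ∀ v ∈ chevG2.posUnipotent F, ∀ s ∈ O, ∀ d : F, d ≠ 0 → t ≠ v * X hR.toAddRel s d * v⁻¹ := by
  have hh := heights hC_G2 hposL hnn evPos evMin (a := 7) (by decide +kernel)
  exact Cfsg.Agent.Lib.SubMax.Tab.even_one hR tbl_chevG2 tbl3_chevG2 σ rootTab.hOl (a := 7) (by decide +kernel) (by
    show ¬ (7 ∈ Ol)
    decide +kernel) hh.1 hh.2

theorem ct_L : chevG2.commTerms 6 10 = [(11, 1, 1, 1)] ++ [] := by decide +kernel
theorem ct_S : chevG2.commTerms 7 8 = [(9, -2, 1, 1)] ++ [(10, -3, 2, 1), (11, 3, 1, 2)] := by decide +kernel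

theorem main {F : Type*} [Field F] [Fintype F] (p : ℕ) [hp : Fact p.Prime] [CharP F p] {η : ℕ → ℕ → ℤ}
    (hR : Sys chevG2 F η) (σ : F →+* F) {q n : ℕ} (hq : 1 < q) (hn' : n.Prime) (hK : Fintype.card F = q ^ n)
    (hσ : ∀ x, σ x = x ^ q) {H : Subgroup (GL chevG2.Idx F)} (hMH : Fx chevG2 σ ≤ H) (hHG : H ≤ chevG2.group F) :
    H ≤ Fx chevG2 σ ∨ H = chevG2.group F := by
  have hT := tbl_chevG2
  have hcg : CommG hR.toAddRel := commG_of_mem _ (by simp)
  refine Cfsg.Agent.Lib.SubMax.Tab.main_gen p hR hT tbl2_chevG2 tbl3_chevG2 σ hMH hHG hcg rootTab ?_ ?_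
  · intro h2
    subst h2
    exact evenT hR σ
  · intro hne
    have e1 : chevG2.simple 1 = 6 := by decide +kernel
    have e2 : chevG2.simple 0 = 7 := by decide +kernel
    by_cases h2 : p = 3
    · subst h2
      refine finish_two hR hT tbl3_chevG2 σ hMH hHG orbTab 3 hq hn' hK hσ hcg
        (topTab1 (good12 3 (by decide)) (bad3 3 rfl)) (⟨[0, 1], by decide, by decide +kernel⟩ : Link chevG2 (chevG2.simple 0) 9) (⟨[1, 0], by decide, by decide +kernel⟩ : Link chevG2 (chevG2.simple 1) 11) ?_ ?_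
        (by decide +kernel) (r := 4) (q' := 8) (N := -2) (rest := [(6, 3, 2, 1), (11, -3, 1, 2)]) (by decide +kernel) (by decide) (by decide +kernel)
        (by decide) (by decide +kernel) (by decide +kernel) (good12 3 (by decide) (-2) (by decide))
        (fun c hc => bad3 3 rfl _ (by revert c; decide)) (by decide +kernel) (by decide +kernel)
        (⟨[1], by decide, by decide +kernel⟩ : Link chevG2 (chevG2.simple 0) 8) hne
      · rw [e1]
        exact (mul_of_trip 3 hR hT σ hMH hcg (e := 6) (a := 6) (b := 10) (q := 11) (N := 1) (rest := []) (by decide +kernel)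
        (⟨[], by decide, by decide +kernel⟩ : Link chevG2 6 6)
        (⟨[0], by decide, by decide +kernel⟩ : Link chevG2 6 10)
        (⟨[1, 0], by decide, by decide +kernel⟩ : Link chevG2 6 11) (by decide +kernel) (by decide +kernel) (by decide) (by decide +kernel)
        ct_L (by simp) (by simp))
      · rw [e2]
        exact (mul_of_trip 3 hR hT σ hMH hcg (e := 7) (a := 7) (b := 8) (q := 9) (N := -2) (rest := [(10, -3, 2, 1), (11, 3, 1, 2)]) (by decide +kernel)
        (⟨[], by decide, by decide +kernel⟩ : Link chevG2 7 7)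
        (⟨[1], by decide, by decide +kernel⟩ : Link chevG2 7 8)
        (⟨[0, 1], by decide, by decide +kernel⟩ : Link chevG2 7 9) (by decide +kernel) (by decide +kernel) (by decide) (by decide +kernel)
        ct_S (good12 3 (by decide) (-2) (by decide)) (fun c hc => bad3 3 rfl _ (by revert c; decide)))
    · refine finish_one hR hT tbl3_chevG2 σ hMH hHG orbTab p hq hn' hK hσ
        (topTab0 (good13 p h2) bad0) (⟨[1, 0], by decide, by decide +kernel⟩ : Link chevG2 (chevG2.simple 1) 11) ?_ hne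
      rw [e1]
      exact (mul_of_trip p hR hT σ hMH hcg (e := 6) (a := 6) (b := 10) (q := 11) (N := 1) (rest := []) (by decide +kernel)
        (⟨[], by decide, by decide +kernel⟩ : Link chevG2 6 6)
        (⟨[0], by decide, by decide +kernel⟩ : Link chevG2 6 10)
        (⟨[1, 0], by decide, by decide +kernel⟩ : Link chevG2 6 11) (by decide +kernel) (by decide +kernel) (by decide) (by decide +kernel)
        ct_L (by simp) (by simp))

end Cfsg.Agent.Lib.SubMax.DataG2
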