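import Cfsg.Agent.Lib.SubMax.Orbit

/-!
# The dihedral argument in characteristic two
-/

set_option autoImplicit false
set_option linter.unusedSectionVars false

namespace Cfsg.Agent.Lib.SubMax.Even

open Cfsg.Lie Cfsg.Agent.Lib.ChevBN.Elem Cfsg.Agent.Lib.ChevBN.Entries Cfsg.Agent.Lib.ChevBN.Table
open Cfsg.Agent.Lib.ChevBN.Collect Cfsg.Agent.Lib.ChevBN.Rel Cfsg.Agent.Lib.ChevBN.Torus
open Cfsg.Agent.Lib.ChevBN.Monomial Cfsg.Agent.Lib.ChevBN.Core Cfsg.Agent.Lib.ChevBN.Pair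
open Cfsg.Agent.Lib.ChevBN.Stmts Cfsg.Agent.Lib.ChevBN.Levi Cfsg.Agent.Lib.ChevBN.Fix
open Cfsg.Agent.Lib.BorelTits.Weight Cfsg.Agent.Lib.BorelTits.Tbl3 Cfsg.Agent.Lib.BorelTits.Funct
open Cfsg.Agent.Lib.BorelTits.Cent
open Cfsg.Agent.Lib.SubMax.Fx Cfsg.Agent.Lib.SubMax.Strong Cfsg.Agent.Lib.SubMax.Local
open Cfsg.Agent.Lib.SubMax.Orbit

variable {D : ChevalleyDatum} {F : Type*} [Field F] {η : ℕ → ℕ → ℤ}

/-- The functional given by a vector of integers. -/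
def adF (D : ChevalleyDatum) (v : ℕ → ℤ) : Fin D.nroots → ℝ := fun s => ((Ad D v s : ℤ) : ℝ)

theorem adF_mem (v : ℕ → ℤ) : adF D v ∈ Funct D := by
  have e : adF D v = ∑ j : Fin D.rank, ((v j : ℤ) : ℝ) • cf D j := by
    funext s
    simp only [adF, Finset.sum_apply, Pi.smul_apply, smul_eq_mul, cf]
    rw [Ad_eq_sum, Finset.sum_range]
    push_cast
    rfl
  rw [e]
  exact Submodule.sum_mem _ fun j _ => Submodule.smul_mem _ _ (Submodule.subset_span ⟨j, rfl⟩)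

section Dihedral

variable (hR : Sys D F η) (hT : Tbl D) (hT2 : Tbl2 D) (hT3 : Tbl3 D) (σ : F →+* F)
variable {H : Subgroup (GL D.Idx F)} (hMH : Fx D σ ≤ H) (hHG : H ≤ D.group F)
  (hHU : ∀ u ∈ H, u ∈ D.posUnipotent F → u ∈ Fx D σ)
include hR hT hT2 hT3 hMH hHG hHU

/-- The dihedral argument. -/
theorem dihedral [Fintype F] [CharP F 2] {t : GL D.Idx F} (htM : t ∈ Fx D σ) (htt : t * t = 1) (htne : t ≠ 1)
    {x : GL D.Idx F} (hxH : x ∈ H) (hxx : x * x = 1) :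
    x ∈ Fx D σ ∨ ∃ w ∈ H, x = w * t * w⁻¹ := by
  have htH := hMH htM
  have htinv : t⁻¹ = t := inv_eq_of_mul_eq_one_left htt
  have hxinv : x⁻¹ = x := inv_eq_of_mul_eq_one_left hxx
  set τ := t * x with hτ
  have hτH : τ ∈ H := Subgroup.mul_mem _ htH hxH
  have hτinv : τ⁻¹ = x * t := by
    rw [hτ, mul_inv_rev, htinv, hxinv]
  have hconjt : t * τ * t⁻¹ = τ⁻¹ := by
    rw [hτinv, hτ, htinv, ← mul_assoc t t x, htt, one_mul]
  have hconjx : x * τ * x⁻¹ = τ⁻¹ := by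
    rw [hτinv, hτ, hxinv, mul_assoc, mul_assoc, hxx, mul_one]
  have hpos : 0 < orderOf τ := orderOf_pos τ
  have hord : τ ^ orderOf τ = 1 := pow_orderOf_eq_one τ
  rcases Nat.even_or_odd' (orderOf τ) with ⟨k, hk | hk⟩
  · -- even order: the central involution
    left
    have hk0 : 0 < k := by omega
    set u₀ := τ ^ k with hu₀
    have hu₀ne : u₀ ≠ 1 := pow_ne_one_of_lt_orderOf hk0.ne' (by omega)
    have hu₀sq : u₀ * u₀ = 1 := by
      rw [hu₀, ← pow_add, ← two_mul, ← hk, hord]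
    have hu₀inv : u₀⁻¹ = u₀ := inv_eq_of_mul_eq_one_left hu₀sq
    have hu₀H : u₀ ∈ H := Subgroup.pow_mem _ hτH k
    have hct : u₀ * t = t * u₀ := by
      have h1 : t * u₀ * t⁻¹ = u₀ := by
        rw [hu₀, ← conj_pow, hconjt, inv_pow, ← hu₀, hu₀inv]
      calc u₀ * t = (t * u₀ * t⁻¹) * t := by rw [h1]
        _ = t * u₀ := by group
    have hcx : x * u₀ = u₀ * x := by
      have h1 : x * u₀ * x⁻¹ = u₀ := by
        rw [hu₀, ← conj_pow, hconjx, inv_pow, ← hu₀, hu₀inv]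
      calc x * u₀ = (x * u₀ * x⁻¹) * x := by group
        _ = u₀ * x := by rw [h1]
    have hu₀M := cent_le hR hT hT2 hT3 σ hMH hHG hHU 2 htM ⟨1, by rw [pow_one, pow_two]; exact htt⟩
      htne hu₀H hct
    exact cent_le hR hT hT2 hT3 σ hMH hHG hHU 2 hu₀M ⟨1, by rw [pow_one, pow_two]; exact hu₀sq⟩
      hu₀ne hxH hcx
  · -- odd order: conjugate
    right
    refine ⟨τ ^ k, Subgroup.pow_mem _ hτH k, ?_⟩
    have h1 : t * (τ ^ k)⁻¹ * t⁻¹ = τ ^ k := by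
      rw [← inv_pow, ← conj_pow]
      have : t * τ⁻¹ * t⁻¹ = τ := by
        calc t * τ⁻¹ * t⁻¹ = (t * τ * t⁻¹)⁻¹ := by group
          _ = τ := by rw [hconjt, inv_inv]
      rw [this]
    have h2 : t * (τ ^ k)⁻¹ = τ ^ k * t := by
      calc t * (τ ^ k)⁻¹ = (t * (τ ^ k)⁻¹ * t⁻¹) * t := by group
        _ = _ := by rw [h1]
    have h3 : τ ^ k * τ ^ k = τ⁻¹ := by
      rw [eq_inv_iff_mul_eq_one, ← pow_add, ← pow_succ]
      have : k + k + 1 = orderOf τ := by omega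
      rw [this, hord]
    calc x = x * t * t := by rw [mul_assoc, htt, mul_one]
      _ = τ⁻¹ * t := by rw [hτinv]
      _ = τ ^ k * τ ^ k * t := by rw [h3]
      _ = τ ^ k * (τ ^ k * t) := by group
      _ = τ ^ k * (t * (τ ^ k)⁻¹) := by rw [h2]
      _ = _ := by group

/-- The conclusion in characteristic two, given an involution which is not conjugate. -/
theorem even_main [Fintype F] [CharP F 2] {O : Set ℕ} (hOl : ∀ s ∈ O, s < D.nroots)
    (hO : ∀ q < D.rank, ∀ s ∈ O, D.reflectRoot q s ∈ O) {ρ : ℕ} (hρO : ρ ∈ O) (hρ : D.IsPosRoot ρ)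
    (hcen : ∀ s, D.IsPosRoot s → s ≠ ρ → D.commTerms ρ s = [])
    {t : GL D.Idx F} (htM : t ∈ Fx D σ) (htt : t * t = 1) (htne : t ≠ 1)
    (hnc : ∀ v ∈ D.posUnipotent F, ∀ s ∈ O, ∀ d : F, d ≠ 0 → t ≠ v * X hR.toAddRel s d * v⁻¹) :
    H ≤ Fx D σ := by
  have h2 : (2 : F) = 0 := CharTwo.two_eq_zero
  have hyM := X_one_mem_Fx hR hT σ hρ.1
  have hyy : X hR.toAddRel ρ (1 : F) * X hR.toAddRel ρ 1 = 1 := by
    rw [X_mul, one_add_one_eq_two, h2, X_zero]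
  have hyne : X hR.toAddRel ρ (1 : F) ≠ 1 := by
    intro h
    exact one_ne_zero (X_inj hR hT hρ (by rw [h, X_zero]))
  refine le_of_conj hR hT hT2 hT3 σ hMH hHG hHU 2 hyM
    ⟨1, by rw [pow_one, pow_two]; exact hyy⟩ hyne ?_
  intro g hg
  set y := X hR.toAddRel ρ (1 : F) with hy
  have hxH : g * y * g⁻¹ ∈ H :=
    Subgroup.mul_mem _ (Subgroup.mul_mem _ hg (hMH hyM)) (Subgroup.inv_mem _ hg)
  have hxx : (g * y * g⁻¹) * (g * y * g⁻¹) = 1 := by
    have e : (g * y * g⁻¹) * (g * y * g⁻¹) = g * (y * y) * g⁻¹ := by group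
    rw [e, hyy]
    group
  rcases dihedral hR hT hT2 hT3 σ hMH hHG hHU htM htt htne hxH hxx with h | ⟨w, hw, e⟩
  · exact h
  · exfalso
    have hg₁ : w⁻¹ * g ∈ D.group F := hHG (Subgroup.mul_mem _ (Subgroup.inv_mem _ hw) hg)
    obtain ⟨v, hv, s, hs, d, hd, e₁⟩ := exists_form hR hT hOl hO hρO hρ hcen hg₁
    refine hnc v hv s hs d hd ?_
    rw [← e₁, ← hy]
    have e₂ : t = w⁻¹ * (w * t * w⁻¹) * w := by group
    rw [e₂, ← e]
    group

end Dihedral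

section NonConj

variable (hR : Sys D F η) (hT : Tbl D) (hT3 : Tbl3 D)
include hR hT hT3

/-- A root is determined by a leading entry. -/
theorem eq_root_of_conj {v : ℕ → ℤ} (hpos : ∀ s, D.IsPosRoot s → 0 < Ad D v s) {a : ℕ}
    (ha : D.IsPosRoot a) (hmin : ∀ s, D.IsPosRoot s → Ad D v a ≤ Ad D v s) {g : GL D.Idx F}
    (hLe : Le (wt (adF D v)) (wt (adF D v)) (adF D v ⟨a, ha.1⟩) ((g : Matrix D.Idx D.Idx F) - 1))
    {i : Fin D.rank}
    (hent : (g : Matrix D.Idx D.Idx F) (Sum.inl i) (Sum.inr (negF hT ⟨a, ha.1⟩)) ≠ 0)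
    {u : GL D.Idx F} (hu : u ∈ D.posUnipotent F) {s : ℕ} (hs : D.IsPosRoot s) {d : F}
    (he : g = u * X hR.toAddRel s d * u⁻¹) : s = a := by
  have hψ := adF_mem (D := D) v
  set ψ := adF D v with hψdef
  have hreg : ∀ r (hr : D.IsPosRoot r), 0 < ψ ⟨r, hr.1⟩ := by
    intro r hr
    have := hpos r hr
    simp only [hψdef, adF]
    exact_mod_cast this
  have hus := U_strict hR hT hT3 hψ hreg hu
  have hc : ψ ⟨a, ha.1⟩ ≤ ψ ⟨s, hs.1⟩ := by
    simp only [hψdef, adF]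
    exact_mod_cast hmin s hs
  have hA : Le (wt ψ) (wt ψ) (ψ ⟨a, ha.1⟩) ((X hR.toAddRel s d : Matrix D.Idx D.Idx F) - 1) := by
    rw [coe_X]
    exact (le_x_sub_one hT hT3 hψ ⟨s, hs.1⟩ d (hreg s hs).le).mono hc
  have h7 : (u : Matrix D.Idx D.Idx F) * ((X hR.toAddRel s d : Matrix D.Idx D.Idx F) - 1) =
      ((g : Matrix D.Idx D.Idx F) - 1) * (u : Matrix D.Idx D.Idx F) := by
    have huu : ((u⁻¹ : GL D.Idx F) : Matrix D.Idx D.Idx F) * (u : Matrix D.Idx D.Idx F) = 1 := by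
      rw [← Units.val_mul, inv_mul_cancel, Units.val_one]
    rw [he, sub_mul, Units.val_mul, Units.val_mul, mul_assoc, huu, mul_one, one_mul, mul_sub, mul_one]
  set a₀ : Fin D.nroots := ⟨a, ha.1⟩ with ha₀
  have h8 := eq_entry_of_conj hus hA hLe h7 (i := Sum.inl i) (j := Sum.inr (negF hT a₀)) (by
    rw [wt_inl, wt_inr, funct_neg hT hψ]
    simp)
  rw [Matrix.sub_apply, Matrix.sub_apply, Matrix.one_apply_ne (by simp), sub_zero, sub_zero] at h8
  rw [← h8, coe_X] at hent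
  by_contra hne
  have hn1 : (negF hT a₀).val ≠ s := hT.pos_ne_neg hs (hT.neg_of_pos ha) |>.symm
  have hn2 : (negF hT a₀).val ≠ D.neg s := by
    intro h
    exact hne (hT.neg_inj hs.1 ha.1 h.symm)
  exact hent (x_inl_inr_gen hs.1 d i (negF hT a₀) hn1 hn2)

/-- The elements of `U` which are conjugate to a root element have a positive root. -/
theorem pos_of_conj {t : GL D.Idx F} (ht : t ∈ D.posUnipotent F) {v : GL D.Idx F}
    (hv : v ∈ D.posUnipotent F) {s : ℕ} (hs : s < D.nroots) {d : F} (hd : d ≠ 0)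
    (he : t = v * X hR.toAddRel s d * v⁻¹) : D.IsPosRoot s := by
  rcases hT.pos_or_neg hs with h | h
  · exact h
  · exfalso
    have h1 : X hR.toAddRel s d = v⁻¹ * t * v := by
      rw [he]
      group
    have h2 : X hR.toAddRel s d ∈ D.posUnipotent F := by
      rw [h1]
      exact Subgroup.mul_mem _ (Subgroup.mul_mem _ (Subgroup.inv_mem _ hv) ht) hv
    have h3 := hT.pos_of_neg h
    have h4 := X_neg_not_mem_B hR hT h3 hd
    rw [hT.neg_neg s hs] at h4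
    exact h4 (U_le_B hR hT h2)

/-- Non-conjugacy for a root element. -/
theorem nonconj_one {v : ℕ → ℤ} (hpos : ∀ s, D.IsPosRoot s → 0 < Ad D v s) {a : ℕ}
    (ha : D.IsPosRoot a) (hmin : ∀ s, D.IsPosRoot s → Ad D v a ≤ Ad D v s) {O : Set ℕ}
    (hOl : ∀ s ∈ O, s < D.nroots) (haO : a ∉ O) :
    ∀ u ∈ D.posUnipotent F, ∀ s ∈ O, ∀ d : F, d ≠ 0 →
      X hR.toAddRel a 1 ≠ u * X hR.toAddRel s d * u⁻¹ := by
  intro u hu s hs d hd he
  have hsp := pos_of_conj hR hT hT3 (X_mem_U hR hT ha 1) hu (hOl s hs) hd he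
  obtain ⟨i, hi⟩ := Tbl.exists_coroot_ne (F := F) hT ha.1
  have hne : (negF hT ⟨a, ha.1⟩).val ≠ a := hT.pos_ne_neg ha (hT.neg_of_pos ha) |>.symm
  have hψ := adF_mem (D := D) v
  have hreg : 0 < adF D v ⟨a, ha.1⟩ := by
    simp only [adF]
    exact_mod_cast hpos a ha
  have h1 := eq_root_of_conj hR hT hT3 hpos ha hmin (g := X hR.toAddRel a 1) (i := i) (by
      rw [coe_X]
      exact le_x_sub_one hT hT3 hψ ⟨a, ha.1⟩ 1 hreg.le) (by
      rw [coe_X, x_inl_inr_neg ha.1 1 i _ hne rfl, mul_one]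
      exact hi) hu hsp he
  exact haO (h1 ▸ hs)

/-- Non-conjugacy for the product of two commuting root elements. -/
theorem nonconj_two {v : ℕ → ℤ} (hpos : ∀ s, D.IsPosRoot s → 0 < Ad D v s) {a a' : ℕ}
    (ha : D.IsPosRoot a) (ha' : D.IsPosRoot a') (hne : a ≠ a')
    (hmin : ∀ s, D.IsPosRoot s → Ad D v a ≤ Ad D v s) (hva : Ad D v a' = Ad D v a) {O : Set ℕ}
    (hOl : ∀ s ∈ O, s < D.nroots) :
    ∀ u ∈ D.posUnipotent F, ∀ s ∈ O, ∀ d : F, d ≠ 0 →
      X hR.toAddRel a 1 * X hR.toAddRel a' 1 ≠ u * X hR.toAddRel s d * u⁻¹ := by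
  intro u hu s hs d hd he
  have hU := Subgroup.mul_mem _ (X_mem_U hR hT ha (1 : F)) (X_mem_U hR hT ha' (1 : F))
  have hsp := pos_of_conj hR hT hT3 hU hu (hOl s hs) hd he
  have hψ := adF_mem (D := D) v
  set ψ := adF D v with hψdef
  have hreg : 0 < ψ ⟨a, ha.1⟩ := by
    simp only [hψdef, adF]
    exact_mod_cast hpos a ha
  have hval : ψ ⟨a', ha'.1⟩ = ψ ⟨a, ha.1⟩ := by
    simp only [hψdef, adF]
    rw [hva]
  have hL1 := le_x_sub_one (F := F) hT hT3 hψ ⟨a, ha.1⟩ 1 hreg.le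
  have hL2 := le_x_sub_one (F := F) hT hT3 hψ ⟨a', ha'.1⟩ 1 (by rw [hval]; exact hreg.le)
  rw [hval] at hL2
  have hL3 := hL1.mul hL2
  simp only at hL1 hL2 hL3
  have hsplit : ((X hR.toAddRel a 1 * X hR.toAddRel a' 1 : GL D.Idx F) : Matrix D.Idx D.Idx F) - 1 =
      (D.x F a 1 - 1) + (D.x F a' 1 - 1) + (D.x F a 1 - 1) * (D.x F a' 1 - 1) := by
    rw [Units.val_mul, coe_X, coe_X]
    noncomm_ring
  have hLe : Le (wt ψ) (wt ψ) (ψ ⟨a, ha.1⟩)
      (((X hR.toAddRel a 1 * X hR.toAddRel a' 1 : GL D.Idx F) : Matrix D.Idx D.Idx F) - 1) := by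
    rw [hsplit]
    exact (hL1.add hL2).add (hL3.mono (by linarith))
  -- the entries
  have hentry : ∀ {b b' : ℕ} (hb : D.IsPosRoot b) (hb' : D.IsPosRoot b'), b ≠ b' →
      ψ ⟨b, hb.1⟩ = ψ ⟨a, ha.1⟩ → ψ ⟨b', hb'.1⟩ = ψ ⟨a, ha.1⟩ → ∀ i : Fin D.rank,
      (D.x F b 1 * D.x F b' 1) (Sum.inl i) (Sum.inr (negF hT ⟨b, hb.1⟩)) =
        ((D.coroot.getD b #[]).getD i.val 0 : ℤ) := by
    intro b b' hb hb' hbb' hbv hbv' i
    have hL1' := le_x_sub_one (F := F) hT hT3 hψ ⟨b, hb.1⟩ 1 (by rw [hbv]; exact hreg.le)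
    have hL2' := le_x_sub_one (F := F) hT hT3 hψ ⟨b', hb'.1⟩ 1 (by rw [hbv']; exact hreg.le)
    have hL3' := hL1'.mul hL2'
    simp only at hL3'
    have hn : (negF hT ⟨b, hb.1⟩).val ≠ b := hT.pos_ne_neg hb (hT.neg_of_pos hb) |>.symm
    have hn1 : (negF hT ⟨b, hb.1⟩).val ≠ b' := hT.pos_ne_neg hb' (hT.neg_of_pos hb) |>.symm
    have hn2 : (negF hT ⟨b, hb.1⟩).val ≠ D.neg b' := by
      intro h
      exact hbb' (hT.neg_inj hb.1 hb'.1 h)
    have hsplit' : D.x F b 1 * D.x F b' 1 =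
        1 + (D.x F b 1 - 1) + (D.x F b' 1 - 1) + (D.x F b 1 - 1) * (D.x F b' 1 - 1) := by
      noncomm_ring
    have hz : ((D.x F b 1 - 1) * (D.x F b' 1 - 1)) (Sum.inl i) (Sum.inr (negF hT ⟨b, hb.1⟩)) = 0 := by
      by_contra h0
      have h5 := hL3' _ _ h0
      rw [wt_inl, wt_inr, funct_neg hT hψ, hbv, hbv'] at h5
      linarith
    rw [hsplit', Matrix.add_apply, Matrix.add_apply, Matrix.add_apply, hz, Matrix.one_apply_ne (by simp),
      Matrix.sub_apply, Matrix.sub_apply, Matrix.one_apply_ne (by simp), sub_zero, sub_zero,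
      x_inl_inr_neg hb.1 1 i _ hn rfl, x_inl_inr_gen hb'.1 1 i _ hn1 hn2]
    simp
  obtain ⟨i, hi⟩ := Tbl.exists_coroot_ne (F := F) hT ha.1
  obtain ⟨i', hi'⟩ := Tbl.exists_coroot_ne (F := F) hT ha'.1
  have h1 := eq_root_of_conj hR hT hT3 hpos ha hmin (g := X hR.toAddRel a 1 * X hR.toAddRel a' 1) (i := i)
    hLe (by
      rw [Units.val_mul, coe_X, coe_X, hentry ha ha' hne rfl hval]
      exact hi) hu hsp he
  -- the other root: the elements commute up to the entry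
  have hmin' : ∀ s, D.IsPosRoot s → Ad D v a' ≤ Ad D v s := by
    intro s hs
    rw [hva]
    exact hmin s hs
  have hψa : adF D v ⟨a', ha'.1⟩ = adF D v ⟨a, ha.1⟩ := hval
  have h2 := eq_root_of_conj hR hT hT3 hpos ha' hmin' (g := X hR.toAddRel a 1 * X hR.toAddRel a' 1) (i := i')
    (by rw [hψa]; exact hLe) (by
      -- the entry of the product in the other column
      rw [Units.val_mul, coe_X, coe_X]
      have hL1' := le_x_sub_one (F := F) hT hT3 hψ ⟨a, ha.1⟩ 1 hreg.le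
      have hL2' := le_x_sub_one (F := F) hT hT3 hψ ⟨a', ha'.1⟩ 1 (by rw [hval]; exact hreg.le)
      have hL3' := hL1'.mul hL2'
      simp only at hL3'
      have hn : (negF hT ⟨a', ha'.1⟩).val ≠ a' := hT.pos_ne_neg ha' (hT.neg_of_pos ha') |>.symm
      have hn1 : (negF hT ⟨a', ha'.1⟩).val ≠ a := hT.pos_ne_neg ha (hT.neg_of_pos ha') |>.symm
      have hn2 : (negF hT ⟨a', ha'.1⟩).val ≠ D.neg a := by
        intro h
        exact hne (hT.neg_inj ha'.1 ha.1 h).symm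
      have hsplit' : D.x F a 1 * D.x F a' 1 =
          1 + (D.x F a 1 - 1) + (D.x F a' 1 - 1) + (D.x F a 1 - 1) * (D.x F a' 1 - 1) := by
        noncomm_ring
      have hz : ((D.x F a 1 - 1) * (D.x F a' 1 - 1)) (Sum.inl i') (Sum.inr (negF hT ⟨a', ha'.1⟩)) = 0 := by
        by_contra h0
        have h5 := hL3' _ _ h0
        rw [wt_inl, wt_inr, funct_neg hT hψ, hval] at h5
        linarith
      rw [hsplit', Matrix.add_apply, Matrix.add_apply, Matrix.add_apply, hz, Matrix.one_apply_ne (by simp),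
        Matrix.sub_apply, Matrix.sub_apply, Matrix.one_apply_ne (by simp), sub_zero, sub_zero,
        x_inl_inr_gen ha.1 1 i' _ hn1 hn2, x_inl_inr_neg ha'.1 1 i' _ hn rfl]
      simpa using hi') hu hsp he
  exact hne (h1.symm.trans h2)

end NonConj

end Cfsg.Agent.Lib.SubMax.Even
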