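import Cfsg.Agent.Lib.SubMax.Local2

/-!
# The dihedral argument in characteristic two, for a generated subgroup
-/

set_option autoImplicit false
set_option linter.unusedSectionVars false
set_option linter.style.haveILetI false

namespace Cfsg.Agent.Lib.SubMax.Even2

open Cfsg.Lie Cfsg.Agent.Lib.ChevBN.Elem Cfsg.Agent.Lib.ChevBN.Entries Cfsg.Agent.Lib.ChevBN.Table
open Cfsg.Agent.Lib.ChevBN.Collect Cfsg.Agent.Lib.ChevBN.Rel Cfsg.Agent.Lib.ChevBN.Torus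
open Cfsg.Agent.Lib.ChevBN.Monomial Cfsg.Agent.Lib.ChevBN.Core Cfsg.Agent.Lib.ChevBN.Pair
open Cfsg.Agent.Lib.ChevBN.Stmts Cfsg.Agent.Lib.ChevBN.Levi Cfsg.Agent.Lib.ChevBN.Fix
open Cfsg.Agent.Lib.BorelTits.Weight Cfsg.Agent.Lib.BorelTits.Tbl3 Cfsg.Agent.Lib.BorelTits.Funct
open Cfsg.Agent.Lib.BorelTits.Cent
open Cfsg.Agent.Lib.SubMax.Fx Cfsg.Agent.Lib.SubMax.Strong2 Cfsg.Agent.Lib.SubMax.Local2
open Cfsg.Agent.Lib.SubMax.Orbit

variable {D : ChevalleyDatum} {F : Type*} [Field F] {η : ℕ → ℕ → ℤ}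

section Dihedral

variable (hR : Sys D F η) (hT : Tbl D) (hT2 : Tbl2 D) (hT3 : Tbl3 D) (σ : F →+* F)
variable {H : Subgroup (GL D.Idx F)} (hL : fixL hR σ ≤ H) (hHG : H ≤ D.group F)
  (hHU : ∀ u ∈ H, u ∈ D.posUnipotent F → u ∈ Fx D σ)
  (hB : ∀ b ∈ H, b ∈ D.borelSubgroup F → b ∈ Fx D σ)
  [CharP F 2]
  (hcj : ∀ R : Subgroup (GL D.Idx F), R ≤ Fx D σ → IsPGroup 2 ↥R → ∃ g ∈ D.group F, cj g R ≤ D.posUnipotent F)
  [hHfin : Finite ↥H]
include hR hT hT2 hT3 hL hHG hHU hB hcj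

/-- The dihedral argument. -/
theorem dihedral' {t : GL D.Idx F} (htM : t ∈ Fx D σ) (htH : t ∈ H) (htt : t * t = 1) (htne : t ≠ 1)
    {x : GL D.Idx F} (hxH : x ∈ H) (hxx : x * x = 1) :
    x ∈ Fx D σ ∨ ∃ w ∈ H, x = w * t * w⁻¹ := by
  have htinv : t⁻¹ = t := inv_eq_of_mul_eq_one_left htt
  have hxinv : x⁻¹ = x := inv_eq_of_mul_eq_one_left hxx
  set τ := t * x with hτ
  have hτH : τ ∈ H := Subgroup.mul_mem _ htH hxH
  have hτinv : τ⁻¹ = x * t := by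
    rw [hτ, mul_inv_rev, htinv, hxinv]
  have hconjt : t * τ * t⁻¹ = τ⁻¹ := by
    rw [hτinv, hτ, htinv, ← mul_assoc t t x, htt, one_mul]
  have hconjx : x * τ * x⁻¹ = τ⁻¹ := by
    rw [hτinv, hτ, hxinv, mul_assoc, mul_assoc, hxx, mul_one]
  have hpos : 0 < orderOf τ := by
    have h := orderOf_pos (⟨τ, hτH⟩ : ↥H)
    rwa [Subgroup.orderOf_mk] at h
  have hord : τ ^ orderOf τ = 1 := pow_orderOf_eq_one τ
  rcases Nat.even_or_odd' (orderOf τ) with ⟨k, hk | hk⟩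
  · -- even order: the central involution
    left
    have hk0 : 0 < k := by omega
    set u₀ := τ ^ k with hu₀
    have hu₀ne : u₀ ≠ 1 := pow_ne_one_of_lt_orderOf hk0.ne' (by omega)
    have hu₀sq : u₀ * u₀ = 1 := by
      rw [hu₀, ← pow_add, ← two_mul, ← hk, hord]
    have hu₀inv : u₀⁻¹ = u₀ := inv_eq_of_mul_eq_one_left hu₀sq
    have hu₀H : u₀ ∈ H := Subgroup.pow_mem _ hτH k
    have hct : u₀ * t = t * u₀ := by
      have h1 : t * u₀ * t⁻¹ = u₀ := by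
        rw [hu₀, ← conj_pow, hconjt, inv_pow, ← hu₀, hu₀inv]
      calc u₀ * t = (t * u₀ * t⁻¹) * t := by rw [h1]
        _ = t * u₀ := by group
    have hcx : x * u₀ = u₀ * x := by
      have h1 : x * u₀ * x⁻¹ = u₀ := by
        rw [hu₀, ← conj_pow, hconjx, inv_pow, ← hu₀, hu₀inv]
      calc x * u₀ = (x * u₀ * x⁻¹) * x := by group
        _ = u₀ * x := by rw [h1]
    have hu₀M := cent_le' hR hT hT2 hT3 σ hL hHG hHU hB 2 hcj htM ⟨1, by rw [pow_one, pow_two]; exact htt⟩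
      htne hu₀H hct
    exact cent_le' hR hT hT2 hT3 σ hL hHG hHU hB 2 hcj hu₀M ⟨1, by rw [pow_one, pow_two]; exact hu₀sq⟩
      hu₀ne hxH hcx
  · -- odd order: conjugate
    right
    refine ⟨τ ^ k, Subgroup.pow_mem _ hτH k, ?_⟩
    have h1 : t * (τ ^ k)⁻¹ * t⁻¹ = τ ^ k := by
      rw [← inv_pow, ← conj_pow]
      have : t * τ⁻¹ * t⁻¹ = τ := by
        calc t * τ⁻¹ * t⁻¹ = (t * τ * t⁻¹)⁻¹ := by group
          _ = τ := by rw [hconjt, inv_inv]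
      rw [this]
    have h2 : t * (τ ^ k)⁻¹ = τ ^ k * t := by
      calc t * (τ ^ k)⁻¹ = (t * (τ ^ k)⁻¹ * t⁻¹) * t := by group
        _ = _ := by rw [h1]
    have h3 : τ ^ k * τ ^ k = τ⁻¹ := by
      rw [eq_inv_iff_mul_eq_one, ← pow_add, ← pow_succ]
      have : k + k + 1 = orderOf τ := by omega
      rw [this, hord]
    calc x = x * t * t := by rw [mul_assoc, htt, mul_one]
      _ = τ⁻¹ * t := by rw [hτinv]
      _ = τ ^ k * τ ^ k * t := by rw [h3]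
      _ = τ ^ k * (τ ^ k * t) := by group
      _ = τ ^ k * (t * (τ ^ k)⁻¹) := by rw [h2]
      _ = _ := by group

/-- The conclusion in characteristic two, given an involution which is not conjugate. -/
theorem even_main' {O : Set ℕ} (hOl : ∀ s ∈ O, s < D.nroots)
    (hO : ∀ q < D.rank, ∀ s ∈ O, D.reflectRoot q s ∈ O) {ρ : ℕ} (hρO : ρ ∈ O) (hρ : D.IsPosRoot ρ)
    (hcen : ∀ s, D.IsPosRoot s → s ≠ ρ → D.commTerms ρ s = [])
    {t : GL D.Idx F} (htM : t ∈ Fx D σ) (htH : t ∈ H) (htt : t * t = 1) (htne : t ≠ 1)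
    (hnc : ∀ v ∈ D.posUnipotent F, ∀ s ∈ O, ∀ d : F, d ≠ 0 → t ≠ v * X hR.toAddRel s d * v⁻¹) :
    H ≤ Fx D σ := by
  have h2 : (2 : F) = 0 := CharTwo.two_eq_zero
  have hyM := X_one_mem_Fx hR hT σ hρ.1
  have hyy : X hR.toAddRel ρ (1 : F) * X hR.toAddRel ρ 1 = 1 := by
    rw [X_mul, one_add_one_eq_two, h2, X_zero]
  have hyne : X hR.toAddRel ρ (1 : F) ≠ 1 := by
    intro h
    exact one_ne_zero (X_inj hR hT hρ (by rw [h, X_zero]))
  have hyH : X hR.toAddRel ρ (1 : F) ∈ H := hL (X_mem_fixL hR σ hρ.1 (map_one σ))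
  refine le_of_conj' hR hT hT2 hT3 σ hL hHG hHU hB 2 hcj hyM hyH
    ⟨1, by rw [pow_one, pow_two]; exact hyy⟩ hyne ?_
  intro g hg
  set y := X hR.toAddRel ρ (1 : F) with hy
  have hxH : g * y * g⁻¹ ∈ H :=
    Subgroup.mul_mem _ (Subgroup.mul_mem _ hg hyH) (Subgroup.inv_mem _ hg)
  have hxx : (g * y * g⁻¹) * (g * y * g⁻¹) = 1 := by
    have e : (g * y * g⁻¹) * (g * y * g⁻¹) = g * (y * y) * g⁻¹ := by group
    rw [e, hyy]
    group
  rcases dihedral' hR hT hT2 hT3 σ hL hHG hHU hB hcj htM htH htt htne hxH hxx with h | ⟨w, hw, e⟩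
  · exact h
  · exfalso
    have hg₁ : w⁻¹ * g ∈ D.group F := hHG (Subgroup.mul_mem _ (Subgroup.inv_mem _ hw) hg)
    obtain ⟨v, hv, s, hs, d, hd, e₁⟩ := exists_form hR hT hOl hO hρO hρ hcen hg₁
    refine hnc v hv s hs d hd ?_
    rw [← e₁, ← hy]
    have e₂ : t = w⁻¹ * (w * t * w⁻¹) * w := by group
    rw [e₂, ← e]
    group

end Dihedral

end Cfsg.Agent.Lib.SubMax.Even2
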