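import Mathlib

/-!
# Finite additive and multiplicative subsets of an algebraically closed field
-/

set_option autoImplicit false
set_option linter.unusedSectionVars false
set_option linter.unusedVariables false
set_option linter.style.haveILetI false
set_option linter.deprecated false

namespace Cfsg.Agent.Lib.SubMax.FieldL

open Polynomial

variable {k : Type*} [Field k]

/-- The polynomial `X ^ q - X` is nonzero. -/
theorem pol_ne {q : ℕ} (hq : 1 < q) : (X ^ q - X : k[X]) ≠ 0 := by
  intro h
  have h1 := congrArg Polynomial.natDegree h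
  rw [Polynomial.natDegree_sub_eq_left_of_natDegree_lt (by simpa using hq), Polynomial.natDegree_X_pow,
    Polynomial.natDegree_zero] at h1
  omega

theorem pol_deg {q : ℕ} (hq : 1 < q) : (X ^ q - X : k[X]).natDegree = q := by
  rw [Polynomial.natDegree_sub_eq_left_of_natDegree_lt (by simpa using hq), Polynomial.natDegree_X_pow]


theorem finite_sols {q : ℕ} (hq : 1 < q) : {x : k | x ^ q = x}.Finite := by
  classical
  refine ((X ^ q - X : k[X]).roots.toFinset.finite_toSet).subset ?_
  intro x hx
  simp only [Finset.mem_coe, Multiset.mem_toFinset]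
  rw [Polynomial.mem_roots (pol_ne hq), Polynomial.IsRoot, Polynomial.eval_sub, Polynomial.eval_pow,
    Polynomial.eval_X, hx, sub_self]

theorem ncard_sols_le {q : ℕ} (hq : 1 < q) : {x : k | x ^ q = x}.ncard ≤ q := by
  classical
  have h1 : {x : k | x ^ q = x} = ((X ^ q - X : k[X]).roots.toFinset : Set k) := by
    ext x
    simp only [Set.mem_setOf_eq, Finset.mem_coe, Multiset.mem_toFinset]
    rw [Polynomial.mem_roots (pol_ne hq), Polynomial.IsRoot, Polynomial.eval_sub, Polynomial.eval_pow,
      Polynomial.eval_X, sub_eq_zero]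
  rw [h1, Set.ncard_coe_finset]
  calc _ ≤ Multiset.card (X ^ q - X : k[X]).roots := Multiset.toFinset_card_le _
    _ ≤ (X ^ q - X : k[X]).natDegree := Polynomial.card_roots' _
    _ = q := pol_deg hq

/-- In an algebraically closed field of characteristic `p`, the solutions of `x ^ q = x` are
exactly `q` many. -/
theorem ncard_sols [IsAlgClosed k] (p : ℕ) [hp : Fact p.Prime] [CharP k p] {a : ℕ} (ha : 1 ≤ a) :
    {x : k | x ^ (p ^ a) = x}.ncard = p ^ a := by
  classical
  have hq : 1 < p ^ a := Nat.one_lt_pow (by omega) hp.out.one_lt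
  have hsep : (X ^ (p ^ a) - X : k[X]).Separable :=
    galois_poly_separable p (p ^ a) (dvd_pow_self p (by omega))
  have h1 : {x : k | x ^ (p ^ a) = x} = (X ^ (p ^ a) - X : k[X]).rootSet k := by
    ext x
    rw [Polynomial.mem_rootSet]
    simp only [Set.mem_setOf_eq, map_sub, map_pow, Polynomial.aeval_X]
    rw [sub_eq_zero]
    exact ⟨fun h => ⟨pol_ne hq, h⟩, fun h => h.2⟩
  rw [h1, Set.ncard_eq_toFinset_card', Set.toFinset_card,
    Polynomial.card_rootSet_eq_natDegree hsep (IsAlgClosed.splits _), pol_deg hq]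

/-- The main lemma. -/
theorem exists_fix_of_closed [IsAlgClosed k] (p : ℕ) [hp : Fact p.Prime] [CharP k p] {a : ℕ} (ha : 1 ≤ a)
    (T : AddSubgroup k) (hfin : Finite ↥T) (hmul : ∀ x ∈ T, ∀ y ∈ T, x * y ∈ T)
    (hF : ∀ t : k, t ^ (p ^ a) = t → t ∈ T) :
    ∃ m : ℕ, 1 ≤ m ∧ ∀ t : k, t ∈ T ↔ t ^ ((p ^ a) ^ m) = t := by
  classical
  set q := p ^ a with hqdef
  have hq : 1 < q := Nat.one_lt_pow (by omega) hp.out.one_lt
  have h1T : (1 : k) ∈ T := hF 1 (one_pow _)
  have hpow : ∀ x ∈ T, ∀ n : ℕ, x ^ n ∈ T := by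
    intro x hx n
    induction n with
    | zero => simpa using h1T
    | succ n ih =>
      rw [pow_succ]
      exact hmul _ ih _ hx
  have hinv : ∀ x ∈ T, x⁻¹ ∈ T := by
    intro x hx
    by_cases h0 : x = 0
    · subst h0
      simpa using T.zero_mem
    let f : ℕ → ↥T := fun n => ⟨x ^ n, hpow x hx n⟩
    obtain ⟨i, j, hij, e⟩ := Finite.exists_ne_map_eq_of_infinite f
    have key : ∀ {i j : ℕ}, i < j → f i = f j → x⁻¹ ∈ T := by
      intro i j hij e
      have h1 : x ^ i = x ^ j := congrArg Subtype.val e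
      have h2 : x ^ (j - i) = 1 := by
        have h3 : x ^ j = x ^ i * x ^ (j - i) := by
          rw [← pow_add]
          congr 1
          omega
        rw [h3] at h1
        exact (mul_eq_left₀ (pow_ne_zero _ h0)).mp h1.symm
      have h4 : x⁻¹ = x ^ (j - i - 1) := by
        apply inv_eq_of_mul_eq_one_right
        rw [← pow_succ']
        have : j - i - 1 + 1 = j - i := by omega
        rw [this, h2]
      rw [h4]
      exact hpow x hx _
    rcases lt_or_gt_of_ne hij with h | h
    · exact key h e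
    · exact key h e.symm
  let E : Subfield k :=
    { carrier := T
      mul_mem' := fun {a b} ha hb => hmul a ha b hb
      one_mem' := h1T
      add_mem' := fun {a b} ha hb => T.add_mem ha hb
      zero_mem' := T.zero_mem
      neg_mem' := fun {a} ha => T.neg_mem ha
      inv_mem' := fun a ha => hinv a ha }
  haveI : Finite ↥E := hfin
  letI : Fintype ↥E := Fintype.ofFinite _
  let σ₁ : k →+* k := iterateFrobenius k p a
  have hσ₁ : ∀ x, σ₁ x = x ^ q := fun x => iterateFrobenius_def p a x
  let k₀ : Subfield ↥E := (σ₁.comp E.subtype).eqLocusField E.subtype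
  have hk₀ : ∀ y : ↥E, y ∈ k₀ ↔ (y : k) ^ q = y := by
    intro y
    show σ₁ (y : k) = (y : k) ↔ _
    rw [hσ₁]
  haveI : Finite ↥k₀ := inferInstance
  have hcardk : Nat.card ↥k₀ = q := by
    have e : ↥k₀ ≃ {y : k | y ^ q = y} :=
      { toFun := fun y => ⟨((y : ↥E) : k), (hk₀ _).1 y.2⟩
        invFun := fun y => ⟨⟨(y : k), hF _ y.2⟩, (hk₀ _).2 y.2⟩
        left_inv := fun y => by
          apply Subtype.ext
          apply Subtype.ext
          rfl
        right_inv := fun y => by
          apply Subtype.ext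
          rfl }
    rw [Nat.card_congr e, Nat.card_coe_set_eq, hqdef]
    exact ncard_sols p ha
  haveI : Module.Finite ↥k₀ ↥E := Module.Finite.of_finite
  set m := Module.finrank ↥k₀ ↥E with hm
  have h1E : Nat.card ↥E = q ^ m := by
    rw [Module.natCard_eq_pow_finrank (K := ↥k₀) (V := ↥E), hcardk]
  have hm1 : 1 ≤ m := Module.finrank_pos
  have hqm : 1 < q ^ m := Nat.one_lt_pow (by omega) hq
  refine ⟨m, hm1, ?_⟩
  have hsub : ∀ t ∈ T, t ^ (q ^ m) = t := by
    intro t ht
    have h2 := FiniteField.pow_card (⟨t, ht⟩ : ↥E)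
    rw [← Nat.card_eq_fintype_card, h1E] at h2
    exact congrArg Subtype.val h2
  intro t
  refine ⟨hsub t, fun ht => ?_⟩
  have h2 : (T : Set k) ⊆ {x : k | x ^ (q ^ m) = x} := fun x hx => hsub x hx
  have h3 := ncard_sols_le (k := k) hqm
  have h4 : (T : Set k).ncard = q ^ m := by
    rw [← Nat.card_coe_set_eq]
    exact h1E
  have h5 : (T : Set k) = {x : k | x ^ (q ^ m) = x} :=
    Set.eq_of_subset_of_ncard_le h2 (by rw [h4]; exact h3) (finite_sols hqm)
  have h6 : t ∈ {x : k | x ^ (q ^ m) = x} := ht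
  rw [← h5] at h6
  exact h6

end Cfsg.Agent.Lib.SubMax.FieldL
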