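import Cfsg.Agent.Lib.SubMax.Gen

/-!
# The end of the proof: a non-rational element of `H ∩ U` gives everything
-/

set_option autoImplicit false
set_option linter.unusedSectionVars false

namespace Cfsg.Agent.Lib.SubMax.Fin

open Cfsg.Lie Cfsg.Agent.Lib.ChevBN.Elem Cfsg.Agent.Lib.ChevBN.Entries Cfsg.Agent.Lib.ChevBN.Table
open Cfsg.Agent.Lib.ChevBN.Collect Cfsg.Agent.Lib.ChevBN.Rel Cfsg.Agent.Lib.ChevBN.Torus
open Cfsg.Agent.Lib.ChevBN.Monomial Cfsg.Agent.Lib.ChevBN.Core Cfsg.Agent.Lib.ChevBN.Pair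
open Cfsg.Agent.Lib.ChevBN.Stmts Cfsg.Agent.Lib.ChevBN.Levi Cfsg.Agent.Lib.ChevBN.Fix
open Cfsg.Agent.Lib.BorelTits.Tbl3
open Cfsg.Agent.Lib.SubMax.Fx Cfsg.Agent.Lib.SubMax.Orbit Cfsg.Agent.Lib.SubMax.TopElt
open Cfsg.Agent.Lib.SubMax.Gen

variable {D : ChevalleyDatum} {F : Type*} [Field F] {η : ℕ → ℕ → ℤ}

/-- Orbit data: all the fundamental roots are linked to `ℓ` or `𝔰`. -/
structure OrbTab (D : ChevalleyDatum) (ℓ 𝔰 : ℕ) : Prop where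
  hℓ : ℓ < D.rank
  h𝔰 : 𝔰 < D.rank
  link : ∀ j < D.rank, Link D (D.simple ℓ) (D.simple j) ∨ Link D (D.simple 𝔰) (D.simple j)
  adj : Ad D (cr D (D.simple ℓ)) (D.simple 𝔰) = -1

section

variable (hR : Sys D F η) (hT : Tbl D) (hT3 : Tbl3 D) (σ : F →+* F)
variable {H : Subgroup (GL D.Idx F)} (hMH : Fx D σ ≤ H) (hHG : H ≤ D.group F)
variable {ℓ 𝔰 : ℕ} (hOT : OrbTab D ℓ 𝔰)
include hR hT hMH hHG hOT

theorem eq_G_of_long (h : ∀ t, t ∈ RS hR.toAddRel H (D.simple ℓ)) : H = D.group F := by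
  have hℓ := (hT.simple_pos ℓ hOT.hℓ).1
  have h𝔰 := (hT.simple_pos 𝔰 hOT.h𝔰).1
  have hneg : ∀ t, t ∈ RS hR.toAddRel H (D.neg (D.simple ℓ)) := by
    rw [← hT.w_simple ℓ hOT.hℓ, RS_reflect_eq hR hT σ hMH hOT.hℓ hℓ]
    exact h
  have hs := full_of_torus hR hT σ hMH hℓ h𝔰 h hneg hOT.adj
  apply eq_G_of_simple hR hT σ hMH hHG
  intro j hj t
  rcases hOT.link j hj with h1 | h1
  · rw [← RS_link hR hT σ hMH hℓ h1]
    exact h t
  · rw [← RS_link hR hT σ hMH h𝔰 h1]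
    exact hs t

theorem eq_G_of_short [Fintype F] (p : ℕ) [hp : Fact p.Prime] [CharP F p]
    (hAd : Ad D (cr D (D.simple 𝔰)) (D.simple ℓ) = -(p : ℤ))
    (h : ∀ t, t ∈ RS hR.toAddRel H (D.simple 𝔰)) : H = D.group F := by
  have hℓ := (hT.simple_pos ℓ hOT.hℓ).1
  have h𝔰 := (hT.simple_pos 𝔰 hOT.h𝔰).1
  have hneg : ∀ t, t ∈ RS hR.toAddRel H (D.neg (D.simple 𝔰)) := by
    rw [← hT.w_simple 𝔰 hOT.h𝔰, RS_reflect_eq hR hT σ hMH hOT.h𝔰 h𝔰]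
    exact h
  exact eq_G_of_long hR hT σ hMH hHG hOT (full_of_torus_pow hR hT σ hMH p h𝔰 hℓ h hneg hAd)

include hT3 in
/-- The case of one root on top. -/
theorem finish_one [Fintype F] (p : ℕ) [hp : Fact p.Prime] [CharP F p]
    {q n : ℕ} (hq : 1 < q) (hn : n.Prime) (hK : Fintype.card F = q ^ n) (hσ : ∀ x, σ x = x ^ q)
    {ρ : ℕ} {v : ℕ → ℤ} (hTop : TopTab D F [ρ] v) (hLρ : Link D (D.simple ℓ) ρ)
    (hmul : ∀ x ∈ RS hR.toAddRel H (D.simple ℓ), ∀ y ∈ RS hR.toAddRel H (D.simple ℓ),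
      x * y ∈ RS hR.toAddRel H (D.simple ℓ))
    (hne : ∃ u ∈ H, u ∈ D.posUnipotent F ∧ u ∉ Fx D σ) : H = D.group F := by
  have hℓ := (hT.simple_pos ℓ hOT.hℓ).1
  obtain ⟨τ, h1, h2⟩ := exists_top_elt hR hT hT3 σ hMH hHG hTop p hne
  simp only [List.map_cons, List.map_nil, W_cons, W_nil, mul_one] at h1 h2
  have hρ : ρ < D.nroots := (hTop.pos ρ (by simp)).1
  have hA : σ (τ ρ) ≠ τ ρ := fun h => h2 (X_mem_Fx hR hT σ hρ h)
  have hA' : τ ρ ∈ RS hR.toAddRel H (D.simple ℓ) := by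
    rw [RS_link hR hT σ hMH hℓ hLρ]
    exact h1
  exact eq_G_of_long hR hT σ hMH hHG hOT (full_of_mul hR hT σ hMH hq hn hK hσ hℓ hmul hA' hA)

include hT3 in
/-- The case of two roots on top. -/
theorem finish_two [Fintype F] (p : ℕ) [hp : Fact p.Prime] [CharP F p]
    {q n : ℕ} (hq : 1 < q) (hn : n.Prime) (hK : Fintype.card F = q ^ n) (hσ : ∀ x, σ x = x ^ q)
    (hc : CommG hR.toAddRel)
    {a ρ : ℕ} {v : ℕ → ℤ} (hTop : TopTab D F [a, ρ] v)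
    (hLa : Link D (D.simple 𝔰) a) (hLρ : Link D (D.simple ℓ) ρ)
    (hmul : ∀ x ∈ RS hR.toAddRel H (D.simple ℓ), ∀ y ∈ RS hR.toAddRel H (D.simple ℓ),
      x * y ∈ RS hR.toAddRel H (D.simple ℓ))
    (hmul' : ∀ x ∈ RS hR.toAddRel H (D.simple 𝔰), ∀ y ∈ RS hR.toAddRel H (D.simple 𝔰),
      x * y ∈ RS hR.toAddRel H (D.simple 𝔰))
    (hAd : Ad D (cr D (D.simple 𝔰)) (D.simple ℓ) = -(p : ℤ))
    {r q' : ℕ} {N : ℤ} {rest : List (ℕ × ℤ × ℕ × ℕ)} (hr : r < D.nroots)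
    (har : a ≠ r) (han : a ≠ D.neg r) (hρr : ρ ≠ r) (hρn : ρ ≠ D.neg r)
    (hct : D.commTerms r a = (q', N, 1, 1) :: rest) (hN : (N : F) ≠ 0) (hrest : ∀ c ∈ rest, (c.2.1 : F) = 0)
    (hct2 : D.commTerms r ρ = []) (hq' : D.IsPosRoot q') (hLq : Link D (D.simple 𝔰) q')
    (hne : ∃ u ∈ H, u ∈ D.posUnipotent F ∧ u ∉ Fx D σ) : H = D.group F := by
  have hℓ := (hT.simple_pos ℓ hOT.hℓ).1
  have h𝔰 := (hT.simple_pos 𝔰 hOT.h𝔰).1
  obtain ⟨τ, h1, h2⟩ := exists_top_elt hR hT hT3 σ hMH hHG hTop p hne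
  simp only [List.map_cons, List.map_nil, W_cons, W_nil, mul_one] at h1 h2
  have hρ : ρ < D.nroots := (hTop.pos ρ (by simp)).1
  have ha : a < D.nroots := (hTop.pos a (by simp)).1
  set A₀ := τ a with hA₀
  set B₀ := τ ρ with hB₀
  by_cases hσA : σ A₀ = A₀
  · -- the first coordinate is rational
    have h3 : X hR.toAddRel a A₀ ∈ H := hMH (X_mem_Fx hR hT σ ha hσA)
    have h4 : X hR.toAddRel ρ B₀ ∈ H := (H.mul_mem_cancel_left h3).mp h1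
    have hB : σ B₀ ≠ B₀ := fun h =>
      h2 (Subgroup.mul_mem _ (X_mem_Fx hR hT σ ha hσA) (X_mem_Fx hR hT σ hρ h))
    have hB' : B₀ ∈ RS hR.toAddRel H (D.simple ℓ) := by
      rw [RS_link hR hT σ hMH hℓ hLρ]
      exact h4
    exact eq_G_of_long hR hT σ hMH hHG hOT (full_of_mul hR hT σ hMH hq hn hK hσ hℓ hmul hB' hB)
  · -- the first coordinate is not rational
    have hx := RS_one hR hT σ hMH hr
    rw [mem_RS] at hx
    have h3 := hc r hr a ha har han (1 : F) A₀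
    rw [word_lead hR hT σ hMH hct hrest] at h3
    have h4 := comm_of_nil hc hr hρ hρr hρn hct2 (1 : F) B₀
    have h5 := central_comm hR hT hT3 hTop (a := ρ) (by simp) hq' ((N : F) * (-1) * A₀) B₀
    set e := X hR.toAddRel a A₀ * X hR.toAddRel ρ B₀ with he
    set y := X hR.toAddRel q' ((N : F) * (-1) * A₀) with hy
    have h6 : y = e⁻¹ * (X hR.toAddRel r 1)⁻¹ * e * X hR.toAddRel r 1 := by
      have h7 : e * X hR.toAddRel r 1 = X hR.toAddRel r 1 * e * y := by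
        rw [he, mul_assoc, h4, ← mul_assoc, h3, mul_assoc, h5]
        simp only [mul_assoc]
      calc y = e⁻¹ * (X hR.toAddRel r 1)⁻¹ * (X hR.toAddRel r 1 * e * y) := by group
        _ = e⁻¹ * (X hR.toAddRel r 1)⁻¹ * (e * X hR.toAddRel r 1) := by rw [h7]
        _ = _ := by group
    have h8 : y ∈ H := by
      rw [h6]
      exact H.mul_mem (H.mul_mem (H.mul_mem (H.inv_mem h1) (H.inv_mem hx)) h1) hx
    have h9 : (N : F) * (-A₀) ∈ RS hR.toAddRel H q' := by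
      rw [mem_RS]
      convert h8 using 2
      ring
    have h10 : A₀ ∈ RS hR.toAddRel H q' := neg_mem_iff.mp (mem_of_unit_mul p _ hN h9)
    rw [← RS_link hR hT σ hMH h𝔰 hLq] at h10
    exact eq_G_of_short hR hT σ hMH hHG hOT p hAd (full_of_mul hR hT σ hMH hq hn hK hσ h𝔰 hmul' h10 hσA)

end

end Cfsg.Agent.Lib.SubMax.Fin
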