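import Cfsg.Agent.Lib.SubMax.Fin
import Cfsg.Agent.Lib.Chevalley.All

/-!
# Type `B₂`
-/

set_option autoImplicit false
set_option linter.unusedSectionVars false
set_option maxRecDepth 100000

namespace Cfsg.Agent.Lib.SubMax.FinB2

open Cfsg.Lie Cfsg.Agent.Lib.ChevBN.Elem Cfsg.Agent.Lib.ChevBN.Entries Cfsg.Agent.Lib.ChevBN.Table
open Cfsg.Agent.Lib.ChevBN.Collect Cfsg.Agent.Lib.ChevBN.Rel Cfsg.Agent.Lib.ChevBN.Torus
open Cfsg.Agent.Lib.ChevBN.Monomial Cfsg.Agent.Lib.ChevBN.Core Cfsg.Agent.Lib.ChevBN.Pair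
open Cfsg.Agent.Lib.ChevBN.Stmts Cfsg.Agent.Lib.ChevBN.Levi Cfsg.Agent.Lib.ChevBN.Fix
open Cfsg.Agent.Lib.BorelTits.Tbl3
open Cfsg.Agent.Lib.SubMax.Fx Cfsg.Agent.Lib.SubMax.Orbit Cfsg.Agent.Lib.SubMax.TopElt
open Cfsg.Agent.Lib.SubMax.Gen Cfsg.Agent.Lib.SubMax.Fin

variable {F : Type*} [Field F] {η : ℕ → ℕ → ℤ}

/-- An algebraic fact in characteristic two. -/
theorem alg_key [CharP F 2] (σ : F →+* F) (a : F) (h1 : σ (a ^ 4 + a ^ 6) = a ^ 4 + a ^ 6)
    (h2 : σ ((a + 1) ^ 4 + (a + 1) ^ 6) = (a + 1) ^ 4 + (a + 1) ^ 6) : σ a = a := by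
  have h0 : (2 : F) = 0 := CharTwo.two_eq_zero
  set b := σ a with hb
  have e1 : ∀ x : F, (x + 1) ^ 4 + (x + 1) ^ 6 = x ^ 6 + x ^ 2 := by
    intro x
    linear_combination (3 * x ^ 5 + 8 * x ^ 4 + 12 * x ^ 3 + 10 * x ^ 2 + 5 * x + 1) * h0
  rw [map_add, map_pow, map_pow, ← hb] at h1
  rw [e1, map_add, map_pow, map_pow, ← hb] at h2
  have e2 : ∀ x y : F, x ^ 2 = y ^ 2 → x = y := by
    intro x y h
    have h3 : (x + y) ^ 2 = 0 := by
      linear_combination h + (x * y + y ^ 2) * h0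
    have h4 : x + y = 0 := by simpa using h3
    linear_combination h4 - y * h0
  have hc : b ^ 2 + b = a ^ 2 + a := by
    apply e2
    linear_combination h1 + h2 + (b ^ 3 - a ^ 3 - b ^ 6 + a ^ 6) * h0
  have hd : b ^ 3 + b = a ^ 3 + a := by
    apply e2
    linear_combination h2 + (b ^ 4 - a ^ 4) * h0
  have he : (b + a) * (a ^ 2 + a) = 0 := by
    linear_combination hd + (1 - b) * hc + (a - b + a ^ 3 + a ^ 2) * h0
  rcases mul_eq_zero.mp he with h | h
  · linear_combination h - a * h0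
  · have h3 : a * (a + 1) = 0 := by linear_combination h
    rcases mul_eq_zero.mp h3 with h4 | h4
    · rw [h4, map_zero] at hb
      rw [h4]
      exact hb
    · have h5 : a = 1 := by linear_combination h4 - h0
      rw [h5, map_one] at hb
      rw [h5]
      exact hb

section Group

variable (hR : Sys chevB2 F η) (hT : Tbl chevB2) (hT3 : Tbl3 chevB2) (σ : F →+* F)
variable {H : Subgroup (GL chevB2.Idx F)} (hMH : Fx chevB2 σ ≤ H) (hHG : H ≤ chevB2.group F)
variable (hc : CommG hR.toAddRel)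
include hR hT hMH hc

theorem t45 : chevB2.commTerms 4 5 = [(6, 1, 1, 1), (7, -1, 1, 2)] := by decide +kernel
theorem t36 : chevB2.commTerms 3 6 = [(5, 1, 1, 1), (7, 1, 1, 2)] := by decide +kernel
theorem t37 : chevB2.commTerms 3 7 = [] := by decide +kernel
theorem t56 : chevB2.commTerms 5 6 = [(7, 2, 1, 1)] := by decide +kernel
theorem hcen : ∀ s, chevB2.IsPosRoot s → s ≠ 7 → chevB2.commTerms 7 s = [] := by
  intro s hs hne
  rw [← mem_posRoots] at hs
  have h1 : chevB2.posRoots = [4, 5, 6, 7] := by decide +kernel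
  rw [h1] at hs
  simp only [List.mem_cons, List.not_mem_nil, or_false] at hs
  rcases hs with rfl | rfl | rfl | rfl
  · decide +kernel
  · decide +kernel
  · decide +kernel
  · exact absurd rfl hne
theorem p4 : chevB2.IsPosRoot 4 := by decide +kernel
theorem p5 : chevB2.IsPosRoot 5 := by decide +kernel
theorem p6 : chevB2.IsPosRoot 6 := by decide +kernel
theorem p7 : chevB2.IsPosRoot 7 := by decide +kernel

omit hR hT hMH hc in
theorem eta_one [CharP F 2] (hR : Sys chevB2 F η) {q s : ℕ} (hq : q < chevB2.rank) (hs : s < chevB2.nroots) :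
    ((η q s : ℤ) : F) = 1 := by
  rcases hR.eta_sign q hq s hs with h | h
  · simp [h]
  · rw [h]
    push_cast
    rw [CharTwo.neg_eq]

/-- Reflecting a product of two root elements. -/
theorem conj_pair [CharP F 2] {q r s : ℕ} (hq : q < chevB2.rank) (hr : r < chevB2.nroots) (hs : s < chevB2.nroots)
    {a b : F} (h : X hR.toAddRel r a * X hR.toAddRel s b ∈ H) :
    X hR.toAddRel (chevB2.reflectRoot q r) a * X hR.toAddRel (chevB2.reflectRoot q s) b ∈ H := by
  have hA : A hR q ∈ H := hMH (A_mem_Fx hR hT σ hq)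
  have h1 : A hR q * (X hR.toAddRel r a * X hR.toAddRel s b) * (A hR q)⁻¹ ∈ H :=
    H.mul_mem (H.mul_mem hA h) (H.inv_mem hA)
  have h2 : A hR q * (X hR.toAddRel r a * X hR.toAddRel s b) * (A hR q)⁻¹ =
      (A hR q * X hR.toAddRel r a * (A hR q)⁻¹) * (A hR q * X hR.toAddRel s b * (A hR q)⁻¹) := by
    group
  rw [h2, A_conj_X hR hq hr, A_conj_X hR hq hs, eta_one hR hq hr, eta_one hR hq hs, one_mul, one_mul] at h1
  exact h1

/-- The word of `(4, 5)`. -/
theorem w45 [CharP F 2] (t u : F) :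
    W hR.toAddRel (chevB2.commWord F 4 5 t u) = X hR.toAddRel 6 (t * u) * X hR.toAddRel 7 (t * u ^ 2) := by
  rw [ChevalleyDatum.commWord, t45 hR hT σ hMH hc]
  simp only [List.map_cons, List.map_nil, W_cons, W_nil, mul_one, pow_one, Int.cast_one, Int.cast_neg, one_mul,
    CharTwo.neg_eq]

/-- The word of `(3, 6)`. -/
theorem w36 [CharP F 2] (t u : F) :
    W hR.toAddRel (chevB2.commWord F 3 6 t u) = X hR.toAddRel 5 (t * u) * X hR.toAddRel 7 (t * u ^ 2) := by
  rw [ChevalleyDatum.commWord, t36 hR hT σ hMH hc]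
  simp only [List.map_cons, List.map_nil, W_cons, W_nil, mul_one, pow_one, Int.cast_one, one_mul,
    CharTwo.neg_eq]

theorem n7 : (7 : ℕ) < chevB2.nroots := by decide +kernel
theorem n6 : (6 : ℕ) < chevB2.nroots := by decide +kernel
theorem n5 : (5 : ℕ) < chevB2.nroots := by decide +kernel
theorem n4 : (4 : ℕ) < chevB2.nroots := by decide +kernel
theorem n3 : (3 : ℕ) < chevB2.nroots := by decide +kernel

/-- `X 7` commutes with the positive root elements. -/
theorem comm7 (s : ℕ) (hs : chevB2.IsPosRoot s) (u t : F) :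
    X hR.toAddRel s u * X hR.toAddRel 7 t = X hR.toAddRel 7 t * X hR.toAddRel s u :=
  comm_central hR hT (p7 hR hT σ hMH hc) (hcen hR hT σ hMH hc) hs u t

/-- One direction of the commutator with `X 4`. -/
theorem pi_of [CharP F 2] {t u : F} (ht : X hR.toAddRel 4 t ∈ H) (hu : X hR.toAddRel 5 u ∈ H) :
    X hR.toAddRel 6 (t * u) * X hR.toAddRel 7 (t * u ^ 2) ∈ H := by
  have h1 := comm_mem_of hR hT σ hMH hc (n4 hR hT σ hMH hc) (n5 hR hT σ hMH hc) (by decide) (by decide +kernel)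
    ht hu
  rwa [w45 hR hT σ hMH hc] at h1

/-- The element `x_5(A) x_7(A²)`. -/
theorem g2_of [CharP F 2] {a b : F} (h : X hR.toAddRel 6 a * X hR.toAddRel 7 b ∈ H) :
    X hR.toAddRel 5 a * X hR.toAddRel 7 (a ^ 2) ∈ H := by
  have n3' := n3 hR hT σ hMH hc
  have n6' := n6 hR hT σ hMH hc
  have n7' := n7 hR hT σ hMH hc
  have hx : X hR.toAddRel 3 (1 : F) ∈ H := RS_one hR hT σ hMH n3'
  have h3 := hc 3 n3' 6 n6' (by decide) (by decide +kernel) (1 : F) a
  rw [w36 hR hT σ hMH hc, one_mul, one_mul] at h3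
  have h4 := comm_of_nil hc n3' n7' (by decide) (by decide +kernel) (t37 hR hT σ hMH hc) (1 : F) b
  have h5a := comm7 hR hT σ hMH hc 5 (p5 hR hT σ hMH hc) a b
  have h5b : X hR.toAddRel 7 (a ^ 2) * X hR.toAddRel 7 b = X hR.toAddRel 7 b * X hR.toAddRel 7 (a ^ 2) := by
    rw [X_mul, X_mul, add_comm]
  set y := X hR.toAddRel 5 a * X hR.toAddRel 7 (a ^ 2) with hy
  have h5 : y * X hR.toAddRel 7 b = X hR.toAddRel 7 b * y := by
    rw [hy, mul_assoc, h5b, ← mul_assoc, h5a, mul_assoc]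
  set e := X hR.toAddRel 6 a * X hR.toAddRel 7 b with he
  have h7 : e * X hR.toAddRel 3 1 = X hR.toAddRel 3 1 * e * y := by
    rw [he, mul_assoc, h4, ← mul_assoc, h3, mul_assoc, h5]
    simp only [mul_assoc]
  have h6 : y = e⁻¹ * (X hR.toAddRel 3 1)⁻¹ * e * X hR.toAddRel 3 1 := by
    calc y = e⁻¹ * (X hR.toAddRel 3 1)⁻¹ * (X hR.toAddRel 3 1 * e * y) := by group
      _ = e⁻¹ * (X hR.toAddRel 3 1)⁻¹ * (e * X hR.toAddRel 3 1) := by rw [h7]
      _ = _ := by group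
  rw [h6]
  exact H.mul_mem (H.mul_mem (H.mul_mem (H.inv_mem h) (H.inv_mem hx)) h) hx

theorem r15 : chevB2.reflectRoot 1 5 = 6 := by decide +kernel
theorem r17 : chevB2.reflectRoot 1 7 = 7 := by decide +kernel
theorem r06 : chevB2.reflectRoot 0 6 = 6 := by decide +kernel
theorem r07 : chevB2.reflectRoot 0 7 = 4 := by decide +kernel
theorem l1 : (1 : ℕ) < chevB2.rank := by decide +kernel
theorem l0 : (0 : ℕ) < chevB2.rank := by decide +kernel

/-- The element `x_6(A) x_7(A²)`. -/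
theorem pi_square [CharP F 2] {a b : F} (h : X hR.toAddRel 6 a * X hR.toAddRel 7 b ∈ H) :
    X hR.toAddRel 6 a * X hR.toAddRel 7 (a ^ 2) ∈ H := by
  have h1 := conj_pair hR hT σ hMH hc (l1 hR hT σ hMH hc) (n5 hR hT σ hMH hc) (n7 hR hT σ hMH hc)
    (g2_of hR hT σ hMH hc h)
  rwa [r15 hR hT σ hMH hc, r17 hR hT σ hMH hc] at h1

/-- The element `x_6(A³) x_7(A⁴)`. -/
theorem pi_cube [CharP F 2] {a b : F} (h : X hR.toAddRel 6 a * X hR.toAddRel 7 b ∈ H) :
    X hR.toAddRel 6 (a ^ 3) * X hR.toAddRel 7 (a ^ 4) ∈ H := by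
  have p4' := p4 hR hT σ hMH hc
  have p5' := p5 hR hT σ hMH hc
  have p6' := p6 hR hT σ hMH hc
  have n4' := n4 hR hT σ hMH hc
  have n5' := n5 hR hT σ hMH hc
  have n6' := n6 hR hT σ hMH hc
  have hg2 := g2_of hR hT σ hMH hc h
  have hg1 := conj_pair hR hT σ hMH hc (l0 hR hT σ hMH hc) (n6 hR hT σ hMH hc) (n7 hR hT σ hMH hc)
    (pi_square hR hT σ hMH hc h)
  rw [r06 hR hT σ hMH hc, r07 hR hT σ hMH hc] at hg1
  -- the commutator relation of `(4, 5)`
  have h45 := hc 4 n4' 5 n5' (by decide) (by decide +kernel) (a ^ 2) a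
  rw [w45 hR hT σ hMH hc] at h45
  -- `X 5` and `X 6` commute in characteristic two
  have h56 : X hR.toAddRel 6 a * X hR.toAddRel 5 a = X hR.toAddRel 5 a * X hR.toAddRel 6 a := by
    have h1 := hc 5 n5' 6 n6' (by decide) (by decide +kernel) a a
    rw [ChevalleyDatum.commWord, t56 hR hT σ hMH hc] at h1
    have h0 : (2 : F) = 0 := CharTwo.two_eq_zero
    simp only [List.map_cons, List.map_nil, W_cons, W_nil, mul_one, pow_one, Int.cast_ofNat, h0, zero_mul,
      X_zero] at h1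
    exact h1
  set c := X hR.toAddRel 7 (a ^ 2) with hcdef
  have c4 : X hR.toAddRel 4 (a ^ 2) * c = c * X hR.toAddRel 4 (a ^ 2) :=
    comm7 hR hT σ hMH hc 4 p4' _ _
  have c6 : X hR.toAddRel 6 a * c = c * X hR.toAddRel 6 a := comm7 hR hT σ hMH hc 6 p6' _ _
  have hy : (X hR.toAddRel 6 (a ^ 2 * a) * X hR.toAddRel 7 (a ^ 2 * a ^ 2)) * c =
      c * (X hR.toAddRel 6 (a ^ 2 * a) * X hR.toAddRel 7 (a ^ 2 * a ^ 2)) := by
    have c6' := comm7 hR hT σ hMH hc 6 p6' (a ^ 2 * a) (a ^ 2)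
    have c7 : X hR.toAddRel 7 (a ^ 2 * a ^ 2) * c = c * X hR.toAddRel 7 (a ^ 2 * a ^ 2) := by
      rw [hcdef, X_mul, X_mul, add_comm]
    rw [mul_assoc, c7, ← mul_assoc, c6', mul_assoc]
  set y := X hR.toAddRel 6 (a ^ 2 * a) * X hR.toAddRel 7 (a ^ 2 * a ^ 2) with hydef
  have hrel : (X hR.toAddRel 5 a * c) * (X hR.toAddRel 6 a * X hR.toAddRel 4 (a ^ 2)) =
      (X hR.toAddRel 6 a * X hR.toAddRel 4 (a ^ 2)) * (X hR.toAddRel 5 a * c) * y := by
    calc (X hR.toAddRel 5 a * c) * (X hR.toAddRel 6 a * X hR.toAddRel 4 (a ^ 2))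
        = X hR.toAddRel 5 a * (c * X hR.toAddRel 6 a) * X hR.toAddRel 4 (a ^ 2) := by group
      _ = X hR.toAddRel 5 a * (X hR.toAddRel 6 a * c) * X hR.toAddRel 4 (a ^ 2) := by rw [c6]
      _ = (X hR.toAddRel 5 a * X hR.toAddRel 6 a) * (c * X hR.toAddRel 4 (a ^ 2)) := by group
      _ = (X hR.toAddRel 6 a * X hR.toAddRel 5 a) * (X hR.toAddRel 4 (a ^ 2) * c) := by rw [h56, c4]
      _ = X hR.toAddRel 6 a * (X hR.toAddRel 5 a * X hR.toAddRel 4 (a ^ 2)) * c := by group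
      _ = X hR.toAddRel 6 a * (X hR.toAddRel 4 (a ^ 2) * X hR.toAddRel 5 a * y) * c := by rw [h45]
      _ = X hR.toAddRel 6 a * X hR.toAddRel 4 (a ^ 2) * X hR.toAddRel 5 a * (y * c) := by group
      _ = X hR.toAddRel 6 a * X hR.toAddRel 4 (a ^ 2) * X hR.toAddRel 5 a * (c * y) := by rw [hy]
      _ = _ := by group
  have hyH : y ∈ H := by
    have e : y = ((X hR.toAddRel 6 a * X hR.toAddRel 4 (a ^ 2)) * (X hR.toAddRel 5 a * c))⁻¹ *
        ((X hR.toAddRel 5 a * c) * (X hR.toAddRel 6 a * X hR.toAddRel 4 (a ^ 2))) := by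
      rw [hrel]
      group
    rw [e]
    exact H.mul_mem (H.inv_mem (H.mul_mem hg1 hg2)) (H.mul_mem hg2 hg1)
  rw [hydef] at hyH
  have e1 : a ^ 2 * a = a ^ 3 := by ring
  have e2 : a ^ 2 * a ^ 2 = a ^ 4 := by ring
  rwa [e1, e2] at hyH

/-- Two elements with the same first coordinate. -/
theorem pi_sub [CharP F 2] {a b b' : F} (h : X hR.toAddRel 6 a * X hR.toAddRel 7 b ∈ H)
    (h' : X hR.toAddRel 6 a * X hR.toAddRel 7 b' ∈ H) : b + b' ∈ RS hR.toAddRel H 7 := by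
  have h1 := H.mul_mem (H.inv_mem h) h'
  have hb : (X hR.toAddRel 7 b)⁻¹ = X hR.toAddRel 7 b := by rw [X_inv, CharTwo.neg_eq]
  have e : (X hR.toAddRel 6 a * X hR.toAddRel 7 b)⁻¹ * (X hR.toAddRel 6 a * X hR.toAddRel 7 b') =
      X hR.toAddRel 7 (b + b') := by
    calc (X hR.toAddRel 6 a * X hR.toAddRel 7 b)⁻¹ * (X hR.toAddRel 6 a * X hR.toAddRel 7 b')
        = (X hR.toAddRel 7 b)⁻¹ * X hR.toAddRel 7 b' := by group
      _ = X hR.toAddRel 7 b * X hR.toAddRel 7 b' := by rw [hb]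
      _ = _ := X_mul _ _ _ _
  rw [e] at h1
  exact h1

/-- The key consequence. -/
theorem pi_key [CharP F 2] {a b : F} (h : X hR.toAddRel 6 a * X hR.toAddRel 7 b ∈ H) :
    a ^ 4 + a ^ 6 ∈ RS hR.toAddRel H 7 := by
  have h1 := pi_cube hR hT σ hMH hc h
  have h2 := pi_square hR hT σ hMH hc h1
  have e : (a ^ 3) ^ 2 = a ^ 6 := by ring
  rw [e] at h2
  exact pi_sub hR hT σ hMH hc h1 h2

include hHG hT3 in
/-- Characteristic two. -/
theorem finish_even [Fintype F] [CharP F 2] {q n : ℕ} (hq : 1 < q) (hn : n.Prime) (hK : Fintype.card F = q ^ n)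
    (hσ : ∀ x, σ x = x ^ q) {v : ℕ → ℤ} (hTop : TopTab chevB2 F [6, 7] v)
    (hne : ∃ u ∈ H, u ∈ chevB2.posUnipotent F ∧ u ∉ Fx chevB2 σ) : H = chevB2.group F := by
  have n4' := n4 hR hT σ hMH hc
  have n5' := n5 hR hT σ hMH hc
  have n6' := n6 hR hT σ hMH hc
  have n7' := n7 hR hT σ hMH hc
  have l0' := l0 hR hT σ hMH hc
  have l1' := l1 hR hT σ hMH hc
  have h0 : (2 : F) = 0 := CharTwo.two_eq_zero
  have hS56 : RS hR.toAddRel H 6 = RS hR.toAddRel H 5 := by
    have h1 := RS_reflect_eq hR hT σ hMH l1' n5'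
    rwa [r15 hR hT σ hMH hc] at h1
  have hL47 : RS hR.toAddRel H 4 = RS hR.toAddRel H 7 := by
    have h1 := RS_reflect_eq hR hT σ hMH l0' n7'
    rwa [r07 hR hT σ hMH hc] at h1
  have hLS : ∀ t ∈ RS hR.toAddRel H 7, t ∈ RS hR.toAddRel H 6 := by
    intro t ht
    have h1 : X hR.toAddRel 4 t ∈ H := by
      rw [← mem_RS, hL47]
      exact ht
    have h2 : X hR.toAddRel 5 (1 : F) ∈ H := RS_one hR hT σ hMH n5'
    have h3 := pi_of hR hT σ hMH hc h1 h2
    rw [mul_one, one_pow, mul_one] at h3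
    exact (H.mul_mem_cancel_right ht).mp h3
  have hSq : ∀ u ∈ RS hR.toAddRel H 6, u ^ 2 ∈ RS hR.toAddRel H 7 := by
    intro u hu
    have h1 : X hR.toAddRel 4 (1 : F) ∈ H := RS_one hR hT σ hMH n4'
    have h2 : X hR.toAddRel 5 u ∈ H := by
      rw [← mem_RS, ← hS56]
      exact hu
    have h3 := pi_of hR hT σ hMH hc h1 h2
    rw [one_mul, one_mul] at h3
    exact (H.mul_mem_cancel_left hu).mp h3
  have hpow : ∀ u ∈ RS hR.toAddRel H 6, ∀ k : ℕ, u ^ (2 ^ (k + 1)) ∈ RS hR.toAddRel H 7 := by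
    intro u hu k
    induction k with
    | zero => simpa using hSq u hu
    | succ k ih =>
      have h1 := hSq _ (hLS _ ih)
      rwa [← pow_mul, ← pow_succ] at h1
  obtain ⟨m, -, hm⟩ := FiniteField.card F 2
  obtain ⟨m', hm'⟩ : ∃ m' : ℕ, (m : ℕ) = m' + 1 := ⟨(m : ℕ) - 1, by have := m.pos; omega⟩
  rw [hm'] at hm
  have hfrob : ∀ u : F, u ^ (2 ^ (m' + 1)) = u := by
    intro u
    rw [← hm]
    exact FiniteField.pow_card u
  have hSL : ∀ u ∈ RS hR.toAddRel H 6, u ∈ RS hR.toAddRel H 7 := by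
    intro u hu
    have h1 := hpow u hu m'
    rwa [hfrob] at h1
  set T := RS hR.toAddRel H 7 with hTdef
  have h6T : RS hR.toAddRel H 6 = T := le_antisymm hSL hLS
  have h5T : RS hR.toAddRel H 5 = T := by rw [← hS56, h6T]
  have hsqrt : ∀ x ∈ T, ∃ y ∈ T, y ^ 2 = x := by
    intro x hx
    rcases m' with _ | m''
    · refine ⟨x, hx, ?_⟩
      simpa using hfrob x
    · refine ⟨x ^ (2 ^ (m'' + 1)), hpow x (hLS x hx) m'', ?_⟩
      rw [← pow_mul, ← pow_succ]
      exact hfrob x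
  -- the products
  have hP7 : ∀ t ∈ T, ∀ u ∈ T, u ^ 2 * (t + t ^ 2) ∈ T := by
    intro t ht u hu
    have h1 : X hR.toAddRel 4 t ∈ H := by
      rw [← mem_RS, hL47]
      exact ht
    have h2 : X hR.toAddRel 5 u ∈ H := by
      rw [← mem_RS, h5T]
      exact hu
    have h3 := pi_of hR hT σ hMH hc h1 h2
    have h4 := pi_square hR hT σ hMH hc h3
    have h5 := pi_sub hR hT σ hMH hc h3 h4
    convert h5 using 1
    ring
  have hP7' : ∀ t ∈ T, ∀ u ∈ T, (t + t ^ 2) * u ∈ T := by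
    intro t ht u hu
    obtain ⟨y, hy, rfl⟩ := hsqrt u hu
    have := hP7 t ht y hy
    rwa [mul_comm] at this
  -- the rational scalars
  have hk : ∀ c : F, σ c = c → ∀ x ∈ T, c * x ∈ T := by
    intro c hcc x hx
    by_cases hc0 : c = 0
    · subst hc0
      simpa using zero_mem T
    · have h1 : hG hR.toAddRel 7 c ∈ H :=
        hMH (fixL_le_Fx hR hT σ (hG_mem_fixL hR hT σ n7' hcc))
      have h2 : X hR.toAddRel 5 x ∈ H := by
        rw [← mem_RS, h5T]
        exact hx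
      have h3 := H.mul_mem (H.mul_mem h1 h2) (H.inv_mem h1)
      rw [hG_conj hR hT σ hMH n7' n5' hc0] at h3
      have hAd : Ad chevB2 (cr chevB2 7) 5 = 1 := by decide +kernel
      rw [hAd, zpow_one] at h3
      rw [← h5T]
      exact h3
  have h1T : (1 : F) ∈ T := RS_one hR hT σ hMH n7'
  have hfixT : ∀ c : F, σ c = c → c ∈ T := by
    intro c hcc
    simpa using hk c hcc 1 h1T
  -- a non-rational element
  have hnon : ∃ A₀ ∈ T, σ A₀ ≠ A₀ := by
    by_contra hcon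
    push_neg at hcon
    obtain ⟨τ, h1, h2⟩ := exists_top_elt hR hT hT3 σ hMH hHG hTop 2 hne
    simp only [List.map_cons, List.map_nil, W_cons, W_nil, mul_one] at h1 h2
    have h3 := pi_key hR hT σ hMH hc h1
    have h4 : X hR.toAddRel 6 (1 + τ 6) * X hR.toAddRel 7 (τ 7) ∈ H := by
      rw [← X_mul, mul_assoc]
      exact H.mul_mem (RS_one hR hT σ hMH n6') h1
    have h5 := pi_key hR hT σ hMH hc h4
    have h6 : σ (τ 6) = τ 6 := by
      apply alg_key σ (τ 6) (hcon _ h3)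
      rw [add_comm (τ 6) 1]
      exact hcon _ h5
    have h7 : X hR.toAddRel 6 (τ 6) ∈ Fx chevB2 σ := X_mem_Fx hR hT σ n6' h6
    have h8 : X hR.toAddRel 7 (τ 7) ∈ H := (H.mul_mem_cancel_left (hMH h7)).mp h1
    exact h2 (Subgroup.mul_mem _ h7 (X_mem_Fx hR hT σ n7' (hcon _ h8)))
  obtain ⟨A₀, hA₀, hσA⟩ := hnon
  -- the end
  have hall : ∀ x : F, x ∈ T := by
    by_cases hcase : ∃ t ∈ T, σ (t + t ^ 2) ≠ t + t ^ 2
    · obtain ⟨t, ht, hne'⟩ := hcase
      have h1 := Cfsg.Agent.Lib.SubMax.SubF.eq_univ_of_closed (L := {y : F | ∀ x ∈ T, y * x ∈ T}) hq hn hK σ hσ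
        (fun a ha b hb x hx => by
          rw [add_mul]
          exact add_mem (ha x hx) (hb x hx))
        (fun a ha x hx => by
          rw [neg_mul]
          exact neg_mem (ha x hx))
        (fun a ha b hb x hx => by
          rw [mul_assoc]
          exact ha _ (hb x hx))
        (fun c hc' x hx => hk c hc' x hx)
        (A := t + t ^ 2) (fun x hx => hP7' t ht x hx) hne'
      intro x
      simpa using h1 x 1 h1T
    · push_neg at hcase
      have hc₀ := hcase A₀ hA₀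
      set c₀ := A₀ + A₀ ^ 2 with hc₀def
      have hsq : A₀ ^ 2 = A₀ + c₀ := by
        rw [hc₀def]
        linear_combination (-A₀) * h0
      have h1 := Cfsg.Agent.Lib.SubMax.SubF.eq_univ_of_closed
        (L := {z : F | ∃ a b : F, σ a = a ∧ σ b = b ∧ z = a + b * A₀}) hq hn hK σ hσ
        (by
          rintro _ ⟨a, b, ha, hb, rfl⟩ _ ⟨a', b', ha', hb', rfl⟩
          exact ⟨a + a', b + b', by rw [map_add, ha, ha'], by rw [map_add, hb, hb'], by ring⟩)
        (by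
          rintro _ ⟨a, b, ha, hb, rfl⟩
          exact ⟨-a, -b, by rw [map_neg, ha], by rw [map_neg, hb], by ring⟩)
        (by
          rintro _ ⟨a, b, ha, hb, rfl⟩ _ ⟨a', b', ha', hb', rfl⟩
          refine ⟨a * a' + b * b' * c₀, a * b' + a' * b + b * b', ?_, ?_, ?_⟩
          · simp only [map_add, map_mul, ha, hb, ha', hb', hc₀]
          · simp only [map_add, map_mul, ha, hb, ha', hb']
          · linear_combination (b * b') * hsq)
        (fun x hx => ⟨x, 0, hx, map_zero σ, by ring⟩)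
        (A := A₀) ⟨0, 1, map_zero σ, map_one σ, by ring⟩ hσA
      intro x
      obtain ⟨a, b, ha, hb, rfl⟩ := h1 x
      exact add_mem (hfixT a ha) (hk b hb _ hA₀)
  apply eq_G_of_simple hR hT σ hMH hHG
  intro j hj t
  have hj2 : j = 0 ∨ j = 1 := by
    have : chevB2.rank = 2 := by decide +kernel
    omega
  rcases hj2 with rfl | rfl
  · have e : chevB2.simple 0 = 5 := by decide +kernel
    rw [e, h5T]
    exact hall t
  · have e : chevB2.simple 1 = 4 := by decide +kernel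
    rw [e, hL47]
    exact hall t

end Group

end Cfsg.Agent.Lib.SubMax.FinB2
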