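import Mathlib

/-!
# Fields between `F_q` and `F_{q^r}`, `r` prime
-/

set_option autoImplicit false
set_option linter.unusedSectionVars false
set_option linter.unusedVariables false

namespace Cfsg.Agent.Lib.SubMax.SubF

open Polynomial

variable {F : Type*} [Field F] [Fintype F]

/-- The number of solutions of `x ^ q = x` is at most `q`. -/
theorem card_fix_le {q : ℕ} (hq : 1 < q) (S : Finset F) (hS : ∀ x ∈ S, x ^ q = x) : S.card ≤ q := by
  classical
  have hne : (X ^ q - X : F[X]) ≠ 0 := by
    intro h
    have h1 := congrArg Polynomial.natDegree h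
    rw [Polynomial.natDegree_sub_eq_left_of_natDegree_lt (by simpa using hq)] at h1
    simp at h1
    omega
  have hdeg : (X ^ q - X : F[X]).natDegree = q := by
    rw [Polynomial.natDegree_sub_eq_left_of_natDegree_lt (by simpa using hq)]
    simp
  rw [← hdeg]
  apply Polynomial.card_le_degree_of_subset_roots
  intro x hx
  rw [Finset.mem_val] at hx
  rw [Polynomial.mem_roots hne, Polynomial.IsRoot, Polynomial.eval_sub, Polynomial.eval_pow,
    Polynomial.eval_X, hS x hx, sub_self]

/-- The exact number of solutions. -/
theorem exists_fix_finset {q r : ℕ} (hq : 1 < q) (hr : 0 < r) (hK : Fintype.card F = q ^ r) :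
    ∃ S : Finset F, (∀ x, x ∈ S ↔ x ^ q = x) ∧ S.card = q := by
  classical
  refine ⟨Finset.univ.filter fun x => x ^ q = x, by simp, le_antisymm (card_fix_le hq _ (by simp)) ?_⟩
  -- the lower bound from a generator
  obtain ⟨g, hg⟩ := IsCyclic.exists_generator (α := Fˣ)
  have hord : orderOf g = q ^ r - 1 := by
    rw [orderOf_eq_card_of_forall_mem_zpowers hg, Nat.card_eq_fintype_card, Fintype.card_units, hK]
  have hdvd : q - 1 ∣ orderOf g := by
    rw [hord]
    have := Nat.sub_dvd_pow_sub_pow q 1 r
    simpa using this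
  have hq1 : 0 < q - 1 := by omega
  have hpos : orderOf g ≠ 0 := (orderOf_pos g).ne'
  set h := g ^ (orderOf g / (q - 1)) with hh
  have hordh : orderOf h = q - 1 := orderOf_pow_orderOf_div hpos hdvd
  let f : ℕ → F := fun i => ((h ^ i : Fˣ) : F)
  have hinj : Set.InjOn f (Set.Iio (q - 1)) := by
    intro i hi j hj e
    have h1 : h ^ i = h ^ j := Units.ext e
    have h2 := pow_injOn_Iio_orderOf (x := h)
    rw [hordh] at h2
    exact h2 hi hj h1
  have hsub : insert 0 ((Finset.range (q - 1)).image f) ⊆ Finset.univ.filter fun x : F => x ^ q = x := by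
    intro x hx
    rw [Finset.mem_insert, Finset.mem_image] at hx
    rw [Finset.mem_filter]
    refine ⟨Finset.mem_univ _, ?_⟩
    rcases hx with rfl | ⟨i, -, rfl⟩
    · exact zero_pow (by omega)
    · have h3 : (h ^ i) ^ (q - 1) = 1 := by
        rw [← pow_mul, mul_comm, pow_mul, ← hordh, pow_orderOf_eq_one, one_pow]
      have h4 : (h ^ i) ^ q = h ^ i := by
        have : q = (q - 1) + 1 := by omega
        rw [this, pow_succ, h3, one_mul]
      have h5 := congrArg (fun u : Fˣ => (u : F)) h4
      simpa [f] using h5
  have hcard : (insert 0 ((Finset.range (q - 1)).image f)).card = q := by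
    rw [Finset.card_insert_of_notMem, Finset.card_image_of_injOn, Finset.card_range]
    · omega
    · intro i hi j hj e
      exact hinj (by simpa using hi) (by simpa using hj) e
    · rw [Finset.mem_image]
      rintro ⟨i, -, e⟩
      exact (Units.ne_zero (h ^ i)) e
  calc q = _ := hcard.symm
    _ ≤ _ := Finset.card_le_card hsub

/-- A set closed under the field operations, containing the solutions of `x ^ q = x` and one more
element, is everything. -/
theorem eq_univ_of_closed {q r : ℕ} (hq : 1 < q) (hr : r.Prime) (hK : Fintype.card F = q ^ r)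
    (σ : F →+* F) (hσ : ∀ x, σ x = x ^ q) {L : Set F}
    (hadd : ∀ x ∈ L, ∀ y ∈ L, x + y ∈ L) (hneg : ∀ x ∈ L, -x ∈ L) (hmul : ∀ x ∈ L, ∀ y ∈ L, x * y ∈ L)
    (hk : ∀ x : F, σ x = x → x ∈ L) {A : F} (hA : A ∈ L) (hAq : σ A ≠ A) (x : F) : x ∈ L := by
  classical
  have h0 : (0 : F) ∈ L := hk 0 (map_zero σ)
  have h1 : (1 : F) ∈ L := hk 1 (map_one σ)
  have hpow : ∀ (x : F), x ∈ L → ∀ n : ℕ, x ^ n ∈ L := by
    intro x hx n
    induction n with
    | zero => simpa using h1
    | succ n ih =>
      rw [pow_succ]
      exact hmul _ ih _ hx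
  have hinv : ∀ x ∈ L, x⁻¹ ∈ L := by
    intro x hx
    by_cases h : x = 0
    · subst h
      simpa using h0
    · have hc : 1 < Fintype.card F := Fintype.one_lt_card
      have e : x⁻¹ = x ^ (Fintype.card F - 2) := by
        apply inv_eq_of_mul_eq_one_right
        rw [← pow_succ']
        have : Fintype.card F - 2 + 1 = Fintype.card F - 1 := by omega
        rw [this, FiniteField.pow_card_sub_one_eq_one x h]
      rw [e]
      exact hpow x hx _
  let E : Subfield F :=
    { carrier := L
      mul_mem' := fun {a b} ha hb => hmul a ha b hb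
      one_mem' := h1
      add_mem' := fun {a b} ha hb => hadd a ha b hb
      zero_mem' := h0
      neg_mem' := fun {a} ha => hneg a ha
      inv_mem' := fun a ha => hinv a ha }
  have hmemE : ∀ y, y ∈ E ↔ y ∈ L := fun y => Iff.rfl
  obtain ⟨S, hS, hScard⟩ := exists_fix_finset hq hr.pos hK
  let k₀ : Subfield E := (σ.comp E.subtype).eqLocusField E.subtype
  have hk₀ : ∀ y : E, y ∈ k₀ ↔ σ (y : F) = y := fun y => Iff.rfl
  have hcardk : Nat.card k₀ = q := by
    have e : k₀ ≃ {y // y ∈ S} :=
      { toFun := fun y => ⟨((y : E) : F), by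
          rw [hS, ← hσ]
          exact (hk₀ y).1 y.2⟩
        invFun := fun y => ⟨⟨(y : F), by
            have hy : σ (y : F) = y := by rw [hσ]; exact (hS _).1 y.2
            exact hk _ hy⟩, by
            have hy : σ (y : F) = y := by rw [hσ]; exact (hS _).1 y.2
            exact (hk₀ _).2 hy⟩
        left_inv := fun y => by
          apply Subtype.ext
          apply Subtype.ext
          rfl
        right_inv := fun y => by
          apply Subtype.ext
          rfl }
    rw [Nat.card_congr e, Nat.card_eq_fintype_card, Fintype.card_coe, hScard]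
  have h1E : Nat.card E = q ^ Module.finrank k₀ E := by
    rw [Module.natCard_eq_pow_finrank (K := k₀) (V := E), hcardk]
  have h2E : Nat.card F = Nat.card E ^ Module.finrank E F :=
    Module.natCard_eq_pow_finrank (K := E) (V := F)
  have hFc : Nat.card F = q ^ r := by rw [Nat.card_eq_fintype_card, hK]
  have hd : Module.finrank k₀ E * Module.finrank E F = r := by
    rw [h1E, ← pow_mul, hFc] at h2E
    exact (Nat.pow_right_injective hq h2E).symm
  have hcases := (Nat.dvd_prime hr).1 ⟨_, hd.symm⟩
  rcases hcases with h | h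
  · -- `E` is the fixed field
    exfalso
    rw [h] at h1E
    have hAE : (⟨A, hA⟩ : E) ∉ k₀ := by
      rw [hk₀]
      exact hAq
    have : k₀ = ⊤ := by
      have hb : Function.Injective (Subtype.val : k₀ → E) := Subtype.val_injective
      have hcardeq : Nat.card k₀ = Nat.card E := by rw [hcardk, h1E, pow_one]
      have hsurj : Function.Surjective (Subtype.val : k₀ → E) :=
        (Nat.bijective_iff_injective_and_card _).2 ⟨hb, hcardeq⟩ |>.2
      rw [eq_top_iff]
      intro y _
      obtain ⟨y', rfl⟩ := hsurj y
      exact y'.2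
    exact hAE (this ▸ Subfield.mem_top _)
  · -- `E` is everything
    have h3 : Module.finrank E F = 1 := by
      rw [h] at hd
      exact Nat.eq_of_mul_eq_mul_left hr.pos (by rw [hd, mul_one])
    rw [h3, pow_one] at h2E
    have hsurj : Function.Surjective (Subtype.val : E → F) :=
      (Nat.bijective_iff_injective_and_card _).2 ⟨Subtype.val_injective, h2E.symm⟩ |>.2
    obtain ⟨y, rfl⟩ := hsurj x
    exact y.2

end Cfsg.Agent.Lib.SubMax.SubF
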