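import Cfsg.Agent.Lib.SubMax.TopElt
import Cfsg.Agent.Lib.SubMax.SubF

/-!
# From a non-rational root element to the whole group

`RS hA H r` is the additive group of the parameters `t` with `x_r(t) ∈ H`.
-/

set_option autoImplicit false
set_option linter.unusedSectionVars false

namespace Cfsg.Agent.Lib.SubMax.Gen

open Cfsg.Lie Cfsg.Agent.Lib.ChevBN.Elem Cfsg.Agent.Lib.ChevBN.Entries Cfsg.Agent.Lib.ChevBN.Table
open Cfsg.Agent.Lib.ChevBN.Collect Cfsg.Agent.Lib.ChevBN.Rel Cfsg.Agent.Lib.ChevBN.Torus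
open Cfsg.Agent.Lib.ChevBN.Monomial Cfsg.Agent.Lib.ChevBN.Core Cfsg.Agent.Lib.ChevBN.Pair
open Cfsg.Agent.Lib.ChevBN.Stmts Cfsg.Agent.Lib.ChevBN.Levi Cfsg.Agent.Lib.ChevBN.Fix
open Cfsg.Agent.Lib.SubMax.Fx Cfsg.Agent.Lib.SubMax.Orbit Cfsg.Agent.Lib.SubMax.TopElt

variable {D : ChevalleyDatum} {F : Type*} [Field F] {η : ℕ → ℕ → ℤ}

/-- The parameters of a root in a subgroup. -/
def RS (hA : AddRel D F) (H : Subgroup (GL D.Idx F)) (r : ℕ) : AddSubgroup F where
  carrier := {t | X hA r t ∈ H}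
  zero_mem' := by
    show X hA r 0 ∈ H
    rw [X_zero]
    exact H.one_mem
  add_mem' := by
    intro a b ha hb
    show X hA r (a + b) ∈ H
    rw [← X_mul]
    exact H.mul_mem ha hb
  neg_mem' := by
    intro a ha
    show X hA r (-a) ∈ H
    rw [← X_inv]
    exact H.inv_mem ha

theorem mem_RS {hA : AddRel D F} {H : Subgroup (GL D.Idx F)} {r : ℕ} {t : F} :
    t ∈ RS hA H r ↔ X hA r t ∈ H := Iff.rfl

/-- A word of reflections from `a` to `b`. -/
def Link (D : ChevalleyDatum) (a b : ℕ) : Prop :=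
  ∃ w : List ℕ, (∀ q ∈ w, q < D.rank) ∧ w.foldr D.reflectRoot a = b

theorem Link.refl (D : ChevalleyDatum) (a : ℕ) : Link D a a := ⟨[], by simp, rfl⟩

/-- Multiples of an element of an additive group by integers. -/
theorem int_mul_mem (S : AddSubgroup F) (N : ℤ) {x : F} (hx : x ∈ S) : (N : F) * x ∈ S := by
  rw [← zsmul_eq_mul]
  exact zsmul_mem hx N

theorem exists_nat_inv (p : ℕ) [hp : Fact p.Prime] [CharP F p] {N : ℤ} (hN : (N : F) ≠ 0) :
    ∃ m : ℕ, (m : F) * (N : F) = 1 := by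
  let f : ZMod p →+* F := ZMod.castHom (dvd_refl p) F
  have hf : f (N : ZMod p) = (N : F) := map_intCast f N
  have hne : (N : ZMod p) ≠ 0 := by
    intro h
    rw [h, map_zero] at hf
    exact hN hf.symm
  refine ⟨((N : ZMod p)⁻¹).val, ?_⟩
  have h1 : (((N : ZMod p)⁻¹).val : F) = f ((N : ZMod p)⁻¹) := by
    rw [ZMod.natCast_val]
    rfl
  rw [h1, ← hf, ← map_mul, inv_mul_cancel₀ hne, map_one]

theorem mem_of_unit_mul (p : ℕ) [hp : Fact p.Prime] [CharP F p] (S : AddSubgroup F) {N : ℤ}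
    (hN : (N : F) ≠ 0) {x : F} (h : (N : F) * x ∈ S) : x ∈ S := by
  obtain ⟨m, hm⟩ := exists_nat_inv p hN
  have h1 := nsmul_mem h m
  rwa [nsmul_eq_mul, ← mul_assoc, hm, one_mul] at h1

section Generic

variable (hR : Sys D F η) (hT : Tbl D) (σ : F →+* F)
variable {H : Subgroup (GL D.Idx F)} (hMH : Fx D σ ≤ H) (hHG : H ≤ D.group F)
include hR hT hMH

theorem RS_fix {r : ℕ} (hr : r < D.nroots) {t : F} (ht : σ t = t) : t ∈ RS hR.toAddRel H r :=
  hMH (X_mem_Fx hR hT σ hr ht)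

theorem RS_one {r : ℕ} (hr : r < D.nroots) : (1 : F) ∈ RS hR.toAddRel H r :=
  RS_fix hR hT σ hMH hr (map_one σ)

theorem RS_reflect_le {q r : ℕ} (hq : q < D.rank) (hr : r < D.nroots) :
    RS hR.toAddRel H r ≤ RS hR.toAddRel H (D.reflectRoot q r) := by
  intro t ht
  have hA : A hR q ∈ H := hMH (A_mem_Fx hR hT σ hq)
  have h1 : A hR q * X hR.toAddRel r t * (A hR q)⁻¹ ∈ H := H.mul_mem (H.mul_mem hA ht) (H.inv_mem hA)
  rw [A_conj_X hR hq hr t] at h1
  rcases hR.eta_sign q hq r hr with h | h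
  · rw [h] at h1
    rw [mem_RS]
    simpa using h1
  · rw [h] at h1
    have h2 : -t ∈ RS hR.toAddRel H (D.reflectRoot q r) := by
      rw [mem_RS]
      simpa using h1
    simpa using neg_mem h2

theorem RS_reflect_eq {q r : ℕ} (hq : q < D.rank) (hr : r < D.nroots) :
    RS hR.toAddRel H (D.reflectRoot q r) = RS hR.toAddRel H r := by
  apply le_antisymm
  · have h1 := RS_reflect_le hR hT σ hMH hq (hT.w_lt q hq r hr)
    rwa [hT.w_w q hq r hr] at h1
  · exact RS_reflect_le hR hT σ hMH hq hr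

theorem RS_link {a b : ℕ} (ha : a < D.nroots) (h : Link D a b) :
    RS hR.toAddRel H a = RS hR.toAddRel H b := by
  obtain ⟨w, hw, rfl⟩ := h
  have key : ∀ w : List ℕ, (∀ q ∈ w, q < D.rank) →
      w.foldr D.reflectRoot a < D.nroots ∧
        RS hR.toAddRel H a = RS hR.toAddRel H (w.foldr D.reflectRoot a) := by
    intro w
    induction w with
    | nil => intro _; exact ⟨ha, rfl⟩
    | cons q w ih =>
      intro hw
      obtain ⟨h1, h2⟩ := ih (fun q' hq' => hw q' (List.mem_cons_of_mem _ hq'))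
      have hq := hw q (by simp)
      simp only [List.foldr_cons]
      exact ⟨hT.w_lt q hq _ h1, by rw [RS_reflect_eq hR hT σ hMH hq h1, h2]⟩
  exact (key w hw).2

/-- A property of the groups of the simple roots holds for all roots. -/
theorem RS_all {P : AddSubgroup F → Prop} (h : ∀ j < D.rank, P (RS hR.toAddRel H (D.simple j)))
    {r : ℕ} (hr : r < D.nroots) : P (RS hR.toAddRel H r) := by
  have key : ∀ r, Reach D Set.univ r → P (RS hR.toAddRel H r) := by
    intro r hr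
    induction hr with
    | base _ hl => exact h _ hl
    | @step q r' _ hl hr' ih =>
      rw [RS_reflect_eq hR hT σ hMH hl (hr'.lt hT)]
      exact ih
  exact key r (reach_univ hT hr)

include hHG in
/-- All the simple root groups in `H` give everything. -/
theorem eq_G_of_simple (h : ∀ j < D.rank, ∀ t, t ∈ RS hR.toAddRel H (D.simple j)) : H = D.group F := by
  apply le_antisymm hHG
  rw [group_eq hR.toAddRel]
  apply gen_le
  intro r hr t
  exact RS_all hR hT σ hMH (P := fun S => ∀ t, t ∈ S) h hr t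

/-- Additive group, ring: all of `F`. -/
theorem full_of_mul {q n : ℕ} (hq : 1 < q) (hn : n.Prime) [Fintype F] (hK : Fintype.card F = q ^ n)
    (hσ : ∀ x, σ x = x ^ q) {r : ℕ} (hr : r < D.nroots)
    (hmul : ∀ x ∈ RS hR.toAddRel H r, ∀ y ∈ RS hR.toAddRel H r, x * y ∈ RS hR.toAddRel H r)
    {A₀ : F} (hA : A₀ ∈ RS hR.toAddRel H r) (hAq : σ A₀ ≠ A₀) (x : F) : x ∈ RS hR.toAddRel H r :=
  Cfsg.Agent.Lib.SubMax.SubF.eq_univ_of_closed (L := (RS hR.toAddRel H r : Set F)) hq hn hK σ hσ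
    (fun _ hx _ hy => add_mem hx hy) (fun _ hx => neg_mem hx) hmul
    (fun _ hx => RS_fix hR hT σ hMH hr hx) hA hAq x

/-- The conjugate of a root element by a torus element. -/
theorem hG_conj {l s : ℕ} (hl : l < D.nroots) (hs : s < D.nroots) {c : F} (hc : c ≠ 0) (t : F) :
    hG hR.toAddRel l c * X hR.toAddRel s t * (hG hR.toAddRel l c)⁻¹ =
      X hR.toAddRel s (c ^ (Ad D (cr D l) s) * t) := by
  rw [hG_eq_hP hR hT hl hc, hP_conj hR (fun j _ => zpow_ne_zero _ hc) hs t, chi_pow hc]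

theorem hG_mem {l : ℕ} (hl : ∀ t, t ∈ RS hR.toAddRel H l) (hl' : ∀ t, t ∈ RS hR.toAddRel H (D.neg l)) (c : F) :
    hG hR.toAddRel l c ∈ H := by
  have hn : ∀ c : F, nG hR.toAddRel l c ∈ H := fun c =>
    H.mul_mem (H.mul_mem (hl _) (hl' _)) (hl _)
  exact H.mul_mem (hn _) (hn _)

/-- A torus element of a full root group gives every parameter. -/
theorem full_of_torus {l s : ℕ} (hl₀ : l < D.nroots) (hs : s < D.nroots)
    (hl : ∀ t, t ∈ RS hR.toAddRel H l) (hl' : ∀ t, t ∈ RS hR.toAddRel H (D.neg l))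
    (hAd : Ad D (cr D l) s = -1) (t : F) : t ∈ RS hR.toAddRel H s := by
  by_cases ht : t = 0
  · subst ht
    exact zero_mem _
  have hc : t⁻¹ ≠ 0 := inv_ne_zero ht
  have h1 : hG hR.toAddRel l t⁻¹ * X hR.toAddRel s 1 * (hG hR.toAddRel l t⁻¹)⁻¹ ∈ H :=
    H.mul_mem (H.mul_mem (hG_mem hR hT σ hMH hl hl' _) (RS_one hR hT σ hMH hs))
      (H.inv_mem (hG_mem hR hT σ hMH hl hl' _))
  rw [hG_conj hR hT σ hMH hl₀ hs hc, hAd] at h1
  rw [mem_RS]
  simpa using h1

/-- A torus element of a full root group gives all `p`-th powers, hence every parameter. -/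
theorem full_of_torus_pow [Fintype F] (p : ℕ) [hp : Fact p.Prime] [CharP F p] {l s : ℕ} (hl₀ : l < D.nroots)
    (hs : s < D.nroots) (hl : ∀ t, t ∈ RS hR.toAddRel H l) (hl' : ∀ t, t ∈ RS hR.toAddRel H (D.neg l))
    (hAd : Ad D (cr D l) s = -(p : ℤ)) (t : F) : t ∈ RS hR.toAddRel H s := by
  by_cases ht : t = 0
  · subst ht
    exact zero_mem _
  obtain ⟨c, hc⟩ := (bijective_frobenius F p).2 t
  rw [frobenius_def] at hc
  have hc0 : c ≠ 0 := by
    rintro rfl
    rw [zero_pow hp.out.ne_zero] at hc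
    exact ht hc.symm
  have hc' : c⁻¹ ≠ 0 := inv_ne_zero hc0
  have h1 : hG hR.toAddRel l c⁻¹ * X hR.toAddRel s 1 * (hG hR.toAddRel l c⁻¹)⁻¹ ∈ H :=
    H.mul_mem (H.mul_mem (hG_mem hR hT σ hMH hl hl' _) (RS_one hR hT σ hMH hs))
      (H.inv_mem (hG_mem hR hT σ hMH hl hl' _))
  rw [hG_conj hR hT σ hMH hl₀ hs hc', hAd] at h1
  rw [mem_RS]
  simpa [← hc, zpow_neg] using h1

variable {hA : AddRel D F}

/-- The word of a commutator. -/
theorem comm_mem_of {r s : ℕ} (hc : CommG hR.toAddRel) (hr : r < D.nroots) (hs : s < D.nroots) (hsr : s ≠ r)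
    (hsn : s ≠ D.neg r) {t u : F} (ht : X hR.toAddRel r t ∈ H) (hu : X hR.toAddRel s u ∈ H) :
    W hR.toAddRel (D.commWord F r s t u) ∈ H := by
  have h1 := hc r hr s hs hsr hsn t u
  have h2 : W hR.toAddRel (D.commWord F r s t u) =
      (X hR.toAddRel r t * X hR.toAddRel s u)⁻¹ * (X hR.toAddRel s u * X hR.toAddRel r t) := by
    rw [h1]
    group
  rw [h2]
  exact H.mul_mem (H.inv_mem (H.mul_mem ht hu)) (H.mul_mem hu ht)

/-- The word of a commutator with one term surviving. -/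
theorem word_lead {r s q : ℕ} {N : ℤ} {rest : List (ℕ × ℤ × ℕ × ℕ)}
    (h : D.commTerms r s = (q, N, 1, 1) :: rest) (hrest : ∀ c ∈ rest, (c.2.1 : F) = 0) (t u : F) :
    W hR.toAddRel (D.commWord F r s t u) = X hR.toAddRel q ((N : F) * (-t) * u) := by
  rw [ChevalleyDatum.commWord, h, List.map_cons, W_cons]
  have key : ∀ l : List (ℕ × ℤ × ℕ × ℕ), (∀ c ∈ l, (c.2.1 : F) = 0) →
      W hR.toAddRel (l.map fun c => (c.1, (c.2.1 : F) * (-t) ^ c.2.2.1 * u ^ c.2.2.2)) = 1 := by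
    intro l
    induction l with
    | nil => intro _; rfl
    | cons b l ih =>
      intro hl
      rw [List.map_cons, W_cons, ih (fun c hc => hl c (List.mem_cons_of_mem _ hc))]
      rw [hl b (by simp)]
      simp
  rw [key _ hrest, mul_one]
  simp

/-- Products of parameters from a commutator. -/
theorem mul_closed (p : ℕ) [hp : Fact p.Prime] [CharP F p] {r s q : ℕ} (hc : CommG hR.toAddRel)
    (hr : r < D.nroots) (hs : s < D.nroots) (hsr : s ≠ r) (hsn : s ≠ D.neg r) {N : ℤ}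
    {rest : List (ℕ × ℤ × ℕ × ℕ)} (h : D.commTerms r s = (q, N, 1, 1) :: rest) (hN : (N : F) ≠ 0)
    (hrest : ∀ c ∈ rest, (c.2.1 : F) = 0) {x y : F} (hx : x ∈ RS hR.toAddRel H r)
    (hy : y ∈ RS hR.toAddRel H s) : x * y ∈ RS hR.toAddRel H q := by
  have h1 := comm_mem_of hR hT σ hMH hc hr hs hsr hsn hx hy
  rw [word_lead hR hT σ hMH h hrest] at h1
  have h2 : (N : F) * (-(x * y)) ∈ RS hR.toAddRel H q := by
    rw [mem_RS]
    convert h1 using 2
    ring
  exact neg_mem_iff.mp (mem_of_unit_mul p _ hN h2)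

end Generic

end Cfsg.Agent.Lib.SubMax.Gen
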