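import Cfsg.Agent.Lib.SubMax.TopB

/-!
# Root parameters of a subgroup containing a generated subgroup
-/

set_option autoImplicit false
set_option linter.unusedSectionVars false
set_option linter.style.haveILetI false

namespace Cfsg.Agent.Lib.SubMax.Gen2

open Cfsg.Lie Cfsg.Agent.Lib.ChevBN.Elem Cfsg.Agent.Lib.ChevBN.Entries Cfsg.Agent.Lib.ChevBN.Table
open Cfsg.Agent.Lib.ChevBN.Collect Cfsg.Agent.Lib.ChevBN.Rel Cfsg.Agent.Lib.ChevBN.Torus
open Cfsg.Agent.Lib.ChevBN.Monomial Cfsg.Agent.Lib.ChevBN.Core Cfsg.Agent.Lib.ChevBN.Pair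
open Cfsg.Agent.Lib.ChevBN.Stmts Cfsg.Agent.Lib.ChevBN.Levi Cfsg.Agent.Lib.ChevBN.Fix
open Cfsg.Agent.Lib.SubMax.Fx Cfsg.Agent.Lib.SubMax.Orbit Cfsg.Agent.Lib.SubMax.TopElt
open Cfsg.Agent.Lib.SubMax.Gen Cfsg.Agent.Lib.SubMax.Fin Cfsg.Agent.Lib.SubMax.Tab

variable {D : ChevalleyDatum} {F : Type*} [Field F] {η : ℕ → ℕ → ℤ}

section Generic

variable (hR : Sys D F η) (hT : Tbl D) (σ : F →+* F)
variable {H : Subgroup (GL D.Idx F)} (hMH : fixL hR σ ≤ H) (hHG : H ≤ D.group F)
include hR hT hMH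

theorem RS_fix' {r : ℕ} (hr : r < D.nroots) {t : F} (ht : σ t = t) : t ∈ RS hR.toAddRel H r :=
  hMH (X_mem_fixL hR σ hr ht)

theorem RS_one' {r : ℕ} (hr : r < D.nroots) : (1 : F) ∈ RS hR.toAddRel H r :=
  RS_fix' hR hT σ hMH hr (map_one σ)

theorem RS_reflect_le' {q r : ℕ} (hq : q < D.rank) (hr : r < D.nroots) :
    RS hR.toAddRel H r ≤ RS hR.toAddRel H (D.reflectRoot q r) := by
  intro t ht
  have hA : A hR q ∈ H := hMH (A_mem_fixL hR hT σ hq)
  have h1 : A hR q * X hR.toAddRel r t * (A hR q)⁻¹ ∈ H := H.mul_mem (H.mul_mem hA ht) (H.inv_mem hA)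
  rw [A_conj_X hR hq hr t] at h1
  rcases hR.eta_sign q hq r hr with h | h
  · rw [h] at h1
    rw [mem_RS]
    simpa using h1
  · rw [h] at h1
    have h2 : -t ∈ RS hR.toAddRel H (D.reflectRoot q r) := by
      rw [mem_RS]
      simpa using h1
    simpa using neg_mem h2

theorem RS_reflect_eq' {q r : ℕ} (hq : q < D.rank) (hr : r < D.nroots) :
    RS hR.toAddRel H (D.reflectRoot q r) = RS hR.toAddRel H r := by
  apply le_antisymm
  · have h1 := RS_reflect_le' hR hT σ hMH hq (hT.w_lt q hq r hr)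
    rwa [hT.w_w q hq r hr] at h1
  · exact RS_reflect_le' hR hT σ hMH hq hr

theorem RS_link' {a b : ℕ} (ha : a < D.nroots) (h : Link D a b) :
    RS hR.toAddRel H a = RS hR.toAddRel H b := by
  obtain ⟨w, hw, rfl⟩ := h
  have key : ∀ w : List ℕ, (∀ q ∈ w, q < D.rank) →
      w.foldr D.reflectRoot a < D.nroots ∧
        RS hR.toAddRel H a = RS hR.toAddRel H (w.foldr D.reflectRoot a) := by
    intro w
    induction w with
    | nil => intro _; exact ⟨ha, rfl⟩
    | cons q w ih =>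
      intro hw
      obtain ⟨h1, h2⟩ := ih (fun q' hq' => hw q' (List.mem_cons_of_mem _ hq'))
      have hq := hw q (by simp)
      simp only [List.foldr_cons]
      exact ⟨hT.w_lt q hq _ h1, by rw [RS_reflect_eq' hR hT σ hMH hq h1, h2]⟩
  exact (key w hw).2

/-- A property of the groups of the simple roots holds for all roots. -/
theorem RS_all' {P : AddSubgroup F → Prop} (h : ∀ j < D.rank, P (RS hR.toAddRel H (D.simple j)))
    {r : ℕ} (hr : r < D.nroots) : P (RS hR.toAddRel H r) := by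
  have key : ∀ r, Reach D Set.univ r → P (RS hR.toAddRel H r) := by
    intro r hr
    induction hr with
    | base _ hl => exact h _ hl
    | @step q r' _ hl hr' ih =>
      rw [RS_reflect_eq' hR hT σ hMH hl (hr'.lt hT)]
      exact ih
  exact key r (reach_univ hT hr)

/-- The conjugate of a root element by a torus element. -/
theorem hG_conj' {l s : ℕ} (hl : l < D.nroots) (hs : s < D.nroots) {c : F} (hc : c ≠ 0) (t : F) :
    hG hR.toAddRel l c * X hR.toAddRel s t * (hG hR.toAddRel l c)⁻¹ =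
      X hR.toAddRel s (c ^ (Ad D (cr D l) s) * t) := by
  rw [hG_eq_hP hR hT hl hc, hP_conj hR (fun j _ => zpow_ne_zero _ hc) hs t, chi_pow hc]

variable {hA : AddRel D F}

/-- The word of a commutator. -/
theorem comm_mem_of' {r s : ℕ} (hc : CommG hR.toAddRel) (hr : r < D.nroots) (hs : s < D.nroots) (hsr : s ≠ r)
    (hsn : s ≠ D.neg r) {t u : F} (ht : X hR.toAddRel r t ∈ H) (hu : X hR.toAddRel s u ∈ H) :
    W hR.toAddRel (D.commWord F r s t u) ∈ H := by
  have h1 := hc r hr s hs hsr hsn t u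
  have h2 : W hR.toAddRel (D.commWord F r s t u) =
      (X hR.toAddRel r t * X hR.toAddRel s u)⁻¹ * (X hR.toAddRel s u * X hR.toAddRel r t) := by
    rw [h1]
    group
  rw [h2]
  exact H.mul_mem (H.inv_mem (H.mul_mem ht hu)) (H.mul_mem hu ht)

/-- The word of a commutator with one term surviving. -/
theorem word_lead' {r s q : ℕ} {N : ℤ} {rest : List (ℕ × ℤ × ℕ × ℕ)}
    (h : D.commTerms r s = (q, N, 1, 1) :: rest) (hrest : ∀ c ∈ rest, (c.2.1 : F) = 0) (t u : F) :
    W hR.toAddRel (D.commWord F r s t u) = X hR.toAddRel q ((N : F) * (-t) * u) := by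
  rw [ChevalleyDatum.commWord, h, List.map_cons, W_cons]
  have key : ∀ l : List (ℕ × ℤ × ℕ × ℕ), (∀ c ∈ l, (c.2.1 : F) = 0) →
      W hR.toAddRel (l.map fun c => (c.1, (c.2.1 : F) * (-t) ^ c.2.2.1 * u ^ c.2.2.2)) = 1 := by
    intro l
    induction l with
    | nil => intro _; rfl
    | cons b l ih =>
      intro hl
      rw [List.map_cons, W_cons, ih (fun c hc => hl c (List.mem_cons_of_mem _ hc))]
      rw [hl b (by simp)]
      simp
  rw [key _ hrest, mul_one]
  simp

/-- Products of parameters from a commutator. -/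
theorem mul_closed' (p : ℕ) [hp : Fact p.Prime] [CharP F p] {r s q : ℕ} (hc : CommG hR.toAddRel)
    (hr : r < D.nroots) (hs : s < D.nroots) (hsr : s ≠ r) (hsn : s ≠ D.neg r) {N : ℤ}
    {rest : List (ℕ × ℤ × ℕ × ℕ)} (h : D.commTerms r s = (q, N, 1, 1) :: rest) (hN : (N : F) ≠ 0)
    (hrest : ∀ c ∈ rest, (c.2.1 : F) = 0) {x y : F} (hx : x ∈ RS hR.toAddRel H r)
    (hy : y ∈ RS hR.toAddRel H s) : x * y ∈ RS hR.toAddRel H q := by
  have h1 := comm_mem_of' hR hT σ hMH hc hr hs hsr hsn hx hy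
  rw [word_lead' hR hT σ hMH h hrest] at h1
  have h2 : (N : F) * (-(x * y)) ∈ RS hR.toAddRel H q := by
    rw [mem_RS]
    convert h1 using 2
    ring
  exact neg_mem_iff.mp (mem_of_unit_mul p _ hN h2)


/-- A torus element with parameter in a root group. -/
theorem hG_mem' {l : ℕ} (hl : l < D.nroots) {c : F} (hc : c ∈ RS hR.toAddRel H l)
    (hci : c⁻¹ ∈ RS hR.toAddRel H l) (hneg : RS hR.toAddRel H (D.neg l) = RS hR.toAddRel H l) :
    hG hR.toAddRel l c ∈ H := by
  have hn : ∀ c : F, c ∈ RS hR.toAddRel H l → c⁻¹ ∈ RS hR.toAddRel H l → nG hR.toAddRel l c ∈ H := by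
    intro c h1 h2
    have h3 : -c⁻¹ ∈ RS hR.toAddRel H (D.neg l) := by
      rw [hneg]
      exact neg_mem h2
    exact H.mul_mem (H.mul_mem h1 h3) h1
  have h1 := RS_one' hR hT σ hMH hl
  exact H.mul_mem (hn c hc hci) (hn (-1) (neg_mem h1) (by simpa using neg_mem h1))

/-- The groups of a root and its negative agree. -/
theorem RS_neg {j : ℕ} (hj : j < D.rank) :
    RS hR.toAddRel H (D.neg (D.simple j)) = RS hR.toAddRel H (D.simple j) := by
  rw [← hT.w_simple j hj]
  exact RS_reflect_eq' hR hT σ hMH hj (hT.simple_lt hj)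

end Generic

end Cfsg.Agent.Lib.SubMax.Gen2
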