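import Cfsg.Agent.Lib.SubMax.Fx
import Cfsg.Agent.Lib.ChevOrder.WeylIso

/-!
# Rationality with generated subgroups; the Sylow `p`-subgroups of the fixed points
-/

set_option autoImplicit false
set_option linter.unusedSectionVars false

namespace Cfsg.Agent.Lib.SubMax.KFx

open Cfsg.Lie Cfsg.Agent.Lib.ChevBN.Elem Cfsg.Agent.Lib.ChevBN.Entries Cfsg.Agent.Lib.ChevBN.Table
open Cfsg.Agent.Lib.ChevBN.Collect Cfsg.Agent.Lib.ChevBN.Rel Cfsg.Agent.Lib.ChevBN.Torus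
open Cfsg.Agent.Lib.ChevBN.Monomial Cfsg.Agent.Lib.ChevBN.Core Cfsg.Agent.Lib.ChevBN.Pair
open Cfsg.Agent.Lib.ChevBN.Stmts Cfsg.Agent.Lib.ChevBN.BruhatForm Cfsg.Agent.Lib.ChevBN.Fix
open Cfsg.Agent.Lib.ChevBN.Levi
open Cfsg.Agent.Lib.ChevOrder.Chev
open Cfsg.Agent.Lib.BNPair.Basic Cfsg.Agent.Lib.BNPair.Parabolic
open Cfsg.Agent.Lib.SubMax.BNMin Cfsg.Agent.Lib.SubMax.Fx

set_option linter.dupNamespace false

variable {D : ChevalleyDatum} {F : Type*} [Field F] {η : ℕ → ℕ → ℤ}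
variable (hR : Sys D F η) (hT : Tbl D) (σ : F →+* F)
include hR hT

/-- Rationality modulo the Borel subgroup. -/
theorem exists_rat_B' {g : GL D.Idx F} (hg : g ∈ D.group F)
    (h : g⁻¹ * mapG D σ g ∈ D.borelSubgroup F) :
    ∃ m ∈ fixL hR σ, ∃ b ∈ D.borelSubgroup F, g = m * b := by
  have hNJN : NJ hR Set.univ ≤ D.monomialSubgroup F := by
    rw [monomial_eq hR hT]
    exact le_sup_right
  obtain ⟨b, hb, n, hn, u, hu, e⟩ := normal_form_exists hR hT (Subgroup.inv_mem _ hg)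
  obtain ⟨k, hk, n₀, hn₀, a, w, rfl, hw, ha, rfl⟩ := exists_rat_form hR hT hn (Un_le_U hR hT _ hu)
  set b₁ := b * k * (n₀ * a * n₀⁻¹) with hb₁
  have hb₁B : b₁ ∈ D.borelSubgroup F :=
    Subgroup.mul_mem _ (Subgroup.mul_mem _ hb (H_le_B hR hT hk)) (U_le_B hR hT ha)
  have e1 : g⁻¹ = b₁ * n₀ * w := by
    rw [e, hb₁]
    group
  have hn₀fix : mapG D σ n₀ = n₀ := fix_of_mem_fixL hR σ (NJ_le_fixL hR hT σ hn₀)
  set c := g⁻¹ * mapG D σ g with hc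
  have e2 : mapG D σ g⁻¹ = c⁻¹ * g⁻¹ := by
    rw [hc, map_inv]
    group
  have e3 : mapG D σ b₁ * n₀ * mapG D σ w = (c⁻¹ * b₁) * n₀ * w := by
    have h1 := e2
    rw [e1, map_mul, map_mul, hn₀fix] at h1
    rw [h1]
    group
  obtain ⟨-, h3⟩ := normal_form_unique hR hT (mapG_B hR hT σ hb₁B)
    (Subgroup.mul_mem _ (Subgroup.inv_mem _ h) hb₁B) (hNJN hn₀) (hNJN hn₀)
    (mapG_Un hR hT σ hw) hw e3
  obtain ⟨-, h5⟩ := h3 rfl
  have hwU := Un_le_U hR hT _ hw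
  refine ⟨w⁻¹ * n₀⁻¹, ?_, b₁⁻¹, Subgroup.inv_mem _ hb₁B, ?_⟩
  · refine Subgroup.mul_mem _ (Subgroup.inv_mem _ (fix_U hR hT σ hwU h5)) ?_
    exact Subgroup.inv_mem _ (NJ_le_fixL hR hT σ hn₀)
  · have : g = (g⁻¹)⁻¹ := by group
    rw [this, e1]
    group

/-- Rationality modulo a standard parabolic subgroup. -/
theorem exists_rat_P' (J : Set ℕ) {g : GL D.Idx F} (hg : g ∈ D.group F)
    (h : g⁻¹ * mapG D σ g ∈ D.parabolicSubgroup F J) :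
    ∃ m ∈ fixL hR σ, ∃ p ∈ D.parabolicSubgroup F J, g = m * p := by
  have hPG := parabolic_le_G hR hT J
  have hBP : D.borelSubgroup F ≤ D.parabolicSubgroup F J := by
    rw [parabolic_eq hR hT]
    exact le_sup_left
  let Q : Subgroup ↥(D.group F) := (D.parabolicSubgroup F J).subgroupOf (D.group F)
  have hQ : (pair hR hT).B ≤ Q := by
    intro b hb
    rw [Subgroup.mem_subgroupOf]
    exact hBP ((mem_PB hR hT).1 hb)
  let e : ↥(D.group F) := ⟨g⁻¹, Subgroup.inv_mem _ hg⟩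
  obtain ⟨p, hp, n, hn, hpe, hmin⟩ := exists_min_rep Q hQ e
  have hpP : (p : GL D.Idx F) ∈ D.parabolicSubgroup F J := Subgroup.mem_subgroupOf.mp hp
  have hnN := (mem_PN hR hT).1 hn
  -- the element `e₁ = p * e`
  obtain ⟨b₁, hb₁, b₂, hb₂, e₁⟩ := mem_C.mp hpe
  have hb₁B := (mem_PB hR hT).1 hb₁
  have hb₂B := (mem_PB hR hT).1 hb₂
  obtain ⟨k, hk, n₀, hn₀, a, w, en, -, -, -⟩ := exists_rat_form hR hT hnN (Subgroup.one_mem _)
  have hn₀fix : mapG D σ n₀ = n₀ := fix_of_mem_fixL hR σ (NJ_le_fixL hR hT σ hn₀)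
  set x : GL D.Idx F := (p : GL D.Idx F) * g⁻¹ with hx
  have hxG : x ∈ D.group F := Subgroup.mul_mem _ p.2 (Subgroup.inv_mem _ hg)
  have hxv : ((p * e : ↥(D.group F)) : GL D.Idx F) = x := rfl
  have e₁' : x = (b₁ : GL D.Idx F) * (n : GL D.Idx F) * (b₂ : GL D.Idx F) := by
    have := congrArg Subtype.val e₁
    simpa only [Subgroup.coe_mul] using this
  -- `σ x ∈ C n`
  have hσx : mapG D σ x = (mapG D σ (b₁ : GL D.Idx F) * mapG D σ k * k⁻¹) * (n : GL D.Idx F) *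
      mapG D σ (b₂ : GL D.Idx F) := by
    rw [e₁', map_mul, map_mul, en, map_mul, hn₀fix]
    group
  have hσxG : mapG D σ x ∈ D.group F := mapG_G hR hT σ hxG
  have hb3 : mapG D σ (b₁ : GL D.Idx F) * mapG D σ k * k⁻¹ ∈ D.borelSubgroup F :=
    Subgroup.mul_mem _ (Subgroup.mul_mem _ (mapG_B hR hT σ hb₁B) (H_le_B hR hT (mapG_H hR hT σ hk)))
      (H_le_B hR hT (Subgroup.inv_mem _ hk))
  have hb4 := mapG_B hR hT σ hb₂B
  have hBG := (B_N_G hR hT).1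
  have hσxC : (⟨mapG D σ x, hσxG⟩ : ↥(D.group F)) ∈ C (pair hR hT) n := by
    refine mem_C.mpr ⟨⟨_, hBG hb3⟩, (mem_PB hR hT).2 hb3, ⟨_, hBG hb4⟩, (mem_PB hR hT).2 hb4, ?_⟩
    apply Subtype.ext
    exact hσx
  -- `σ x = p₂ x` with `p₂ ∈ Q`
  set p₂ : GL D.Idx F := mapG D σ (p : GL D.Idx F) * (g⁻¹ * mapG D σ g)⁻¹ * (p : GL D.Idx F)⁻¹ with hp₂
  have hp₂P : p₂ ∈ D.parabolicSubgroup F J :=
    Subgroup.mul_mem _ (Subgroup.mul_mem _ (mapG_parabolic hR hT σ J hpP) (Subgroup.inv_mem _ h))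
      (Subgroup.inv_mem _ hpP)
  have hp₂Q : (⟨p₂, hPG hp₂P⟩ : ↥(D.group F)) ∈ Q := Subgroup.mem_subgroupOf.mpr hp₂P
  have e5 : mapG D σ x = p₂ * x := by
    rw [hx, hp₂, map_mul, map_inv]
    group
  have hxC : (⟨x, hxG⟩ : ↥(D.group F)) ∈ C (pair hR hT) n := hpe
  have hmulC : (⟨p₂, hPG hp₂P⟩ : ↥(D.group F)) * (⟨x, hxG⟩ : ↥(D.group F)) ∈ C (pair hR hT) n := by
    have : (⟨p₂, hPG hp₂P⟩ : ↥(D.group F)) * (⟨x, hxG⟩ : ↥(D.group F)) = ⟨mapG D σ x, hσxG⟩ :=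
      Subtype.ext e5.symm
    rw [this]
    exact hσxC
  have hp₂B := mem_B_of_min Q hQ hn hmin hxC hp₂Q hmulC
  have hp₂B' : p₂ ∈ D.borelSubgroup F := (mem_PB hR hT).1 hp₂B
  -- apply the case of `B`
  have hx' : x⁻¹ ∈ D.group F := Subgroup.inv_mem _ hxG
  have h6 : (x⁻¹)⁻¹ * mapG D σ x⁻¹ ∈ D.borelSubgroup F := by
    have e6 : (x⁻¹)⁻¹ * mapG D σ x⁻¹ = p₂⁻¹ := by
      rw [map_inv, e5]
      group
    rw [e6]
    exact Subgroup.inv_mem _ hp₂B'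
  obtain ⟨m, hm, b, hb, e7⟩ := exists_rat_B' hR hT σ hx' h6
  refine ⟨m, hm, b * (p : GL D.Idx F), Subgroup.mul_mem _ (hBP hb) hpP, ?_⟩
  rw [← mul_assoc, ← e7, hx]
  group

end Cfsg.Agent.Lib.SubMax.KFx
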