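import Cfsg.Agent.Lib.BorelTits.Main

/-!
# The optimal functional of a `p`-subgroup

The data of the proof of the Borel–Tits theorem, in a form which allows to compare two conjugates
of a subgroup with the same optimal raise.
-/

set_option autoImplicit false
set_option linter.unusedSectionVars false

namespace Cfsg.Agent.Lib.SubMax.Kempf2

open Cfsg.Lie Cfsg.Agent.Lib.ChevBN.Elem Cfsg.Agent.Lib.ChevBN.Entries Cfsg.Agent.Lib.ChevBN.Table
open Cfsg.Agent.Lib.ChevBN.Collect Cfsg.Agent.Lib.ChevBN.Rel Cfsg.Agent.Lib.ChevBN.Torus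
open Cfsg.Agent.Lib.ChevBN.Monomial Cfsg.Agent.Lib.ChevBN.Core Cfsg.Agent.Lib.ChevBN.Pair
open Cfsg.Agent.Lib.ChevBN.Stmts Cfsg.Agent.Lib.ChevBN.Levi
open Cfsg.Agent.Lib.BNPair.Basic Cfsg.Agent.Lib.BNPair.Parabolic
open Cfsg.Agent.Lib.BorelTits.Weight Cfsg.Agent.Lib.BorelTits.Tbl3 Cfsg.Agent.Lib.BorelTits.Funct
open Cfsg.Agent.Lib.BorelTits.Main

variable {D : ChevalleyDatum} {F : Type*} [Field F] {η : ℕ → ℕ → ℤ}

/-- The maximal raise, for an arbitrary family of subgroups. -/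
theorem exists_opt' {ι : Type*} [Fintype ι] [DecidableEq ι] {κ E : Type*} [Nonempty κ] [TopologicalSpace E]
    (Q : κ → Subgroup (GL ι F)) (hQ : ∀ k, Q k ≠ ⊥) {C : Set E} (hC : IsCompact C)
    (hne : C.Nonempty) (W : E → ι → ℝ) (hW : ∀ i, Continuous fun e => W e i) :
    ∃ k, ∃ e ∈ C, ∃ M : ℝ, Low (Q k) (W e) M ∧ ∀ k', ∀ e' ∈ C, ∀ c, Low (Q k') (W e') c → c ≤ M := by
  classical
  let S : κ → Finset (ι × ι) := fun k =>
    Finset.univ.filter fun p => ∃ y ∈ Q k, ((y : Matrix ι ι F) - 1) p.1 p.2 ≠ 0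
  have hlow : ∀ k k', S k = S k' → ∀ w c, Low (Q k) w c → Low (Q k') w c := by
    intro k k' hS w c h y hy i j hij
    have h1 : (i, j) ∈ S k' := Finset.mem_filter.mpr ⟨Finset.mem_univ _, y, hy, hij⟩
    rw [← hS] at h1
    obtain ⟨-, y', hy', hij'⟩ := Finset.mem_filter.mp h1
    exact h y' hy' i j hij'
  let κ' := ↥(Set.range S)
  haveI : Finite κ' := inferInstance
  haveI : Nonempty κ' := ⟨⟨S (Classical.arbitrary κ), Set.mem_range_self _⟩⟩
  let rep : κ' → κ := fun c => c.2.choose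
  have hrep : ∀ c : κ', S (rep c) = c.1 := fun c => c.2.choose_spec
  obtain ⟨c, e, he, M, h1, h2⟩ := exists_opt (κ := κ') (fun c => Q (rep c)) (fun c => hQ _) hC hne W hW
  refine ⟨rep c, e, he, M, h1, ?_⟩
  intro k' e' he' d hd
  exact h2 ⟨S k', Set.mem_range_self _⟩ e' he' d
    (hlow k' _ (hrep ⟨S k', Set.mem_range_self _⟩).symm _ _ hd)

/-- The data of the Borel–Tits theorem. -/
theorem kempf_data' (hR : Sys D F η) (hT : Tbl D) (hT2 : Tbl2 D) (hT3 : Tbl3 D)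
    {R : Subgroup (GL D.Idx F)} (hRG : R ≤ D.group F) (hne : R ≠ ⊥)
    (hU : ∃ g ∈ D.group F, cj g R ≤ D.posUnipotent F) :
    ∃ g ∈ D.group F, ∃ φ : Fin D.nroots → ℝ, φ ∈ Funct D ∧ Dom hT φ ∧ ∃ M : ℝ, 0 < M ∧
      Low (cj g R) (wt φ) M ∧
      (∀ h ∈ D.group F, Low (cj h (cj g R)) (wt φ) M → h ∈ Par (F := F) (wt φ)) ∧
      (∃ i, i < D.rank ∧ i ∉ Kφ hT φ) ∧
      Subgroup.normalizer (R : Set (GL D.Idx F)) ⊓ D.group F ≤
        (D.parabolicSubgroup F (Kφ hT φ)).map (MulAut.conj g).toMonoidHom := by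
  -- the optimal pair
  obtain ⟨g₀, φ₀, hφ₀, M, hlow₀, hmax⟩ := exists_opt' (κ := ↥(D.group F))
    (fun g => cj (g : GL D.Idx F) R) (fun g => cj_ne_bot hne) isCompact_Cset
    ⟨0, zero_mem_Cset⟩ wt continuous_wt
  have hmax' : ∀ g ∈ D.group F, ∀ e' ∈ Cset D, ∀ c, Low (cj g R) (wt e') c → c ≤ M :=
    fun g hg e' he' c hc => hmax ⟨g, hg⟩ e' he' c hc
  -- the optimal raise is positive
  have hM : 0 < M := by
    obtain ⟨g₁, hg₁, hg₁U⟩ := hU
    obtain ⟨φr, hφr, hreg⟩ := exists_reg hT hT3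
    set c₀ : ℝ := 1 / (1 + normSq φr) with hc₀
    have hN := normSq_nonneg φr
    have hc₀pos : 0 < c₀ := by rw [hc₀]; positivity
    have hin : c₀ • φr ∈ Cset D := by
      refine ⟨Submodule.smul_mem _ _ hφr, ?_⟩
      rw [normSq_smul, hc₀]
      rw [div_pow, one_pow, div_mul_eq_mul_div, one_mul, div_le_one (by positivity)]
      nlinarith
    have hreg' : ∀ r (hr : D.IsPosRoot r), 0 < (c₀ • φr) ⟨r, hr.1⟩ := by
      intro r hr
      simp only [Pi.smul_apply, smul_eq_mul]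
      exact mul_pos hc₀pos (hreg r hr)
    obtain ⟨c, hc, hlow⟩ := exists_pos_low (Q := cj g₁ R) (w := wt (c₀ • φr))
      (fun y hy i j hij => U_strict hR hT hT3 hin.1 hreg' (hg₁U hy) i j hij)
    exact hc.trans_le (hmax' g₁ hg₁ _ hin c hlow)
  -- a dominant optimal functional
  obtain ⟨π, hπ, hdom⟩ := exists_dom hT hφ₀.1
  obtain ⟨n, hn, hnact⟩ := exists_N_of_Wp (F := F) hR hT hπ
  have hNG := N_le_G hR hT
  have hBG : D.borelSubgroup F ≤ D.group F := (B_N_G hR hT).1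
  set φ := φ₀ ∘ π with hφdef
  have hφ : φ ∈ Cset D := by
    refine ⟨funct_comp_Wp hT hπ hφ₀.1, ?_⟩
    rw [hφdef, normSq_comp]
    exact hφ₀.2
  set g := (g₀ : GL D.Idx F) * n with hgdef
  have hgG : g ∈ D.group F := Subgroup.mul_mem _ g₀.2 (hNG hn)
  have hlow : Low (cj g R) (wt φ) M := by
    rw [hgdef, cj_mul]
    exact Low.conj hlow₀ (hnact φ₀)
  have hQne : cj g R ≠ ⊥ := cj_ne_bot hne
  have hBP := borel_le_Par (F := F) hR hT hT3 hφ.1 hdom
  -- the key comparison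
  have hcomp : ∀ h ∈ D.group F, Low (cj h (cj g R)) (wt φ) M → h ∈ Par (F := F) (wt φ) := by
    intro h hh hhl
    obtain ⟨n', hn', hm⟩ := bruhat_exists (P := pair hR hT) (⟨h, hh⟩ : ↥(D.group F))
    obtain ⟨b₁, hb₁, b₂, hb₂, e⟩ := mem_C.mp hm
    have hn'N : (n' : GL D.Idx F) ∈ D.monomialSubgroup F :=
      (Cfsg.Agent.Lib.ChevOrder.Chev.mem_PN hR hT).1 hn'
    have hb₁B : (b₁ : GL D.Idx F) ∈ D.borelSubgroup F :=
      (Cfsg.Agent.Lib.ChevOrder.Chev.mem_PB hR hT).1 hb₁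
    have hb₂B : (b₂ : GL D.Idx F) ∈ D.borelSubgroup F :=
      (Cfsg.Agent.Lib.ChevOrder.Chev.mem_PB hR hT).1 hb₂
    have he : h = (b₁ : GL D.Idx F) * n' * b₂ := by
      have := congrArg Subtype.val e
      simpa using this
    set Q₂ := cj g R with hQ₂
    set Q₃ := cj (b₁ : GL D.Idx F) Q₂ with hQ₃
    have hQ₃R : Q₃ = cj (g * (b₁ : GL D.Idx F)) R := (cj_mul g _ R).symm
    have hlow₃ : Low Q₃ (wt φ) M := Low.conj hlow (hBP hb₁B)
    have hmax₃ : ∀ ψ ∈ Cset D, ∀ c, Low Q₃ (wt ψ) c → c ≤ M := by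
      intro ψ hψ c hc
      rw [hQ₃R] at hc
      exact hmax' _ (Subgroup.mul_mem _ hgG (hBG hb₁B)) ψ hψ c hc
    have h4 : cj (n' : GL D.Idx F) Q₃ = cj (b₂ : GL D.Idx F)⁻¹ (cj h Q₂) := by
      rw [he, cj_mul, cj_mul, cj_inv_cj]
    have hlow₄ : Low (cj (n' : GL D.Idx F) Q₃) (wt φ) M := by
      rw [h4]
      exact Low.conj hhl (Tr.inv (hBP hb₂B))
    obtain ⟨π', hπ', hact⟩ := exists_Wp_of_N hR hT hn'N
    have h5 := Low.conj hlow₄ (hact.inv φ)
    rw [cj_inv_cj] at h5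
    have hφ3 : φ ∘ ((π')⁻¹ : Equiv.Perm (Fin D.nroots)) ∈ Cset D := by
      refine ⟨funct_comp_Wp hT (Subgroup.inv_mem _ hπ') hφ.1, ?_⟩
      rw [normSq_comp]
      exact hφ.2
    have h6 := eq_of_opt hM hφ hφ3 hlow₃ h5 hmax₃
    have h7 : φ ∘ π' = φ := by
      conv_lhs => rw [h6]
      funext s
      simp
    have h8 := hact φ
    rw [h7] at h8
    rw [he]
    exact Subgroup.mul_mem _ (Subgroup.mul_mem _ (hBP hb₁B) h8) (hBP hb₂B)
  refine ⟨g, hgG, φ, hφ.1, hdom, M, hM, hlow, hcomp, ?_, ?_⟩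
  · -- the parabolic subgroup is proper
    by_contra hcon
    push Not at hcon
    have hzero : φ = 0 := by
      funext s
      exact zero_of_sub hT hφ.1 ⟨s.2, fun i hi hiK => absurd (hcon i hi) hiK⟩ s.2
    obtain ⟨y, hy, i, j, hij⟩ := exists_entry hQne
    have := hlow y hy i j hij
    rw [hzero] at this
    have e : ∀ k, wt (0 : Fin D.nroots → ℝ) k = 0 := by
      intro k
      rcases k with k | k <;> simp
    rw [e, e] at this
    linarith
  · rintro x ⟨hx1, hx2⟩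
    apply mem_map_conj
    apply mem_parabolic_of_mem_Par hR hT hT3 hφ.1 hdom
    · exact Subgroup.mul_mem _ (Subgroup.mul_mem _ (Subgroup.inv_mem _ hgG) hx2) hgG
    · apply hcomp
      · exact Subgroup.mul_mem _ (Subgroup.mul_mem _ (Subgroup.inv_mem _ hgG) hx2) hgG
      · have e : cj (g⁻¹ * x * g) (cj g R) = cj g R := by
          rw [← cj_mul]
          ext y
          rw [mem_cj, mem_cj]
          have e2 : g * (g⁻¹ * x * g) * y * (g * (g⁻¹ * x * g))⁻¹ = x * (g * y * g⁻¹) * x⁻¹ := by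
            group
          rw [e2]
          exact ((Subgroup.mem_normalizer_iff.mp hx1) _).symm
        rw [e]
        exact hlow

end Cfsg.Agent.Lib.SubMax.Kempf2
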