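import Cfsg.Agent.Lib.SubMax.Strong2

/-!
# Consequences of strong embedding, for a generated subgroup
-/

set_option autoImplicit false
set_option linter.unusedSectionVars false
set_option linter.style.haveILetI false

namespace Cfsg.Agent.Lib.SubMax.Local2

open Cfsg.Lie Cfsg.Agent.Lib.ChevBN.Elem Cfsg.Agent.Lib.ChevBN.Entries Cfsg.Agent.Lib.ChevBN.Table
open Cfsg.Agent.Lib.ChevBN.Collect Cfsg.Agent.Lib.ChevBN.Rel Cfsg.Agent.Lib.ChevBN.Torus
open Cfsg.Agent.Lib.ChevBN.Monomial Cfsg.Agent.Lib.ChevBN.Core Cfsg.Agent.Lib.ChevBN.Pair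
open Cfsg.Agent.Lib.ChevBN.Stmts Cfsg.Agent.Lib.ChevBN.Levi Cfsg.Agent.Lib.ChevBN.Fix
open Cfsg.Agent.Lib.SubMax.Fx Cfsg.Agent.Lib.SubMax.Strong2 Cfsg.Agent.Lib.BorelTits.Tbl3
open Cfsg.Agent.Lib.BorelTits.Weight

variable {D : ChevalleyDatum} {F : Type*} [Field F] {η : ℕ → ℕ → ℤ}

variable (hR : Sys D F η) (hT : Tbl D) (hT2 : Tbl2 D) (hT3 : Tbl3 D) (σ : F →+* F)
variable {H : Subgroup (GL D.Idx F)} (hL : fixL hR σ ≤ H) (hHG : H ≤ D.group F)
  (hHU : ∀ u ∈ H, u ∈ D.posUnipotent F → u ∈ Fx D σ)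
  (hB : ∀ b ∈ H, b ∈ D.borelSubgroup F → b ∈ Fx D σ)
  (p : ℕ) [hp : Fact p.Prime] [CharP F p]
  (hcj : ∀ R : Subgroup (GL D.Idx F), R ≤ Fx D σ → IsPGroup p ↥R → ∃ g ∈ D.group F, cj g R ≤ D.posUnipotent F)
  [hHfin : Finite ↥H]
include hR hT hT2 hT3 hL hHG hHU hB hcj

/-- A `p`-subgroup of `H` meeting `M` non-trivially lies in `M`. -/
theorem pgroup_le' {T : Subgroup (GL D.Idx F)}
    (hTH : T ≤ H) (hTp : IsPGroup p ↥T) (hne : T ⊓ Fx D σ ≠ ⊥) : T ≤ Fx D σ := by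
  classical
  haveI : Finite ↥T := Finite.of_injective _ (Subgroup.inclusion_injective hTH)
  by_contra hnot
  set T₀ := T ⊓ Fx D σ with hT₀
  let K : Subgroup ↥T := T₀.subgroupOf T
  have hKtop : K ≠ ⊤ := by
    intro h
    apply hnot
    intro z hz
    have h1 : (⟨z, hz⟩ : ↥T) ∈ K := by
      rw [h]
      trivial
    exact (Subgroup.mem_subgroupOf.mp h1).2
  haveI : Group.IsNilpotent ↥T := hTp.isNilpotent
  have hlt := Group.normalizerCondition_of_isNilpotent (G := ↥T) K (lt_top_iff_ne_top.2 hKtop)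
  obtain ⟨t, ht, htK⟩ := SetLike.exists_of_lt hlt
  rw [Subgroup.mem_normalizer_iff] at ht
  have htN : (t : GL D.Idx F) ∈ Subgroup.normalizer (T₀ : Set (GL D.Idx F)) := by
    rw [Subgroup.mem_normalizer_iff]
    intro z
    constructor
    · intro hz
      have h1 := (ht ⟨z, hz.1⟩).mp (Subgroup.mem_subgroupOf.mpr hz)
      exact Subgroup.mem_subgroupOf.mp h1
    · intro hz
      have hzT : z ∈ T := by
        have h1 : (t : GL D.Idx F)⁻¹ * ((t : GL D.Idx F) * z * (t : GL D.Idx F)⁻¹) * (t : GL D.Idx F) = z := by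
          group
        rw [← h1]
        exact Subgroup.mul_mem _ (Subgroup.mul_mem _ (Subgroup.inv_mem _ t.2) hz.1) t.2
      have h2 := (ht ⟨z, hzT⟩).mpr (Subgroup.mem_subgroupOf.mpr hz)
      exact Subgroup.mem_subgroupOf.mp h2
  have h3 := norm_le' hR hT hT2 hT3 σ hL hHG hHU hB (R := T₀) inf_le_right (hcj _ inf_le_right (hTp.to_le inf_le_left)) hne
    htN (hTH t.2)
  exact htK (Subgroup.mem_subgroupOf.mpr ⟨t.2, h3⟩)

/-- Frattini: if all the `H`-conjugates of a `p`-element of `M` lie in `M`, then `H ≤ M`. -/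
theorem le_of_conj' {y : GL D.Idx F}
    (hy : y ∈ Fx D σ) (hyH : y ∈ H) (hyp : ∃ k, y ^ (p ^ k) = 1) (hne : y ≠ 1)
    (hconj : ∀ g ∈ H, g * y * g⁻¹ ∈ Fx D σ) : H ≤ Fx D σ := by
  classical
  let Y : ↥H := ⟨y, hyH⟩
  let N : Subgroup ↥H := Subgroup.normalClosure {Y}
  have hN : ∀ z ∈ N, (z : GL D.Idx F) ∈ Fx D σ := by
    have h1 : N ≤ (Fx D σ).subgroupOf H := by
      show Subgroup.normalClosure {Y} ≤ _
      rw [Subgroup.normalClosure, Subgroup.closure_le]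
      intro z hz
      rw [Group.mem_conjugatesOfSet_iff] at hz
      obtain ⟨a, ha, hc⟩ := hz
      rw [Set.mem_singleton_iff] at ha
      subst ha
      rw [isConj_iff] at hc
      obtain ⟨c, rfl⟩ := hc
      exact hconj c c.2
    exact fun z hz => Subgroup.mem_subgroupOf.mp (h1 hz)
  haveI : N.Normal := Subgroup.normalClosure_normal
  let Y' : ↥N := ⟨Y, Subgroup.subset_normalClosure rfl⟩
  have hQp : IsPGroup p ↥(Subgroup.zpowers Y') := by
    obtain ⟨k, hk⟩ := hyp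
    intro z
    obtain ⟨n, hn⟩ := Subgroup.mem_zpowers_iff.mp z.2
    refine ⟨k, ?_⟩
    apply Subtype.ext
    have hY : Y' ^ (p ^ k) = 1 := by
      apply Subtype.ext
      apply Subtype.ext
      simpa [Y', Y] using hk
    simp only [SubmonoidClass.coe_pow, OneMemClass.coe_one]
    rw [← hn, ← zpow_natCast, ← zpow_mul, mul_comm, zpow_mul, zpow_natCast, hY, one_zpow]
  obtain ⟨P, hP⟩ := hQp.exists_le_sylow
  let P' : Subgroup ↥H := P.map N.subtype
  have hF := P.normalizer_sup_eq_top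
  let R : Subgroup (GL D.Idx F) := P'.map H.subtype
  have hRM : R ≤ Fx D σ := by
    rintro z ⟨z₁, ⟨z₂, -, rfl⟩, rfl⟩
    exact hN _ z₂.2
  have hRp : IsPGroup p ↥R := (P.isPGroup'.map N.subtype).map H.subtype
  have hYP : Y' ∈ (P : Subgroup ↥N) := hP (Subgroup.mem_zpowers Y')
  have hyR : y ∈ R := ⟨Y, ⟨Y', hYP, rfl⟩, rfl⟩
  have hRne : R ≠ ⊥ := by
    intro h
    rw [h, Subgroup.mem_bot] at hyR
    exact hne hyR
  intro h hh
  have hg : (⟨h, hh⟩ : ↥H) ∈ (Subgroup.normalizer (P' : Set ↥H) ⊔ N : Subgroup ↥H) := by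
    rw [hF]
    trivial
  have hg' : (⟨h, hh⟩ : ↥H) ∈ ((Subgroup.normalizer (P' : Set ↥H) ⊔ N : Subgroup ↥H) : Set ↥H) := hg
  rw [Subgroup.mul_normal, Set.mem_mul] at hg'
  obtain ⟨k, hk, n, hn, e⟩ := hg'
  have hkN : (k : GL D.Idx F) ∈ Subgroup.normalizer (R : Set (GL D.Idx F)) := by
    have hk' : k ∈ Subgroup.normalizer (P' : Set ↥H) := hk
    rw [Subgroup.mem_normalizer_iff] at hk' ⊢
    intro z
    constructor
    · rintro ⟨z₁, hz₁, rfl⟩
      exact ⟨k * z₁ * k⁻¹, (hk' z₁).mp hz₁, rfl⟩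
    · rintro ⟨z₁, hz₁, e₁⟩
      have hzH : z ∈ H := by
        have h1 : z = (k : GL D.Idx F)⁻¹ * (z₁ : GL D.Idx F) * (k : GL D.Idx F) := by
          have e₁' : (z₁ : GL D.Idx F) = (k : GL D.Idx F) * z * (k : GL D.Idx F)⁻¹ := e₁
          rw [e₁']
          group
        rw [h1]
        exact Subgroup.mul_mem _ (Subgroup.mul_mem _ (Subgroup.inv_mem _ k.2) z₁.2) k.2
      have h2 : k * ⟨z, hzH⟩ * k⁻¹ = z₁ := by
        apply Subtype.ext
        exact e₁.symm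
      rw [← h2] at hz₁
      exact ⟨⟨z, hzH⟩, (hk' _).mpr hz₁, rfl⟩
  have hkM := norm_le' hR hT hT2 hT3 σ hL hHG hHU hB hRM (hcj _ hRM hRp) hRne hkN k.2
  have e' : h = (k : GL D.Idx F) * (n : GL D.Idx F) := by
    have := congrArg Subtype.val e
    exact this.symm
  rw [e']
  exact Subgroup.mul_mem _ hkM (hN n hn)

end Cfsg.Agent.Lib.SubMax.Local2
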