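import Cfsg.Agent.Lib.SubMax.DataG2
import Cfsg.Agent.Lib.SubMax.DataB2
import Cfsg.Agent.Lib.SubMax.DataD4
import Cfsg.Agent.Lib.SubMax.DataF4
import Cfsg.Agent.Lib.SubMax.DataE6
import Cfsg.Agent.Lib.SubMax.DataE7
import Cfsg.Agent.Lib.SubMax.DataE8

/-!
# Subfield subgroups of prime degree are maximal
-/

set_option autoImplicit false
set_option linter.unusedSectionVars false

namespace Cfsg.Agent.Lib.SubMax.Main

open Cfsg.Lie Cfsg.Agent.Lib.ChevBN.Elem Cfsg.Agent.Lib.ChevBN.Entries Cfsg.Agent.Lib.ChevBN.Table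
open Cfsg.Agent.Lib.ChevBN.Rel Cfsg.Agent.Lib.ChevBN.Stmts Cfsg.Agent.Lib.ChevBN.Fix
open Cfsg.Agent.Lib.ChevBN.Core Cfsg.Agent.Lib.ChevBN.Pair
open Cfsg.Agent.Lib.SubMax.Fx

theorem main_all {F : Type*} [Field F] [Fintype F] (p : ℕ) [hp : Fact p.Prime] [CharP F p]
    {D : ChevalleyDatum} (hD : D ∈ [chevG2, chevB2, chevD4, chevF4, chevE6, chevE7, chevE8])
    {η : ℕ → ℕ → ℤ} (hR : Sys D F η) (σ : F →+* F) {q n : ℕ} (hq : 1 < q) (hn : n.Prime)
    (hK : Fintype.card F = q ^ n) (hσ : ∀ x, σ x = x ^ q) {H : Subgroup (GL D.Idx F)}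
    (hMH : Fx D σ ≤ H) (hHG : H ≤ D.group F) : H ≤ Fx D σ ∨ H = D.group F := by
  simp only [List.mem_cons, List.not_mem_nil, or_false] at hD
  rcases hD with rfl | rfl | rfl | rfl | rfl | rfl | rfl
  · exact Cfsg.Agent.Lib.SubMax.DataG2.main p hR σ hq hn hK hσ hMH hHG
  · exact Cfsg.Agent.Lib.SubMax.DataB2.main p hR σ hq hn hK hσ hMH hHG
  · exact Cfsg.Agent.Lib.SubMax.DataD4.main p hR σ hq hn hK hσ hMH hHG
  · exact Cfsg.Agent.Lib.SubMax.DataF4.main p hR σ hq hn hK hσ hMH hHG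
  · exact Cfsg.Agent.Lib.SubMax.DataE6.main p hR σ hq hn hK hσ hMH hHG
  · exact Cfsg.Agent.Lib.SubMax.DataE7.main p hR σ hq hn hK hσ hMH hHG
  · exact Cfsg.Agent.Lib.SubMax.DataE8.main p hR σ hq hn hK hσ hMH hHG

/-- There is an element which is not fixed. -/
theorem exists_not_fixed {F : Type*} [Field F] [Fintype F] {q n : ℕ} (hq : 1 < q) (hn : n.Prime)
    (hK : Fintype.card F = q ^ n) (σ : F →+* F) (hσ : ∀ x, σ x = x ^ q) : ∃ t, σ t ≠ t := by
  classical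
  by_contra h
  have h1 : ∀ t, σ t = t := by
    intro t
    by_contra ht
    exact h ⟨t, ht⟩
  obtain ⟨S, hS, hc⟩ := Cfsg.Agent.Lib.SubMax.SubF.exists_fix_finset hq hn.pos hK
  have h2 : S = Finset.univ := by
    ext x
    simp only [Finset.mem_univ, iff_true]
    rw [hS, ← hσ]
    exact h1 x
  rw [h2, Finset.card_univ, hK] at hc
  have h3 : q ^ 1 < q ^ n := Nat.pow_lt_pow_right hq hn.one_lt
  rw [pow_one] at h3
  omega

theorem result_all {K : Type*} [Field K] [Fintype K] (p : ℕ) [hp : Fact p.Prime] [CharP K p]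
    (D : ChevalleyDatum) (hD : D ∈ [chevG2, chevB2, chevD4, chevF4, chevE6, chevE7, chevE8]) (a r : ℕ)
    (ha : 1 ≤ a) (hr : r.Prime) (hK : Fintype.card K = (p ^ a) ^ r) (M : Subgroup (GL D.Idx K))
    (hM : ∀ g : GL D.Idx K, g ∈ M ↔ g ∈ D.group K ∧
      ∀ i j : D.Idx, ((g : Matrix D.Idx D.Idx K) i j) ^ (p ^ a) = (g : Matrix D.Idx D.Idx K) i j) :
    M ≠ D.group K ∧ ∀ H : Subgroup (GL D.Idx K), M ≤ H → H ≤ D.group K → H = M ∨ H = D.group K := by
  obtain ⟨η, hη⟩ := Cfsg.Agent.Lib.Chevalley.All.exists_sys D hD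
  have hR : Sys D K η := hη K
  have hT := Cfsg.Agent.Lib.ChevBN.FastData.tbl_of_mem hD
  let σ : K →+* K := iterateFrobenius K p a
  have hσ : ∀ x, σ x = x ^ (p ^ a) := fun x => iterateFrobenius_def p a x
  have hq : 1 < p ^ a := Nat.one_lt_pow (by omega) hp.out.one_lt
  have hMF : M = Fx D σ := by
    ext g
    rw [hM, mem_Fx]
    constructor
    · rintro ⟨h1, h2⟩
      refine ⟨h1, Units.ext ?_⟩
      rw [coe_mapG]
      ext i j
      rw [Matrix.map_apply, hσ]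
      exact h2 i j
    · rintro ⟨h1, h2⟩
      refine ⟨h1, fun i j => ?_⟩
      have h3 := congrArg (fun x : GL D.Idx K => (x : Matrix D.Idx D.Idx K) i j) h2
      simp only [coe_mapG, Matrix.map_apply, hσ] at h3
      exact h3
  subst hMF
  constructor
  · intro h
    obtain ⟨t, ht⟩ := exists_not_fixed hq hr hK σ hσ
    have hs : D.IsPosRoot (D.simple 0) := hT.simple_pos 0 (by
      simp only [List.mem_cons, List.not_mem_nil, or_false] at hD
      rcases hD with rfl | rfl | rfl | rfl | rfl | rfl | rfl <;> decide +kernel)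
    have h1 : X hR.toAddRel (D.simple 0) t ∈ D.group K := U_le_G hR hT (X_mem_U hR hT hs t)
    rw [← h, mem_Fx, mapG_X σ hR.toAddRel hR.toAddRel] at h1
    exact ht (Cfsg.Agent.Lib.ChevBN.Fix.X_inj hR hT hs h1.2)
  · intro H h1 h2
    rcases main_all p hD hR σ hq hr hK hσ h1 h2 with h3 | h3
    · exact Or.inl (le_antisymm h3 h1)
    · exact Or.inr h3

end Cfsg.Agent.Lib.SubMax.Main
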