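import Cfsg.Agent.Lib.PSL2.DicksonSL
import Cfsg.Agent.Lib.ChevTori.RootSL2
import Cfsg.Agent.Lib.StChar.Eta

/-!
# `-1` in the subgroup of `SL₂` generated by two opposite transvections
-/

set_option autoImplicit false
set_option linter.unusedSectionVars false

namespace Cfsg.Agent.Lib.SubMax.SL2Inv

open Matrix Matrix.SpecialLinearGroup
open Cfsg.Agent.Lib.Chevalley

variable {F : Type*} [Field F] {p : ℕ} [hp : Fact p.Prime] [CharP F p]

local notation "SL₂" K => SpecialLinearGroup (Fin 2) K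

/-- A `p`-element of `SL₂` has trace two. -/
theorem trace_of_pow {z : SL₂ F} {k : ℕ} (h : z ^ p ^ k = 1) : Matrix.trace (z : Matrix (Fin 2) (Fin 2) F) = 2 := by
  haveI : CharP (Matrix (Fin 2) (Fin 2) F) p := Matrix.charP p
  have h1 : ((z : Matrix (Fin 2) (Fin 2) F) - 1) ^ p ^ k = 0 := by
    rw [sub_pow_char_pow_of_commute (p := p) (n := k) (Commute.one_right _), one_pow, sub_eq_zero]
    have := congrArg (fun g : SL₂ F => (g : Matrix (Fin 2) (Fin 2) F)) h
    simpa using this
  have h2 : IsNilpotent ((z : Matrix (Fin 2) (Fin 2) F) - 1) := ⟨_, h1⟩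
  have h3 := Matrix.isNilpotent_trace_of_isNilpotent h2
  rw [Matrix.trace_sub, Matrix.trace_one] at h3
  have h4 := h3.eq_zero
  simp only [Fintype.card_fin, Nat.cast_ofNat] at h4
  exact sub_eq_zero.mp h4

/-- An involution of `SL₂` in odd characteristic is `-1`. -/
theorem involution_eq (hp2 : p ≠ 2) {g : SL₂ F} (hg : g * g = 1) (hne : g ≠ 1) :
    g = Cfsg.Agent.Lib.ChevTori.SL2Lang.dg (-1 : Fˣ) := by
  have h2 : (2 : F) ≠ 0 := by
    intro h
    have : (p : ℕ) ∣ 2 := by
      have h' : ((2 : ℕ) : F) = 0 := by exact_mod_cast h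
      exact (CharP.cast_eq_zero_iff F p 2).1 h'
    exact hp2 ((Nat.prime_dvd_prime_iff_eq hp.out Nat.prime_two).1 this)
  have hinv : g⁻¹ = g := inv_eq_of_mul_eq_one_left hg
  have e := SL2_inv_expl g
  rw [hinv] at e
  have e00 : g.1 0 0 = g.1 1 1 := by
    have := congrArg (fun a : SL₂ F => a.1 0 0) e
    simpa using this
  have e01 : g.1 0 1 = - g.1 0 1 := by
    have := congrArg (fun a : SL₂ F => a.1 0 1) e
    simpa using this
  have e10 : g.1 1 0 = - g.1 1 0 := by
    have := congrArg (fun a : SL₂ F => a.1 1 0) e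
    simpa using this
  have hb : g.1 0 1 = 0 := by
    have : (2 : F) * g.1 0 1 = 0 := by
      rw [two_mul]
      nth_rw 1 [e01]
      ring
    exact (mul_eq_zero.mp this).resolve_left h2
  have hc : g.1 1 0 = 0 := by
    have : (2 : F) * g.1 1 0 = 0 := by
      rw [two_mul]
      nth_rw 1 [e10]
      ring
    exact (mul_eq_zero.mp this).resolve_left h2
  have hdet : g.1 0 0 * g.1 1 1 - g.1 0 1 * g.1 1 0 = 1 := by
    have := g.2
    rwa [Matrix.det_fin_two] at this
  rw [hb, hc, ← e00] at hdet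
  have ha : g.1 0 0 = 1 ∨ g.1 0 0 = -1 := by
    have : (g.1 0 0 - 1) * (g.1 0 0 + 1) = 0 := by
      linear_combination hdet
    rcases mul_eq_zero.mp this with h | h
    · left
      exact sub_eq_zero.mp h
    · right
      exact eq_neg_of_add_eq_zero_left h
  rcases ha with ha | ha
  · exfalso
    apply hne
    apply Subtype.ext
    ext i j
    fin_cases i <;> fin_cases j <;> simp [hb, hc, ← e00, ha]
  · apply Subtype.ext
    rw [Cfsg.Agent.Lib.ChevTori.SL2Lang.dg_val]
    ext i j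
    fin_cases i <;> fin_cases j <;> simp [hb, hc, ← e00, ha]

variable [Fintype F]

/-- The group generated by two opposite transvections contains `-1`. -/
theorem neg_one_mem (hp2 : p ≠ 2) {d : F} (hd : d ≠ 0) :
    Cfsg.Agent.Lib.ChevTori.SL2Lang.dg (-1 : Fˣ) ∈
      Subgroup.closure ({SL2Hom.X (1 : F), SL2Hom.Y d} : Set (SL₂ F)) := by
  classical
  set H₁ : Subgroup (SL₂ F) := Subgroup.closure ({SL2Hom.X (1 : F), SL2Hom.Y d} : Set (SL₂ F)) with hH₁
  have hxH : SL2Hom.X (1 : F) ∈ H₁ := Subgroup.subset_closure (by simp)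
  have hyH : SL2Hom.Y d ∈ H₁ := Subgroup.subset_closure (by simp)
  have hsyl : 1 < Nat.card (Sylow p ↥H₁) := by
    by_contra hcon
    have h1 : Nat.card (Sylow p ↥H₁) = 1 := by
      have := Nat.card_pos (α := Sylow p ↥H₁)
      omega
    have hsub : Subsingleton (Sylow p ↥H₁) := (Nat.card_eq_one_iff_unique.1 h1).1
    have hp1 : ∃ k : ℕ, (SL2Hom.X (1 : F)) ^ p ^ k = 1 := by
      refine ⟨1, ?_⟩
      apply Subtype.ext
      rw [pow_one]
      have e : ∀ n : ℕ, ((SL2Hom.X (1 : F)) ^ n).1 = !![1, (n : F); 0, 1] := by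
        intro n
        induction n with
        | zero =>
          ext i j
          fin_cases i <;> fin_cases j <;> simp
        | succ n ih =>
          rw [pow_succ, SL2Hom.coe_mul', ih, SL2Hom.X_coe]
          ext i j
          fin_cases i <;> fin_cases j <;> simp [Matrix.mul_apply, Fin.sum_univ_two, add_comm]
      rw [e, CharP.cast_eq_zero]
      ext i j
      fin_cases i <;> fin_cases j <;> simp
    have hp2' : ∃ k : ℕ, (SL2Hom.Y d) ^ p ^ k = 1 := by
      refine ⟨1, ?_⟩
      apply Subtype.ext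
      rw [pow_one]
      have e : ∀ n : ℕ, ((SL2Hom.Y d) ^ n).1 = !![1, 0; (n : F) * d, 1] := by
        intro n
        induction n with
        | zero =>
          ext i j
          fin_cases i <;> fin_cases j <;> simp
        | succ n ih =>
          rw [pow_succ, SL2Hom.coe_mul', ih, SL2Hom.Y_coe]
          ext i j
          fin_cases i <;> fin_cases j <;> simp [Matrix.mul_apply, Fin.sum_univ_two]
          ring
      rw [e, CharP.cast_eq_zero]
      ext i j
      fin_cases i <;> fin_cases j <;> simp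
    -- the elements lie in a unique Sylow subgroup
    have hmem : ∀ (u : ↥H₁), (∃ k : ℕ, (u : SL₂ F) ^ p ^ k = 1) → ∀ P : Sylow p ↥H₁, u ∈ (P : Subgroup ↥H₁) := by
      intro u hu P
      obtain ⟨k, hk⟩ := hu
      have hq : IsPGroup p ↥(Subgroup.zpowers u) := by
        intro z
        obtain ⟨n, hn⟩ := Subgroup.mem_zpowers_iff.mp z.2
        refine ⟨k, ?_⟩
        have hu1 : u ^ p ^ k = 1 := Subtype.ext (by simpa using hk)
        apply Subtype.ext
        simp only [SubmonoidClass.coe_pow, OneMemClass.coe_one]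
        rw [← hn, ← zpow_natCast, ← _root_.zpow_mul, mul_comm, _root_.zpow_mul, zpow_natCast, hu1, _root_.one_zpow]
      obtain ⟨Q, hQ⟩ := hq.exists_le_sylow
      rw [hsub.elim P Q]
      exact hQ (Subgroup.mem_zpowers u)
    obtain ⟨P⟩ : Nonempty (Sylow p ↥H₁) := inferInstance
    have hx1 := hmem ⟨_, hxH⟩ hp1 P
    have hy1 := hmem ⟨_, hyH⟩ hp2' P
    have hmul := (P : Subgroup ↥H₁).mul_mem hx1 hy1
    obtain ⟨k, hk⟩ := P.isPGroup' ⟨_, hmul⟩
    have h3 : (SL2Hom.X (1 : F) * SL2Hom.Y d) ^ p ^ k = 1 := by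
      have := congrArg (fun z : ↥(P : Subgroup ↥H₁) => ((z : ↥H₁) : SL₂ F)) hk
      simpa using this
    have h4 := trace_of_pow h3
    have e4 : ((SL2Hom.X (1 : F) * SL2Hom.Y d : SL₂ F) : Matrix (Fin 2) (Fin 2) F) = !![1, 1; 0, 1] * !![1, 0; d, 1] := rfl
    rw [e4, Matrix.trace_fin_two] at h4
    simp [Matrix.mul_apply, Fin.sum_univ_two] at h4
    apply hd
    linear_combination h4
  obtain ⟨K, hK, ⟨e⟩⟩ := Cfsg.Agent.Lib.PSL2.DicksonSL.exists_copy hp2 H₁ hsyl
  -- the involution of `SL₂(p)`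
  haveI : Fact p.Prime := hp
  have hpZ : (p : ℕ) ≠ 2 := hp2
  let i₁ : SL₂ (ZMod p) := Cfsg.Agent.Lib.ChevTori.SL2Lang.dg (-1 : (ZMod p)ˣ)
  have hi₁ : i₁ * i₁ = 1 := by
    rw [← map_mul]
    simp
  have hi₁ne : i₁ ≠ 1 := by
    intro h
    have h1 := congrArg (fun a : SL₂ (ZMod p) => a.1 0 0) h
    simp only [i₁, Cfsg.Agent.Lib.ChevTori.SL2Lang.dg_val] at h1
    simp at h1
    have h2 : ((2 : ℕ) : ZMod p) = 0 := by
      push_cast
      linear_combination -h1
    have h3 := (ZMod.natCast_eq_zero_iff 2 p).1 h2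
    exact hp2 ((Nat.prime_dvd_prime_iff_eq hp.out Nat.prime_two).1 h3)
  set g := e.symm i₁ with hg
  have hgg : (g : SL₂ F) * g = 1 := by
    have := congrArg (fun z : ↥K => (z : SL₂ F)) (show g * g = 1 by rw [hg, ← map_mul, hi₁, map_one])
    simpa using this
  have hgne : (g : SL₂ F) ≠ 1 := by
    intro h
    have h1 : g = 1 := Subtype.ext h
    rw [hg] at h1
    exact hi₁ne (e.symm.injective (by rw [h1, map_one]))
  rw [← involution_eq hp2 hgg hgne]
  exact hK g.2

end Cfsg.Agent.Lib.SubMax.SL2Inv
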