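import Cfsg.Agent.Lib.SubMax.Even
import Cfsg.Agent.Lib.SubMax.SL2Inv

/-!
# The case of odd characteristic
-/

set_option autoImplicit false
set_option linter.unusedSectionVars false

namespace Cfsg.Agent.Lib.SubMax.Odd

open Cfsg.Lie Cfsg.Agent.Lib.ChevBN.Elem Cfsg.Agent.Lib.ChevBN.Entries Cfsg.Agent.Lib.ChevBN.Table
open Cfsg.Agent.Lib.ChevBN.Collect Cfsg.Agent.Lib.ChevBN.Rel Cfsg.Agent.Lib.ChevBN.Torus
open Cfsg.Agent.Lib.ChevBN.Monomial Cfsg.Agent.Lib.ChevBN.Core Cfsg.Agent.Lib.ChevBN.Pair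
open Cfsg.Agent.Lib.ChevBN.Stmts Cfsg.Agent.Lib.ChevBN.Levi Cfsg.Agent.Lib.ChevBN.Fix
open Cfsg.Agent.Lib.BorelTits.Weight Cfsg.Agent.Lib.BorelTits.Tbl3 Cfsg.Agent.Lib.BorelTits.Funct
open Cfsg.Agent.Lib.BorelTits.Cent
open Cfsg.Agent.Lib.SubMax.Fx Cfsg.Agent.Lib.SubMax.Strong Cfsg.Agent.Lib.SubMax.Local
open Cfsg.Agent.Lib.SubMax.Orbit Cfsg.Agent.Lib.SubMax.Even Cfsg.Agent.Lib.SubMax.SL2Inv

variable {D : ChevalleyDatum} {F : Type*} [Field F] {η : ℕ → ℕ → ℤ}

section PGroup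

variable {ι : Type*} [Fintype ι] [DecidableEq ι] [Nonempty ι]

theorem Le_pow {w : ι → ℝ} {M : ℝ} {A : Matrix ι ι F} (h : Le w w M A) (k : ℕ) :
    Le w w ((k : ℝ) * M) (A ^ k) := by
  induction k with
  | zero =>
    simpa using le_one (F := F) w
  | succ k ih =>
    rw [pow_succ]
    have := ih.mul h
    convert this using 1
    push_cast
    ring

/-- A subgroup of raising matrices is a `p`-group. -/
theorem isPGroup_of_le [Finite F] (p : ℕ) [hp : Fact p.Prime] [CharP F p] {T : Subgroup (GL ι F)}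
    {w : ι → ℝ} {M : ℝ} (hM : 0 < M) (h : ∀ z ∈ T, Le w w M ((z : Matrix ι ι F) - 1)) :
    IsPGroup p ↥T := by
  obtain ⟨B, hB⟩ : ∃ B : ℝ, ∀ i j : ι, w i - w j ≤ B := by
    have hf : (Set.range fun q : ι × ι => w q.1 - w q.2).Finite := Set.finite_range _
    obtain ⟨B, hB⟩ := hf.bddAbove
    exact ⟨B, fun i j => hB ⟨(i, j), rfl⟩⟩
  obtain ⟨k, hk⟩ := exists_nat_gt (B / M)
  rw [div_lt_iff₀ hM] at hk
  intro z
  refine ⟨k, ?_⟩
  apply Subtype.ext
  apply Units.ext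
  simp only [SubmonoidClass.coe_pow, Units.val_pow_eq_pow_val, OneMemClass.coe_one, Units.val_one]
  have hz := h z z.2
  have h1 : (((z : GL ι F) : Matrix ι ι F) - 1) ^ k = 0 := by
    ext i j
    by_contra hne
    have h2 := Le_pow hz k i j hne
    have h3 := hB i j
    simp only [Matrix.zero_apply] at hne
    linarith
  have hkp : k ≤ p ^ k := (Nat.lt_pow_self hp.out.one_lt).le
  have h2 : (((z : GL ι F) : Matrix ι ι F) - 1) ^ p ^ k = 0 := pow_eq_zero_of_le hkp h1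
  haveI : CharP (Matrix ι ι F) p := Matrix.charP p
  rw [sub_pow_char_pow_of_commute (p := p) (n := k) (Commute.one_right _), one_pow, sub_eq_zero] at h2
  exact h2

end PGroup

variable (hR : Sys D F η) (hT : Tbl D)

section Opp

variable (hT2 : Tbl2 D) (hT3 : Tbl3 D) (σ : F →+* F)
variable {H : Subgroup (GL D.Idx F)} (hMH : Fx D σ ≤ H) (hHG : H ≤ D.group F)
  (hHU : ∀ u ∈ H, u ∈ D.posUnipotent F → u ∈ Fx D σ)
include hR hT hT2 hT3 hMH hHG hHU

/-- The non-opposite case: a `p`-group. -/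
theorem case_other [Fintype F] (p : ℕ) [hp : Fact p.Prime] [CharP F p] {ρ s : ℕ} (hρ : D.IsPosRoot ρ)
    (hcen : ∀ s, D.IsPosRoot s → s ≠ ρ → D.commTerms ρ s = [])
    (hs : s < D.nroots) (h1 : 0 < 2 + Ad D (cr D ρ) s) (h2 : 0 < 2 + Ad D (cr D s) ρ)
    {v : GL D.Idx F} (hv : v ∈ D.posUnipotent F) {d : F}
    (hxH : v * X hR.toAddRel s d * v⁻¹ ∈ H) :
    v * X hR.toAddRel s d * v⁻¹ ∈ Fx D σ := by
  classical
  have hc : ∀ i < D.rank, D.cartan i (D.simple i) = 2 :=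
    fun i hi => Cfsg.Agent.Lib.StChar.Eta.cartan_self hT hi
  have hA1 := Cfsg.Agent.Lib.Chevalley.SL2Root.Ad_self hT hc hρ.1
  have hA2 := Cfsg.Agent.Lib.Chevalley.SL2Root.Ad_self hT hc hs
  let u : ℕ → ℤ := fun j => cr D ρ j + cr D s j
  have hAdd : ∀ r, Ad D u r = Ad D (cr D ρ) r + Ad D (cr D s) r := by
    intro r
    rw [Ad_eq_sum, Ad_eq_sum, Ad_eq_sum, ← Finset.sum_add_distrib]
    apply Finset.sum_congr rfl
    intro j _
    simp only [u]
    ring
  set φ := adF D u with hφ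
  have hφF : φ ∈ Funct D := adF_mem u
  have hφρ : 0 < φ ⟨ρ, hρ.1⟩ := by
    have : 0 < Ad D u ρ := by
      rw [hAdd, hA1]
      exact h2
    simp only [hφ, adF]
    exact_mod_cast this
  have hφs : 0 < φ ⟨s, hs⟩ := by
    have : 0 < Ad D u s := by
      rw [hAdd, hA2]
      linarith
    simp only [hφ, adF]
    exact_mod_cast this
  set M := min (φ ⟨ρ, hρ.1⟩) (φ ⟨s, hs⟩) with hM
  have hM0 : 0 < M := lt_min hφρ hφs
  let T₀ : Subgroup (GL D.Idx F) := Subgroup.closure {X hR.toAddRel ρ 1, X hR.toAddRel s d}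
  have hXle : ∀ (t : F), Le (wt φ) (wt φ) M ((X hR.toAddRel ρ t : Matrix D.Idx D.Idx F) - 1) ∧
      ∀ (t : F), Le (wt φ) (wt φ) M ((X hR.toAddRel s t : Matrix D.Idx D.Idx F) - 1) := by
    intro t
    refine ⟨?_, fun t' => ?_⟩
    · rw [coe_X]
      exact (le_x_sub_one hT hT3 hφF ⟨ρ, hρ.1⟩ t hφρ.le).mono (min_le_left _ _)
    · rw [coe_X]
      exact (le_x_sub_one hT hT3 hφF ⟨s, hs⟩ t' hφs.le).mono (min_le_right _ _)
  have hT₀ : ∀ z ∈ T₀, Le (wt φ) (wt φ) M ((z : Matrix D.Idx D.Idx F) - 1) ∧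
      Le (wt φ) (wt φ) M (((z⁻¹ : GL D.Idx F) : Matrix D.Idx D.Idx F) - 1) := by
    intro z hz
    induction hz using Subgroup.closure_induction with
    | mem z hz =>
      rcases hz with rfl | hz
      · rw [X_inv]
        exact ⟨(hXle 1).1, (hXle (-1)).1⟩
      · rw [Set.mem_singleton_iff] at hz
        subst hz
        rw [X_inv]
        exact ⟨(hXle 1).2 d, (hXle 1).2 (-d)⟩
    | one =>
      simp only [inv_one, Units.val_one, sub_self]
      exact ⟨le_zero _ _ _, le_zero _ _ _⟩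
    | mul a b _ _ ha hb =>
      have key : ∀ g h : GL D.Idx F, Le (wt φ) (wt φ) M ((g : Matrix D.Idx D.Idx F) - 1) →
          Le (wt φ) (wt φ) M ((h : Matrix D.Idx D.Idx F) - 1) →
          Le (wt φ) (wt φ) M (((g * h : GL D.Idx F) : Matrix D.Idx D.Idx F) - 1) := by
        intro g h hg hh
        have e : ((g * h : GL D.Idx F) : Matrix D.Idx D.Idx F) - 1 =
            ((g : Matrix D.Idx D.Idx F) - 1) + ((h : Matrix D.Idx D.Idx F) - 1) +
              ((g : Matrix D.Idx D.Idx F) - 1) * ((h : Matrix D.Idx D.Idx F) - 1) := by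
          rw [Units.val_mul]
          noncomm_ring
        rw [e]
        exact (hg.add hh).add ((hg.mul hh).mono (by linarith))
      refine ⟨key _ _ ha.1 hb.1, ?_⟩
      rw [_root_.mul_inv_rev]
      exact key _ _ hb.2 ha.2
    | inv a _ ha =>
      rw [inv_inv]
      exact ⟨ha.2, ha.1⟩
  haveI : Nonempty D.Idx := ⟨Sum.inr ⟨ρ, hρ.1⟩⟩
  have hT₀p : IsPGroup p ↥T₀ := isPGroup_of_le p hM0 fun z hz => (hT₀ z hz).1
  let T : Subgroup (GL D.Idx F) := T₀.map (MulAut.conj v).toMonoidHom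
  have hTp : IsPGroup p ↥T := hT₀p.map _
  have hTH : T ≤ H := by
    rw [Subgroup.map_le_iff_le_comap, Subgroup.closure_le]
    rintro z (rfl | hz)
    · show v * X hR.toAddRel ρ 1 * v⁻¹ ∈ H
      rw [U_comm_central hR hT hρ hcen hv, mul_inv_cancel_right]
      exact hMH (X_one_mem_Fx hR hT σ hρ.1)
    · rw [Set.mem_singleton_iff] at hz
      subst hz
      exact hxH
  have hyT : X hR.toAddRel ρ 1 ∈ T := by
    refine ⟨X hR.toAddRel ρ 1, Subgroup.subset_closure (by simp), ?_⟩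
    show v * X hR.toAddRel ρ 1 * v⁻¹ = _
    rw [U_comm_central hR hT hρ hcen hv, mul_inv_cancel_right]
  have hne : T ⊓ Fx D σ ≠ ⊥ := by
    intro h
    have h3 : X hR.toAddRel ρ (1 : F) ∈ T ⊓ Fx D σ := ⟨hyT, X_one_mem_Fx hR hT σ hρ.1⟩
    rw [h, Subgroup.mem_bot] at h3
    exact one_ne_zero (X_inj hR hT hρ (by rw [h3, X_zero]))
  exact pgroup_le hR hT hT2 hT3 σ hMH hHG hHU p hTH hTp hne
    ⟨X hR.toAddRel s d, Subgroup.subset_closure (by simp), rfl⟩

/-- The opposite case. -/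
theorem case_opp [Fintype F] (p : ℕ) [hp : Fact p.Prime] [CharP F p] (hp2 : p ≠ 2) {ρ β : ℕ}
    (hρ : D.IsPosRoot ρ) (hcen : ∀ s, D.IsPosRoot s → s ≠ ρ → D.commTerms ρ s = [])
    (hcg : CommG hR.toAddRel)
    (hT1 : ∀ s, D.IsPosRoot s → s ≠ ρ → Ad D (cr D ρ) s = 0 ∨ Ad D (cr D ρ) s = 1)
    (hTc : ∀ s, D.IsPosRoot s → Ad D (cr D ρ) s = 0 → D.commTerms (D.neg ρ) s = [])
    (hβ : D.IsPosRoot β) (hβ0 : Ad D (cr D ρ) β = 0)
    {v : GL D.Idx F} (hv : v ∈ D.posUnipotent F) {d : F} (hd : d ≠ 0)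
    (hxH : v * X hR.toAddRel (D.neg ρ) d * v⁻¹ ∈ H) :
    v * X hR.toAddRel (D.neg ρ) d * v⁻¹ ∈ Fx D σ := by
  classical
  have hc : ∀ i < D.rank, D.cartan i (D.simple i) = 2 :=
    fun i hi => Cfsg.Agent.Lib.StChar.Eta.cartan_self hT hi
  have h2F : (2 : F) ≠ 0 := by
    intro h
    have h' : ((2 : ℕ) : F) = 0 := by exact_mod_cast h
    have := (CharP.cast_eq_zero_iff F p 2).1 h'
    exact hp2 ((Nat.prime_dvd_prime_iff_eq hp.out Nat.prime_two).1 this)
  have hneg1 : (-1 : F) ≠ 1 := by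
    intro h
    apply h2F
    linear_combination -h
  have hη : ∀ i < D.rank, η i (D.simple i) = -1 := by
    intro i hi
    have h1 := Cfsg.Agent.Lib.StChar.Eta.eta_simple hR hT hi
    rcases hR.eta_sign i hi _ (hT.simple_lt hi) with h | h
    · exfalso
      rw [h] at h1
      apply hneg1
      simpa using h1.symm
    · exact h
  set y := X hR.toAddRel ρ (1 : F) with hy
  have hyM : y ∈ Fx D σ := X_one_mem_Fx hR hT σ hρ.1
  have hyne : y ≠ 1 := by
    intro h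
    exact one_ne_zero (X_inj hR hT hρ (by rw [← hy, h, X_zero]))
  have hyp := U_pow hR hT p (X_mem_U hR hT hρ (1 : F))
  have hvy : v * y = y * v := U_comm_central hR hT hρ hcen hv 1
  -- the involution
  set i₀ := hG hR.toAddRel ρ (-1 : F) with hi₀
  have h1ne : (-1 : F) ≠ 0 := neg_ne_zero.mpr one_ne_zero
  have hi₀S : i₀ ∈ Subgroup.closure ({y, X hR.toAddRel (D.neg ρ) d} : Set (GL D.Idx F)) := by
    have h1 := neg_one_mem (p := p) hp2 hd
    have h2 : ∀ a ∈ Subgroup.closure ({Cfsg.Agent.Lib.Chevalley.SL2Hom.X (1 : F),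
        Cfsg.Agent.Lib.Chevalley.SL2Hom.Y d} : Set (Matrix.SpecialLinearGroup (Fin 2) F)),
        Cfsg.Agent.Lib.ChevTori.RootSL2.psi hR hT hc hη ⟨ρ, hρ.1⟩ a ∈
        Subgroup.closure ({y, X hR.toAddRel (D.neg ρ) d} : Set (GL D.Idx F)) := by
      intro a ha
      induction ha using Subgroup.closure_induction with
      | mem a ha =>
        rcases ha with rfl | ha
        · rw [Cfsg.Agent.Lib.ChevTori.RootSL2.psi_X]
          exact Subgroup.subset_closure (by simp [hy])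
        · rw [Set.mem_singleton_iff] at ha
          subst ha
          rw [Cfsg.Agent.Lib.ChevTori.RootSL2.psi_Y]
          exact Subgroup.subset_closure (by simp)
      | one =>
        rw [map_one]
        exact Subgroup.one_mem _
      | mul a b _ _ ha hb =>
        rw [map_mul]
        exact Subgroup.mul_mem _ ha hb
      | inv a _ ha =>
        rw [map_inv]
        exact Subgroup.inv_mem _ ha
    have h3 := h2 _ h1
    rw [Cfsg.Agent.Lib.ChevTori.RootSL2.psi_dg] at h3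
    simpa [hi₀] using h3
  set i := v * i₀ * v⁻¹ with hi
  have hiH : i ∈ H := by
    have h1 : Subgroup.closure ({y, X hR.toAddRel (D.neg ρ) d} : Set (GL D.Idx F)) ≤
        H.comap (MulAut.conj v).toMonoidHom := by
      rw [Subgroup.closure_le]
      rintro z (rfl | hz)
      · show v * y * v⁻¹ ∈ H
        rw [hvy, mul_inv_cancel_right]
        exact hMH hyM
      · rw [Set.mem_singleton_iff] at hz
        subst hz
        exact hxH
    exact h1 hi₀S
  have hi₀H : i₀ ∈ D.diagonalSubgroup F := hG_mem_diagonal hR hρ.1 h1ne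
  have hi₀M : i₀ ∈ Fx D σ := fixL_le_Fx hR hT σ (hG_mem_fixL hR hT σ hρ.1 (by simp))
  have hi₀y : i₀ * y = y * i₀ := by
    have h1 := Cfsg.Agent.Lib.Chevalley.SL2Root.hG_conj_self hR hT hc hρ.1 h1ne (1 : F)
    have e : (-1 : F) * (-1) * 1 = 1 := by ring
    rw [e] at h1
    calc i₀ * y = (i₀ * y * i₀⁻¹) * i₀ := by group
      _ = y * i₀ := by rw [hi₀, hy, h1]
  have hiy : i * y = y * i := by
    rw [hi]
    have hvy' : v⁻¹ * y = y * v⁻¹ := by
      calc v⁻¹ * y = v⁻¹ * (y * v) * v⁻¹ := by group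
        _ = v⁻¹ * (v * y) * v⁻¹ := by rw [hvy]
        _ = _ := by group
    calc v * i₀ * v⁻¹ * y = v * i₀ * (v⁻¹ * y) := by group
      _ = v * i₀ * (y * v⁻¹) := by rw [hvy']
      _ = v * (i₀ * y) * v⁻¹ := by group
      _ = v * (y * i₀) * v⁻¹ := by rw [hi₀y]
      _ = (v * y) * i₀ * v⁻¹ := by group
      _ = (y * v) * i₀ * v⁻¹ := by rw [hvy]
      _ = _ := by group
  have hiM : i ∈ Fx D σ := cent_le hR hT hT2 hT3 σ hMH hHG hHU p hyM hyp hyne hiH hiy
  -- involutions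
  have hi₀sq : i₀ * i₀ = 1 := by
    rw [hi₀, Cfsg.Agent.Lib.Chevalley.SL2Root.hG_mul hR hT hρ.1 h1ne h1ne]
    have e : (-1 : F) * (-1) = 1 := by ring
    rw [e]
    have h3 := Cfsg.Agent.Lib.Chevalley.SL2Root.hG_mul hR hT hρ.1 (one_ne_zero (α := F)) one_ne_zero
    rw [mul_one] at h3
    exact mul_eq_left.mp h3
  have hi₀inv : i₀⁻¹ = i₀ := inv_eq_of_mul_eq_one_left hi₀sq
  have hisq : i * i = 1 := by
    have e : i * i = v * (i₀ * i₀) * v⁻¹ := by
      rw [hi]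
      group
    rw [e, hi₀sq]
    group
  have hiinv : i⁻¹ = i := inv_eq_of_mul_eq_one_left hisq
  -- the element `z`
  set z := i₀ * i with hz
  have hzM : z ∈ Fx D σ := Subgroup.mul_mem _ hi₀M hiM
  have hzU : z ∈ D.posUnipotent F := by
    have e : z = (i₀ * v * i₀⁻¹) * v⁻¹ := by
      rw [hz, hi, hi₀inv]
      group
    rw [e]
    exact Subgroup.mul_mem _ (H_norm_U hR hT hi₀H hv) (Subgroup.inv_mem _ hv)
  have hzinv : i₀ * z * i₀⁻¹ = z⁻¹ := by
    rw [hi₀inv, hz, _root_.mul_inv_rev, hiinv, hi₀inv, ← mul_assoc, hi₀sq, one_mul]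
  obtain ⟨k, hk⟩ := U_pow hR hT p hzU
  have hodd : Odd (p ^ k) := (hp.out.odd_of_ne_two hp2).pow
  obtain ⟨n, hn⟩ := hodd
  set w := z ^ (n + 1) with hw
  have hww : w * w = z := by
    rw [hw, ← pow_add]
    have : n + 1 + (n + 1) = p ^ k + 1 := by omega
    rw [this, pow_succ, hk, one_mul]
  have hwinv : i₀ * w * i₀⁻¹ = w⁻¹ := by
    rw [hw, ← conj_pow, hzinv, inv_pow]
  have hwM : w ∈ Fx D σ := Subgroup.pow_mem _ hzM _
  have hwU : w ∈ D.posUnipotent F := Subgroup.pow_mem _ hzU _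
  have hwi : w * i * w⁻¹ = i₀ := by
    have h1 : i₀ * w = w⁻¹ * i₀ := by
      calc i₀ * w = (i₀ * w * i₀⁻¹) * i₀ := by group
        _ = _ := by rw [hwinv]
    have h2 : i = i₀ * z := by
      rw [hz, ← mul_assoc, hi₀sq, one_mul]
    rw [h2, ← hww]
    calc w * (i₀ * (w * w)) * w⁻¹ = w * (i₀ * w) * w * w⁻¹ := by group
      _ = w * (w⁻¹ * i₀) * w * w⁻¹ := by rw [h1]
      _ = _ := by group
  set v' := w * v with hv'
  have hv'U : v' ∈ D.posUnipotent F := Subgroup.mul_mem _ hwU hv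
  have hv'comm : i₀ * v' * i₀⁻¹ = v' := by
    have e : v' * i₀ * v'⁻¹ = i₀ := by
      calc v' * i₀ * v'⁻¹ = w * (v * i₀ * v⁻¹) * w⁻¹ := by
            rw [hv']
            group
        _ = w * i * w⁻¹ := rfl
        _ = i₀ := hwi
    calc i₀ * v' * i₀⁻¹ = (v' * i₀ * v'⁻¹) * v' * i₀⁻¹ := by rw [e]
      _ = v' * (i₀ * i₀⁻¹) := by group
      _ = v' := by simp
  -- the shape of `v'`
  set L := D.posRoots with hL
  have hv'gen : v' ∈ gen hR.toAddRel {r | r ∈ L} := by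
    rw [← posUnipotent_eq_list hR hT]
    exact hv'U
  have hposL : ∀ r ∈ L, D.IsPosRoot r := fun r hr => mem_posRoots.mp hr
  obtain ⟨t, ht⟩ := exists_ordered hT (commPos hR) L posRoots_sorted hposL (posRoots_closed hR hT) v' hv'gen
  have hcp : ∀ j < D.rank, ((-1 : F) ^ cr D ρ j) ≠ 0 := fun j _ => zpow_ne_zero _ h1ne
  have hi₀P : i₀ = hP hR (fun j => (-1 : F) ^ cr D ρ j) := hG_eq_hP hR hT hρ.1 h1ne
  have hconjL : ∀ l : List ℕ, (∀ r ∈ l, r < D.nroots) →
      i₀ * W hR.toAddRel (l.map fun r => (r, t r)) * i₀⁻¹ =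
        W hR.toAddRel (l.map fun r => (r, (-1 : F) ^ (Ad D (cr D ρ) r) * t r)) := by
    intro l
    induction l with
    | nil =>
      intro _
      simp [W]
    | cons a l ih =>
      intro hl
      simp only [List.map_cons, W_cons]
      rw [← ih fun r hr => hl r (by simp [hr])]
      have h1 : i₀ * X hR.toAddRel a (t a) * i₀⁻¹ = X hR.toAddRel a ((-1 : F) ^ (Ad D (cr D ρ) a) * t a) := by
        rw [hi₀P, hP_conj hR hcp (hl a (by simp)) (t a), chi_pow h1ne]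
      rw [← h1]
      group
  have hfix : ∀ r ∈ L, t r = (-1 : F) ^ (Ad D (cr D ρ) r) * t r := by
    have h1 := hconjL L fun r hr => (hposL r hr).1
    rw [← ht, hv'comm] at h1
    rw [ht] at h1
    exact ordered_unique (hA := hR.toAddRel) hT L posRoots_sorted hposL _ _ h1
  have hzero : ∀ r ∈ L, Ad D (cr D ρ) r = 1 → t r = 0 := by
    intro r hr h1
    have h2 := hfix r hr
    rw [h1, zpow_one] at h2
    have h3 : (2 : F) * t r = 0 := by
      linear_combination h2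
    exact (mul_eq_zero.mp h3).resolve_left h2F
  -- the conjugation formula
  have hnegl : D.neg ρ < D.nroots := hT.neg_lt hρ.1
  have hcommneg : ∀ s, D.IsPosRoot s → Ad D (cr D ρ) s = 0 → ∀ u e : F,
      X hR.toAddRel s u * X hR.toAddRel (D.neg ρ) e = X hR.toAddRel (D.neg ρ) e * X hR.toAddRel s u := by
    intro s hs hs0 u e
    have hsneg : s ≠ D.neg ρ := hT.pos_ne_neg hs (hT.neg_of_pos hρ)
    have hsρ : s ≠ D.neg (D.neg ρ) := by
      rw [hT.neg_neg ρ hρ.1]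
      rintro rfl
      have := Cfsg.Agent.Lib.Chevalley.SL2Root.Ad_self hT hc hρ.1
      omega
    exact comm_of_nil hcg hnegl hs.1 hsneg hsρ (hTc s hs hs0) e u
  have hform : ∀ l : List ℕ, (∀ r ∈ l, r ∈ L) → ∃ τ : F,
      W hR.toAddRel (l.map fun r => (r, t r)) * X hR.toAddRel (D.neg ρ) d *
        (W hR.toAddRel (l.map fun r => (r, t r)))⁻¹ =
      X hR.toAddRel ρ τ * X hR.toAddRel (D.neg ρ) d * X hR.toAddRel ρ (-τ) := by
    intro l
    induction l with
    | nil =>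
      intro _
      refine ⟨0, ?_⟩
      simp [W]
    | cons a l ih =>
      intro hl
      obtain ⟨τ, hτ⟩ := ih fun r hr => hl r (by simp [hr])
      have haL := hl a (by simp)
      have hap := hposL a haL
      simp only [List.map_cons, W_cons]
      set W₀ := W hR.toAddRel (l.map fun r => (r, t r)) with hW₀
      have e : X hR.toAddRel a (t a) * W₀ * X hR.toAddRel (D.neg ρ) d * (X hR.toAddRel a (t a) * W₀)⁻¹ =
          X hR.toAddRel a (t a) * (W₀ * X hR.toAddRel (D.neg ρ) d * W₀⁻¹) * (X hR.toAddRel a (t a))⁻¹ := by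
        group
      rw [e, hτ]
      by_cases haρ : a = ρ
      · subst haρ
        refine ⟨t a + τ, ?_⟩
        rw [X_inv]
        calc X hR.toAddRel a (t a) * (X hR.toAddRel a τ * X hR.toAddRel (D.neg a) d * X hR.toAddRel a (-τ)) *
              X hR.toAddRel a (-t a)
            = (X hR.toAddRel a (t a) * X hR.toAddRel a τ) * X hR.toAddRel (D.neg a) d *
              (X hR.toAddRel a (-τ) * X hR.toAddRel a (-t a)) := by group
          _ = _ := by
            rw [X_mul, X_mul]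
            congr 2
            ring
      · rcases hT1 a hap haρ with h0 | h1
        · refine ⟨τ, ?_⟩
          have h1 := comm_central hR hT hρ hcen hap (t a) τ
          have h2 := comm_central hR hT hρ hcen hap (t a) (-τ)
          have h3 := hcommneg a hap h0 (t a) d
          set Xa := X hR.toAddRel a (t a) with hXa
          calc Xa * (X hR.toAddRel ρ τ * X hR.toAddRel (D.neg ρ) d * X hR.toAddRel ρ (-τ)) * Xa⁻¹
              = (Xa * X hR.toAddRel ρ τ) * X hR.toAddRel (D.neg ρ) d * X hR.toAddRel ρ (-τ) * Xa⁻¹ := by group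
            _ = X hR.toAddRel ρ τ * (Xa * X hR.toAddRel (D.neg ρ) d) * X hR.toAddRel ρ (-τ) * Xa⁻¹ := by
                rw [h1]
                group
            _ = X hR.toAddRel ρ τ * X hR.toAddRel (D.neg ρ) d * (Xa * X hR.toAddRel ρ (-τ)) * Xa⁻¹ := by
                rw [h3]
                group
            _ = X hR.toAddRel ρ τ * X hR.toAddRel (D.neg ρ) d * (X hR.toAddRel ρ (-τ) * Xa) * Xa⁻¹ := by
                rw [h2]
            _ = _ := by group
        · refine ⟨τ, ?_⟩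
          rw [hzero a haL h1, X_zero]
          group
  obtain ⟨τ, hτ⟩ := hform L fun r hr => hr
  rw [← ht] at hτ
  -- the commuting root element
  set x' := v' * X hR.toAddRel (D.neg ρ) d * v'⁻¹ with hx'
  have hx'eq : x' = X hR.toAddRel ρ τ * X hR.toAddRel (D.neg ρ) d * X hR.toAddRel ρ (-τ) := hτ
  have hx'H : x' ∈ H := by
    have e : x' = w * (v * X hR.toAddRel (D.neg ρ) d * v⁻¹) * w⁻¹ := by
      rw [hx', hv']
      group
    rw [e]
    exact Subgroup.mul_mem _ (Subgroup.mul_mem _ (hMH hwM) hxH) (Subgroup.inv_mem _ (hMH hwM))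
  have hβM : X hR.toAddRel β (1 : F) ∈ Fx D σ := X_one_mem_Fx hR hT σ hβ.1
  have hβne : X hR.toAddRel β (1 : F) ≠ 1 := by
    intro h
    exact one_ne_zero (X_inj hR hT hβ (by rw [h, X_zero]))
  have hβc : x' * X hR.toAddRel β 1 = X hR.toAddRel β 1 * x' := by
    have h1 := comm_central hR hT hρ hcen hβ (1 : F) τ
    have h2 := comm_central hR hT hρ hcen hβ (1 : F) (-τ)
    have h3 := hcommneg β hβ hβ0 (1 : F) d
    rw [hx'eq]
    set Xb := X hR.toAddRel β (1 : F) with hXb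
    calc X hR.toAddRel ρ τ * X hR.toAddRel (D.neg ρ) d * X hR.toAddRel ρ (-τ) * Xb
        = X hR.toAddRel ρ τ * X hR.toAddRel (D.neg ρ) d * (X hR.toAddRel ρ (-τ) * Xb) := by group
      _ = X hR.toAddRel ρ τ * X hR.toAddRel (D.neg ρ) d * (Xb * X hR.toAddRel ρ (-τ)) := by rw [h2]
      _ = X hR.toAddRel ρ τ * (X hR.toAddRel (D.neg ρ) d * Xb) * X hR.toAddRel ρ (-τ) := by group
      _ = X hR.toAddRel ρ τ * (Xb * X hR.toAddRel (D.neg ρ) d) * X hR.toAddRel ρ (-τ) := by rw [h3]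
      _ = (X hR.toAddRel ρ τ * Xb) * X hR.toAddRel (D.neg ρ) d * X hR.toAddRel ρ (-τ) := by group
      _ = (Xb * X hR.toAddRel ρ τ) * X hR.toAddRel (D.neg ρ) d * X hR.toAddRel ρ (-τ) := by rw [h1]
      _ = _ := by group
  have hx'M := cent_le hR hT hT2 hT3 σ hMH hHG hHU p hβM (U_pow hR hT p (X_mem_U hR hT hβ (1 : F))) hβne
    hx'H hβc
  have e : v * X hR.toAddRel (D.neg ρ) d * v⁻¹ = w⁻¹ * x' * w := by
    rw [hx', hv']
    group
  rw [e]
  exact Subgroup.mul_mem _ (Subgroup.mul_mem _ (Subgroup.inv_mem _ hwM) hx'M) hwM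

/-- The conclusion in odd characteristic. -/
theorem odd_main [Fintype F] (p : ℕ) [hp : Fact p.Prime] [CharP F p] (hp2 : p ≠ 2) {O : Set ℕ}
    (hOl : ∀ s ∈ O, s < D.nroots) (hO : ∀ q < D.rank, ∀ s ∈ O, D.reflectRoot q s ∈ O) {ρ β : ℕ}
    (hρO : ρ ∈ O) (hρ : D.IsPosRoot ρ) (hcen : ∀ s, D.IsPosRoot s → s ≠ ρ → D.commTerms ρ s = [])
    (hcg : CommG hR.toAddRel)
    (hO2 : ∀ s ∈ O, s ≠ D.neg ρ → 0 < 2 + Ad D (cr D ρ) s ∧ 0 < 2 + Ad D (cr D s) ρ)
    (hT1 : ∀ s, D.IsPosRoot s → s ≠ ρ → Ad D (cr D ρ) s = 0 ∨ Ad D (cr D ρ) s = 1)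
    (hTc : ∀ s, D.IsPosRoot s → Ad D (cr D ρ) s = 0 → D.commTerms (D.neg ρ) s = [])
    (hβ : D.IsPosRoot β) (hβ0 : Ad D (cr D ρ) β = 0) : H ≤ Fx D σ := by
  have hyM := X_one_mem_Fx hR hT σ hρ.1
  have hyne : X hR.toAddRel ρ (1 : F) ≠ 1 := by
    intro h
    exact one_ne_zero (X_inj hR hT hρ (by rw [h, X_zero]))
  refine le_of_conj hR hT hT2 hT3 σ hMH hHG hHU p hyM (U_pow hR hT p (X_mem_U hR hT hρ (1 : F))) hyne ?_
  intro g hg
  have hxH : g * X hR.toAddRel ρ 1 * g⁻¹ ∈ H :=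
    Subgroup.mul_mem _ (Subgroup.mul_mem _ hg (hMH hyM)) (Subgroup.inv_mem _ hg)
  obtain ⟨v, hv, s, hs, d, hd, e⟩ := exists_form hR hT hOl hO hρO hρ hcen (hHG hg)
  rw [e] at hxH ⊢
  by_cases hsp : D.IsPosRoot s
  · apply hHU _ hxH
    exact Subgroup.mul_mem _ (Subgroup.mul_mem _ hv (X_mem_U hR hT hsp d)) (Subgroup.inv_mem _ hv)
  · by_cases hsn : s = D.neg ρ
    · subst hsn
      exact case_opp hR hT hT2 hT3 σ hMH hHG hHU p hp2 hρ hcen hcg hT1 hTc hβ hβ0 hv hd hxH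
    · obtain ⟨h1, h2⟩ := hO2 s hs hsn
      exact case_other hR hT hT2 hT3 σ hMH hHG hHU p hρ hcen (hOl s hs) h1 h2 hv hxH

end Opp

end Cfsg.Agent.Lib.SubMax.Odd
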