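import Cfsg.Agent.Lib.SubMax.SL2Inv

/-!
# `-1` in a finite-order situation over an algebraically closed field
-/

set_option autoImplicit false
set_option linter.unusedSectionVars false
set_option linter.style.haveILetI false

namespace Cfsg.Agent.Lib.SubMax.SL2Inv2

open Matrix Matrix.SpecialLinearGroup
open Cfsg.Agent.Lib.Chevalley Cfsg.Agent.Lib.SubMax.SL2Inv

variable {F : Type*} [Field F] {p : ℕ} [hp : Fact p.Prime] [CharP F p]

local notation "SL₂" K => SpecialLinearGroup (Fin 2) K

/-- Finite order in characteristic `p`: a root of unity is fixed by a power of Frobenius. -/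
theorem exists_frob_fix {l : F} {N : ℕ} (hN : 0 < N) (hl : l ^ N = 1) :
    ∃ e : ℕ, 0 < e ∧ l ^ (p ^ e) = l := by
  classical
  have hfin : {x : F | x ^ N = 1}.Finite := by
    have h := (rootsOfUnity N F)
    have h2 : (Polynomial.X ^ N - 1 : Polynomial F) ≠ 0 := Polynomial.X_pow_sub_C_ne_zero hN 1
    refine (Polynomial.rootSet_finite (Polynomial.X ^ N - 1 : Polynomial F) F).subset ?_
    intro x hx
    rw [Polynomial.mem_rootSet]
    refine ⟨h2, ?_⟩
    simp only [map_sub, map_pow, Polynomial.aeval_X, map_one]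
    rw [sub_eq_zero]
    exact hx
  haveI : Finite {x : F | x ^ N = 1} := hfin
  let f : ℕ → {x : F | x ^ N = 1} := fun i => ⟨l ^ (p ^ i), by
    show (l ^ p ^ i) ^ N = 1
    rw [← pow_mul, mul_comm, pow_mul, hl, one_pow]⟩
  obtain ⟨i, j, hij, e⟩ := Finite.exists_ne_map_eq_of_infinite f
  have key : ∀ {i j : ℕ}, i < j → f i = f j → ∃ e : ℕ, 0 < e ∧ l ^ (p ^ e) = l := by
    intro i j hij e
    refine ⟨j - i, by omega, ?_⟩
    have h1 : l ^ (p ^ i) = l ^ (p ^ j) := congrArg Subtype.val e
    have h2 : (iterateFrobenius F p i) l = (iterateFrobenius F p i) (l ^ (p ^ (j - i))) := by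
      rw [iterateFrobenius_def, iterateFrobenius_def, h1, ← pow_mul, ← pow_add]
      congr 2
      omega
    exact ((iterateFrobenius F p i).injective h2).symm
  rcases lt_or_gt_of_ne hij with h | h
  · exact key h e
  · exact key h e.symm

/-- The parameter of a transvection product of finite order is fixed by a power of Frobenius. -/
theorem exists_frob_fix_param [IsAlgClosed F] {d : F} {N : ℕ} (hN : 0 < N)
    (h : (SL2Hom.X (1 : F) * SL2Hom.Y d) ^ N = 1) : ∃ e : ℕ, 0 < e ∧ d ^ (p ^ e) = d := by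
  obtain ⟨l, hl⟩ : ∃ l : F, l ^ 2 - (2 + d) * l + 1 = 0 := by
    have hdeg : (Polynomial.X ^ 2 - Polynomial.C (2 + d) * Polynomial.X + 1 : Polynomial F).degree ≠ 0 := by
      have h2 : (Polynomial.X ^ 2 - Polynomial.C (2 + d) * Polynomial.X + 1 : Polynomial F).natDegree = 2 := by
        compute_degree!
      intro h0
      have h3 : (Polynomial.X ^ 2 - Polynomial.C (2 + d) * Polynomial.X + 1 : Polynomial F).natDegree = 0 :=
        Polynomial.natDegree_eq_of_degree_eq_some (by simpa using h0)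
      omega
    obtain ⟨l, hl⟩ := IsAlgClosed.exists_root _ hdeg
    refine ⟨l, ?_⟩
    simpa [Polynomial.IsRoot] using hl
  have hl0 : l ≠ 0 := by
    rintro rfl
    simp at hl
  set g := SL2Hom.X (1 : F) * SL2Hom.Y d with hg
  have hgm : (g : Matrix (Fin 2) (Fin 2) F) = !![1 + d, 1; d, 1] := by
    rw [hg, SL2Hom.coe_mul', SL2Hom.X_coe, SL2Hom.Y_coe]
    ext i j
    fin_cases i <;> fin_cases j <;> simp [Matrix.mul_apply, Fin.sum_univ_two]
  set v : Fin 2 → F := ![1, l - 1 - d] with hv
  have hgv : (g : Matrix (Fin 2) (Fin 2) F).mulVec v = l • v := by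
    rw [hgm]
    ext i
    fin_cases i
    · simp [v, Matrix.mulVec, dotProduct, Fin.sum_univ_two]
    · simp [v, Matrix.mulVec, dotProduct, Fin.sum_univ_two]
      linear_combination -hl
  have hpow : ∀ n : ℕ, ((g ^ n : SL₂ F) : Matrix (Fin 2) (Fin 2) F).mulVec v = l ^ n • v := by
    intro n
    induction n with
    | zero =>
      simp
    | succ n ih =>
      rw [pow_succ, SL2Hom.coe_mul', ← Matrix.mulVec_mulVec, hgv, Matrix.mulVec_smul, ih, smul_smul, pow_succ]
      ring_nf
  have h1 := hpow N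
  rw [h] at h1
  have h2 := congrFun h1 0
  have hlN : l ^ N = 1 := by
    simpa [v, Matrix.mulVec, dotProduct, Fin.sum_univ_two] using h2.symm
  obtain ⟨e, he, hfix⟩ := exists_frob_fix (p := p) hN hlN
  refine ⟨e, he, ?_⟩
  have hd : d = l + l⁻¹ - 2 := by
    field_simp
    linear_combination -hl
  set φ := iterateFrobenius F p e with hφ
  have h3 : φ l = l := by rw [hφ, iterateFrobenius_def, hfix]
  have h4 : φ d = d := by
    rw [hd, map_sub, map_add, map_inv₀, h3, map_ofNat]
  rwa [hφ, iterateFrobenius_def] at h4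

/-- The group generated by two opposite transvections of finite order contains `-1`. -/
theorem neg_one_mem' [IsAlgClosed F] (hp2 : p ≠ 2) {d : F} (hd : d ≠ 0) {N : ℕ} (hN : 0 < N)
    (h : (SL2Hom.X (1 : F) * SL2Hom.Y d) ^ N = 1) :
    Cfsg.Agent.Lib.ChevTori.SL2Lang.dg (-1 : Fˣ) ∈
      Subgroup.closure ({SL2Hom.X (1 : F), SL2Hom.Y d} : Set (SL₂ F)) := by
  classical
  obtain ⟨e, he, hfix⟩ := exists_frob_fix_param (p := p) hN h
  let F₀ : Subfield F := (iterateFrobenius F p e).eqLocusField (RingHom.id F)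
  have hmem : ∀ x : F, x ∈ F₀ ↔ x ^ (p ^ e) = x := by
    intro x
    show (iterateFrobenius F p e) x = (RingHom.id F) x ↔ _
    rw [iterateFrobenius_def]
    rfl
  have hfin : Finite ↥F₀ := by
    have h2 : (Polynomial.X ^ (p ^ e) - Polynomial.X : Polynomial F) ≠ 0 := by
      have h1p : 1 < p ^ e := Nat.one_lt_pow he.ne' hp.out.one_lt
      intro h0
      have h3 := congrArg Polynomial.natDegree h0
      rw [Polynomial.natDegree_sub_eq_left_of_natDegree_lt (by simpa using h1p), Polynomial.natDegree_X_pow,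
        Polynomial.natDegree_zero] at h3
      omega
    have h3 : (F₀ : Set F).Finite := by
      refine (Polynomial.rootSet_finite (Polynomial.X ^ (p ^ e) - Polynomial.X : Polynomial F) F).subset ?_
      intro x hx
      rw [Polynomial.mem_rootSet]
      refine ⟨h2, ?_⟩
      simp only [map_sub, map_pow, Polynomial.aeval_X]
      rw [sub_eq_zero]
      exact (hmem x).1 hx
    exact h3
  letI : Fintype ↥F₀ := Fintype.ofFinite _
  haveI : CharP ↥F₀ p := RingHom.charP F₀.subtype F₀.subtype_injective p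
  have hdF : d ∈ F₀ := (hmem d).2 hfix
  have h1 := neg_one_mem (F := ↥F₀) (p := p) hp2 (d := ⟨d, hdF⟩) (by
    intro h0
    exact hd (congrArg Subtype.val h0))
  let f : (SL₂ ↥F₀) →* (SL₂ F) := SpecialLinearGroup.map F₀.subtype
  have hval : ∀ (a : SL₂ ↥F₀) (i j : Fin 2), (f a).1 i j = ((a.1 i j : ↥F₀) : F) := fun _ _ _ => rfl
  have hfX : f (SL2Hom.X (1 : ↥F₀)) = SL2Hom.X (1 : F) := by
    apply Subtype.ext
    ext i j
    rw [hval]
    fin_cases i <;> fin_cases j <;> simp [SL2Hom.X]
  have hfY : f (SL2Hom.Y (⟨d, hdF⟩ : ↥F₀)) = SL2Hom.Y d := by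
    apply Subtype.ext
    ext i j
    rw [hval]
    fin_cases i <;> fin_cases j <;> simp [SL2Hom.Y]
  have hfg : f (Cfsg.Agent.Lib.ChevTori.SL2Lang.dg (-1 : (↥F₀)ˣ)) =
      Cfsg.Agent.Lib.ChevTori.SL2Lang.dg (-1 : Fˣ) := by
    apply Subtype.ext
    ext i j
    rw [hval]
    fin_cases i <;> fin_cases j <;> simp [Cfsg.Agent.Lib.ChevTori.SL2Lang.dg_val]
  rw [← hfg]
  have h2 : ∀ a ∈ Subgroup.closure ({SL2Hom.X (1 : ↥F₀), SL2Hom.Y (⟨d, hdF⟩ : ↥F₀)} : Set (SL₂ ↥F₀)),
      f a ∈ Subgroup.closure ({SL2Hom.X (1 : F), SL2Hom.Y d} : Set (SL₂ F)) := by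
    intro a ha
    induction ha using Subgroup.closure_induction with
    | mem a ha =>
      rcases ha with rfl | ha
      · rw [hfX]
        exact Subgroup.subset_closure (by simp)
      · rw [Set.mem_singleton_iff] at ha
        subst ha
        rw [hfY]
        exact Subgroup.subset_closure (by simp)
    | one =>
      rw [map_one]
      exact Subgroup.one_mem _
    | mul a b _ _ ha hb =>
      rw [map_mul]
      exact Subgroup.mul_mem _ ha hb
    | inv a _ ha =>
      rw [map_inv]
      exact Subgroup.inv_mem _ ha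
  exact h2 _ h1

end Cfsg.Agent.Lib.SubMax.SL2Inv2
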