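import Cfsg.Agent.Lib.SubMax.Local
import Cfsg.Agent.Lib.Chevalley.All

/-!
# The conjugates of a central root element
-/

set_option autoImplicit false
set_option linter.unusedSectionVars false

namespace Cfsg.Agent.Lib.SubMax.Orbit

open Cfsg.Lie Cfsg.Agent.Lib.ChevBN.Elem Cfsg.Agent.Lib.ChevBN.Entries Cfsg.Agent.Lib.ChevBN.Table
open Cfsg.Agent.Lib.ChevBN.Collect Cfsg.Agent.Lib.ChevBN.Rel Cfsg.Agent.Lib.ChevBN.Torus
open Cfsg.Agent.Lib.ChevBN.Monomial Cfsg.Agent.Lib.ChevBN.Core Cfsg.Agent.Lib.ChevBN.Pair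
open Cfsg.Agent.Lib.ChevBN.Stmts Cfsg.Agent.Lib.ChevBN.Levi Cfsg.Agent.Lib.ChevBN.Fix
open Cfsg.Agent.Lib.ChevBN.BruhatForm
open Cfsg.Agent.Lib.SubMax.Fx Cfsg.Agent.Lib.SubMax.Strong Cfsg.Agent.Lib.BorelTits.Tbl3

variable {D : ChevalleyDatum} {F : Type*} [Field F] {η : ℕ → ℕ → ℤ}

/-- The commutator formula for all pairs of roots, in `GL`. -/
def CommG (hA : AddRel D F) : Prop :=
  ∀ r < D.nroots, ∀ s < D.nroots, s ≠ r → s ≠ D.neg r → ∀ t u : F,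
    X hA s u * X hA r t = X hA r t * X hA s u * W hA (D.commWord F r s t u)

theorem commG_of_mem (hA : AddRel D F)
    (hD : D ∈ [chevG2, chevB2, chevD4, chevF4, chevE6, chevE7, chevE8]) : CommG hA := by
  intro r hr s hs hsr hsn t u
  apply Units.ext
  simp only [Units.val_mul, coe_X, coe_W]
  exact Cfsg.Agent.Lib.Chevalley.All.comm_all D hD r hr s hs hsr hsn t u

theorem comm_of_nil {hA : AddRel D F} (hc : CommG hA) {r s : ℕ} (hr : r < D.nroots) (hs : s < D.nroots)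
    (hsr : s ≠ r) (hsn : s ≠ D.neg r) (h : D.commTerms r s = []) (t u : F) :
    X hA s u * X hA r t = X hA r t * X hA s u := by
  have h1 := hc r hr s hs hsr hsn t u
  have h2 : D.commWord F r s t u = [] := by
    simp [ChevalleyDatum.commWord, h]
  rw [h2] at h1
  simpa [W] using h1

variable (hR : Sys D F η) (hT : Tbl D)
include hR hT

/-- Root elements of a positive root commute with a central one. -/
theorem comm_central {ρ : ℕ} (hρ : D.IsPosRoot ρ)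
    (hcen : ∀ s, D.IsPosRoot s → s ≠ ρ → D.commTerms ρ s = []) {s : ℕ} (hs : D.IsPosRoot s) (u t : F) :
    X hR.toAddRel s u * X hR.toAddRel ρ t = X hR.toAddRel ρ t * X hR.toAddRel s u := by
  by_cases hsr : s = ρ
  · subst hsr
    rw [X_mul, X_mul, add_comm]
  · have h1 := commPos hR ρ s hρ hs hsr t u
    have h2 : D.commWord F ρ s t u = [] := by
      simp [ChevalleyDatum.commWord, hcen s hs hsr]
    rw [h2] at h1
    simpa [W] using h1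

theorem U_comm_central {ρ : ℕ} (hρ : D.IsPosRoot ρ)
    (hcen : ∀ s, D.IsPosRoot s → s ≠ ρ → D.commTerms ρ s = []) {u : GL D.Idx F}
    (hu : u ∈ D.posUnipotent F) (t : F) : u * X hR.toAddRel ρ t = X hR.toAddRel ρ t * u := by
  rw [posUnipotent_eq hR.toAddRel] at hu
  refine gen_induction hR.toAddRel
    (P := fun u => u * X hR.toAddRel ρ t = X hR.toAddRel ρ t * u) (by simp) ?_ ?_ hu
  · intro s hs a
    exact comm_central hR hT hρ hcen hs a t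
  · intro a b ha hb
    rw [mul_assoc, hb, ← mul_assoc, ha, mul_assoc]

/-- The orbit of a root element under `N`. -/
theorem conj_orbit {O : Set ℕ} (hOl : ∀ s ∈ O, s < D.nroots)
    (hO : ∀ q < D.rank, ∀ s ∈ O, D.reflectRoot q s ∈ O) {n : GL D.Idx F}
    (hn : n ∈ D.monomialSubgroup F) :
    ∀ s ∈ O, ∀ t : F, t ≠ 0 → ∃ s' ∈ O, ∃ t' : F, t' ≠ 0 ∧
      n * X hR.toAddRel s t * n⁻¹ = X hR.toAddRel s' t' := by
  have hNJN : ∀ x ∈ NJ hR Set.univ, ∀ y ∈ D.diagonalSubgroup F, x * y * x⁻¹ ∈ D.diagonalSubgroup F :=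
    fun x hx y hy => H_norm_N hR hT (by rw [monomial_eq hR hT]; exact Subgroup.mem_sup_right hx) hy
  rw [monomial_eq hR hT] at hn
  obtain ⟨k, hk, n₀, hn₀, rfl⟩ := (mem_sup_iff_of_norm hNJN).mp hn
  clear hn
  have h1 : ∀ s ∈ O, ∀ t : F, t ≠ 0 → ∃ s' ∈ O, ∃ t' : F, t' ≠ 0 ∧
      n₀ * X hR.toAddRel s t * n₀⁻¹ = X hR.toAddRel s' t' ∧
      ∃ s'' ∈ O, ∃ t'' : F, t'' ≠ 0 ∧ n₀⁻¹ * X hR.toAddRel s t * n₀⁻¹⁻¹ = X hR.toAddRel s'' t'' := by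
    rw [NJ] at hn₀
    induction hn₀ using Subgroup.closure_induction with
    | mem x hx =>
      obtain ⟨q, -, hl, rfl⟩ := hx
      intro s hs t ht
      have hsl := hOl s hs
      refine ⟨_, hO q hl s hs, _, mul_ne_zero (eta_ne hR hl hsl) ht, A_conj_X hR hl hsl t, _,
        hO q hl s hs, _, mul_ne_zero (eta_ne hR hl (hT.w_lt q hl s hsl)) ht, ?_⟩
      rw [inv_inv]
      exact A_inv_conj_X hR hT hl hsl t
    | one =>
      intro s hs t ht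
      exact ⟨s, hs, t, ht, by simp, s, hs, t, ht, by simp⟩
    | mul a b _ _ ha hb =>
      intro s hs t ht
      obtain ⟨s₁, hs₁, t₁, ht₁, e₁, -⟩ := hb s hs t ht
      obtain ⟨s₂, hs₂, t₂, ht₂, e₂, -⟩ := ha s₁ hs₁ t₁ ht₁
      obtain ⟨-, -, -, -, -, s₃, hs₃, t₃, ht₃, e₃⟩ := ha s hs t ht
      obtain ⟨-, -, -, -, -, s₄, hs₄, t₄, ht₄, e₄⟩ := hb s₃ hs₃ t₃ ht₃
      refine ⟨s₂, hs₂, t₂, ht₂, ?_, s₄, hs₄, t₄, ht₄, ?_⟩
      · rw [← e₂, ← e₁]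
        group
      · rw [← e₄, ← e₃]
        group
    | inv a _ ha =>
      intro s hs t ht
      obtain ⟨s₁, hs₁, t₁, ht₁, e₁, s₂, hs₂, t₂, ht₂, e₂⟩ := ha s hs t ht
      refine ⟨s₂, hs₂, t₂, ht₂, e₂, s₁, hs₁, t₁, ht₁, ?_⟩
      rw [inv_inv]
      exact e₁
  intro s hs t ht
  obtain ⟨s₁, hs₁, t₁, ht₁, e₁, -⟩ := h1 s hs t ht
  rw [diagonal_eq hR hT] at hk
  obtain ⟨a, ha, rfl⟩ := hk
  refine ⟨s₁, hs₁, chi D a s₁ * t₁, mul_ne_zero (chi_ne_zero ha _) ht₁, ?_⟩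
  rw [← hP_conj hR ha (hOl s₁ hs₁) t₁, ← e₁]
  group

/-- The conjugates in `G` of the central root element. -/
theorem exists_form {O : Set ℕ} (hOl : ∀ s ∈ O, s < D.nroots)
    (hO : ∀ q < D.rank, ∀ s ∈ O, D.reflectRoot q s ∈ O) {ρ : ℕ} (hρO : ρ ∈ O) (hρ : D.IsPosRoot ρ)
    (hcen : ∀ s, D.IsPosRoot s → s ≠ ρ → D.commTerms ρ s = []) {g : GL D.Idx F} (hg : g ∈ D.group F) :
    ∃ v ∈ D.posUnipotent F, ∃ s ∈ O, ∃ d : F, d ≠ 0 ∧
      g * X hR.toAddRel ρ 1 * g⁻¹ = v * X hR.toAddRel s d * v⁻¹ := by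
  obtain ⟨b, hb, n, hn, u, hu, e⟩ := normal_form_exists hR hT (Subgroup.inv_mem _ hg)
  have huU := Un_le_U hR hT _ hu
  obtain ⟨u₁, hu₁, k, hk, e₁⟩ := (mem_B_iff hR hT).mp (Subgroup.inv_mem _ hb)
  rw [diagonal_eq hR hT] at hk
  obtain ⟨a, ha, rfl⟩ := hk
  have e₂ : b⁻¹ * X hR.toAddRel ρ 1 * b = X hR.toAddRel ρ (chi D a ρ * 1) := by
    have h6 : b = (u₁ * hP hR a)⁻¹ := by
      rw [← e₁, inv_inv]
    calc b⁻¹ * X hR.toAddRel ρ 1 * b = (u₁ * hP hR a) * X hR.toAddRel ρ 1 * (u₁ * hP hR a)⁻¹ := by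
          rw [← h6, ← e₁]
      _ = u₁ * (hP hR a * X hR.toAddRel ρ 1 * (hP hR a)⁻¹) * u₁⁻¹ := by group
      _ = u₁ * X hR.toAddRel ρ (chi D a ρ * 1) * u₁⁻¹ := by rw [hP_conj hR ha hρ.1 1]
      _ = _ := by
        rw [U_comm_central hR hT hρ hcen hu₁]
        group
  have hκ : chi D a ρ * 1 ≠ 0 := mul_ne_zero (chi_ne_zero ha _) one_ne_zero
  obtain ⟨s, hs, d, hd, e₃⟩ := conj_orbit hR hT hOl hO (Subgroup.inv_mem _ hn) ρ hρO _ hκ
  refine ⟨u⁻¹, Subgroup.inv_mem _ huU, s, hs, d, hd, ?_⟩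
  rw [← e₃, ← e₂]
  have e₄ : g = (b * n * u)⁻¹ := by
    rw [← e, inv_inv]
  rw [e₄]
  group

end Cfsg.Agent.Lib.SubMax.Orbit
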