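import Cfsg.Agent.Lib.SubMax.PartA

/-!
# Assembly helpers for the overgroups of a subfield group
-/

set_option autoImplicit false
set_option linter.unusedSectionVars false
set_option linter.style.haveILetI false

namespace Cfsg.Agent.Lib.SubMax.PartB

open Cfsg.Lie Cfsg.Agent.Lib.ChevBN.Elem Cfsg.Agent.Lib.ChevBN.Entries Cfsg.Agent.Lib.ChevBN.Table
open Cfsg.Agent.Lib.ChevBN.Collect Cfsg.Agent.Lib.ChevBN.Rel Cfsg.Agent.Lib.ChevBN.Torus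
open Cfsg.Agent.Lib.ChevBN.Monomial Cfsg.Agent.Lib.ChevBN.Core Cfsg.Agent.Lib.ChevBN.Pair
open Cfsg.Agent.Lib.ChevBN.Stmts Cfsg.Agent.Lib.ChevBN.Levi Cfsg.Agent.Lib.ChevBN.Fix
open Cfsg.Agent.Lib.BorelTits.Tbl3
open Cfsg.Agent.Lib.SubMax.Fx Cfsg.Agent.Lib.SubMax.Orbit Cfsg.Agent.Lib.SubMax.TopElt
open Cfsg.Agent.Lib.SubMax.Gen Cfsg.Agent.Lib.SubMax.Fin Cfsg.Agent.Lib.SubMax.Tab
open Cfsg.Agent.Lib.SubMax.Gen2 Cfsg.Agent.Lib.SubMax.TopB Cfsg.Agent.Lib.SubMax.PartA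

variable {D : ChevalleyDatum} {F : Type*} [Field F] {η : ℕ → ℕ → ℤ}

/-- Products in a root group, from a triple of linked roots. -/
theorem mul_of_trip' (p : ℕ) [hp : Fact p.Prime] [CharP F p] (hR : Sys D F η) (hT : Tbl D)
    (σ : F →+* F) {H : Subgroup (GL D.Idx F)} (hL : fixL hR σ ≤ H) (hc : CommG hR.toAddRel)
    {e a b q : ℕ} {N : ℤ} {rest : List (ℕ × ℤ × ℕ × ℕ)} (he : e < D.nroots)
    (hLa : Link D e a) (hLb : Link D e b) (hLq : Link D e q) (ha : a < D.nroots) (hb : b < D.nroots)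
    (hba : b ≠ a) (hbn : b ≠ D.neg a)
    (h : D.commTerms a b = (q, N, 1, 1) :: rest) (hN : (N : F) ≠ 0)
    (hrest : ∀ c ∈ rest, (c.2.1 : F) = 0) :
    ∀ x ∈ RS hR.toAddRel H e, ∀ y ∈ RS hR.toAddRel H e, x * y ∈ RS hR.toAddRel H e := by
  intro x hx y hy
  rw [RS_link' hR hT σ hL he hLq]
  rw [RS_link' hR hT σ hL he hLa] at hx
  rw [RS_link' hR hT σ hL he hLb] at hy
  exact mul_closed' hR hT σ hL p hc ha hb hba hbn h hN hrest hx hy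

variable (hR : Sys D F η) (hT : Tbl D) (hT3 : Tbl3 D)
variable {H : Subgroup (GL D.Idx F)} (hcg : CommG hR.toAddRel)
include hR hT hT3 hcg

/-- The facts on the top of `U`: one root. -/
theorem topB_one {ρ : ℕ} {v : ℕ → ℤ} (hTop : TopTab D F [ρ] v) {r q : ℕ} {N : ℤ} (hr : r < D.nroots)
    (hρr : ρ ≠ r) (hρn : ρ ≠ D.neg r) (hct : D.commTerms r ρ = [(q, N, 1, 1)]) (hN : (N : F) ≠ 0)
    (hq : D.IsPosRoot q) :
    ∀ σ : F →+* F, fixL hR σ ≤ H → (∀ s < D.nroots, ∀ t : F, X hR.toAddRel s t ∈ H ↔ σ t = t) →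
      (∀ τ : ℕ → F, W hR.toAddRel (([ρ] : List ℕ).map fun r => (r, τ r)) ∈ H →
        W hR.toAddRel (([ρ] : List ℕ).map fun r => (r, τ r)) ∈ Fx D σ) ∧
      ((∀ u ∈ H, u ∈ D.posUnipotent F → u ∈ Fx D σ) → ∀ τ : ℕ → F,
        (∀ s < D.nroots, W hR.toAddRel (([ρ] : List ℕ).map fun r => (r, τ r)) * X hR.toAddRel s 1 *
        (W hR.toAddRel (([ρ] : List ℕ).map fun r => (r, τ r)))⁻¹ ∈ H) →
          W hR.toAddRel (([ρ] : List ℕ).map fun r => (r, τ r)) ∈ Fx D σ) := by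
  intro σ hL hRS
  have hρ := (hTop.pos ρ (by simp)).1
  refine ⟨?_, ?_⟩
  · intro τ h
    simp only [List.map_cons, List.map_nil, W_cons, W_nil, mul_one] at h ⊢
    exact X_mem_Fx hR hT σ hρ ((hRS ρ hρ _).mp h)
  · intro _ τ h
    exact hvC_one hR hT hT3 σ hL hRS hcg hTop rfl hr hρr hρn hct hN hq τ h

/-- The facts on the top of `U`: two roots. -/
theorem topB_two {a ρ : ℕ} {v : ℕ → ℤ} (hTop : TopTab D F [a, ρ] v) {r' q' : ℕ} {N' : ℤ}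
    {rest : List (ℕ × ℤ × ℕ × ℕ)}
    (hr' : r' < D.nroots) (har : a ≠ r') (han : a ≠ D.neg r') (hρr' : ρ ≠ r') (hρn' : ρ ≠ D.neg r')
    (hct' : D.commTerms r' a = (q', N', 1, 1) :: rest) (hN' : (N' : F) ≠ 0)
    (hrest : ∀ c ∈ rest, (c.2.1 : F) = 0) (hct2 : D.commTerms r' ρ = []) (hq' : D.IsPosRoot q')
    {r q : ℕ} {N : ℤ} (hr : r < D.nroots) (hρr : ρ ≠ r)
    (hρn : ρ ≠ D.neg r) (hct : D.commTerms r ρ = [(q, N, 1, 1)]) (hN : (N : F) ≠ 0) (hq : D.IsPosRoot q) :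
    ∀ σ : F →+* F, fixL hR σ ≤ H → (∀ s < D.nroots, ∀ t : F, X hR.toAddRel s t ∈ H ↔ σ t = t) →
      (∀ τ : ℕ → F, W hR.toAddRel (([a, ρ] : List ℕ).map fun r => (r, τ r)) ∈ H →
        W hR.toAddRel (([a, ρ] : List ℕ).map fun r => (r, τ r)) ∈ Fx D σ) ∧
      ((∀ u ∈ H, u ∈ D.posUnipotent F → u ∈ Fx D σ) → ∀ τ : ℕ → F,
        (∀ s < D.nroots, W hR.toAddRel (([a, ρ] : List ℕ).map fun r => (r, τ r)) * X hR.toAddRel s 1 *
        (W hR.toAddRel (([a, ρ] : List ℕ).map fun r => (r, τ r)))⁻¹ ∈ H) →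
          W hR.toAddRel (([a, ρ] : List ℕ).map fun r => (r, τ r)) ∈ Fx D σ) := by
  intro σ hL hRS
  have key : ∀ τ : ℕ → F,
        (∀ s < D.nroots, W hR.toAddRel (([a, ρ] : List ℕ).map fun r => (r, τ r)) * X hR.toAddRel s 1 *
        (W hR.toAddRel (([a, ρ] : List ℕ).map fun r => (r, τ r)))⁻¹ ∈ H) →
          W hR.toAddRel (([a, ρ] : List ℕ).map fun r => (r, τ r)) ∈ Fx D σ := fun τ h =>
    hvC_two hR hT hT3 σ hL hRS hcg hTop rfl hr' har han hρr' hρn' hct' hN' hrest hct2 hq' hr hρr hρn hct hN hq τ h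
  refine ⟨?_, fun _ => key⟩
  intro τ h
  apply key
  intro s hs
  exact H.mul_mem (H.mul_mem h (hL (X_mem_fixL hR σ hs (map_one σ)))) (H.inv_mem h)

end Cfsg.Agent.Lib.SubMax.PartB
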