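import Cfsg.Agent.Lib.SubMax.DataB2
import Cfsg.Agent.Lib.SubMax.PartB

/-!
# Overgroups of a subfield group, type B2
-/

set_option autoImplicit false
set_option linter.unusedSectionVars false
set_option linter.unusedVariables false
set_option linter.style.haveILetI false
set_option maxRecDepth 100000

namespace Cfsg.Agent.Lib.SubMax.OverB2

open Cfsg.Lie Cfsg.Agent.Lib.ChevBN.Elem Cfsg.Agent.Lib.ChevBN.Entries Cfsg.Agent.Lib.ChevBN.Table
open Cfsg.Agent.Lib.ChevBN.Collect Cfsg.Agent.Lib.ChevBN.Rel Cfsg.Agent.Lib.ChevBN.Torus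
open Cfsg.Agent.Lib.ChevBN.Monomial Cfsg.Agent.Lib.ChevBN.Core Cfsg.Agent.Lib.ChevBN.Pair
open Cfsg.Agent.Lib.ChevBN.Stmts Cfsg.Agent.Lib.ChevBN.Levi Cfsg.Agent.Lib.ChevBN.Fix
open Cfsg.Agent.Lib.ChevBN.Fast Cfsg.Agent.Lib.ChevBN.FastData
open Cfsg.Agent.Lib.BorelTits.Tbl3 Cfsg.Agent.Lib.BorelTits.Data
open Cfsg.Agent.Lib.SubMax.Fx Cfsg.Agent.Lib.SubMax.Orbit Cfsg.Agent.Lib.SubMax.TopElt
open Cfsg.Agent.Lib.SubMax.Gen Cfsg.Agent.Lib.SubMax.Fin Cfsg.Agent.Lib.SubMax.Tab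
open Cfsg.Agent.Lib.SubMax.Gen2 Cfsg.Agent.Lib.SubMax.PartA Cfsg.Agent.Lib.SubMax.PartB

variable {F : Type*} [Field F] {η : ℕ → ℕ → ℤ}

/-- A finite additive group with the key property is closed under products. -/
theorem closed_of_key [CharP F 2] (T : AddSubgroup F) (hfin : Finite ↥T) (h1 : (1 : F) ∈ T)
    (hP : ∀ t ∈ T, ∀ u ∈ T, (t + t ^ 2) * u ∈ T) : ∀ x ∈ T, ∀ y ∈ T, x * y ∈ T := by
  have h0 : (2 : F) = 0 := CharTwo.two_eq_zero
  let R : AddSubgroup F :=
    { carrier := {y | ∀ x ∈ T, y * x ∈ T}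
      zero_mem' := by
        intro x _
        simpa using T.zero_mem
      add_mem' := by
        intro a b ha hb x hx
        rw [add_mul]
        exact T.add_mem (ha x hx) (hb x hx)
      neg_mem' := by
        intro a ha x hx
        rw [neg_mul]
        exact T.neg_mem (ha x hx) }
  have hRmem : ∀ y, y ∈ R ↔ ∀ x ∈ T, y * x ∈ T := fun y => Iff.rfl
  have h1R : (1 : F) ∈ R := by
    intro x hx
    simpa using hx
  have hRT : ∀ y ∈ R, y ∈ T := by
    intro y hy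
    simpa using hy 1 h1
  have hRmul : ∀ x ∈ R, ∀ y ∈ R, x * y ∈ R := by
    intro a ha b hb x hx
    rw [mul_assoc]
    exact ha _ (hb x hx)
  have hRfin : Finite ↥R := Finite.of_injective (fun y : ↥R => (⟨y.1, hRT y.1 y.2⟩ : ↥T)) (by
    intro a b e
    apply Subtype.ext
    have h := congrArg (fun z : ↥T => (z : F)) e
    exact h)
  have hc : ∀ t ∈ T, t + t ^ 2 ∈ R := fun t ht x hx => hP t ht x hx
  intro A hA y hy
  by_contra hcon
  have hAR : A ∉ R := fun h => hcon (h y hy)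
  set c := A + A ^ 2 with hcdef
  have hcR : c ∈ R := hc A hA
  have hsq : A ^ 2 = A + c := by
    rw [hcdef]
    linear_combination (-A) * h0
  -- the elements of `R` are `0` and `1`
  have hr01 : ∀ r ∈ R, r + r ^ 2 = 0 := by
    intro r hr
    by_contra hne
    have h2 : r * A ∈ T := hr A hA
    have h3 : r * A + (r * A) ^ 2 ∈ R := hc _ h2
    have e : (r + r ^ 2) * A = (r * A + (r * A) ^ 2) - r ^ 2 * c := by
      rw [mul_pow, hsq]
      ring
    have h4 : (r + r ^ 2) * A ∈ R := by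
      rw [e]
      refine R.sub_mem h3 (hRmul _ ?_ _ hcR)
      rw [pow_two]
      exact hRmul r hr r hr
    have h5 : r + r ^ 2 ∈ R := R.add_mem hr (by rw [pow_two]; exact hRmul r hr r hr)
    have h6 : (r + r ^ 2)⁻¹ ∈ R := inv_mem_of_closed R hRfin h1R hRmul h5
    have h7 := hRmul _ h6 _ h4
    rw [← mul_assoc, inv_mul_cancel₀ hne, one_mul] at h7
    exact hAR h7
  have hcases : ∀ r ∈ R, r = 0 ∨ r = 1 := by
    intro r hr
    have h2 := hr01 r hr
    have h3 : r * (r + 1) = 0 := by linear_combination h2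
    rcases mul_eq_zero.mp h3 with h4 | h4
    · exact Or.inl h4
    · right
      linear_combination h4 - h0
  have hA0 : A ≠ 0 := by
    rintro rfl
    exact hAR R.zero_mem
  have hA1 : A ≠ 1 := by
    rintro rfl
    exact hAR h1R
  have hc1 : c = 1 := by
    rcases hcases c hcR with h2 | h2
    · exfalso
      have h3 : A * (A + 1) = 0 := by
        rw [hcdef] at h2
        linear_combination h2
      rcases mul_eq_zero.mp h3 with h4 | h4
      · exact hA0 h4
      · apply hA1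
        linear_combination h4 - h0
    · exact h2
  apply hAR
  intro x hx
  have hxc : x + x ^ 2 ∈ R := hc x hx
  rcases hcases _ hxc with h2 | h2
  · -- `x` is `0` or `1`
    have h3 : x * (x + 1) = 0 := by linear_combination h2
    rcases mul_eq_zero.mp h3 with h4 | h4
    · rw [h4, mul_zero]
      exact T.zero_mem
    · have h5 : x = 1 := by linear_combination h4 - h0
      rw [h5, mul_one]
      exact hA
  · -- `x` is `A` or `A + 1`
    have h3 : (x + A) + (x + A) ^ 2 ∈ R := hc _ (T.add_mem hx hA)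
    have e : (x + A) + (x + A) ^ 2 = 0 := by
      have h4 : c = 1 := hc1
      rw [hcdef] at h4
      linear_combination h2 + h4 + (x * A + 1) * h0
    have h4 : (x + A) * (x + A + 1) = 0 := by linear_combination e
    rcases mul_eq_zero.mp h4 with h5 | h5
    · have h6 : x = A := by linear_combination h5 - A * h0
      rw [h6]
      have e2 : A * A = A + 1 := by
        rw [← pow_two, hsq, hc1]
      rw [e2]
      exact T.add_mem hA h1
    · have h6 : x = A + 1 := by linear_combination h5 - (A + 1) * h0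
      rw [h6]
      have e2 : A * (A + 1) = 1 := by
        have h7 : A ^ 2 = A + 1 := by rw [hsq, hc1]
        linear_combination h7 + A * h0
      rw [e2]
      exact h1

section Group

variable (hR : Sys chevB2 F η) (hT : Tbl chevB2) (hT3 : Tbl3 chevB2) (σ : F →+* F)
variable {H : Subgroup (GL chevB2.Idx F)} (hMH : fixL hR σ ≤ H) (hHG : H ≤ chevB2.group F)
variable (hc : CommG hR.toAddRel)
include hR hT hMH hc

theorem t45 : chevB2.commTerms 4 5 = [(6, 1, 1, 1), (7, -1, 1, 2)] := by decide +kernel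
theorem t36 : chevB2.commTerms 3 6 = [(5, 1, 1, 1), (7, 1, 1, 2)] := by decide +kernel
theorem t37 : chevB2.commTerms 3 7 = [] := by decide +kernel
theorem t56 : chevB2.commTerms 5 6 = [(7, 2, 1, 1)] := by decide +kernel
theorem hcen : ∀ s, chevB2.IsPosRoot s → s ≠ 7 → chevB2.commTerms 7 s = [] := by
  intro s hs hne
  rw [← mem_posRoots] at hs
  have h1 : chevB2.posRoots = [4, 5, 6, 7] := by decide +kernel
  rw [h1] at hs
  simp only [List.mem_cons, List.not_mem_nil, or_false] at hs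
  rcases hs with rfl | rfl | rfl | rfl
  · decide +kernel
  · decide +kernel
  · decide +kernel
  · exact absurd rfl hne
theorem p4 : chevB2.IsPosRoot 4 := by decide +kernel
theorem p5 : chevB2.IsPosRoot 5 := by decide +kernel
theorem p6 : chevB2.IsPosRoot 6 := by decide +kernel
theorem p7 : chevB2.IsPosRoot 7 := by decide +kernel

omit hR hT hMH hc in
theorem eta_one [CharP F 2] (hR : Sys chevB2 F η) {q s : ℕ} (hq : q < chevB2.rank) (hs : s < chevB2.nroots) :
    ((η q s : ℤ) : F) = 1 := by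
  rcases hR.eta_sign q hq s hs with h | h
  · simp [h]
  · rw [h]
    push_cast
    rw [CharTwo.neg_eq]

/-- Reflecting a product of two root elements. -/
theorem conj_pair [CharP F 2] {q r s : ℕ} (hq : q < chevB2.rank) (hr : r < chevB2.nroots) (hs : s < chevB2.nroots)
    {a b : F} (h : X hR.toAddRel r a * X hR.toAddRel s b ∈ H) :
    X hR.toAddRel (chevB2.reflectRoot q r) a * X hR.toAddRel (chevB2.reflectRoot q s) b ∈ H := by
  have hA : A hR q ∈ H := hMH (A_mem_fixL hR hT σ hq)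
  have h1 : A hR q * (X hR.toAddRel r a * X hR.toAddRel s b) * (A hR q)⁻¹ ∈ H :=
    H.mul_mem (H.mul_mem hA h) (H.inv_mem hA)
  have h2 : A hR q * (X hR.toAddRel r a * X hR.toAddRel s b) * (A hR q)⁻¹ =
      (A hR q * X hR.toAddRel r a * (A hR q)⁻¹) * (A hR q * X hR.toAddRel s b * (A hR q)⁻¹) := by
    group
  rw [h2, A_conj_X hR hq hr, A_conj_X hR hq hs, eta_one hR hq hr, eta_one hR hq hs, one_mul, one_mul] at h1
  exact h1

/-- The word of `(4, 5)`. -/
theorem w45 [CharP F 2] (t u : F) :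
    W hR.toAddRel (chevB2.commWord F 4 5 t u) = X hR.toAddRel 6 (t * u) * X hR.toAddRel 7 (t * u ^ 2) := by
  rw [ChevalleyDatum.commWord, t45 hR hT σ hMH hc]
  simp only [List.map_cons, List.map_nil, W_cons, W_nil, mul_one, pow_one, Int.cast_one, Int.cast_neg, one_mul,
    CharTwo.neg_eq]

/-- The word of `(3, 6)`. -/
theorem w36 [CharP F 2] (t u : F) :
    W hR.toAddRel (chevB2.commWord F 3 6 t u) = X hR.toAddRel 5 (t * u) * X hR.toAddRel 7 (t * u ^ 2) := by
  rw [ChevalleyDatum.commWord, t36 hR hT σ hMH hc]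
  simp only [List.map_cons, List.map_nil, W_cons, W_nil, mul_one, pow_one, Int.cast_one, one_mul,
    CharTwo.neg_eq]

theorem n7 : (7 : ℕ) < chevB2.nroots := by decide +kernel
theorem n6 : (6 : ℕ) < chevB2.nroots := by decide +kernel
theorem n5 : (5 : ℕ) < chevB2.nroots := by decide +kernel
theorem n4 : (4 : ℕ) < chevB2.nroots := by decide +kernel
theorem n3 : (3 : ℕ) < chevB2.nroots := by decide +kernel

/-- `X 7` commutes with the positive root elements. -/
theorem comm7 (s : ℕ) (hs : chevB2.IsPosRoot s) (u t : F) :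
    X hR.toAddRel s u * X hR.toAddRel 7 t = X hR.toAddRel 7 t * X hR.toAddRel s u :=
  comm_central hR hT (p7 hR hT σ hMH hc) (hcen hR hT σ hMH hc) hs u t

/-- One direction of the commutator with `X 4`. -/
theorem pi_of [CharP F 2] {t u : F} (ht : X hR.toAddRel 4 t ∈ H) (hu : X hR.toAddRel 5 u ∈ H) :
    X hR.toAddRel 6 (t * u) * X hR.toAddRel 7 (t * u ^ 2) ∈ H := by
  have h1 := comm_mem_of' hR hT σ hMH hc (n4 hR hT σ hMH hc) (n5 hR hT σ hMH hc) (by decide) (by decide +kernel)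
    ht hu
  rwa [w45 hR hT σ hMH hc] at h1

/-- The element `x_5(A) x_7(A²)`. -/
theorem g2_of [CharP F 2] {a b : F} (h : X hR.toAddRel 6 a * X hR.toAddRel 7 b ∈ H) :
    X hR.toAddRel 5 a * X hR.toAddRel 7 (a ^ 2) ∈ H := by
  have n3' := n3 hR hT σ hMH hc
  have n6' := n6 hR hT σ hMH hc
  have n7' := n7 hR hT σ hMH hc
  have hx : X hR.toAddRel 3 (1 : F) ∈ H := RS_one' hR hT σ hMH n3'
  have h3 := hc 3 n3' 6 n6' (by decide) (by decide +kernel) (1 : F) a
  rw [w36 hR hT σ hMH hc, one_mul, one_mul] at h3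
  have h4 := comm_of_nil hc n3' n7' (by decide) (by decide +kernel) (t37 hR hT σ hMH hc) (1 : F) b
  have h5a := comm7 hR hT σ hMH hc 5 (p5 hR hT σ hMH hc) a b
  have h5b : X hR.toAddRel 7 (a ^ 2) * X hR.toAddRel 7 b = X hR.toAddRel 7 b * X hR.toAddRel 7 (a ^ 2) := by
    rw [X_mul, X_mul, add_comm]
  set y := X hR.toAddRel 5 a * X hR.toAddRel 7 (a ^ 2) with hy
  have h5 : y * X hR.toAddRel 7 b = X hR.toAddRel 7 b * y := by
    rw [hy, mul_assoc, h5b, ← mul_assoc, h5a, mul_assoc]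
  set e := X hR.toAddRel 6 a * X hR.toAddRel 7 b with he
  have h7 : e * X hR.toAddRel 3 1 = X hR.toAddRel 3 1 * e * y := by
    rw [he, mul_assoc, h4, ← mul_assoc, h3, mul_assoc, h5]
    simp only [mul_assoc]
  have h6 : y = e⁻¹ * (X hR.toAddRel 3 1)⁻¹ * e * X hR.toAddRel 3 1 := by
    calc y = e⁻¹ * (X hR.toAddRel 3 1)⁻¹ * (X hR.toAddRel 3 1 * e * y) := by group
      _ = e⁻¹ * (X hR.toAddRel 3 1)⁻¹ * (e * X hR.toAddRel 3 1) := by rw [h7]
      _ = _ := by group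
  rw [h6]
  exact H.mul_mem (H.mul_mem (H.mul_mem (H.inv_mem h) (H.inv_mem hx)) h) hx

theorem r15 : chevB2.reflectRoot 1 5 = 6 := by decide +kernel
theorem r17 : chevB2.reflectRoot 1 7 = 7 := by decide +kernel
theorem r06 : chevB2.reflectRoot 0 6 = 6 := by decide +kernel
theorem r07 : chevB2.reflectRoot 0 7 = 4 := by decide +kernel
theorem l1 : (1 : ℕ) < chevB2.rank := by decide +kernel
theorem l0 : (0 : ℕ) < chevB2.rank := by decide +kernel

/-- The element `x_6(A) x_7(A²)`. -/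
theorem pi_square [CharP F 2] {a b : F} (h : X hR.toAddRel 6 a * X hR.toAddRel 7 b ∈ H) :
    X hR.toAddRel 6 a * X hR.toAddRel 7 (a ^ 2) ∈ H := by
  have h1 := conj_pair hR hT σ hMH hc (l1 hR hT σ hMH hc) (n5 hR hT σ hMH hc) (n7 hR hT σ hMH hc)
    (g2_of hR hT σ hMH hc h)
  rwa [r15 hR hT σ hMH hc, r17 hR hT σ hMH hc] at h1

/-- The element `x_6(A³) x_7(A⁴)`. -/
theorem pi_cube [CharP F 2] {a b : F} (h : X hR.toAddRel 6 a * X hR.toAddRel 7 b ∈ H) :
    X hR.toAddRel 6 (a ^ 3) * X hR.toAddRel 7 (a ^ 4) ∈ H := by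
  have p4' := p4 hR hT σ hMH hc
  have p5' := p5 hR hT σ hMH hc
  have p6' := p6 hR hT σ hMH hc
  have n4' := n4 hR hT σ hMH hc
  have n5' := n5 hR hT σ hMH hc
  have n6' := n6 hR hT σ hMH hc
  have hg2 := g2_of hR hT σ hMH hc h
  have hg1 := conj_pair hR hT σ hMH hc (l0 hR hT σ hMH hc) (n6 hR hT σ hMH hc) (n7 hR hT σ hMH hc)
    (pi_square hR hT σ hMH hc h)
  rw [r06 hR hT σ hMH hc, r07 hR hT σ hMH hc] at hg1
  -- the commutator relation of `(4, 5)`
  have h45 := hc 4 n4' 5 n5' (by decide) (by decide +kernel) (a ^ 2) a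
  rw [w45 hR hT σ hMH hc] at h45
  -- `X 5` and `X 6` commute in characteristic two
  have h56 : X hR.toAddRel 6 a * X hR.toAddRel 5 a = X hR.toAddRel 5 a * X hR.toAddRel 6 a := by
    have h1 := hc 5 n5' 6 n6' (by decide) (by decide +kernel) a a
    rw [ChevalleyDatum.commWord, t56 hR hT σ hMH hc] at h1
    have h0 : (2 : F) = 0 := CharTwo.two_eq_zero
    simp only [List.map_cons, List.map_nil, W_cons, W_nil, mul_one, pow_one, Int.cast_ofNat, h0, zero_mul,
      X_zero] at h1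
    exact h1
  set c := X hR.toAddRel 7 (a ^ 2) with hcdef
  have c4 : X hR.toAddRel 4 (a ^ 2) * c = c * X hR.toAddRel 4 (a ^ 2) :=
    comm7 hR hT σ hMH hc 4 p4' _ _
  have c6 : X hR.toAddRel 6 a * c = c * X hR.toAddRel 6 a := comm7 hR hT σ hMH hc 6 p6' _ _
  have hy : (X hR.toAddRel 6 (a ^ 2 * a) * X hR.toAddRel 7 (a ^ 2 * a ^ 2)) * c =
      c * (X hR.toAddRel 6 (a ^ 2 * a) * X hR.toAddRel 7 (a ^ 2 * a ^ 2)) := by
    have c6' := comm7 hR hT σ hMH hc 6 p6' (a ^ 2 * a) (a ^ 2)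
    have c7 : X hR.toAddRel 7 (a ^ 2 * a ^ 2) * c = c * X hR.toAddRel 7 (a ^ 2 * a ^ 2) := by
      rw [hcdef, X_mul, X_mul, add_comm]
    rw [mul_assoc, c7, ← mul_assoc, c6', mul_assoc]
  set y := X hR.toAddRel 6 (a ^ 2 * a) * X hR.toAddRel 7 (a ^ 2 * a ^ 2) with hydef
  have hrel : (X hR.toAddRel 5 a * c) * (X hR.toAddRel 6 a * X hR.toAddRel 4 (a ^ 2)) =
      (X hR.toAddRel 6 a * X hR.toAddRel 4 (a ^ 2)) * (X hR.toAddRel 5 a * c) * y := by
    calc (X hR.toAddRel 5 a * c) * (X hR.toAddRel 6 a * X hR.toAddRel 4 (a ^ 2))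
        = X hR.toAddRel 5 a * (c * X hR.toAddRel 6 a) * X hR.toAddRel 4 (a ^ 2) := by group
      _ = X hR.toAddRel 5 a * (X hR.toAddRel 6 a * c) * X hR.toAddRel 4 (a ^ 2) := by rw [c6]
      _ = (X hR.toAddRel 5 a * X hR.toAddRel 6 a) * (c * X hR.toAddRel 4 (a ^ 2)) := by group
      _ = (X hR.toAddRel 6 a * X hR.toAddRel 5 a) * (X hR.toAddRel 4 (a ^ 2) * c) := by rw [h56, c4]
      _ = X hR.toAddRel 6 a * (X hR.toAddRel 5 a * X hR.toAddRel 4 (a ^ 2)) * c := by group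
      _ = X hR.toAddRel 6 a * (X hR.toAddRel 4 (a ^ 2) * X hR.toAddRel 5 a * y) * c := by rw [h45]
      _ = X hR.toAddRel 6 a * X hR.toAddRel 4 (a ^ 2) * X hR.toAddRel 5 a * (y * c) := by group
      _ = X hR.toAddRel 6 a * X hR.toAddRel 4 (a ^ 2) * X hR.toAddRel 5 a * (c * y) := by rw [hy]
      _ = _ := by group
  have hyH : y ∈ H := by
    have e : y = ((X hR.toAddRel 6 a * X hR.toAddRel 4 (a ^ 2)) * (X hR.toAddRel 5 a * c))⁻¹ *
        ((X hR.toAddRel 5 a * c) * (X hR.toAddRel 6 a * X hR.toAddRel 4 (a ^ 2))) := by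
      rw [hrel]
      group
    rw [e]
    exact H.mul_mem (H.inv_mem (H.mul_mem hg1 hg2)) (H.mul_mem hg2 hg1)
  rw [hydef] at hyH
  have e1 : a ^ 2 * a = a ^ 3 := by ring
  have e2 : a ^ 2 * a ^ 2 = a ^ 4 := by ring
  rwa [e1, e2] at hyH

/-- Two elements with the same first coordinate. -/
theorem pi_sub [CharP F 2] {a b b' : F} (h : X hR.toAddRel 6 a * X hR.toAddRel 7 b ∈ H)
    (h' : X hR.toAddRel 6 a * X hR.toAddRel 7 b' ∈ H) : b + b' ∈ RS hR.toAddRel H 7 := by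
  have h1 := H.mul_mem (H.inv_mem h) h'
  have hb : (X hR.toAddRel 7 b)⁻¹ = X hR.toAddRel 7 b := by rw [X_inv, CharTwo.neg_eq]
  have e : (X hR.toAddRel 6 a * X hR.toAddRel 7 b)⁻¹ * (X hR.toAddRel 6 a * X hR.toAddRel 7 b') =
      X hR.toAddRel 7 (b + b') := by
    calc (X hR.toAddRel 6 a * X hR.toAddRel 7 b)⁻¹ * (X hR.toAddRel 6 a * X hR.toAddRel 7 b')
        = (X hR.toAddRel 7 b)⁻¹ * X hR.toAddRel 7 b' := by group
      _ = X hR.toAddRel 7 b * X hR.toAddRel 7 b' := by rw [hb]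
      _ = _ := X_mul _ _ _ _
  rw [e] at h1
  exact h1

/-- The key consequence. -/
theorem pi_key [CharP F 2] {a b : F} (h : X hR.toAddRel 6 a * X hR.toAddRel 7 b ∈ H) :
    a ^ 4 + a ^ 6 ∈ RS hR.toAddRel H 7 := by
  have h1 := pi_cube hR hT σ hMH hc h
  have h2 := pi_square hR hT σ hMH hc h1
  have e : (a ^ 3) ^ 2 = a ^ 6 := by ring
  rw [e] at h2
  exact pi_sub hR hT σ hMH hc h1 h2


theorem t27 : chevB2.commTerms 2 7 = [(6, 1, 1, 1), (4, -1, 2, 1)] := by decide +kernel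
theorem n2 : (2 : ℕ) < chevB2.nroots := by decide +kernel

/-- The word of `(2, 7)`. -/
theorem w27 (u : F) :
    W hR.toAddRel (chevB2.commWord F 2 7 1 u) = X hR.toAddRel 6 (-u) * X hR.toAddRel 4 (-u) := by
  rw [ChevalleyDatum.commWord, t27 hR hT σ hMH hc]
  simp only [List.map_cons, List.map_nil, W_cons, W_nil, mul_one, pow_one, Int.cast_one, Int.cast_neg, one_mul]
  congr 2 <;> ring

/-- The conjugate of a root element by the central root element is rational. -/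
theorem fix_27 (hHU : ∀ u ∈ H, u ∈ chevB2.posUnipotent F → u ∈ Fx chevB2 σ) {B : F}
    (h : X hR.toAddRel 7 B * X hR.toAddRel 2 1 * (X hR.toAddRel 7 B)⁻¹ ∈ H) : σ B = B := by
  have n2' := n2 hR hT σ hMH hc
  have n7' := n7 hR hT σ hMH hc
  have h3 := hc 2 n2' 7 n7' (by decide) (by decide +kernel) (1 : F) B
  rw [w27 hR hT σ hMH hc] at h3
  have c1 := comm7 hR hT σ hMH hc 6 (p6 hR hT σ hMH hc) (-B) B
  have c2 := comm7 hR hT σ hMH hc 4 (p4 hR hT σ hMH hc) (-B) B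
  set y := X hR.toAddRel 6 (-B) * X hR.toAddRel 4 (-B) with hy
  have hyc : X hR.toAddRel 7 B * y = y * X hR.toAddRel 7 B := by
    rw [hy, ← mul_assoc, ← c1, mul_assoc, ← c2, mul_assoc]
  have e : X hR.toAddRel 7 B * X hR.toAddRel 2 1 * (X hR.toAddRel 7 B)⁻¹ = X hR.toAddRel 2 1 * y := by
    rw [h3, mul_assoc (X hR.toAddRel 2 1), hyc]
    group
  rw [e] at h
  have hx : X hR.toAddRel 2 (1 : F) ∈ H := hMH (X_mem_fixL hR σ n2' (map_one σ))
  have hyH : y ∈ H := (H.mul_mem_cancel_left hx).mp h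
  have hyU : y ∈ chevB2.posUnipotent F :=
    Subgroup.mul_mem _ (X_mem_U hR hT (p6 hR hT σ hMH hc) _) (X_mem_U hR hT (p4 hR hT σ hMH hc) _)
  have hfix : mapG chevB2 σ y = y := (hHU y hyH hyU).2
  rw [hy, map_mul, mapG_X σ hR.toAddRel hR.toAddRel, mapG_X σ hR.toAddRel hR.toAddRel] at hfix
  set a := σ (-B) with ha
  have e2 : X hR.toAddRel 4 (-B + -a) = X hR.toAddRel 6 (a + B) := by
    have h1 : (X hR.toAddRel 6 (-B))⁻¹ * (X hR.toAddRel 6 a * X hR.toAddRel 4 a) * (X hR.toAddRel 4 a)⁻¹ =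
        (X hR.toAddRel 6 (-B))⁻¹ * (X hR.toAddRel 6 (-B) * X hR.toAddRel 4 (-B)) * (X hR.toAddRel 4 a)⁻¹ := by
      rw [hfix]
    have h2 : (X hR.toAddRel 6 (-B))⁻¹ * (X hR.toAddRel 6 a * X hR.toAddRel 4 a) * (X hR.toAddRel 4 a)⁻¹ =
        X hR.toAddRel 6 (a + B) := by
      rw [X_inv]
      calc X hR.toAddRel 6 (- -B) * (X hR.toAddRel 6 a * X hR.toAddRel 4 a) * (X hR.toAddRel 4 a)⁻¹
          = X hR.toAddRel 6 (- -B) * X hR.toAddRel 6 a := by group
        _ = _ := by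
          rw [X_mul]
          congr 1
          ring
    have h3 : (X hR.toAddRel 6 (-B))⁻¹ * (X hR.toAddRel 6 (-B) * X hR.toAddRel 4 (-B)) * (X hR.toAddRel 4 a)⁻¹ =
        X hR.toAddRel 4 (-B + -a) := by
      rw [X_inv (hA := hR.toAddRel) (r := 4) (a := a)]
      calc (X hR.toAddRel 6 (-B))⁻¹ * (X hR.toAddRel 6 (-B) * X hR.toAddRel 4 (-B)) * X hR.toAddRel 4 (-a)
          = X hR.toAddRel 4 (-B) * X hR.toAddRel 4 (-a) := by group
        _ = _ := X_mul _ _ _ _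
    rw [← h3, ← h1, h2]
  have h4 : X hR.toAddRel 4 (-B + -a) ∈ gen hR.toAddRel {s | chevB2.IsPosRoot s ∧ 4 < s} := by
    rw [e2]
    exact X_mem_gen _ (show (6 : ℕ) ∈ {s | chevB2.IsPosRoot s ∧ 4 < s} from ⟨p6 hR hT σ hMH hc, by decide⟩) _
  have h5 := eq_zero_of_X_mem hT (p4 hR hT σ hMH hc) h4
  have h6 : σ B = B := by
    have h7 : a = -B := by linear_combination -h5
    rw [ha, map_neg] at h7
    exact neg_injective h7
  exact h6

/-- The first coordinate, in characteristic two. -/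
theorem fix_36 [CharP F 2] (hHU : ∀ u ∈ H, u ∈ chevB2.posUnipotent F → u ∈ Fx chevB2 σ) {A B : F}
    (h : (X hR.toAddRel 6 A * X hR.toAddRel 7 B) * X hR.toAddRel 3 1 * (X hR.toAddRel 6 A * X hR.toAddRel 7 B)⁻¹ ∈ H) :
    σ A = A := by
  have n3' := n3 hR hT σ hMH hc
  have n6' := n6 hR hT σ hMH hc
  have n7' := n7 hR hT σ hMH hc
  have n5' := n5 hR hT σ hMH hc
  have hx : X hR.toAddRel 3 (1 : F) ∈ H := RS_one' hR hT σ hMH n3'
  have h3 := hc 3 n3' 6 n6' (by decide) (by decide +kernel) (1 : F) A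
  rw [w36 hR hT σ hMH hc, one_mul, one_mul] at h3
  have h4 := comm_of_nil hc n3' n7' (by decide) (by decide +kernel) (t37 hR hT σ hMH hc) (1 : F) B
  have h5a := comm7 hR hT σ hMH hc 5 (p5 hR hT σ hMH hc) A B
  have h5b : X hR.toAddRel 7 (A ^ 2) * X hR.toAddRel 7 B = X hR.toAddRel 7 B * X hR.toAddRel 7 (A ^ 2) := by
    rw [X_mul, X_mul, add_comm]
  have h56 : X hR.toAddRel 6 A * X hR.toAddRel 5 A = X hR.toAddRel 5 A * X hR.toAddRel 6 A := by
    have h1 := hc 5 n5' 6 n6' (by decide) (by decide +kernel) A A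
    rw [ChevalleyDatum.commWord, t56 hR hT σ hMH hc] at h1
    have h0 : (2 : F) = 0 := CharTwo.two_eq_zero
    simp only [List.map_cons, List.map_nil, W_cons, W_nil, mul_one, pow_one, Int.cast_ofNat, h0, zero_mul,
      X_zero] at h1
    exact h1
  have h67 := comm7 hR hT σ hMH hc 6 (p6 hR hT σ hMH hc) A (A ^ 2)
  set y := X hR.toAddRel 5 A * X hR.toAddRel 7 (A ^ 2) with hy
  have hyB : y * X hR.toAddRel 7 B = X hR.toAddRel 7 B * y := by
    rw [hy, mul_assoc, h5b, ← mul_assoc, h5a, mul_assoc]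
  have hyA : X hR.toAddRel 6 A * y = y * X hR.toAddRel 6 A := by
    rw [hy, ← mul_assoc, h56, mul_assoc, h67, mul_assoc]
  set e := X hR.toAddRel 6 A * X hR.toAddRel 7 B with he
  have h7 : e * X hR.toAddRel 3 1 = X hR.toAddRel 3 1 * e * y := by
    rw [he, mul_assoc, h4, ← mul_assoc, h3, mul_assoc, hyB]
    simp only [mul_assoc]
  have hye : e * y = y * e := by
    rw [he, mul_assoc, ← hyB, ← mul_assoc, hyA, mul_assoc]
  have e2 : e * X hR.toAddRel 3 1 * e⁻¹ = X hR.toAddRel 3 1 * y := by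
    rw [h7, mul_assoc (X hR.toAddRel 3 1), hye]
    group
  rw [e2] at h
  have hyH : y ∈ H := (H.mul_mem_cancel_left hx).mp h
  have hyU : y ∈ chevB2.posUnipotent F :=
    Subgroup.mul_mem _ (X_mem_U hR hT (p5 hR hT σ hMH hc) _) (X_mem_U hR hT (p7 hR hT σ hMH hc) _)
  have hfix : mapG chevB2 σ y = y := (hHU y hyH hyU).2
  rw [hy, map_mul, mapG_X σ hR.toAddRel hR.toAddRel, mapG_X σ hR.toAddRel hR.toAddRel] at hfix
  set a := σ A with ha
  set b := σ (A ^ 2) with hb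
  have e3 : X hR.toAddRel 5 (a + -A) = X hR.toAddRel 7 (A ^ 2 + -b) := by
    have h1 : (X hR.toAddRel 5 A)⁻¹ * (X hR.toAddRel 5 a * X hR.toAddRel 7 b) * (X hR.toAddRel 7 b)⁻¹ =
        (X hR.toAddRel 5 A)⁻¹ * (X hR.toAddRel 5 A * X hR.toAddRel 7 (A ^ 2)) * (X hR.toAddRel 7 b)⁻¹ := by
      rw [hfix]
    have h2 : (X hR.toAddRel 5 A)⁻¹ * (X hR.toAddRel 5 a * X hR.toAddRel 7 b) * (X hR.toAddRel 7 b)⁻¹ =
        X hR.toAddRel 5 (a + -A) := by
      rw [X_inv]
      calc X hR.toAddRel 5 (-A) * (X hR.toAddRel 5 a * X hR.toAddRel 7 b) * (X hR.toAddRel 7 b)⁻¹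
          = X hR.toAddRel 5 (-A) * X hR.toAddRel 5 a := by group
        _ = _ := by
          rw [X_mul]
          congr 1
          ring
    have h3 : (X hR.toAddRel 5 A)⁻¹ * (X hR.toAddRel 5 A * X hR.toAddRel 7 (A ^ 2)) * (X hR.toAddRel 7 b)⁻¹ =
        X hR.toAddRel 7 (A ^ 2 + -b) := by
      rw [X_inv (hA := hR.toAddRel) (r := 7) (a := b)]
      calc (X hR.toAddRel 5 A)⁻¹ * (X hR.toAddRel 5 A * X hR.toAddRel 7 (A ^ 2)) * X hR.toAddRel 7 (-b)
          = X hR.toAddRel 7 (A ^ 2) * X hR.toAddRel 7 (-b) := by group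
        _ = _ := X_mul _ _ _ _
    rw [← h2, h1, h3]
  have h4' : X hR.toAddRel 5 (a + -A) ∈ gen hR.toAddRel {s | chevB2.IsPosRoot s ∧ 5 < s} := by
    rw [e3]
    exact X_mem_gen _ (show (7 : ℕ) ∈ {s | chevB2.IsPosRoot s ∧ 5 < s} from ⟨p7 hR hT σ hMH hc, by decide⟩) _
  have h5 := eq_zero_of_X_mem hT (p5 hR hT σ hMH hc) h4'
  linear_combination h5

theorem hS56' : RS hR.toAddRel H 6 = RS hR.toAddRel H 5 := by
  have h1 := RS_reflect_eq' hR hT σ hMH (l1 hR hT σ hMH hc) (n5 hR hT σ hMH hc)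
  rwa [r15 hR hT σ hMH hc] at h1

theorem hL47' : RS hR.toAddRel H 4 = RS hR.toAddRel H 7 := by
  have h1 := RS_reflect_eq' hR hT σ hMH (l0 hR hT σ hMH hc) (n7 hR hT σ hMH hc)
  rwa [r07 hR hT σ hMH hc] at h1

theorem hLS' : RS hR.toAddRel H 7 ≤ RS hR.toAddRel H 6 := by
  intro t ht
  have h1 : X hR.toAddRel 4 t ∈ H := by
    rw [← mem_RS, hL47' hR hT σ hMH hc]
    exact ht
  have h2 : X hR.toAddRel 5 (1 : F) ∈ H := RS_one' hR hT σ hMH (n5 hR hT σ hMH hc)
  have h3 := comm_mem_of' hR hT σ hMH hc (n4 hR hT σ hMH hc) (n5 hR hT σ hMH hc) (by decide) (by decide +kernel) h1 h2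
  rw [ChevalleyDatum.commWord, t45 hR hT σ hMH hc] at h3
  simp only [List.map_cons, List.map_nil, W_cons, W_nil, mul_one, pow_one, one_pow, Int.cast_one, Int.cast_neg,
    one_mul, neg_mul, neg_neg] at h3
  have h4 : X hR.toAddRel 6 (-t) ∈ H := (H.mul_mem_cancel_right ht).mp h3
  exact neg_mem_iff.mp h4

/-- Odd characteristic: all the parameters agree and form a ring. -/
theorem odd_facts (p : ℕ) [hp : Fact p.Prime] [CharP F p] (hp2 : p ≠ 2) :
    RS hR.toAddRel H 4 = RS hR.toAddRel H 5 ∧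
      ∀ x ∈ RS hR.toAddRel H 4, ∀ y ∈ RS hR.toAddRel H 4, x * y ∈ RS hR.toAddRel H 4 := by
  have n5' := n5 hR hT σ hMH hc
  have n6' := n6 hR hT σ hMH hc
  have hS56 := hS56' hR hT σ hMH hc
  have hL47 := hL47' hR hT σ hMH hc
  have hLS := hLS' hR hT σ hMH hc
  have hSS : ∀ x ∈ RS hR.toAddRel H 5, ∀ y ∈ RS hR.toAddRel H 6, x * y ∈ RS hR.toAddRel H 7 := by
    intro x hx y hy
    exact mul_closed' hR hT σ hMH p hc n5' n6' (by decide) (by decide +kernel) (t56 hR hT σ hMH hc)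
      (good12 p hp2 2 (by decide)) (by simp) hx hy
  constructor
  · apply le_antisymm
    · rw [hL47, ← hS56]
      exact hLS
    · intro x hx
      have h1 := hSS x hx 1 (RS_one' hR hT σ hMH n6')
      rw [mul_one] at h1
      rw [hL47]
      exact h1
  · intro x hx y hy
    rw [hL47] at hx hy ⊢
    have h1 := hLS hx
    rw [hS56] at h1
    exact hSS x h1 y (hLS hy)

/-- Characteristic two: all the parameters agree and form a ring. -/
theorem even_facts [CharP F 2] [Finite ↥H] :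
    RS hR.toAddRel H 4 = RS hR.toAddRel H 5 ∧
      ∀ x ∈ RS hR.toAddRel H 4, ∀ y ∈ RS hR.toAddRel H 4, x * y ∈ RS hR.toAddRel H 4 := by
  have n4' := n4 hR hT σ hMH hc
  have n5' := n5 hR hT σ hMH hc
  have n6' := n6 hR hT σ hMH hc
  have n7' := n7 hR hT σ hMH hc
  have hS56 := hS56' hR hT σ hMH hc
  have hL47 := hL47' hR hT σ hMH hc
  have hLS := hLS' hR hT σ hMH hc
  have hSq : ∀ u ∈ RS hR.toAddRel H 6, u ^ 2 ∈ RS hR.toAddRel H 7 := by
    intro u hu
    have h1 : X hR.toAddRel 4 (1 : F) ∈ H := RS_one' hR hT σ hMH n4'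
    have h2 : X hR.toAddRel 5 u ∈ H := by
      rw [← mem_RS, ← hS56]
      exact hu
    have h3 := pi_of hR hT σ hMH hc h1 h2
    rw [one_mul, one_mul] at h3
    exact (H.mul_mem_cancel_left hu).mp h3
  have hfinS := finite_RS hR hT σ hMH (p6 hR hT σ hMH hc)
  -- squaring on the short parameters
  let φ : ↥(RS hR.toAddRel H 6) → ↥(RS hR.toAddRel H 6) := fun c => ⟨c.1 ^ 2, hLS (hSq c.1 c.2)⟩
  have hinj : Function.Injective φ := by
    intro c c' e
    apply Subtype.ext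
    have h2 : (c.1 : F) ^ 2 = (c'.1 : F) ^ 2 := congrArg Subtype.val e
    exact (frobenius_inj F 2) h2
  have hsurj : Function.Surjective φ := Finite.surjective_of_injective hinj
  have hsqrt6 : ∀ x ∈ RS hR.toAddRel H 6, ∃ y ∈ RS hR.toAddRel H 6, y ^ 2 = x := by
    intro x hx
    obtain ⟨d, hd⟩ := hsurj ⟨x, hx⟩
    exact ⟨d.1, d.2, congrArg Subtype.val hd⟩
  have hSL : RS hR.toAddRel H 6 ≤ RS hR.toAddRel H 7 := by
    intro x hx
    obtain ⟨y, hy, rfl⟩ := hsqrt6 x hx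
    exact hSq y hy
  have h6T : RS hR.toAddRel H 6 = RS hR.toAddRel H 7 := le_antisymm hSL hLS
  set T := RS hR.toAddRel H 7 with hTdef
  have h5T : RS hR.toAddRel H 5 = T := by rw [← hS56, h6T]
  have hP7 : ∀ t ∈ T, ∀ u ∈ T, u ^ 2 * (t + t ^ 2) ∈ T := by
    intro t ht u hu
    have h1 : X hR.toAddRel 4 t ∈ H := by
      rw [← mem_RS, hL47]
      exact ht
    have h2 : X hR.toAddRel 5 u ∈ H := by
      rw [← mem_RS, h5T]
      exact hu
    have h3 := pi_of hR hT σ hMH hc h1 h2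
    have h4 := pi_square hR hT σ hMH hc h3
    have h5 := pi_sub hR hT σ hMH hc h3 h4
    convert h5 using 1
    ring
  have hP7' : ∀ t ∈ T, ∀ u ∈ T, (t + t ^ 2) * u ∈ T := by
    intro t ht u hu
    rw [← h6T] at hu
    obtain ⟨y, hy, rfl⟩ := hsqrt6 u hu
    have := hP7 t ht y (by rw [← h6T]; exact hy)
    rwa [mul_comm] at this
  have h1T : (1 : F) ∈ T := RS_one' hR hT σ hMH n7'
  have hfinT : Finite ↥T := by
    rw [← h6T]
    exact hfinS
  have hclosed := closed_of_key T hfinT h1T hP7'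
  rw [hL47, h5T]
  exact ⟨rfl, hclosed⟩

end Group

section Main

/-- The main theorem in type `B₂`. -/
theorem main2 {F : Type*} [Field F] [IsAlgClosed F] (p : ℕ) [hp : Fact p.Prime] [CharP F p] {η : ℕ → ℕ → ℤ}
    (hR : Sys chevB2 F η) {a : ℕ} (ha : 1 ≤ a) {H : Subgroup (GL chevB2.Idx F)} [Finite ↥H]
    (hL : fixL hR (iterateFrobenius F p a) ≤ H) (hHG : H ≤ chevB2.group F) :
    ∃ r : ℕ, 1 ≤ r ∧ (∀ s < chevB2.nroots, ∀ t : F, t ^ ((p ^ a) ^ r) = t → X hR.toAddRel s t ∈ H) ∧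
      H ≤ Fx chevB2 (iterateFrobenius F p (a * r)) := by
  have hT := tbl_chevB2
  have hcg : CommG hR.toAddRel := commG_of_mem _ (by simp)
  have hσ₁ : ∀ x, iterateFrobenius F p a x = x ^ (p ^ a) := fun x => iterateFrobenius_def p a x
  have e1 : chevB2.simple 1 = 4 := by decide +kernel
  have e2 : chevB2.simple 0 = 5 := by decide +kernel
  have hOT := Cfsg.Agent.Lib.SubMax.DataB2.orbTab
  by_cases h2 : p = 2
  · subst h2
    obtain ⟨hEq, hmul⟩ := even_facts hR hT (iterateFrobenius F 2 a) hL hcg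
    rw [← e1] at hmul
    rw [← e1, ← e2] at hEq
    have hTop := Cfsg.Agent.Lib.SubMax.DataB2.topTab1 (F := F) (good1 2) (bad2 2 rfl)
    refine final_gen hR hT tbl2_chevB2 tbl3_chevB2 2 ha hHG hcg Cfsg.Agent.Lib.SubMax.DataB2.rootTab hTop ?_
      (partA_gen hR hT (iterateFrobenius F 2 a) hL 2 ha hσ₁ hOT hEq hmul) ?_
    · intro _ σ
      have hh := heights hC_B2 Cfsg.Agent.Lib.SubMax.DataB2.hposL Cfsg.Agent.Lib.SubMax.DataB2.hnn
        Cfsg.Agent.Lib.SubMax.DataB2.evPos Cfsg.Agent.Lib.SubMax.DataB2.evMin (a := 5) (by decide +kernel)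
      exact even_one' hR hT tbl3_chevB2 σ Cfsg.Agent.Lib.SubMax.DataB2.rootTab.hOl (a := 5) (by decide +kernel) (by
        show ¬ (5 ∈ Cfsg.Agent.Lib.SubMax.DataB2.Ol)
        decide +kernel) hh.1 hh.2
    · intro σ hL' hRS
      have n6' := n6 hR hT σ hL' hcg
      have n7' := n7 hR hT σ hL' hcg
      refine ⟨?_, ?_⟩
      · intro τ h
        simp only [List.map_cons, List.map_nil, W_cons, W_nil, mul_one] at h ⊢
        have h3 := pi_key hR hT σ hL' hcg h
        have h4 : X hR.toAddRel 6 (1 + τ 6) * X hR.toAddRel 7 (τ 7) ∈ H := by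
          rw [← X_mul, mul_assoc]
          exact H.mul_mem (RS_one' hR hT σ hL' n6') h
        have h5 := pi_key hR hT σ hL' hcg h4
        have hf : ∀ t, t ∈ RS hR.toAddRel H 7 → σ t = t := fun t ht => (hRS 7 n7' t).mp ht
        have h6 : σ (τ 6) = τ 6 := by
          apply Cfsg.Agent.Lib.SubMax.FinB2.alg_key σ (τ 6) (hf _ h3)
          rw [add_comm (τ 6) 1]
          exact hf _ h5
        have h7 : X hR.toAddRel 6 (τ 6) ∈ Fx chevB2 σ := X_mem_Fx hR hT σ n6' h6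
        have h8 : X hR.toAddRel 7 (τ 7) ∈ H := (H.mul_mem_cancel_left (hL' (X_mem_fixL hR σ n6' h6))).mp h
        exact Subgroup.mul_mem _ h7 (X_mem_Fx hR hT σ n7' (hf _ h8))
      · intro hHU τ h
        have h1 := h 3 (n3 hR hT σ hL' hcg)
        have h2 := h 2 (n2 hR hT σ hL' hcg)
        simp only [List.map_cons, List.map_nil, W_cons, W_nil, mul_one] at h1 h2 ⊢
        have hA := fix_36 hR hT σ hL' hcg hHU h1
        have hXa : X hR.toAddRel 6 (τ 6) ∈ H := hL' (X_mem_fixL hR σ n6' hA)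
        have h3 : X hR.toAddRel 7 (τ 7) * X hR.toAddRel 2 1 * (X hR.toAddRel 7 (τ 7))⁻¹ ∈ H := by
          have e : X hR.toAddRel 7 (τ 7) * X hR.toAddRel 2 1 * (X hR.toAddRel 7 (τ 7))⁻¹ =
              (X hR.toAddRel 6 (τ 6))⁻¹ * ((X hR.toAddRel 6 (τ 6) * X hR.toAddRel 7 (τ 7)) * X hR.toAddRel 2 1 *
              (X hR.toAddRel 6 (τ 6) * X hR.toAddRel 7 (τ 7))⁻¹) * X hR.toAddRel 6 (τ 6) := by
            group
          rw [e]
          exact H.mul_mem (H.mul_mem (H.inv_mem hXa) h2) hXa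
        have hB := fix_27 hR hT σ hL' hcg hHU h3
        exact Subgroup.mul_mem _ (X_mem_Fx hR hT σ n6' hA) (X_mem_Fx hR hT σ n7' hB)
  · obtain ⟨hEq, hmul⟩ := odd_facts hR hT (iterateFrobenius F p a) hL hcg p h2
    rw [← e1] at hmul
    rw [← e1, ← e2] at hEq
    have hTop := Cfsg.Agent.Lib.SubMax.DataB2.topTab0 (F := F) (good12 p h2) bad0
    refine final_gen hR hT tbl2_chevB2 tbl3_chevB2 p ha hHG hcg Cfsg.Agent.Lib.SubMax.DataB2.rootTab hTop ?_
      (partA_gen hR hT (iterateFrobenius F p a) hL p ha hσ₁ hOT hEq hmul) ?_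
    · intro h3
      exact absurd h3 h2
    · intro σ hL' hRS
      have n7' := n7 hR hT σ hL' hcg
      refine ⟨?_, ?_⟩
      · intro τ h
        simp only [List.map_cons, List.map_nil, W_cons, W_nil, mul_one] at h ⊢
        exact X_mem_Fx hR hT σ n7' ((hRS 7 n7' _).mp h)
      · intro hHU τ h
        have h2 := h 2 (n2 hR hT σ hL' hcg)
        simp only [List.map_cons, List.map_nil, W_cons, W_nil, mul_one] at h2 ⊢
        exact X_mem_Fx hR hT σ n7' (fix_27 hR hT σ hL' hcg hHU h2)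

end Main

end Cfsg.Agent.Lib.SubMax.OverB2
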