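import Cfsg.Agent.Lib.SubMax.DataE7
import Cfsg.Agent.Lib.SubMax.PartB

/-!
# Overgroups of a subfield group, type E7
-/

set_option autoImplicit false
set_option linter.unusedSectionVars false
set_option linter.unusedVariables false
set_option maxRecDepth 100000

namespace Cfsg.Agent.Lib.SubMax.OverE7

open Cfsg.Lie Cfsg.Agent.Lib.ChevBN.Elem Cfsg.Agent.Lib.ChevBN.Entries Cfsg.Agent.Lib.ChevBN.Table
open Cfsg.Agent.Lib.ChevBN.Rel Cfsg.Agent.Lib.ChevBN.Stmts Cfsg.Agent.Lib.ChevBN.Fix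
open Cfsg.Agent.Lib.ChevBN.Fast Cfsg.Agent.Lib.ChevBN.FastData
open Cfsg.Agent.Lib.BorelTits.Tbl3 Cfsg.Agent.Lib.BorelTits.Data
open Cfsg.Agent.Lib.SubMax.Fx Cfsg.Agent.Lib.SubMax.Orbit Cfsg.Agent.Lib.SubMax.TopElt
open Cfsg.Agent.Lib.SubMax.Gen Cfsg.Agent.Lib.SubMax.Fin Cfsg.Agent.Lib.SubMax.Tab
open Cfsg.Agent.Lib.SubMax.Gen2 Cfsg.Agent.Lib.SubMax.PartA Cfsg.Agent.Lib.SubMax.PartB
open Cfsg.Agent.Lib.SubMax.DataE7

theorem main2 {F : Type*} [Field F] [IsAlgClosed F] (p : ℕ) [hp : Fact p.Prime] [CharP F p] {η : ℕ → ℕ → ℤ}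
    (hR : Sys chevE7 F η) {a : ℕ} (ha : 1 ≤ a) {H : Subgroup (GL chevE7.Idx F)} [Finite ↥H]
    (hL : fixL hR (iterateFrobenius F p a) ≤ H) (hHG : H ≤ chevE7.group F) :
    ∃ r : ℕ, 1 ≤ r ∧ (∀ s < chevE7.nroots, ∀ t : F, t ^ ((p ^ a) ^ r) = t → X hR.toAddRel s t ∈ H) ∧
      H ≤ Fx chevE7 (iterateFrobenius F p (a * r)) := by
  have hT := tbl_chevE7
  have hcg : CommG hR.toAddRel := commG_of_mem _ (by simp)
  have hσ₁ : ∀ x, iterateFrobenius F p a x = x ^ (p ^ a) := fun x => iterateFrobenius_def p a x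
  have e : chevE7.simple 0 = 93 := by decide +kernel
  have hmul := (mul_of_trip' p hR hT (iterateFrobenius F p a) hL hcg (e := 93) (a := 93) (b := 73) (q := 94) (N := -1) (rest := []) (by decide +kernel)
        (⟨[], by decide, by decide +kernel⟩ : Link chevE7 93 93)
        (⟨[0, 2], by decide, by decide +kernel⟩ : Link chevE7 93 73)
        (⟨[2], by decide, by decide +kernel⟩ : Link chevE7 93 94) (by decide +kernel) (by decide +kernel) (by decide) (by decide +kernel)
        (by decide +kernel) (by simp) (by simp))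
  rw [← e] at hmul
  have hEq : RS hR.toAddRel H (chevE7.simple 0) = RS hR.toAddRel H (chevE7.simple 2) :=
    RS_link' hR hT (iterateFrobenius F p a) hL (by decide +kernel)
      (⟨[0, 2], by decide, by decide +kernel⟩ : Link chevE7 (chevE7.simple 0) (chevE7.simple 2))
  have hTop := topTab0 (F := F) (good1 p) bad0
  refine final_gen hR hT tbl2_chevE7 tbl3_chevE7 p ha hHG hcg rootTab hTop ?_
    (partA_gen hR hT (iterateFrobenius F p a) hL p ha hσ₁ orbTab hEq hmul) ?_
  · intro h2 σ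
    subst h2
    have hh := heights hC_E7 hposL hnn evPos evMin (a := 78) (by decide +kernel)
    exact even_two' hR hT tbl3_chevE7 σ rootTab.hOl (a := 78) (a' := 93) (by decide +kernel) (by decide +kernel)
      (by decide) (by decide +kernel) hh.1 hh.2 (by decide +kernel)
  · exact topB_one hR hT tbl3_chevE7 hcg (hTop) (r := 1) (q := 93) (N := -1) (by decide +kernel) (by decide +kernel) (by decide +kernel)
      (by decide +kernel) (by simp) (by decide +kernel)

end Cfsg.Agent.Lib.SubMax.OverE7
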