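import Cfsg.Agent.Lib.SubMax.DataF4
import Cfsg.Agent.Lib.SubMax.PartB

/-!
# Overgroups of a subfield group, type F4
-/

set_option autoImplicit false
set_option linter.unusedSectionVars false
set_option linter.unusedVariables false
set_option maxRecDepth 100000

namespace Cfsg.Agent.Lib.SubMax.OverF4

open Cfsg.Lie Cfsg.Agent.Lib.ChevBN.Elem Cfsg.Agent.Lib.ChevBN.Entries Cfsg.Agent.Lib.ChevBN.Table
open Cfsg.Agent.Lib.ChevBN.Rel Cfsg.Agent.Lib.ChevBN.Stmts Cfsg.Agent.Lib.ChevBN.Fix
open Cfsg.Agent.Lib.ChevBN.Fast Cfsg.Agent.Lib.ChevBN.FastData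
open Cfsg.Agent.Lib.BorelTits.Tbl3 Cfsg.Agent.Lib.BorelTits.Data
open Cfsg.Agent.Lib.SubMax.Fx Cfsg.Agent.Lib.SubMax.Orbit Cfsg.Agent.Lib.SubMax.TopElt
open Cfsg.Agent.Lib.SubMax.Gen Cfsg.Agent.Lib.SubMax.Fin Cfsg.Agent.Lib.SubMax.Tab
open Cfsg.Agent.Lib.SubMax.Gen2 Cfsg.Agent.Lib.SubMax.PartA Cfsg.Agent.Lib.SubMax.PartB
open Cfsg.Agent.Lib.SubMax.DataF4

theorem main2 {F : Type*} [Field F] [IsAlgClosed F] (p : ℕ) [hp : Fact p.Prime] [CharP F p] {η : ℕ → ℕ → ℤ}
    (hR : Sys chevF4 F η) {a : ℕ} (ha : 1 ≤ a) {H : Subgroup (GL chevF4.Idx F)} [Finite ↥H]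
    (hL : fixL hR (iterateFrobenius F p a) ≤ H) (hHG : H ≤ chevF4.group F) :
    ∃ r : ℕ, 1 ≤ r ∧ (∀ s < chevF4.nroots, ∀ t : F, t ^ ((p ^ a) ^ r) = t → X hR.toAddRel s t ∈ H) ∧
      H ≤ Fx chevF4 (iterateFrobenius F p (a * r)) := by
  have hT := tbl_chevF4
  have hcg : CommG hR.toAddRel := commG_of_mem _ (by simp)
  have hσ₁ : ∀ x, iterateFrobenius F p a x = x ^ (p ^ a) := fun x => iterateFrobenius_def p a x
  have e1 : chevF4.simple 2 = 25 := by decide +kernel
  have e2 : chevF4.simple 1 = 27 := by decide +kernel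
  by_cases h3 : p = 2
  · subst h3
    have hmul := (mul_of_trip' 2 hR hT (iterateFrobenius F 2 a) hL hcg (e := 25) (a := 25) (b := 24) (q := 26) (N := -1) (rest := []) (by decide +kernel)
        (⟨[], by decide, by decide +kernel⟩ : Link chevF4 25 25)
        (⟨[2, 3], by decide, by decide +kernel⟩ : Link chevF4 25 24)
        (⟨[3], by decide, by decide +kernel⟩ : Link chevF4 25 26) (by decide +kernel) (by decide +kernel) (by decide) (by decide +kernel)
        (by decide +kernel) (by simp) (by simp))
    rw [← e1] at hmul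
    have hmulS := (mul_of_trip' 2 hR hT (iterateFrobenius F 2 a) hL hcg (e := 27) (a := 27) (b := 33) (q := 34) (N := 1) (rest := []) (by decide +kernel)
        (⟨[], by decide, by decide +kernel⟩ : Link chevF4 27 27)
        (⟨[1, 0], by decide, by decide +kernel⟩ : Link chevF4 27 33)
        (⟨[0], by decide, by decide +kernel⟩ : Link chevF4 27 34) (by decide +kernel) (by decide +kernel) (by decide) (by decide +kernel)
        (by decide +kernel) (by simp) (by simp))
    rw [← e2] at hmulS
    have hLS := L_le_S hR hT (iterateFrobenius F 2 a) hL orbTab hmul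
    have hSL := S_le_L_bad hR hT (iterateFrobenius F 2 a) hL 2 orbTab hmulS hLS (by decide +kernel)
    have hEq := le_antisymm hLS hSL
    have hTop := topTab1 (F := F) (good1 2) (bad2 2 rfl)
    refine final_gen hR hT tbl2_chevF4 tbl3_chevF4 2 ha hHG hcg rootTab hTop ?_
      (partA_gen hR hT (iterateFrobenius F 2 a) hL 2 ha hσ₁ orbTab hEq hmul) ?_
    · intro _ σ
      have hh := heights hC_F4 hposL hnn evPos evMin (a := 27) (by decide +kernel)
      exact even_one' hR hT tbl3_chevF4 σ rootTab.hOl (a := 27) (by decide +kernel) (by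
        show ¬ (27 ∈ Ol)
        decide +kernel) hh.1 hh.2
    · exact topB_two hR hT tbl3_chevF4 hcg hTop (r' := 10) (q' := 36) (N' := -1) (rest := [])
        (by decide +kernel) (by decide +kernel) (by decide +kernel) (by decide +kernel) (by decide +kernel) (by decide +kernel)
        (by simp) (by simp) (by decide +kernel) (by decide +kernel)
        (r := 1) (q := 24) (N := -1) (by decide +kernel) (by decide +kernel) (by decide +kernel)
        (by decide +kernel) (by simp) (by decide +kernel)
  · have hmul := (mul_of_trip' p hR hT (iterateFrobenius F p a) hL hcg (e := 25) (a := 25) (b := 24) (q := 26) (N := -1) (rest := []) (by decide +kernel)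
        (⟨[], by decide, by decide +kernel⟩ : Link chevF4 25 25)
        (⟨[2, 3], by decide, by decide +kernel⟩ : Link chevF4 25 24)
        (⟨[3], by decide, by decide +kernel⟩ : Link chevF4 25 26) (by decide +kernel) (by decide +kernel) (by decide) (by decide +kernel)
        (by decide +kernel) (by simp) (by simp))
    rw [← e1] at hmul
    have hLS := L_le_S hR hT (iterateFrobenius F p a) hL orbTab hmul
    have hSL := S_le_L_good hR hT (iterateFrobenius F p a) hL p orbTab hcg (a := 27) (b := 28) (q := 30) (N := 2) (rest := [])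
        (⟨[], by decide, by decide +kernel⟩ : Link chevF4 (chevF4.simple 1) 27)
        (⟨[2], by decide, by decide +kernel⟩ : Link chevF4 (chevF4.simple 1) 28)
        (⟨[1], by decide, by decide +kernel⟩ : Link chevF4 (chevF4.simple 2) 30)
        (by decide +kernel) (by decide +kernel) (by decide) (by decide +kernel) (by decide +kernel)
        (good12 p h3 2 (by decide)) (by simp)
    have hEq := le_antisymm hLS hSL
    have hTop := topTab0 (F := F) (good12 p h3) bad0
    refine final_gen hR hT tbl2_chevF4 tbl3_chevF4 p ha hHG hcg rootTab hTop ?_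
      (partA_gen hR hT (iterateFrobenius F p a) hL p ha hσ₁ orbTab hEq hmul) ?_
    · intro h2
      exact absurd h2 h3
    · exact topB_one hR hT tbl3_chevF4 hcg (hTop) (r := 1) (q := 24) (N := -1) (by decide +kernel) (by decide +kernel) (by decide +kernel) (by decide +kernel) (by simp) (by decide +kernel)

end Cfsg.Agent.Lib.SubMax.OverF4
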