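import Cfsg.Agent.Lib.SubMax.OverG2
import Cfsg.Agent.Lib.SubMax.OverB2
import Cfsg.Agent.Lib.SubMax.OverD4
import Cfsg.Agent.Lib.SubMax.OverF4
import Cfsg.Agent.Lib.SubMax.OverE6
import Cfsg.Agent.Lib.SubMax.OverE7
import Cfsg.Agent.Lib.SubMax.OverE8

/-!
# Finite overgroups of the group over a finite subfield
-/

set_option autoImplicit false
set_option linter.unusedSectionVars false
set_option linter.style.haveILetI false

namespace Cfsg.Agent.Lib.SubMax.Over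

open Cfsg.Lie Cfsg.Agent.Lib.ChevBN.Elem Cfsg.Agent.Lib.ChevBN.Entries Cfsg.Agent.Lib.ChevBN.Table
open Cfsg.Agent.Lib.ChevBN.Rel Cfsg.Agent.Lib.ChevBN.Stmts Cfsg.Agent.Lib.ChevBN.Fix
open Cfsg.Agent.Lib.ChevBN.Core Cfsg.Agent.Lib.ChevBN.Pair
open Cfsg.Agent.Lib.SubMax.Fx

theorem main_all2 {F : Type*} [Field F] [IsAlgClosed F] (p : ℕ) [hp : Fact p.Prime] [CharP F p]
    {D : ChevalleyDatum} (hD : D ∈ [chevG2, chevB2, chevD4, chevF4, chevE6, chevE7, chevE8])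
    {η : ℕ → ℕ → ℤ} (hR : Sys D F η) {a : ℕ} (ha : 1 ≤ a) {H : Subgroup (GL D.Idx F)} [Finite ↥H]
    (hL : fixL hR (iterateFrobenius F p a) ≤ H) (hHG : H ≤ D.group F) :
    ∃ r : ℕ, 1 ≤ r ∧ (∀ s < D.nroots, ∀ t : F, t ^ ((p ^ a) ^ r) = t → X hR.toAddRel s t ∈ H) ∧
      H ≤ Fx D (iterateFrobenius F p (a * r)) := by
  simp only [List.mem_cons, List.not_mem_nil, or_false] at hD
  rcases hD with rfl | rfl | rfl | rfl | rfl | rfl | rfl
  · exact Cfsg.Agent.Lib.SubMax.OverG2.main2 p hR ha hL hHG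
  · exact Cfsg.Agent.Lib.SubMax.OverB2.main2 p hR ha hL hHG
  · exact Cfsg.Agent.Lib.SubMax.OverD4.main2 p hR ha hL hHG
  · exact Cfsg.Agent.Lib.SubMax.OverF4.main2 p hR ha hL hHG
  · exact Cfsg.Agent.Lib.SubMax.OverE6.main2 p hR ha hL hHG
  · exact Cfsg.Agent.Lib.SubMax.OverE7.main2 p hR ha hL hHG
  · exact Cfsg.Agent.Lib.SubMax.OverE8.main2 p hR ha hL hHG

theorem result_all {k : Type*} [Field k] [IsAlgClosed k] (p : ℕ) [Fact p.Prime] [CharP k p]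
    (D : ChevalleyDatum) (hD : D ∈ [chevG2, chevB2, chevD4, chevF4, chevE6, chevE7, chevE8]) (a : ℕ) (ha : 1 ≤ a)
    (M : Subgroup (GL D.Idx k)) (hMfin : Finite ↥M) (hMG : M ≤ D.group k)
    (hLM : Subgroup.closure {g : GL D.Idx k | ∃ (s : ℕ) (t : k), t ^ (p ^ a) = t ∧
      (g : Matrix D.Idx D.Idx k) = D.x k s t} ≤ M) :
    ∃ r : ℕ, 1 ≤ r ∧ Subgroup.closure {g : GL D.Idx k | ∃ (s : ℕ) (t : k), t ^ ((p ^ a) ^ r) = t ∧
        (g : Matrix D.Idx D.Idx k) = D.x k s t} ≤ M ∧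
      ∀ g ∈ M, ∀ i j : D.Idx, ((g : Matrix D.Idx D.Idx k) i j) ^ ((p ^ a) ^ r) = (g : Matrix D.Idx D.Idx k) i j := by
  obtain ⟨η, hη⟩ := Cfsg.Agent.Lib.Chevalley.All.exists_sys D hD
  have hR : Sys D k η := hη k
  haveI := hMfin
  have hL : fixL hR (iterateFrobenius k p a) ≤ M := by
    rw [fixL, Subgroup.closure_le]
    rintro g ⟨r, hr, t, ht, rfl⟩
    apply hLM
    apply Subgroup.subset_closure
    refine ⟨r, t, ?_, coe_X _ _ _⟩
    rw [← iterateFrobenius_def]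
    exact ht
  obtain ⟨r, hr, h1, h2⟩ := main_all2 p hD hR ha hL hMG
  refine ⟨r, hr, ?_, ?_⟩
  · rw [Subgroup.closure_le]
    rintro g ⟨s, t, ht, hg⟩
    by_cases hs : s < D.nroots
    · rw [eq_X hR.toAddRel] at hg
      rw [hg]
      exact h1 s hs t ht
    · have hg1 : g = 1 := by
        apply Units.ext
        rw [hg, ChevalleyDatum.x, dif_neg hs, Units.val_one]
      rw [hg1]
      exact M.one_mem
  · intro g hg i j
    have h3 : mapG D (iterateFrobenius k p (a * r)) g = g := (mem_Fx.mp (h2 hg)).2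
    have h4 := congrArg (fun x : GL D.Idx k => (x : Matrix D.Idx D.Idx k) i j) h3
    simp only [coe_mapG, Matrix.map_apply] at h4
    rw [iterateFrobenius_def, pow_mul] at h4
    exact h4

end Cfsg.Agent.Lib.SubMax.Over
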