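import Cfsg.Agent.Lib.SubMax.DataG2
import Cfsg.Agent.Lib.SubMax.PartB

/-!
# Overgroups of a subfield group, type G2
-/

set_option autoImplicit false
set_option linter.unusedSectionVars false
set_option linter.unusedVariables false
set_option maxRecDepth 100000

namespace Cfsg.Agent.Lib.SubMax.OverG2

open Cfsg.Lie Cfsg.Agent.Lib.ChevBN.Elem Cfsg.Agent.Lib.ChevBN.Entries Cfsg.Agent.Lib.ChevBN.Table
open Cfsg.Agent.Lib.ChevBN.Rel Cfsg.Agent.Lib.ChevBN.Stmts Cfsg.Agent.Lib.ChevBN.Fix
open Cfsg.Agent.Lib.ChevBN.Fast Cfsg.Agent.Lib.ChevBN.FastData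
open Cfsg.Agent.Lib.BorelTits.Tbl3 Cfsg.Agent.Lib.BorelTits.Data
open Cfsg.Agent.Lib.SubMax.Fx Cfsg.Agent.Lib.SubMax.Orbit Cfsg.Agent.Lib.SubMax.TopElt
open Cfsg.Agent.Lib.SubMax.Gen Cfsg.Agent.Lib.SubMax.Fin Cfsg.Agent.Lib.SubMax.Tab
open Cfsg.Agent.Lib.SubMax.Gen2 Cfsg.Agent.Lib.SubMax.PartA Cfsg.Agent.Lib.SubMax.PartB
open Cfsg.Agent.Lib.SubMax.DataG2

theorem main2 {F : Type*} [Field F] [IsAlgClosed F] (p : ℕ) [hp : Fact p.Prime] [CharP F p] {η : ℕ → ℕ → ℤ}
    (hR : Sys chevG2 F η) {a : ℕ} (ha : 1 ≤ a) {H : Subgroup (GL chevG2.Idx F)} [Finite ↥H]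
    (hL : fixL hR (iterateFrobenius F p a) ≤ H) (hHG : H ≤ chevG2.group F) :
    ∃ r : ℕ, 1 ≤ r ∧ (∀ s < chevG2.nroots, ∀ t : F, t ^ ((p ^ a) ^ r) = t → X hR.toAddRel s t ∈ H) ∧
      H ≤ Fx chevG2 (iterateFrobenius F p (a * r)) := by
  have hT := tbl_chevG2
  have hcg : CommG hR.toAddRel := commG_of_mem _ (by simp)
  have hσ₁ : ∀ x, iterateFrobenius F p a x = x ^ (p ^ a) := fun x => iterateFrobenius_def p a x
  have e1 : chevG2.simple 1 = 6 := by decide +kernel
  have e2 : chevG2.simple 0 = 7 := by decide +kernel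
  by_cases h3 : p = 3
  · subst h3
    have hmul := (mul_of_trip' 3 hR hT (iterateFrobenius F 3 a) hL hcg (e := 6) (a := 6) (b := 10) (q := 11) (N := 1) (rest := []) (by decide +kernel)
        (⟨[], by decide, by decide +kernel⟩ : Link chevG2 6 6)
        (⟨[0], by decide, by decide +kernel⟩ : Link chevG2 6 10)
        (⟨[1, 0], by decide, by decide +kernel⟩ : Link chevG2 6 11) (by decide +kernel) (by decide +kernel) (by decide) (by decide +kernel)
        (by decide +kernel) (by simp) (by simp))
    rw [← e1] at hmul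
    have hmulS := (mul_of_trip' 3 hR hT (iterateFrobenius F 3 a) hL hcg (e := 7) (a := 7) (b := 8) (q := 9) (N := -2) (rest := [(10, -3, 2, 1), (11, 3, 1, 2)]) (by decide +kernel)
        (⟨[], by decide, by decide +kernel⟩ : Link chevG2 7 7)
        (⟨[1], by decide, by decide +kernel⟩ : Link chevG2 7 8)
        (⟨[0, 1], by decide, by decide +kernel⟩ : Link chevG2 7 9) (by decide +kernel) (by decide +kernel) (by decide) (by decide +kernel)
        (by decide +kernel) (good12 3 (by decide) (-2) (by decide)) (fun c hc => bad3 3 rfl _ (by revert c; decide)))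
    rw [← e2] at hmulS
    have hLS := L_le_S hR hT (iterateFrobenius F 3 a) hL orbTab hmul
    have hSL := S_le_L_bad hR hT (iterateFrobenius F 3 a) hL 3 orbTab hmulS hLS (by decide +kernel)
    have hEq := le_antisymm hLS hSL
    have hTop := topTab1 (F := F) (good12 3 (by decide)) (bad3 3 rfl)
    refine final_gen hR hT tbl2_chevG2 tbl3_chevG2 3 ha hHG hcg rootTab hTop ?_
      (partA_gen hR hT (iterateFrobenius F 3 a) hL 3 ha hσ₁ orbTab hEq hmul) ?_
    · intro h2
      exact absurd h2 (by decide)
    · exact topB_two hR hT tbl3_chevG2 hcg hTop (r' := 4) (q' := 8) (N' := -2) (rest := [(6, 3, 2, 1), (11, -3, 1, 2)])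
        (by decide +kernel) (by decide +kernel) (by decide +kernel) (by decide +kernel) (by decide +kernel) (by decide +kernel)
        (good12 3 (by decide) (-2) (by decide)) (fun c hc => bad3 3 rfl _ (by revert c; decide)) (by decide +kernel) (by decide +kernel)
        (r := 1) (q := 6) (N := -1) (by decide +kernel) (by decide +kernel) (by decide +kernel)
        (by decide +kernel) (by simp) (by decide +kernel)
  · have hmul := (mul_of_trip' p hR hT (iterateFrobenius F p a) hL hcg (e := 6) (a := 6) (b := 10) (q := 11) (N := 1) (rest := []) (by decide +kernel)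
        (⟨[], by decide, by decide +kernel⟩ : Link chevG2 6 6)
        (⟨[0], by decide, by decide +kernel⟩ : Link chevG2 6 10)
        (⟨[1, 0], by decide, by decide +kernel⟩ : Link chevG2 6 11) (by decide +kernel) (by decide +kernel) (by decide) (by decide +kernel)
        (by decide +kernel) (by simp) (by simp))
    rw [← e1] at hmul
    have hLS := L_le_S hR hT (iterateFrobenius F p a) hL orbTab hmul
    have hSL := S_le_L_good hR hT (iterateFrobenius F p a) hL p orbTab hcg (a := 8) (b := 9) (q := 11) (N := 3) (rest := [])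
        (⟨[1], by decide, by decide +kernel⟩ : Link chevG2 (chevG2.simple 0) 8)
        (⟨[0, 1], by decide, by decide +kernel⟩ : Link chevG2 (chevG2.simple 0) 9)
        (⟨[1, 0], by decide, by decide +kernel⟩ : Link chevG2 (chevG2.simple 1) 11)
        (by decide +kernel) (by decide +kernel) (by decide) (by decide +kernel) (by decide +kernel)
        (good13 p h3 3 (by decide)) (by simp)
    have hEq := le_antisymm hLS hSL
    have hTop := topTab0 (F := F) (good13 p h3) bad0
    refine final_gen hR hT tbl2_chevG2 tbl3_chevG2 p ha hHG hcg rootTab hTop ?_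
      (partA_gen hR hT (iterateFrobenius F p a) hL p ha hσ₁ orbTab hEq hmul) ?_
    · intro h2 σ
      subst h2
      have hh := heights hC_G2 hposL hnn evPos evMin (a := 7) (by decide +kernel)
      exact even_one' hR hT tbl3_chevG2 σ rootTab.hOl (a := 7) (by decide +kernel) (by
        show ¬ (7 ∈ Ol)
        decide +kernel) hh.1 hh.2
    · exact topB_one hR hT tbl3_chevG2 hcg (hTop) (r := 1) (q := 6) (N := -1) (by decide +kernel) (by decide +kernel) (by decide +kernel) (by decide +kernel) (by simp) (by decide +kernel)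

end Cfsg.Agent.Lib.SubMax.OverG2
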