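import Cfsg.Agent.Lib.SubMax.Gen2
import Cfsg.Agent.Lib.SubMax.FieldL

/-!
# All the root parameters form one finite field; the facts on the top of `U`
-/

set_option autoImplicit false
set_option linter.unusedSectionVars false
set_option linter.style.haveILetI false

namespace Cfsg.Agent.Lib.SubMax.PartA

open Cfsg.Lie Cfsg.Agent.Lib.ChevBN.Elem Cfsg.Agent.Lib.ChevBN.Entries Cfsg.Agent.Lib.ChevBN.Table
open Cfsg.Agent.Lib.ChevBN.Collect Cfsg.Agent.Lib.ChevBN.Rel Cfsg.Agent.Lib.ChevBN.Torus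
open Cfsg.Agent.Lib.ChevBN.Monomial Cfsg.Agent.Lib.ChevBN.Core Cfsg.Agent.Lib.ChevBN.Pair
open Cfsg.Agent.Lib.ChevBN.Stmts Cfsg.Agent.Lib.ChevBN.Levi Cfsg.Agent.Lib.ChevBN.Fix
open Cfsg.Agent.Lib.BorelTits.Tbl3
open Cfsg.Agent.Lib.SubMax.Fx Cfsg.Agent.Lib.SubMax.Orbit Cfsg.Agent.Lib.SubMax.TopElt
open Cfsg.Agent.Lib.SubMax.Gen Cfsg.Agent.Lib.SubMax.Fin Cfsg.Agent.Lib.SubMax.Tab
open Cfsg.Agent.Lib.SubMax.Gen2 Cfsg.Agent.Lib.SubMax.TopB Cfsg.Agent.Lib.SubMax.FieldL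

variable {D : ChevalleyDatum} {F : Type*} [Field F] {η : ℕ → ℕ → ℤ}

/-- Inverses in a finite additive group closed under multiplication. -/
theorem inv_mem_of_closed (T : AddSubgroup F) (hfin : Finite ↥T) (h1T : (1 : F) ∈ T)
    (hmul : ∀ x ∈ T, ∀ y ∈ T, x * y ∈ T) {x : F} (hx : x ∈ T) : x⁻¹ ∈ T := by
  have hpow : ∀ x ∈ T, ∀ n : ℕ, x ^ n ∈ T := by
    intro x hx n
    induction n with
    | zero => simpa using h1T
    | succ n ih =>
      rw [pow_succ]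
      exact hmul _ ih _ hx
  by_cases h0 : x = 0
  · subst h0
    simp
  let f : ℕ → ↥T := fun n => ⟨x ^ n, hpow x hx n⟩
  obtain ⟨i, j, hij, e⟩ := Finite.exists_ne_map_eq_of_infinite f
  have key : ∀ {i j : ℕ}, i < j → f i = f j → x⁻¹ ∈ T := by
    intro i j hij e
    have h1 : x ^ i = x ^ j := congrArg Subtype.val e
    have h2 : x ^ (j - i) = 1 := by
      have h3 : x ^ j = x ^ i * x ^ (j - i) := by
        rw [← pow_add]
        congr 1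
        omega
      rw [h3] at h1
      exact (mul_eq_left₀ (pow_ne_zero _ h0)).mp h1.symm
    have h4 : x⁻¹ = x ^ (j - i - 1) := by
      apply inv_eq_of_mul_eq_one_right
      rw [← pow_succ']
      have : j - i - 1 + 1 = j - i := by omega
      rw [this, h2]
    rw [h4]
    exact hpow x hx _
  rcases lt_or_gt_of_ne hij with h | h
  · exact key h e
  · exact key h e.symm

section Groups

variable (hR : Sys D F η) (hT : Tbl D) (σ : F →+* F)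
variable {H : Subgroup (GL D.Idx F)} (hL : fixL hR σ ≤ H)
include hR hT hL

/-- The parameters of a positive root in a finite subgroup are finite. -/
theorem finite_RS [Finite ↥H] {r : ℕ} (hr : D.IsPosRoot r) : Finite ↥(RS hR.toAddRel H r) := by
  apply Finite.of_injective (fun t : ↥(RS hR.toAddRel H r) => (⟨X hR.toAddRel r t, t.2⟩ : ↥H))
  intro t t' e
  apply Subtype.ext
  exact X_inj hR hT hr (congrArg Subtype.val e)

/-- A chain of reflections from a long root to an arbitrary one. -/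
theorem RS_eq_all {ℓ 𝔰 : ℕ} (hOT : OrbTab D ℓ 𝔰)
    (hEq : RS hR.toAddRel H (D.simple ℓ) = RS hR.toAddRel H (D.simple 𝔰)) {s : ℕ} (hs : s < D.nroots) :
    RS hR.toAddRel H s = RS hR.toAddRel H (D.simple ℓ) := by
  have hℓ := (hT.simple_pos ℓ hOT.hℓ).1
  have h𝔰 := (hT.simple_pos 𝔰 hOT.h𝔰).1
  refine RS_all' hR hT σ hL (P := fun S => S = RS hR.toAddRel H (D.simple ℓ)) ?_ hs
  intro j hj
  rcases hOT.link j hj with h1 | h1
  · exact (RS_link' hR hT σ hL hℓ h1).symm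
  · rw [hEq]
    exact (RS_link' hR hT σ hL h𝔰 h1).symm

/-- The field of parameters. -/
theorem partA_gen [IsAlgClosed F] [Finite ↥H] (p : ℕ) [hp : Fact p.Prime] [CharP F p] {a : ℕ} (ha : 1 ≤ a)
    (hσ : ∀ x, σ x = x ^ (p ^ a)) {ℓ 𝔰 : ℕ} (hOT : OrbTab D ℓ 𝔰)
    (hEq : RS hR.toAddRel H (D.simple ℓ) = RS hR.toAddRel H (D.simple 𝔰))
    (hmul : ∀ x ∈ RS hR.toAddRel H (D.simple ℓ), ∀ y ∈ RS hR.toAddRel H (D.simple ℓ),
      x * y ∈ RS hR.toAddRel H (D.simple ℓ)) :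
    ∃ m : ℕ, 1 ≤ m ∧ ∀ s < D.nroots, ∀ t : F, X hR.toAddRel s t ∈ H ↔ t ^ ((p ^ a) ^ m) = t := by
  have hℓ := hT.simple_pos ℓ hOT.hℓ
  obtain ⟨m, hm, h⟩ := exists_fix_of_closed p ha (RS hR.toAddRel H (D.simple ℓ))
    (finite_RS hR hT σ hL hℓ) hmul (fun t ht => hL (X_mem_fixL hR σ hℓ.1 (by rw [hσ, ht])))
  refine ⟨m, hm, ?_⟩
  intro s hs t
  rw [← mem_RS, RS_eq_all hR hT σ hL hOT hEq hs]
  exact h t

/-- The long parameters are short ones. -/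
theorem L_le_S [Finite ↥H] {ℓ 𝔰 : ℕ} (hOT : OrbTab D ℓ 𝔰)
    (hmul : ∀ x ∈ RS hR.toAddRel H (D.simple ℓ), ∀ y ∈ RS hR.toAddRel H (D.simple ℓ),
      x * y ∈ RS hR.toAddRel H (D.simple ℓ)) :
    RS hR.toAddRel H (D.simple ℓ) ≤ RS hR.toAddRel H (D.simple 𝔰) := by
  intro c hc
  have hℓ := hT.simple_pos ℓ hOT.hℓ
  have h𝔰 := (hT.simple_pos 𝔰 hOT.h𝔰).1
  by_cases hc0 : c = 0
  · subst hc0
    exact zero_mem _
  have h1 : (1 : F) ∈ RS hR.toAddRel H (D.simple ℓ) := RS_one' hR hT σ hL hℓ.1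
  have hci : c⁻¹ ∈ RS hR.toAddRel H (D.simple ℓ) :=
    inv_mem_of_closed _ (finite_RS hR hT σ hL hℓ) h1 hmul hc
  have hG₁ : hG hR.toAddRel (D.simple ℓ) c⁻¹ ∈ H :=
    hG_mem' hR hT σ hL hℓ.1 hci (by simpa using hc) (RS_neg hR hT σ hL hOT.hℓ)
  have h2 : hG hR.toAddRel (D.simple ℓ) c⁻¹ * X hR.toAddRel (D.simple 𝔰) 1 * (hG hR.toAddRel (D.simple ℓ) c⁻¹)⁻¹ ∈ H :=
    H.mul_mem (H.mul_mem hG₁ (RS_one' hR hT σ hL h𝔰)) (H.inv_mem hG₁)
  rw [hG_conj' hR hT σ hL hℓ.1 h𝔰 (inv_ne_zero hc0), hOT.adj] at h2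
  rw [mem_RS]
  simpa using h2

/-- A commutator relation with a long result: short parameters are long. -/
theorem S_le_L_good (p : ℕ) [hp : Fact p.Prime] [CharP F p] {ℓ 𝔰 : ℕ} (hOT : OrbTab D ℓ 𝔰)
    (hcg : CommG hR.toAddRel) {a b q : ℕ} {N : ℤ} {rest : List (ℕ × ℤ × ℕ × ℕ)}
    (hLa : Link D (D.simple 𝔰) a) (hLb : Link D (D.simple 𝔰) b) (hLq : Link D (D.simple ℓ) q)
    (ha : a < D.nroots) (hb : b < D.nroots) (hba : b ≠ a) (hbn : b ≠ D.neg a)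
    (h : D.commTerms a b = (q, N, 1, 1) :: rest) (hN : (N : F) ≠ 0) (hrest : ∀ c ∈ rest, (c.2.1 : F) = 0) :
    RS hR.toAddRel H (D.simple 𝔰) ≤ RS hR.toAddRel H (D.simple ℓ) := by
  intro c hc
  have hℓ := (hT.simple_pos ℓ hOT.hℓ).1
  have h𝔰 := (hT.simple_pos 𝔰 hOT.h𝔰).1
  rw [RS_link' hR hT σ hL hℓ hLq]
  have h1 : c ∈ RS hR.toAddRel H a := by
    rw [← RS_link' hR hT σ hL h𝔰 hLa]
    exact hc
  have h2 : (1 : F) ∈ RS hR.toAddRel H b := RS_one' hR hT σ hL hb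
  have h3 := mul_closed' hR hT σ hL p hcg ha hb hba hbn h hN hrest h1 h2
  simpa using h3

/-- If the short parameters are closed under products and their `p`-th powers are long. -/
theorem S_le_L_bad [Finite ↥H] (p : ℕ) [hp : Fact p.Prime] [CharP F p] {ℓ 𝔰 : ℕ} (hOT : OrbTab D ℓ 𝔰)
    (hmulS : ∀ x ∈ RS hR.toAddRel H (D.simple 𝔰), ∀ y ∈ RS hR.toAddRel H (D.simple 𝔰),
      x * y ∈ RS hR.toAddRel H (D.simple 𝔰))
    (hLS : RS hR.toAddRel H (D.simple ℓ) ≤ RS hR.toAddRel H (D.simple 𝔰))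
    (hAd : Ad D (cr D (D.simple 𝔰)) (D.simple ℓ) = -(p : ℤ)) :
    RS hR.toAddRel H (D.simple 𝔰) ≤ RS hR.toAddRel H (D.simple ℓ) := by
  have hℓ := (hT.simple_pos ℓ hOT.hℓ).1
  have h𝔰' := hT.simple_pos 𝔰 hOT.h𝔰
  have h𝔰 := h𝔰'.1
  have h1 : (1 : F) ∈ RS hR.toAddRel H (D.simple 𝔰) := RS_one' hR hT σ hL h𝔰
  have hfin := finite_RS hR hT σ hL h𝔰'
  have hpow : ∀ c ∈ RS hR.toAddRel H (D.simple 𝔰), c ^ p ∈ RS hR.toAddRel H (D.simple ℓ) := by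
    intro c hc
    by_cases hc0 : c = 0
    · subst hc0
      rw [zero_pow hp.out.ne_zero]
      exact zero_mem _
    have hci : c⁻¹ ∈ RS hR.toAddRel H (D.simple 𝔰) :=
      inv_mem_of_closed _ hfin h1 hmulS hc
    have hG₁ : hG hR.toAddRel (D.simple 𝔰) c⁻¹ ∈ H :=
      hG_mem' hR hT σ hL h𝔰 hci (by simpa using hc) (RS_neg hR hT σ hL hOT.h𝔰)
    have h2 : hG hR.toAddRel (D.simple 𝔰) c⁻¹ * X hR.toAddRel (D.simple ℓ) 1 *
        (hG hR.toAddRel (D.simple 𝔰) c⁻¹)⁻¹ ∈ H :=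
      H.mul_mem (H.mul_mem hG₁ (RS_one' hR hT σ hL hℓ)) (H.inv_mem hG₁)
    rw [hG_conj' hR hT σ hL h𝔰 hℓ (inv_ne_zero hc0), hAd] at h2
    rw [mem_RS]
    simpa [zpow_neg] using h2
  -- Frobenius on the finite set
  let φ : ↥(RS hR.toAddRel H (D.simple 𝔰)) → ↥(RS hR.toAddRel H (D.simple 𝔰)) := fun c => ⟨c.1 ^ p, hLS (hpow c.1 c.2)⟩
  have hinj : Function.Injective φ := by
    intro c c' e
    apply Subtype.ext
    have h2 : (c.1 : F) ^ p = (c'.1 : F) ^ p := congrArg Subtype.val e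
    exact (frobenius_inj F p) h2
  have hsurj : Function.Surjective φ := Finite.surjective_of_injective hinj
  intro c hc
  obtain ⟨d, hd⟩ := hsurj ⟨c, hc⟩
  have h3 : d.1 ^ p = c := congrArg Subtype.val hd
  rw [← h3]
  exact hpow d.1 d.2

end Groups

section Top

variable (hR : Sys D F η) (hT : Tbl D) (hT3 : Tbl3 D) (σ : F →+* F)
variable {H : Subgroup (GL D.Idx F)} (hL : fixL hR σ ≤ H)
variable (hRS : ∀ s < D.nroots, ∀ t : F, X hR.toAddRel s t ∈ H ↔ σ t = t)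
variable (hcg : CommG hR.toAddRel)
variable {Top : List ℕ} {v : ℕ → ℤ} (hTop : TopTab D F Top v)
include hR hT hT3 hL hRS hcg hTop

/-- Rationality from a conjugate of a root element. -/
theorem fix_of_conj {ρ : ℕ} (hρT : ρ ∈ Top) {r q : ℕ} {N : ℤ} (hr : r < D.nroots) (hρr : ρ ≠ r)
    (hρn : ρ ≠ D.neg r) (hct : D.commTerms r ρ = [(q, N, 1, 1)]) (hN : (N : F) ≠ 0) (hq : D.IsPosRoot q)
    {u : F} (h : X hR.toAddRel ρ u * X hR.toAddRel r 1 * (X hR.toAddRel ρ u)⁻¹ ∈ H) : σ u = u := by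
  have hρ := (hTop.pos ρ hρT).1
  have h3 := hcg r hr ρ hρ hρr hρn 1 u
  rw [word_lead' hR hT σ hL hct (by simp)] at h3
  set c := (N : F) * (-1) * u with hc
  have h5 := central_comm hR hT hT3 hTop hρT hq c u
  have e : X hR.toAddRel ρ u * X hR.toAddRel r 1 * (X hR.toAddRel ρ u)⁻¹ =
      X hR.toAddRel r 1 * X hR.toAddRel q c := by
    rw [h3, mul_assoc (X hR.toAddRel r 1), ← h5]
    group
  rw [e] at h
  have hx : X hR.toAddRel r (1 : F) ∈ H := hL (X_mem_fixL hR σ hr (map_one σ))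
  have hy : X hR.toAddRel q c ∈ H := (H.mul_mem_cancel_left hx).mp h
  have hfix := (hRS q hq.1 c).mp hy
  rw [hc, map_mul, map_mul, map_intCast, map_neg, map_one] at hfix
  have hne : (N : F) * (-1) ≠ 0 := mul_ne_zero hN (neg_ne_zero.mpr one_ne_zero)
  exact mul_left_cancel₀ hne hfix

/-- The first coordinate of a pair on top. -/
theorem fix_of_conj_two {a ρ : ℕ} (haT : a ∈ Top) (hρT : ρ ∈ Top) {r q : ℕ} {N : ℤ}
    {rest : List (ℕ × ℤ × ℕ × ℕ)} (hr : r < D.nroots) (har : a ≠ r) (han : a ≠ D.neg r)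
    (hρr : ρ ≠ r) (hρn : ρ ≠ D.neg r) (hct : D.commTerms r a = (q, N, 1, 1) :: rest) (hN : (N : F) ≠ 0)
    (hrest : ∀ c ∈ rest, (c.2.1 : F) = 0) (hct2 : D.commTerms r ρ = []) (hq : D.IsPosRoot q) {A B : F}
    (h : (X hR.toAddRel a A * X hR.toAddRel ρ B) * X hR.toAddRel r 1 * (X hR.toAddRel a A * X hR.toAddRel ρ B)⁻¹ ∈ H) :
    σ A = A := by
  have hρ := (hTop.pos ρ hρT).1
  have ha := (hTop.pos a haT).1
  have h3 := hcg r hr a ha har han (1 : F) A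
  rw [word_lead' hR hT σ hL hct hrest] at h3
  have h4 := comm_of_nil hcg hr hρ hρr hρn hct2 (1 : F) B
  set c := (N : F) * (-1) * A with hc
  have h5 := central_comm hR hT hT3 hTop hρT hq c B
  have h6 := central_comm hR hT hT3 hTop haT hq c A
  set e := X hR.toAddRel a A * X hR.toAddRel ρ B with he
  have h7 : e * X hR.toAddRel r 1 = X hR.toAddRel r 1 * e * X hR.toAddRel q c := by
    rw [he, mul_assoc, h4, ← mul_assoc, h3, mul_assoc, h5]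
    simp only [mul_assoc]
  have h8 : X hR.toAddRel q c * e = e * X hR.toAddRel q c := by
    rw [he, ← mul_assoc, h6, mul_assoc, h5, mul_assoc]
  have e2 : e * X hR.toAddRel r 1 * e⁻¹ = X hR.toAddRel r 1 * X hR.toAddRel q c := by
    rw [h7, mul_assoc (X hR.toAddRel r 1), ← h8]
    group
  rw [e2] at h
  have hx : X hR.toAddRel r (1 : F) ∈ H := hL (X_mem_fixL hR σ hr (map_one σ))
  have hy : X hR.toAddRel q c ∈ H := (H.mul_mem_cancel_left hx).mp h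
  have hfix := (hRS q hq.1 c).mp hy
  rw [hc, map_mul, map_mul, map_intCast, map_neg, map_one] at hfix
  have hne : (N : F) * (-1) ≠ 0 := mul_ne_zero hN (neg_ne_zero.mpr one_ne_zero)
  exact mul_left_cancel₀ hne hfix

/-- The facts on the top of `U`: one root. -/
theorem hvC_one {ρ : ℕ} (hTopE : Top = [ρ]) {r q : ℕ} {N : ℤ} (hr : r < D.nroots) (hρr : ρ ≠ r)
    (hρn : ρ ≠ D.neg r) (hct : D.commTerms r ρ = [(q, N, 1, 1)]) (hN : (N : F) ≠ 0) (hq : D.IsPosRoot q)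
    (τ : ℕ → F) (h : ∀ s < D.nroots, W hR.toAddRel (Top.map fun r => (r, τ r)) * X hR.toAddRel s 1 *
      (W hR.toAddRel (Top.map fun r => (r, τ r)))⁻¹ ∈ H) :
    W hR.toAddRel (Top.map fun r => (r, τ r)) ∈ Fx D σ := by
  subst hTopE
  have hρ := (hTop.pos ρ (by simp)).1
  have h1 := h r hr
  simp only [List.map_cons, List.map_nil, W_cons, W_nil, mul_one] at h1 ⊢
  exact X_mem_Fx hR hT σ hρ (fix_of_conj hR hT hT3 σ hL hRS hcg hTop (by simp) hr hρr hρn hct hN hq h1)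

/-- The facts on the top of `U`: two roots. -/
theorem hvC_two {a ρ : ℕ} (hTopE : Top = [a, ρ]) {r' q' : ℕ} {N' : ℤ} {rest : List (ℕ × ℤ × ℕ × ℕ)}
    (hr' : r' < D.nroots) (har : a ≠ r') (han : a ≠ D.neg r') (hρr' : ρ ≠ r') (hρn' : ρ ≠ D.neg r')
    (hct' : D.commTerms r' a = (q', N', 1, 1) :: rest) (hN' : (N' : F) ≠ 0)
    (hrest : ∀ c ∈ rest, (c.2.1 : F) = 0) (hct2 : D.commTerms r' ρ = []) (hq' : D.IsPosRoot q')
    {r q : ℕ} {N : ℤ} (hr : r < D.nroots) (hρr : ρ ≠ r)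
    (hρn : ρ ≠ D.neg r) (hct : D.commTerms r ρ = [(q, N, 1, 1)]) (hN : (N : F) ≠ 0) (hq : D.IsPosRoot q)
    (τ : ℕ → F) (h : ∀ s < D.nroots, W hR.toAddRel (Top.map fun r => (r, τ r)) * X hR.toAddRel s 1 *
      (W hR.toAddRel (Top.map fun r => (r, τ r)))⁻¹ ∈ H) :
    W hR.toAddRel (Top.map fun r => (r, τ r)) ∈ Fx D σ := by
  subst hTopE
  have hρ := (hTop.pos ρ (by simp)).1
  have ha := (hTop.pos a (by simp)).1
  have h1 := h r' hr'
  have h2 := h r hr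
  simp only [List.map_cons, List.map_nil, W_cons, W_nil, mul_one] at h1 h2 ⊢
  have hA := fix_of_conj_two hR hT hT3 σ hL hRS hcg hTop (a := a) (ρ := ρ) (by simp) (by simp) hr' har han hρr' hρn'
    hct' hN' hrest hct2 hq' h1
  have hXa : X hR.toAddRel a (τ a) ∈ H := hL (X_mem_fixL hR σ ha hA)
  have h3 : X hR.toAddRel ρ (τ ρ) * X hR.toAddRel r 1 * (X hR.toAddRel ρ (τ ρ))⁻¹ ∈ H := by
    have e : X hR.toAddRel ρ (τ ρ) * X hR.toAddRel r 1 * (X hR.toAddRel ρ (τ ρ))⁻¹ =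
        (X hR.toAddRel a (τ a))⁻¹ * ((X hR.toAddRel a (τ a) * X hR.toAddRel ρ (τ ρ)) * X hR.toAddRel r 1 *
        (X hR.toAddRel a (τ a) * X hR.toAddRel ρ (τ ρ))⁻¹) * X hR.toAddRel a (τ a) := by
      group
    rw [e]
    exact H.mul_mem (H.mul_mem (H.inv_mem hXa) h2) hXa
  have hB := fix_of_conj hR hT hT3 σ hL hRS hcg hTop (ρ := ρ) (by simp) hr hρr hρn hct hN hq h3
  exact Subgroup.mul_mem _ (X_mem_Fx hR hT σ ha hA) (X_mem_Fx hR hT σ hρ hB)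

end Top

section Even

/-- An involution from one root. -/
theorem even_one' [CharP F 2] (hR : Sys D F η) (hT : Tbl D) (hT3 : Tbl3 D) (σ : F →+* F) {O : Set ℕ}
    (hOl : ∀ s ∈ O, s < D.nroots) {a : ℕ} {v : ℕ → ℤ} (ha : D.IsPosRoot a) (haO : a ∉ O)
    (hpos : ∀ s, D.IsPosRoot s → 0 < Ad D v s) (hmin : ∀ s, D.IsPosRoot s → Ad D v a ≤ Ad D v s) :
    ∃ t ∈ fixL hR σ, t * t = 1 ∧ t ≠ 1 ∧
      ∀ v ∈ D.posUnipotent F, ∀ s ∈ O, ∀ d : F, d ≠ 0 → t ≠ v * X hR.toAddRel s d * v⁻¹ := by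
  refine ⟨X hR.toAddRel a 1, X_mem_fixL hR σ ha.1 (map_one σ), ?_, ?_, ?_⟩
  · rw [X_mul, one_add_one_eq_two, CharTwo.two_eq_zero, X_zero]
  · intro h
    exact one_ne_zero (X_inj hR hT ha (by rw [h, X_zero]))
  · exact Cfsg.Agent.Lib.SubMax.Even.nonconj_one hR hT hT3 hpos ha hmin hOl haO

/-- An involution from two roots. -/
theorem even_two' [CharP F 2] (hR : Sys D F η) (hT : Tbl D) (hT3 : Tbl3 D) (σ : F →+* F) {O : Set ℕ}
    (hOl : ∀ s ∈ O, s < D.nroots) {a a' : ℕ} {v : ℕ → ℤ} (ha : D.IsPosRoot a) (ha' : D.IsPosRoot a')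
    (hlt : a < a') (hcomm : D.commTerms a a' = [])
    (hpos : ∀ s, D.IsPosRoot s → 0 < Ad D v s) (hmin : ∀ s, D.IsPosRoot s → Ad D v a ≤ Ad D v s)
    (hva : Ad D v a' = Ad D v a) :
    ∃ t ∈ fixL hR σ, t * t = 1 ∧ t ≠ 1 ∧
      ∀ v ∈ D.posUnipotent F, ∀ s ∈ O, ∀ d : F, d ≠ 0 → t ≠ v * X hR.toAddRel s d * v⁻¹ := by
  have hc : X hR.toAddRel a' (1 : F) * X hR.toAddRel a 1 = X hR.toAddRel a 1 * X hR.toAddRel a' 1 := by
    have h1 := commPos hR a a' ha ha' hlt.ne' (1 : F) (1 : F)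
    have h2 : D.commWord F a a' (1 : F) (1 : F) = [] := by
      simp [ChevalleyDatum.commWord, hcomm]
    rw [h2] at h1
    simpa [W] using h1
  refine ⟨X hR.toAddRel a 1 * X hR.toAddRel a' 1,
    Subgroup.mul_mem _ (X_mem_fixL hR σ ha.1 (map_one σ)) (X_mem_fixL hR σ ha'.1 (map_one σ)), ?_, ?_, ?_⟩
  · have h2 : X hR.toAddRel a (1 : F) * X hR.toAddRel a 1 = 1 := by
      rw [X_mul, one_add_one_eq_two, CharTwo.two_eq_zero, X_zero]
    have h3 : X hR.toAddRel a' (1 : F) * X hR.toAddRel a' 1 = 1 := by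
      rw [X_mul, one_add_one_eq_two, CharTwo.two_eq_zero, X_zero]
    calc X hR.toAddRel a (1 : F) * X hR.toAddRel a' 1 * (X hR.toAddRel a 1 * X hR.toAddRel a' 1)
        = X hR.toAddRel a (1 : F) * (X hR.toAddRel a' 1 * X hR.toAddRel a 1) * X hR.toAddRel a' 1 := by group
      _ = (X hR.toAddRel a (1 : F) * X hR.toAddRel a 1) * (X hR.toAddRel a' 1 * X hR.toAddRel a' 1) := by
          rw [hc]
          group
      _ = 1 := by rw [h2, h3, one_mul]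
  · intro h
    have h1 : X hR.toAddRel a (1 : F) = X hR.toAddRel a' (-1) := by
      rw [← X_inv]
      exact eq_inv_of_mul_eq_one_left h
    have h2 : X hR.toAddRel a (1 : F) ∈ gen hR.toAddRel {s | D.IsPosRoot s ∧ a < s} := by
      rw [h1]
      exact X_mem_gen _ (show a' ∈ {s | D.IsPosRoot s ∧ a < s} from ⟨ha', hlt⟩) _
    exact one_ne_zero (eq_zero_of_X_mem hT ha h2)
  · exact Cfsg.Agent.Lib.SubMax.Even.nonconj_two hR hT hT3 hpos ha ha' (ne_of_lt hlt) hmin hva hOl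

end Even

section Final

/-- The conclusion for the Frobenius map, given the facts on `U`. -/
theorem final_gen [IsAlgClosed F] (hR : Sys D F η) (hT : Tbl D) (hT2 : Tbl2 D) (hT3 : Tbl3 D)
    (p : ℕ) [hp : Fact p.Prime] [CharP F p] {a : ℕ} (ha : 1 ≤ a) {H : Subgroup (GL D.Idx F)}
    [Finite ↥H] (hHG : H ≤ D.group F) (hcg : CommG hR.toAddRel) {O : Set ℕ} {ρ β : ℕ} (hRT : RootTab D O ρ β)
    {Top : List ℕ} {v : ℕ → ℤ} (hTop : TopTab D F Top v)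
    (hEven : p = 2 → ∀ σ : F →+* F, ∃ t ∈ fixL hR σ, t * t = 1 ∧ t ≠ 1 ∧
      ∀ v ∈ D.posUnipotent F, ∀ s ∈ O, ∀ d : F, d ≠ 0 → t ≠ v * X hR.toAddRel s d * v⁻¹)
    (hPA : ∃ m : ℕ, 1 ≤ m ∧ ∀ s < D.nroots, ∀ t : F, X hR.toAddRel s t ∈ H ↔ t ^ ((p ^ a) ^ m) = t)
    (hTopB : ∀ σ : F →+* F, fixL hR σ ≤ H → (∀ s < D.nroots, ∀ t : F, X hR.toAddRel s t ∈ H ↔ σ t = t) →
      (∀ τ : ℕ → F, W hR.toAddRel (Top.map fun r => (r, τ r)) ∈ H →
        W hR.toAddRel (Top.map fun r => (r, τ r)) ∈ Fx D σ) ∧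
      ((∀ u ∈ H, u ∈ D.posUnipotent F → u ∈ Fx D σ) → ∀ τ : ℕ → F,
        (∀ s < D.nroots, W hR.toAddRel (Top.map fun r => (r, τ r)) * X hR.toAddRel s 1 *
        (W hR.toAddRel (Top.map fun r => (r, τ r)))⁻¹ ∈ H) → W hR.toAddRel (Top.map fun r => (r, τ r)) ∈ Fx D σ)) :
    ∃ r : ℕ, 1 ≤ r ∧ (∀ s < D.nroots, ∀ t : F, t ^ ((p ^ a) ^ r) = t → X hR.toAddRel s t ∈ H) ∧
      H ≤ Fx D (iterateFrobenius F p (a * r)) := by
  obtain ⟨m, hm, hRS⟩ := hPA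
  refine ⟨m, hm, fun s hs t ht => (hRS s hs t).mpr ht, ?_⟩
  set σ := iterateFrobenius F p (a * m) with hσdef
  have hσ : ∀ x, σ x = x ^ ((p ^ a) ^ m) := by
    intro x
    rw [hσdef, iterateFrobenius_def, pow_mul]
  have hq : 1 < (p ^ a) ^ m := Nat.one_lt_pow (by omega) (Nat.one_lt_pow (by omega) hp.out.one_lt)
  have hfin : {c : F | σ c = c}.Finite := by
    have := finite_sols (k := F) hq
    simpa only [hσ] using this
  have hRS' : ∀ s < D.nroots, ∀ t : F, X hR.toAddRel s t ∈ H ↔ σ t = t := by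
    intro s hs t
    rw [hRS s hs t, hσ]
  have hL : fixL hR σ ≤ H := by
    rw [fixL, Subgroup.closure_le]
    rintro g ⟨r, hr, t, ht, rfl⟩
    exact (hRS' r hr t).mpr ht
  obtain ⟨hvB, hvC⟩ := hTopB σ hL hRS'
  exact main_gen' hR hT hT3 σ hL hHG hTop hT2 p hfin hcg hRT (fun h => hEven h σ) hvB hvC

end Final

end Cfsg.Agent.Lib.SubMax.PartA
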