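import Cfsg.Agent.Lib.SubMax.CommB
import Cfsg.Agent.Lib.SubMax.Kempf
import Cfsg.Agent.Lib.ChevBN.SylowU

/-!
# Strong embedding

Let `H` be a subgroup between the fixed points `M` of a field endomorphism and `G` such that `H ∩ U ≤ M`.
Then `H ∩ P_J ≤ M` for the proper standard parabolic subgroups, and `N_H(R) ≤ M` for all non-trivial
`p`-subgroups `R` of `M`.
-/

set_option autoImplicit false
set_option linter.unusedSectionVars false

namespace Cfsg.Agent.Lib.SubMax.Strong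

open Cfsg.Lie Cfsg.Agent.Lib.ChevBN.Elem Cfsg.Agent.Lib.ChevBN.Entries Cfsg.Agent.Lib.ChevBN.Table
open Cfsg.Agent.Lib.ChevBN.Collect Cfsg.Agent.Lib.ChevBN.Rel Cfsg.Agent.Lib.ChevBN.Torus
open Cfsg.Agent.Lib.ChevBN.Monomial Cfsg.Agent.Lib.ChevBN.Core Cfsg.Agent.Lib.ChevBN.Pair
open Cfsg.Agent.Lib.ChevBN.Stmts Cfsg.Agent.Lib.ChevBN.Levi Cfsg.Agent.Lib.ChevBN.Fix
open Cfsg.Agent.Lib.BNPair.Basic Cfsg.Agent.Lib.BNPair.Parabolic
open Cfsg.Agent.Lib.ChevOrder.Chev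
open Cfsg.Agent.Lib.BorelTits.Weight Cfsg.Agent.Lib.BorelTits.Tbl3 Cfsg.Agent.Lib.BorelTits.Funct
open Cfsg.Agent.Lib.BorelTits.Cent
open Cfsg.Agent.Lib.SubMax.Fx Cfsg.Agent.Lib.SubMax.CommB Cfsg.Agent.Lib.SubMax.Kempf

variable {D : ChevalleyDatum} {F : Type*} [Field F] {η : ℕ → ℕ → ℤ}

section Basic

variable (hR : Sys D F η) (hT : Tbl D) (hT3 : Tbl3 D) (σ : F →+* F)
include hR hT hT3

/-- The leading entry of a `U`-conjugate of a root element. -/
theorem entry_conj {u : GL D.Idx F} (hu : u ∈ D.posUnipotent F) {s : Fin D.nroots}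
    (hs : D.IsPosRoot s.val) (κ : F) (i : Fin D.rank) :
    ((u * X hR.toAddRel s.val κ * u⁻¹ : GL D.Idx F) : Matrix D.Idx D.Idx F) (Sum.inl i)
      (Sum.inr (negF hT s)) = ((D.coroot.getD s.val #[]).getD i.val 0 : ℤ) * κ := by
  obtain ⟨ψ, hψ, hreg⟩ := exists_reg hT hT3
  have hdom : Dom hT ψ := fun q hq => (hreg _ (hT.simple_pos q hq)).le
  have hBP := borel_le_Par (F := F) hR hT hT3 hψ hdom
  have hs0 : 0 < ψ s := hreg s.val hs
  have hus := U_strict hR hT hT3 hψ hreg hu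
  have hne : (negF hT s).val ≠ s.val := hT.pos_ne_neg hs (hT.neg_of_pos hs) |>.symm
  have hA : Le (wt ψ) (wt ψ) (ψ s) ((X hR.toAddRel s.val κ : Matrix D.Idx D.Idx F) - 1) := by
    rw [coe_X]
    exact le_x_sub_one hT hT3 hψ s κ hs0.le
  have hA' := le_conj_sub_one hA (hBP (U_le_B hR hT hu))
  have h7 : (u : Matrix D.Idx D.Idx F) * ((X hR.toAddRel s.val κ : Matrix D.Idx D.Idx F) - 1) =
      (((u * X hR.toAddRel s.val κ * u⁻¹ : GL D.Idx F) : Matrix D.Idx D.Idx F) - 1) *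
        (u : Matrix D.Idx D.Idx F) := by
    have huu : ((u⁻¹ : GL D.Idx F) : Matrix D.Idx D.Idx F) * (u : Matrix D.Idx D.Idx F) = 1 := by
      rw [← Units.val_mul, inv_mul_cancel, Units.val_one]
    rw [sub_mul, Units.val_mul, Units.val_mul, mul_assoc, huu, mul_one, one_mul, mul_sub, mul_one]
  have h8 := eq_entry_of_conj hus hA hA' h7 (i := Sum.inl i) (j := Sum.inr (negF hT s)) (by
    rw [wt_inl, wt_inr, funct_neg hT hψ]
    simp)
  rw [coe_X, Matrix.sub_apply, Matrix.sub_apply, Matrix.one_apply_ne (by simp), sub_zero, sub_zero,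
    x_inl_inr_neg s.2 κ i (negF hT s) hne rfl] at h8
  exact h8.symm

end Basic

section Torus

variable (hR : Sys D F η) (hT : Tbl D) (σ : F →+* F)
include hR hT

/-- A torus element all whose characters are rational is rational. -/
theorem hP_fix {a : ℕ → F} (ha : ∀ j < D.rank, a j ≠ 0)
    (h : ∀ j < D.rank, σ (chi D a (D.simple j)) = chi D a (D.simple j)) :
    mapG D σ (hP hR a) = hP hR a := by
  have hall : ∀ s, Reach D Set.univ s → σ (chi D a s) = chi D a s := by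
    intro s hs
    induction hs with
    | base _ hl => exact h _ hl
    | @step q r _ hl hr ih =>
      rw [chi_w hT ha hl (hr.lt hT), map_mul, map_zpow₀, ih, h q hl]
  apply Units.ext
  rw [coe_mapG, coe_hP hR ha, dgMat]
  ext i j
  by_cases hij : i = j
  · subst hij
    rcases i with i | s
    · simp
    · simp only [Matrix.map_apply, Matrix.diagonal_apply_eq, Sum.elim_inr]
      exact hall _ (reach_univ hT s.2)
  · simp [Matrix.diagonal_apply_ne _ hij]

end Torus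

section Main

variable (hR : Sys D F η) (hT : Tbl D) (hT2 : Tbl2 D) (hT3 : Tbl3 D) (σ : F →+* F)
variable {H : Subgroup (GL D.Idx F)} (hMH : Fx D σ ≤ H) (hHG : H ≤ D.group F)
  (hHU : ∀ u ∈ H, u ∈ D.posUnipotent F → u ∈ Fx D σ)
include hR hT hT3 hMH hHG hHU

/-- `H ∩ B ≤ M`. -/
theorem B_le {b : GL D.Idx F} (hb : b ∈ H) (hbB : b ∈ D.borelSubgroup F) : b ∈ Fx D σ := by
  obtain ⟨u, hu, k, hk, rfl⟩ := (mem_B_iff hR hT).mp hbB
  have hk' := hk
  rw [diagonal_eq hR hT] at hk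
  obtain ⟨a, ha, rfl⟩ := hk
  have h1 : ∀ j < D.rank, σ (chi D a (D.simple j)) = chi D a (D.simple j) := by
    intro j hj
    have hp := hT.simple_pos j hj
    set s : Fin D.nroots := ⟨D.simple j, hp.1⟩ with hs
    set y := X hR.toAddRel s.val (1 : F) with hy
    have hyH : y ∈ H := hMH (X_one_mem_Fx hR hT σ hp.1)
    have e : (u * hP hR a) * y * (u * hP hR a)⁻¹ = u * X hR.toAddRel s.val (chi D a s.val * 1) * u⁻¹ := by
      calc (u * hP hR a) * y * (u * hP hR a)⁻¹ = u * (hP hR a * y * (hP hR a)⁻¹) * u⁻¹ := by group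
        _ = _ := by rw [hy, hP_conj hR ha s.2 1]
    have h2 : u * X hR.toAddRel s.val (chi D a s.val * 1) * u⁻¹ ∈ H := by
      rw [← e]
      exact Subgroup.mul_mem _ (Subgroup.mul_mem _ hb hyH) (Subgroup.inv_mem _ hb)
    have h3 : u * X hR.toAddRel s.val (chi D a s.val * 1) * u⁻¹ ∈ D.posUnipotent F :=
      Subgroup.mul_mem _ (Subgroup.mul_mem _ hu (X_mem_U hR hT hp _)) (Subgroup.inv_mem _ hu)
    have h4 : mapG D σ (u * X hR.toAddRel s.val (chi D a s.val * 1) * u⁻¹) =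
        u * X hR.toAddRel s.val (chi D a s.val * 1) * u⁻¹ := (hHU _ h2 h3).2
    obtain ⟨i, hi⟩ := Tbl.exists_coroot_ne (F := F) hT hp.1
    have h5 := entry_conj hR hT hT3 hu (s := s) hp (chi D a s.val * 1) i
    have h6 := congrArg (fun g : GL D.Idx F => (g : Matrix D.Idx D.Idx F) (Sum.inl i)
      (Sum.inr (negF hT s))) h4
    simp only [coe_mapG, Matrix.map_apply] at h6
    rw [h5, map_mul, map_intCast] at h6
    have h7 := mul_left_cancel₀ hi h6
    simpa [hs] using h7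
  have hfix := hP_fix hR hT σ ha h1
  have hkM : hP hR a ∈ Fx D σ := ⟨H_le_G hR hT hk', hfix⟩
  have huH : u ∈ H := by
    have e : u = (u * hP hR a) * (hP hR a)⁻¹ := by group
    rw [e]
    exact Subgroup.mul_mem _ hb (Subgroup.inv_mem _ (hMH hkM))
  exact Subgroup.mul_mem _ (hHU u huH hu) hkM

include hT2

/-- `H ∩ P_J ≤ M`. -/
theorem P_le {J : Set ℕ} (hJ : ∃ i, i < D.rank ∧ i ∉ J) {h : GL D.Idx F} (hh : h ∈ H)
    (hP : h ∈ D.parabolicSubgroup F J) : h ∈ Fx D σ := by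
  have hhG := hHG hh
  have hnorm := parabolic_le_norm hR hT hT2 J hP
  have hc : ∀ r ∈ psiJ D J, (h⁻¹ * mapG D σ h) * X hR.toAddRel r 1 =
      X hR.toAddRel r 1 * (h⁻¹ * mapG D σ h) := by
    intro r hr
    have hx : X hR.toAddRel r 1 ∈ D.unipotentRadical F J := by
      rw [radical_eq hR hT]
      exact X_mem_gen _ hr _
    have h1 : h * X hR.toAddRel r 1 * h⁻¹ ∈ D.unipotentRadical F J :=
      (Subgroup.mem_normalizer_iff.mp hnorm _).mp hx
    have hxH : X hR.toAddRel r 1 ∈ H := hMH (X_one_mem_Fx hR hT σ hr.1.1)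
    have h2 : h * X hR.toAddRel r 1 * h⁻¹ ∈ H :=
      Subgroup.mul_mem _ (Subgroup.mul_mem _ hh hxH) (Subgroup.inv_mem _ hh)
    have h3 : mapG D σ (h * X hR.toAddRel r 1 * h⁻¹) = h * X hR.toAddRel r 1 * h⁻¹ :=
      (hHU _ h2 (radical_le_U hR hT J h1)).2
    rw [map_mul, map_mul, map_inv, mapG_X σ hR.toAddRel hR.toAddRel, map_one] at h3
    -- `σ(h) x σ(h)⁻¹ = h x h⁻¹`
    have e : mapG D σ h * X hR.toAddRel r 1 = h * X hR.toAddRel r 1 * h⁻¹ * mapG D σ h := by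
      rw [← h3]
      group
    calc (h⁻¹ * mapG D σ h) * X hR.toAddRel r 1 = h⁻¹ * (mapG D σ h * X hR.toAddRel r 1) := by group
      _ = h⁻¹ * (h * X hR.toAddRel r 1 * h⁻¹ * mapG D σ h) := by rw [e]
      _ = _ := by group
  have hcP : h⁻¹ * mapG D σ h ∈ D.parabolicSubgroup F J :=
    Subgroup.mul_mem _ (Subgroup.inv_mem _ hP) (mapG_parabolic hR hT σ J hP)
  have hcB := mem_B_of_comm hR hT hT2 hT3 hJ hcP hc
  obtain ⟨m, hm, b, hb, rfl⟩ := exists_rat_B hR hT σ hhG hcB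
  have hbH : b ∈ H := by
    have e : b = m⁻¹ * (m * b) := by group
    rw [e]
    exact Subgroup.mul_mem _ (Subgroup.inv_mem _ (hMH hm)) hh
  exact Subgroup.mul_mem _ hm (B_le hR hT hT3 σ hMH hHG hHU hbH hb)

omit hHG hHU hMH hT2 hT3 in
/-- `p`-subgroups of `G` are conjugate into `U`. -/
theorem exists_conj_U [Fintype F] (p : ℕ) [Fact p.Prime] [CharP F p] {U : Subgroup (GL D.Idx F)}
    (hUG : U ≤ D.group F) (hU : IsPGroup p ↥U) : ∃ g ∈ D.group F, cj g U ≤ D.posUnipotent F := by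
  obtain ⟨P, hP⟩ := Cfsg.Agent.Lib.ChevBN.SylowU.exists_sylow hR hT p
  have hpg : IsPGroup p ↥(U.subgroupOf (D.group F)) :=
    hU.of_injective (Subgroup.subgroupOfEquivOfLe hUG).toMonoidHom
      (Subgroup.subgroupOfEquivOfLe hUG).injective
  obtain ⟨S', hS'⟩ := hpg.exists_le_sylow
  obtain ⟨g, hg⟩ := MulAction.exists_smul_eq (↥(D.group F)) S' P
  refine ⟨((g⁻¹ : ↥(D.group F)) : GL D.Idx F), (g⁻¹ : ↥(D.group F)).2, ?_⟩
  intro y hy
  rw [mem_cj] at hy
  have hyG : y ∈ D.group F := by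
    have h1 := hUG hy
    have h2 : y = (g : GL D.Idx F) * (((g⁻¹ : ↥(D.group F)) : GL D.Idx F) * y *
        ((g⁻¹ : ↥(D.group F)) : GL D.Idx F)⁻¹) * (g : GL D.Idx F)⁻¹ := by
      simp only [InvMemClass.coe_inv]
      group
    rw [h2]
    simp only [InvMemClass.coe_inv] at h1
    exact Subgroup.mul_mem _ (Subgroup.mul_mem _ g.2 h1) (Subgroup.inv_mem _ g.2)
  have h3 : g⁻¹ * (⟨y, hyG⟩ : ↥(D.group F)) * g ∈ (S' : Subgroup ↥(D.group F)) := by
    apply hS'
    rw [Subgroup.mem_subgroupOf]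
    simpa using hy
  have h4 : g * (g⁻¹ * (⟨y, hyG⟩ : ↥(D.group F)) * g) * g⁻¹ ∈ (P : Subgroup ↥(D.group F)) := by
    rw [← hg, Sylow.coe_subgroup_smul]
    exact ⟨_, h3, rfl⟩
  have h5 : g * (g⁻¹ * (⟨y, hyG⟩ : ↥(D.group F)) * g) * g⁻¹ = ⟨y, hyG⟩ := by group
  rw [h5, hP, Subgroup.mem_subgroupOf] at h4
  exact h4

/-- Strong embedding. -/
theorem norm_le [Fintype F] (p : ℕ) [Fact p.Prime] [CharP F p] {R : Subgroup (GL D.Idx F)}
    (hRM : R ≤ Fx D σ) (hRp : IsPGroup p ↥R) (hne : R ≠ ⊥) {x : GL D.Idx F}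
    (hxN : x ∈ Subgroup.normalizer (R : Set (GL D.Idx F))) (hxH : x ∈ H) : x ∈ Fx D σ := by
  have hRG : R ≤ D.group F := fun y hy => (hRM hy).1
  obtain ⟨g, hg, φ, hφ, hdom, M₀, hM₀, hlow, hcomp, hprop, hnorm⟩ :=
    kempf_data hR hT hT2 hT3 hRG hne (exists_conj_U hR hT p hRG hRp)
  set J := Kφ hT φ with hJ
  -- `g⁻¹ σ(g)` preserves the optimal functional
  have h1 : Low (cj (g⁻¹ * mapG D σ g) (cj g R)) (wt φ) M₀ := by
    rw [← cj_mul]
    have e : g * (g⁻¹ * mapG D σ g) = mapG D σ g := by group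
    rw [e]
    intro y hy i j hij
    rw [mem_cj] at hy
    set y₀ := mapG D σ g * y * (mapG D σ g)⁻¹ with hy₀
    have hy₀M : mapG D σ y₀ = y₀ := (hRM hy).2
    set y₁ := g⁻¹ * y₀ * g with hy₁
    have hy₁R : y₁ ∈ cj g R := by
      rw [mem_cj]
      have : g * y₁ * g⁻¹ = y₀ := by
        rw [hy₁]
        group
      rwa [this]
    have hey : y = mapG D σ y₁ := by
      rw [hy₁, map_mul, map_mul, map_inv, hy₀M, hy₀]
      group
    have hentry : (((y₁ : GL D.Idx F) : Matrix D.Idx D.Idx F) - 1) i j ≠ 0 := by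
      intro h0
      apply hij
      rw [hey, Matrix.sub_apply, coe_mapG, Matrix.map_apply]
      rw [Matrix.sub_apply, sub_eq_zero] at h0
      rw [h0]
      by_cases hij' : i = j
      · subst hij'
        simp
      · simp [Matrix.one_apply_ne hij']
    exact hlow y₁ hy₁R i j hentry
  have h2 : g⁻¹ * mapG D σ g ∈ D.group F :=
    Subgroup.mul_mem _ (Subgroup.inv_mem _ hg) (mapG_G hR hT σ hg)
  have h3 := hcomp _ h2 h1
  have h4 := mem_parabolic_of_mem_Par hR hT hT3 hφ hdom h2 h3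
  obtain ⟨m, hm, q, hq, e⟩ := exists_rat_P hR hT σ J hg h4
  obtain ⟨w, hw, ew⟩ := hnorm ⟨hxN, hHG hxH⟩
  have ew' : x = g * w * g⁻¹ := by
    rw [← ew]
    simp only [MulEquiv.coe_toMonoidHom, MulAut.conj_apply]
  have h5 : m⁻¹ * x * m = q * w * q⁻¹ := by
    rw [ew', e]
    group
  have h6 : m⁻¹ * x * m ∈ D.parabolicSubgroup F J := by
    rw [h5]
    exact Subgroup.mul_mem _ (Subgroup.mul_mem _ hq hw) (Subgroup.inv_mem _ hq)
  have h7 : m⁻¹ * x * m ∈ H :=
    Subgroup.mul_mem _ (Subgroup.mul_mem _ (Subgroup.inv_mem _ (hMH hm)) hxH) (hMH hm)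
  have h8 := P_le hR hT hT2 hT3 σ hMH hHG hHU hprop h7 h6
  have h9 : x = m * (m⁻¹ * x * m) * m⁻¹ := by group
  rw [h9]
  exact Subgroup.mul_mem _ (Subgroup.mul_mem _ hm h8) (Subgroup.inv_mem _ hm)

/-- The centraliser in `H` of a non-trivial `p`-element of `M` lies in `M`. -/
theorem cent_le [Fintype F] (p : ℕ) [Fact p.Prime] [CharP F p] {y : GL D.Idx F} (hy : y ∈ Fx D σ)
    (hyp : ∃ k, y ^ (p ^ k) = 1) (hne : y ≠ 1) {x : GL D.Idx F} (hxH : x ∈ H) (hc : x * y = y * x) :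
    x ∈ Fx D σ := by
  have hp : IsPGroup p ↥(Subgroup.zpowers y) := by
    obtain ⟨k, hk⟩ := hyp
    intro z
    obtain ⟨n, hn⟩ := Subgroup.mem_zpowers_iff.mp z.2
    refine ⟨k, ?_⟩
    apply Subtype.ext
    simp only [SubmonoidClass.coe_pow, OneMemClass.coe_one]
    rw [← hn, ← zpow_natCast, ← zpow_mul, mul_comm, zpow_mul, zpow_natCast, hk, one_zpow]
  refine norm_le hR hT hT2 hT3 σ hMH hHG hHU p (R := Subgroup.zpowers y) ?_ hp ?_ ?_ hxH
  · intro z hz
    obtain ⟨n, rfl⟩ := Subgroup.mem_zpowers_iff.mp hz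
    exact Subgroup.zpow_mem _ hy n
  · rwa [Ne, Subgroup.zpowers_eq_bot]
  · rw [Subgroup.mem_normalizer_iff]
    have hcz : Commute x y := hc
    intro z
    constructor
    · intro hz
      obtain ⟨n, rfl⟩ := Subgroup.mem_zpowers_iff.mp hz
      have h1 : x * y ^ n * x⁻¹ = y ^ n := by
        rw [(hcz.zpow_right n).eq]
        group
      rw [h1]
      exact hz
    · intro hz
      obtain ⟨n, hn⟩ := Subgroup.mem_zpowers_iff.mp hz
      have h1 : x * y ^ n * x⁻¹ = y ^ n := by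
        rw [(hcz.zpow_right n).eq]
        group
      have h2 : z = y ^ n := by
        have h3 : x * z * x⁻¹ = x * y ^ n * x⁻¹ := by rw [h1, hn]
        exact mul_left_cancel (mul_right_cancel h3)
      rw [h2]
      exact Subgroup.zpow_mem_zpowers _ _

end Main

end Cfsg.Agent.Lib.SubMax.Strong
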