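import Cfsg.Agent.Lib.SubMax.Tor

/-!
# Strong embedding with a generated subgroup
-/

set_option autoImplicit false
set_option linter.unusedSectionVars false
set_option linter.style.haveILetI false

namespace Cfsg.Agent.Lib.SubMax.Strong2

open Cfsg.Lie Cfsg.Agent.Lib.ChevBN.Elem Cfsg.Agent.Lib.ChevBN.Entries Cfsg.Agent.Lib.ChevBN.Table
open Cfsg.Agent.Lib.ChevBN.Collect Cfsg.Agent.Lib.ChevBN.Rel Cfsg.Agent.Lib.ChevBN.Torus
open Cfsg.Agent.Lib.ChevBN.Monomial Cfsg.Agent.Lib.ChevBN.Core Cfsg.Agent.Lib.ChevBN.Pair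
open Cfsg.Agent.Lib.ChevBN.Stmts Cfsg.Agent.Lib.ChevBN.Levi Cfsg.Agent.Lib.ChevBN.Fix
open Cfsg.Agent.Lib.BNPair.Basic Cfsg.Agent.Lib.BNPair.Parabolic
open Cfsg.Agent.Lib.ChevOrder.Chev
open Cfsg.Agent.Lib.BorelTits.Weight Cfsg.Agent.Lib.BorelTits.Tbl3 Cfsg.Agent.Lib.BorelTits.Funct
open Cfsg.Agent.Lib.BorelTits.Cent
open Cfsg.Agent.Lib.SubMax.Fx Cfsg.Agent.Lib.SubMax.CommB Cfsg.Agent.Lib.SubMax.KFx
open Cfsg.Agent.Lib.SubMax.Kempf2 Cfsg.Agent.Lib.SubMax.Kempf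

variable {D : ChevalleyDatum} {F : Type*} [Field F] {η : ℕ → ℕ → ℤ}

section Main

variable (hR : Sys D F η) (hT : Tbl D) (hT2 : Tbl2 D) (hT3 : Tbl3 D) (σ : F →+* F)
variable {H : Subgroup (GL D.Idx F)} (hL : fixL hR σ ≤ H) (hHG : H ≤ D.group F)
  (hHU : ∀ u ∈ H, u ∈ D.posUnipotent F → u ∈ Fx D σ)
  (hB : ∀ b ∈ H, b ∈ D.borelSubgroup F → b ∈ Fx D σ)
include hR hT hT3 hL hHG hHU hB

include hT2

/-- `H ∩ P_J ≤ M`. -/
theorem P_le' {J : Set ℕ} (hJ : ∃ i, i < D.rank ∧ i ∉ J) {h : GL D.Idx F} (hh : h ∈ H)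
    (hP : h ∈ D.parabolicSubgroup F J) : h ∈ Fx D σ := by
  have hhG := hHG hh
  have hnorm := parabolic_le_norm hR hT hT2 J hP
  have hc : ∀ r ∈ psiJ D J, (h⁻¹ * mapG D σ h) * X hR.toAddRel r 1 =
      X hR.toAddRel r 1 * (h⁻¹ * mapG D σ h) := by
    intro r hr
    have hx : X hR.toAddRel r 1 ∈ D.unipotentRadical F J := by
      rw [radical_eq hR hT]
      exact X_mem_gen _ hr _
    have h1 : h * X hR.toAddRel r 1 * h⁻¹ ∈ D.unipotentRadical F J :=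
      (Subgroup.mem_normalizer_iff.mp hnorm _).mp hx
    have hxH : X hR.toAddRel r 1 ∈ H := hL (X_mem_fixL hR σ hr.1.1 (map_one σ))
    have h2 : h * X hR.toAddRel r 1 * h⁻¹ ∈ H :=
      Subgroup.mul_mem _ (Subgroup.mul_mem _ hh hxH) (Subgroup.inv_mem _ hh)
    have h3 : mapG D σ (h * X hR.toAddRel r 1 * h⁻¹) = h * X hR.toAddRel r 1 * h⁻¹ :=
      (hHU _ h2 (radical_le_U hR hT J h1)).2
    rw [map_mul, map_mul, map_inv, mapG_X σ hR.toAddRel hR.toAddRel, map_one] at h3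
    -- `σ(h) x σ(h)⁻¹ = h x h⁻¹`
    have e : mapG D σ h * X hR.toAddRel r 1 = h * X hR.toAddRel r 1 * h⁻¹ * mapG D σ h := by
      rw [← h3]
      group
    calc (h⁻¹ * mapG D σ h) * X hR.toAddRel r 1 = h⁻¹ * (mapG D σ h * X hR.toAddRel r 1) := by group
      _ = h⁻¹ * (h * X hR.toAddRel r 1 * h⁻¹ * mapG D σ h) := by rw [e]
      _ = _ := by group
  have hcP : h⁻¹ * mapG D σ h ∈ D.parabolicSubgroup F J :=
    Subgroup.mul_mem _ (Subgroup.inv_mem _ hP) (mapG_parabolic hR hT σ J hP)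
  have hcB := mem_B_of_comm hR hT hT2 hT3 hJ hcP hc
  obtain ⟨m, hm, b, hb, rfl⟩ := exists_rat_B' hR hT σ hhG hcB
  have hbH : b ∈ H := by
    have e : b = m⁻¹ * (m * b) := by group
    rw [e]
    exact Subgroup.mul_mem _ (Subgroup.inv_mem _ (hL hm)) hh
  exact Subgroup.mul_mem _ (fixL_le_Fx hR hT σ hm) (hB b hbH hb)

/-- Strong embedding. -/
theorem norm_le' {R : Subgroup (GL D.Idx F)}
    (hRM : R ≤ Fx D σ) (hcj : ∃ g ∈ D.group F, cj g R ≤ D.posUnipotent F) (hne : R ≠ ⊥) {x : GL D.Idx F}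
    (hxN : x ∈ Subgroup.normalizer (R : Set (GL D.Idx F))) (hxH : x ∈ H) : x ∈ Fx D σ := by
  have hRG : R ≤ D.group F := fun y hy => (hRM hy).1
  obtain ⟨g, hg, φ, hφ, hdom, M₀, hM₀, hlow, hcomp, hprop, hnorm⟩ :=
    kempf_data' hR hT hT2 hT3 hRG hne hcj
  set J := Kφ hT φ with hJ
  -- `g⁻¹ σ(g)` preserves the optimal functional
  have h1 : Low (cj (g⁻¹ * mapG D σ g) (cj g R)) (wt φ) M₀ := by
    rw [← cj_mul]
    have e : g * (g⁻¹ * mapG D σ g) = mapG D σ g := by group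
    rw [e]
    intro y hy i j hij
    rw [mem_cj] at hy
    set y₀ := mapG D σ g * y * (mapG D σ g)⁻¹ with hy₀
    have hy₀M : mapG D σ y₀ = y₀ := (hRM hy).2
    set y₁ := g⁻¹ * y₀ * g with hy₁
    have hy₁R : y₁ ∈ cj g R := by
      rw [mem_cj]
      have : g * y₁ * g⁻¹ = y₀ := by
        rw [hy₁]
        group
      rwa [this]
    have hey : y = mapG D σ y₁ := by
      rw [hy₁, map_mul, map_mul, map_inv, hy₀M, hy₀]
      group
    have hentry : (((y₁ : GL D.Idx F) : Matrix D.Idx D.Idx F) - 1) i j ≠ 0 := by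
      intro h0
      apply hij
      rw [hey, Matrix.sub_apply, coe_mapG, Matrix.map_apply]
      rw [Matrix.sub_apply, sub_eq_zero] at h0
      rw [h0]
      by_cases hij' : i = j
      · subst hij'
        simp
      · simp [Matrix.one_apply_ne hij']
    exact hlow y₁ hy₁R i j hentry
  have h2 : g⁻¹ * mapG D σ g ∈ D.group F :=
    Subgroup.mul_mem _ (Subgroup.inv_mem _ hg) (mapG_G hR hT σ hg)
  have h3 := hcomp _ h2 h1
  have h4 := mem_parabolic_of_mem_Par hR hT hT3 hφ hdom h2 h3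
  obtain ⟨m, hm, q, hq, e⟩ := exists_rat_P' hR hT σ J hg h4
  obtain ⟨w, hw, ew⟩ := hnorm ⟨hxN, hHG hxH⟩
  have ew' : x = g * w * g⁻¹ := by
    rw [← ew]
    simp only [MulEquiv.coe_toMonoidHom, MulAut.conj_apply]
  have h5 : m⁻¹ * x * m = q * w * q⁻¹ := by
    rw [ew', e]
    group
  have h6 : m⁻¹ * x * m ∈ D.parabolicSubgroup F J := by
    rw [h5]
    exact Subgroup.mul_mem _ (Subgroup.mul_mem _ hq hw) (Subgroup.inv_mem _ hq)
  have h7 : m⁻¹ * x * m ∈ H :=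
    Subgroup.mul_mem _ (Subgroup.mul_mem _ (Subgroup.inv_mem _ (hL hm)) hxH) (hL hm)
  have h8 := P_le' hR hT hT2 hT3 σ hL hHG hHU hB hprop h7 h6
  have h9 : x = m * (m⁻¹ * x * m) * m⁻¹ := by group
  rw [h9]
  exact Subgroup.mul_mem _ (Subgroup.mul_mem _ (fixL_le_Fx hR hT σ hm) h8) (Subgroup.inv_mem _ (fixL_le_Fx hR hT σ hm))

/-- The centraliser in `H` of a non-trivial `p`-element of `M` lies in `M`. -/
theorem cent_le' (p : ℕ) [Fact p.Prime] [CharP F p]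
    (hcj : ∀ R : Subgroup (GL D.Idx F), R ≤ Fx D σ → IsPGroup p ↥R → ∃ g ∈ D.group F, cj g R ≤ D.posUnipotent F)
    {y : GL D.Idx F} (hy : y ∈ Fx D σ)
    (hyp : ∃ k, y ^ (p ^ k) = 1) (hne : y ≠ 1) {x : GL D.Idx F} (hxH : x ∈ H) (hc : x * y = y * x) :
    x ∈ Fx D σ := by
  have hp : IsPGroup p ↥(Subgroup.zpowers y) := by
    obtain ⟨k, hk⟩ := hyp
    intro z
    obtain ⟨n, hn⟩ := Subgroup.mem_zpowers_iff.mp z.2
    refine ⟨k, ?_⟩
    apply Subtype.ext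
    simp only [SubmonoidClass.coe_pow, OneMemClass.coe_one]
    rw [← hn, ← zpow_natCast, ← zpow_mul, mul_comm, zpow_mul, zpow_natCast, hk, one_zpow]
  have hyM : Subgroup.zpowers y ≤ Fx D σ := by
    intro z hz
    obtain ⟨n, rfl⟩ := Subgroup.mem_zpowers_iff.mp hz
    exact Subgroup.zpow_mem _ hy n
  refine norm_le' hR hT hT2 hT3 σ hL hHG hHU hB (R := Subgroup.zpowers y) hyM (hcj _ hyM hp) ?_ ?_ hxH
  · rwa [Ne, Subgroup.zpowers_eq_bot]
  · rw [Subgroup.mem_normalizer_iff]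
    have hcz : Commute x y := hc
    intro z
    constructor
    · intro hz
      obtain ⟨n, rfl⟩ := Subgroup.mem_zpowers_iff.mp hz
      have h1 : x * y ^ n * x⁻¹ = y ^ n := by
        rw [(hcz.zpow_right n).eq]
        group
      rw [h1]
      exact hz
    · intro hz
      obtain ⟨n, hn⟩ := Subgroup.mem_zpowers_iff.mp hz
      have h1 : x * y ^ n * x⁻¹ = y ^ n := by
        rw [(hcz.zpow_right n).eq]
        group
      have h2 : z = y ^ n := by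
        have h3 : x * z * x⁻¹ = x * y ^ n * x⁻¹ := by rw [h1, hn]
        exact mul_left_cancel (mul_right_cancel h3)
      rw [h2]
      exact Subgroup.zpow_mem_zpowers _ _

end Main

end Cfsg.Agent.Lib.SubMax.Strong2
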