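import Cfsg.Agent.Lib.SubMax.FinB2
import Cfsg.Agent.Lib.ChevBN.FastData
import Cfsg.Agent.Lib.ChevBN.FastData2
import Cfsg.Agent.Lib.BorelTits.Data

/-!
# The assembly of the cases, and the table facts in a form that can be checked
-/

set_option autoImplicit false
set_option linter.unusedSectionVars false

namespace Cfsg.Agent.Lib.SubMax.Tab

open Cfsg.Lie Cfsg.Agent.Lib.ChevBN.Elem Cfsg.Agent.Lib.ChevBN.Entries Cfsg.Agent.Lib.ChevBN.Table
open Cfsg.Agent.Lib.ChevBN.Collect Cfsg.Agent.Lib.ChevBN.Rel Cfsg.Agent.Lib.ChevBN.Torus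
open Cfsg.Agent.Lib.ChevBN.Monomial Cfsg.Agent.Lib.ChevBN.Core Cfsg.Agent.Lib.ChevBN.Pair
open Cfsg.Agent.Lib.ChevBN.Stmts Cfsg.Agent.Lib.ChevBN.Levi Cfsg.Agent.Lib.ChevBN.Fix
open Cfsg.Agent.Lib.ChevBN.Fast Cfsg.Agent.Lib.BorelTits.Tbl3
open Cfsg.Agent.Lib.SubMax.Fx Cfsg.Agent.Lib.SubMax.Orbit Cfsg.Agent.Lib.SubMax.TopElt
open Cfsg.Agent.Lib.SubMax.Gen Cfsg.Agent.Lib.SubMax.Fin
open Cfsg.Agent.Lib.SubMax.Even Cfsg.Agent.Lib.SubMax.Odd

variable {D : ChevalleyDatum} {F : Type*} [Field F] {η : ℕ → ℕ → ℤ}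

/-- The facts on the central root. -/
structure RootTab (D : ChevalleyDatum) (O : Set ℕ) (ρ β : ℕ) : Prop where
  hOl : ∀ s ∈ O, s < D.nroots
  hO : ∀ q < D.rank, ∀ s ∈ O, D.reflectRoot q s ∈ O
  hρO : ρ ∈ O
  hρ : D.IsPosRoot ρ
  hcen : ∀ s, D.IsPosRoot s → s ≠ ρ → D.commTerms ρ s = []
  hO2 : ∀ s ∈ O, s ≠ D.neg ρ → 0 < 2 + Ad D (cr D ρ) s ∧ 0 < 2 + Ad D (cr D s) ρ
  hT1 : ∀ s, D.IsPosRoot s → s ≠ ρ → Ad D (cr D ρ) s = 0 ∨ Ad D (cr D ρ) s = 1
  hTc : ∀ s, D.IsPosRoot s → Ad D (cr D ρ) s = 0 → D.commTerms (D.neg ρ) s = []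
  hβ : D.IsPosRoot β
  hβ0 : Ad D (cr D ρ) β = 0

/-- The case split of the main theorem. -/
theorem main_gen [Fintype F] (p : ℕ) [hp : Fact p.Prime] [CharP F p] (hR : Sys D F η) (hT : Tbl D) (hT2 : Tbl2 D)
    (hT3 : Tbl3 D) (σ : F →+* F) {H : Subgroup (GL D.Idx F)} (hMH : Fx D σ ≤ H) (hHG : H ≤ D.group F)
    (hcg : CommG hR.toAddRel) {O : Set ℕ} {ρ β : ℕ} (hRT : RootTab D O ρ β)
    (hEven : p = 2 → ∃ t ∈ Fx D σ, t * t = 1 ∧ t ≠ 1 ∧
      ∀ v ∈ D.posUnipotent F, ∀ s ∈ O, ∀ d : F, d ≠ 0 → t ≠ v * X hR.toAddRel s d * v⁻¹)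
    (hFinish : (∃ u ∈ H, u ∈ D.posUnipotent F ∧ u ∉ Fx D σ) → H = D.group F) :
    H ≤ Fx D σ ∨ H = D.group F := by
  by_cases hne : ∃ u ∈ H, u ∈ D.posUnipotent F ∧ u ∉ Fx D σ
  · exact Or.inr (hFinish hne)
  · left
    have hHU : ∀ u ∈ H, u ∈ D.posUnipotent F → u ∈ Fx D σ := by
      intro u hu hu'
      by_contra h
      exact hne ⟨u, hu, hu', h⟩
    by_cases h2 : p = 2
    · subst h2
      obtain ⟨t, ht, htt, htne, hnc⟩ := hEven rfl
      exact even_main hR hT hT2 hT3 σ hMH hHG hHU hRT.hOl hRT.hO hRT.hρO hRT.hρ hRT.hcen ht htt htne hnc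
    · exact odd_main hR hT hT2 hT3 σ hMH hHG hHU p h2 hRT.hOl hRT.hO hRT.hρO hRT.hρ hRT.hcen hcg hRT.hO2
        hRT.hT1 hRT.hTc hRT.hβ hRT.hβ0

/-- An involution from one root. -/
theorem even_one [CharP F 2] (hR : Sys D F η) (hT : Tbl D) (hT3 : Tbl3 D) (σ : F →+* F) {O : Set ℕ}
    (hOl : ∀ s ∈ O, s < D.nroots) {a : ℕ} {v : ℕ → ℤ} (ha : D.IsPosRoot a) (haO : a ∉ O)
    (hpos : ∀ s, D.IsPosRoot s → 0 < Ad D v s) (hmin : ∀ s, D.IsPosRoot s → Ad D v a ≤ Ad D v s) :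
    ∃ t ∈ Fx D σ, t * t = 1 ∧ t ≠ 1 ∧
      ∀ v ∈ D.posUnipotent F, ∀ s ∈ O, ∀ d : F, d ≠ 0 → t ≠ v * X hR.toAddRel s d * v⁻¹ := by
  refine ⟨X hR.toAddRel a 1, X_one_mem_Fx hR hT σ ha.1, ?_, ?_, ?_⟩
  · rw [X_mul, one_add_one_eq_two, CharTwo.two_eq_zero, X_zero]
  · intro h
    exact one_ne_zero (X_inj hR hT ha (by rw [h, X_zero]))
  · exact nonconj_one hR hT hT3 hpos ha hmin hOl haO

/-- An involution from two roots. -/
theorem even_two [CharP F 2] (hR : Sys D F η) (hT : Tbl D) (hT3 : Tbl3 D) (σ : F →+* F) {O : Set ℕ}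
    (hOl : ∀ s ∈ O, s < D.nroots) {a a' : ℕ} {v : ℕ → ℤ} (ha : D.IsPosRoot a) (ha' : D.IsPosRoot a')
    (hlt : a < a') (hcomm : D.commTerms a a' = [])
    (hpos : ∀ s, D.IsPosRoot s → 0 < Ad D v s) (hmin : ∀ s, D.IsPosRoot s → Ad D v a ≤ Ad D v s)
    (hva : Ad D v a' = Ad D v a) :
    ∃ t ∈ Fx D σ, t * t = 1 ∧ t ≠ 1 ∧
      ∀ v ∈ D.posUnipotent F, ∀ s ∈ O, ∀ d : F, d ≠ 0 → t ≠ v * X hR.toAddRel s d * v⁻¹ := by
  have hc : X hR.toAddRel a' (1 : F) * X hR.toAddRel a 1 = X hR.toAddRel a 1 * X hR.toAddRel a' 1 := by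
    have h1 := commPos hR a a' ha ha' hlt.ne' (1 : F) (1 : F)
    have h2 : D.commWord F a a' (1 : F) (1 : F) = [] := by
      simp [ChevalleyDatum.commWord, hcomm]
    rw [h2] at h1
    simpa [W] using h1
  refine ⟨X hR.toAddRel a 1 * X hR.toAddRel a' 1,
    Subgroup.mul_mem _ (X_one_mem_Fx hR hT σ ha.1) (X_one_mem_Fx hR hT σ ha'.1), ?_, ?_, ?_⟩
  · have h2 : X hR.toAddRel a (1 : F) * X hR.toAddRel a 1 = 1 := by
      rw [X_mul, one_add_one_eq_two, CharTwo.two_eq_zero, X_zero]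
    have h3 : X hR.toAddRel a' (1 : F) * X hR.toAddRel a' 1 = 1 := by
      rw [X_mul, one_add_one_eq_two, CharTwo.two_eq_zero, X_zero]
    calc X hR.toAddRel a (1 : F) * X hR.toAddRel a' 1 * (X hR.toAddRel a 1 * X hR.toAddRel a' 1)
        = X hR.toAddRel a (1 : F) * (X hR.toAddRel a' 1 * X hR.toAddRel a 1) * X hR.toAddRel a' 1 := by group
      _ = (X hR.toAddRel a (1 : F) * X hR.toAddRel a 1) * (X hR.toAddRel a' 1 * X hR.toAddRel a' 1) := by
          rw [hc]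
          group
      _ = 1 := by rw [h2, h3, one_mul]
  · intro h
    have h1 : X hR.toAddRel a (1 : F) = X hR.toAddRel a' (-1) := by
      rw [← X_inv]
      exact eq_inv_of_mul_eq_one_left h
    have h2 : X hR.toAddRel a (1 : F) ∈ gen hR.toAddRel {s | D.IsPosRoot s ∧ a < s} := by
      rw [h1]
      exact X_mem_gen _ (show a' ∈ {s | D.IsPosRoot s ∧ a < s} from ⟨ha', hlt⟩) _
    exact one_ne_zero (eq_zero_of_X_mem hT ha h2)
  · exact nonconj_two hR hT hT3 hpos ha ha' (ne_of_lt hlt) hmin hva hOl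

/-! ### Fast forms -/

theorem Ad_cr_fast {T : FastTab} (hC : chkC T D = true) (hR : chkR T D = true) {r s : ℕ} (hr : r < D.nroots)
    (hs : s < D.nroots) : Ad D (cr D r) s = T.Adf D r s := by
  rw [Ad, FastTab.Adf]
  congr 1
  apply List.map_congr_left
  intro j hj
  have hj' := List.mem_range.mp hj
  rw [cr_eq hR hr hj', cartan_eq hC hj' hs]

/-- `Ad` through the packed table. -/
def fAd (T : FastTab) (D : ChevalleyDatum) (v : ℕ → ℤ) (s : ℕ) : ℤ :=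
  ((List.range D.rank).map fun j => v j * T.C D j s).sum

theorem Ad_fast {T : FastTab} (hC : chkC T D = true) (v : ℕ → ℤ) {s : ℕ} (hs : s < D.nroots) :
    Ad D v s = fAd T D v s := by
  rw [Ad, fAd]
  congr 1
  apply List.map_congr_left
  intro j hj
  rw [cartan_eq hC (List.mem_range.mp hj) hs]

/-- The check of a witness in the top of `U`. -/
def chkWit (T : FastTab) (D : ChevalleyDatum) (v : ℕ → ℤ) (m : ℕ) (good : List ℤ) (a r : ℕ) : Bool :=
  match D.commTerms r a with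
  | [] => false
  | c :: rest =>
    decide (c.2.2.1 = 1) && decide (c.2.2.2 = 1) && decide (m ≤ r ∧ r < m + m) && decide (r ≠ a) &&
      decide (m ≤ c.1 ∧ c.1 < m + m) && decide (c.2.1 ∈ good) &&
      decide (fAd T D v c.1 = fAd T D v r + fAd T D v a) &&
      rest.all fun c' => decide (m ≤ c'.1 ∧ c'.1 < m + m) && decide (fAd T D v c.1 < fAd T D v c'.1)

theorem mem_range'_iff {m s : ℕ} : s ∈ List.range' m m ↔ m ≤ s ∧ s < m + m := by
  rw [List.mem_range'_1]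

/-- The table facts from the checks. -/
theorem TopTab.of_chk {T : FastTab} {m : ℕ} (hC : chkC T D = true) (hposL : D.posRoots = List.range' m m)
    (hn : D.nroots = m + m)
    {Top : List ℕ} {v : ℕ → ℤ} {good bad : List ℤ} {wit : ℕ → ℕ}
    (hsorted : Top.Pairwise (· < ·)) (hTop : ∀ a ∈ Top, m ≤ a ∧ a < m + m)
    (hclosed : ∀ r ∈ Top, ∀ s ∈ Top, r < s → ∀ c ∈ D.commTerms r s, c.1 ∈ Top)
    (hfilt : (List.range' m m).filter (· ∈ Top) = Top)
    (hcentral : ∀ a ∈ Top, ∀ s ∈ List.range' m m, s ≠ a → ∀ c ∈ D.commTerms a s, c.2.1 ∈ bad)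
    (hmono : ∀ i ∈ List.range' m (m - 1), fAd T D v i < fAd T D v (i + 1))
    (hvpos : 0 < fAd T D v m) (hm : 0 < m)
    (hwit : ∀ a ∈ List.range' m m, a ∉ Top → chkWit T D v m good a (wit a) = true)
    (hgood : ∀ N ∈ good, (N : F) ≠ 0) (hbad : ∀ N ∈ bad, (N : F) = 0) : TopTab D F Top v := by
  have hpos : ∀ {s}, D.IsPosRoot s ↔ m ≤ s ∧ s < m + m := by
    intro s
    rw [← mem_posRoots, hposL, mem_range'_iff]
  have hAd : ∀ {s}, m ≤ s → s < m + m → Ad D v s = fAd T D v s := fun _ h => Ad_fast hC v (by omega)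
  have hstep : ∀ i, m ≤ i → i + 1 < m + m → fAd T D v i < fAd T D v (i + 1) := by
    intro i h1 h2
    apply hmono
    rw [List.mem_range'_1]
    omega
  have hmono' : ∀ r s, m ≤ r → r < s → s < m + m → fAd T D v r < fAd T D v s := by
    intro r s h1 h2 h3
    induction s, h2 using Nat.le_induction with
    | base => exact hstep r h1 h3
    | succ s hs ih =>
      exact lt_trans (ih (by omega)) (hstep s (by omega) h3)
  refine ⟨hsorted, fun a ha => hpos.mpr (hTop a ha), hclosed, ?_, ?_, ?_, ?_, ?_⟩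
  · rw [hposL]
    exact hfilt
  · intro a ha s hs hne c hc
    exact hbad _ (hcentral a ha s (mem_range'_iff.mpr (hpos.mp hs)) hne c hc)
  · intro r s hr hs hrs
    have h1 := hpos.mp hr
    have h2 := hpos.mp hs
    rw [hAd h1.1 h1.2, hAd h2.1 h2.2]
    exact hmono' r s h1.1 hrs h2.2
  · intro s hs
    have h2 := hpos.mp hs
    rw [hAd h2.1 h2.2]
    rcases Nat.eq_or_lt_of_le h2.1 with h | h
    · rw [← h]
      exact hvpos
    · exact lt_trans hvpos (hmono' m s le_rfl h h2.2)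
  · intro a ha haT
    have h1 := hpos.mp ha
    have h2 := hwit a (mem_range'_iff.mpr h1) haT
    rw [chkWit] at h2
    split at h2
    · exact absurd h2 (by simp)
    · rename_i c rest hct
      simp only [Bool.and_eq_true, decide_eq_true_eq, List.all_eq_true] at h2
      obtain ⟨⟨⟨⟨⟨⟨⟨h3, h4⟩, h5⟩, h6⟩, h7⟩, h8⟩, h9⟩, h10⟩ := h2
      obtain ⟨q, N, i, j⟩ := c
      simp only at h3 h4 h7 h8 h9 h10
      subst h3 h4
      refine ⟨wit a, q, N, rest, hpos.mpr h5, h6, hpos.mpr h7, hct, hgood N h8, ?_, ?_⟩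
      · rw [hAd h7.1 h7.2, hAd h5.1 h5.2, hAd h1.1 h1.2]
        exact h9
      · intro c' hc'
        have h11 := h10 c' hc'
        refine ⟨hpos.mpr h11.1, ?_⟩
        rw [hAd h7.1 h7.2, hAd h11.1.1 h11.1.2]
        exact h11.2

/-- Products in a root group, from a triple of linked roots. -/
theorem mul_of_trip [Fintype F] (p : ℕ) [hp : Fact p.Prime] [CharP F p] (hR : Sys D F η) (hT : Tbl D)
    (σ : F →+* F) {H : Subgroup (GL D.Idx F)} (hMH : Fx D σ ≤ H) (hc : CommG hR.toAddRel)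
    {e a b q : ℕ} {N : ℤ} {rest : List (ℕ × ℤ × ℕ × ℕ)} (he : e < D.nroots)
    (hLa : Link D e a) (hLb : Link D e b) (hLq : Link D e q) (ha : a < D.nroots) (hb : b < D.nroots)
    (hba : b ≠ a) (hbn : b ≠ D.neg a)
    (h : D.commTerms a b = (q, N, 1, 1) :: rest) (hN : (N : F) ≠ 0)
    (hrest : ∀ c ∈ rest, (c.2.1 : F) = 0) :
    ∀ x ∈ RS hR.toAddRel H e, ∀ y ∈ RS hR.toAddRel H e, x * y ∈ RS hR.toAddRel H e := by
  intro x hx y hy
  rw [RS_link hR hT σ hMH he hLq]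
  rw [RS_link hR hT σ hMH he hLa] at hx
  rw [RS_link hR hT σ hMH he hLb] at hy
  exact mul_closed hR hT σ hMH p hc ha hb hba hbn h hN hrest hx hy

/-- The facts on the central root from the checks. -/
theorem RootTab.of_chk {T : FastTab} {m : ℕ} (hC : chkC T D = true) (hRt : chkR T D = true)
    (hposL : D.posRoots = List.range' m m) (hn : D.nroots = m + m)
    {O : Set ℕ} {Ol : List ℕ} {ρ ρ' β : ℕ} (hOl : ∀ s ∈ O, s < D.nroots) (hOm : ∀ s ∈ O, s ∈ Ol)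
    (hO : ∀ q < D.rank, ∀ s ∈ O, D.reflectRoot q s ∈ O) (hρO : ρ ∈ O)
    (hρr : m ≤ ρ ∧ ρ < m + m) (hneg : D.neg ρ = ρ')
    (hcen : ∀ s ∈ List.range' m m, s ≠ ρ → D.commTerms ρ s = [])
    (hO2 : ∀ s ∈ Ol, s ≠ ρ' → 0 < 2 + T.Adf D ρ s ∧ 0 < 2 + T.Adf D s ρ)
    (hT1 : ∀ s ∈ List.range' m m, s ≠ ρ → T.Adf D ρ s = 0 ∨ T.Adf D ρ s = 1)
    (hTc : ∀ s ∈ List.range' m m, T.Adf D ρ s = 0 → D.commTerms ρ' s = [])
    (hβ : m ≤ β ∧ β < m + m) (hβ0 : T.Adf D ρ β = 0) : RootTab D O ρ β := by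
  have hpos : ∀ {s}, D.IsPosRoot s ↔ m ≤ s ∧ s < m + m := by
    intro s
    rw [← mem_posRoots, hposL, mem_range'_iff]
  have hρl : ρ < D.nroots := by omega
  have hAd : ∀ {s}, s < D.nroots → Ad D (cr D ρ) s = T.Adf D ρ s := fun h => Ad_cr_fast hC hRt hρl h
  refine ⟨hOl, hO, hρO, hpos.mpr hρr, ?_, ?_, ?_, ?_, hpos.mpr hβ, ?_⟩
  · intro s hs hne
    exact hcen s (mem_range'_iff.mpr (hpos.mp hs)) hne
  · intro s hs hne
    rw [hneg] at hne
    have h1 := hOl s hs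
    rw [hAd h1, Ad_cr_fast hC hRt h1 hρl]
    exact hO2 s (hOm s hs) hne
  · intro s hs hne
    rw [hAd hs.1]
    exact hT1 s (mem_range'_iff.mpr (hpos.mp hs)) hne
  · intro s hs h0
    rw [hneg]
    rw [hAd hs.1] at h0
    exact hTc s (mem_range'_iff.mpr (hpos.mp hs)) h0
  · rw [hAd (by omega)]
    exact hβ0

/-- The orbit data from the checks. -/
theorem OrbTab.of_chk {ℓ 𝔰 : ℕ} {w : ℕ → List ℕ} (hℓ : ℓ < D.rank) (h𝔰 : 𝔰 < D.rank)
    (hw : ∀ j ∈ List.range D.rank, (∀ q ∈ w j, q < D.rank) ∧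
      ((w j).foldr D.reflectRoot (D.simple ℓ) = D.simple j ∨
        (w j).foldr D.reflectRoot (D.simple 𝔰) = D.simple j))
    (hadj : Ad D (cr D (D.simple ℓ)) (D.simple 𝔰) = -1) : OrbTab D ℓ 𝔰 := by
  refine ⟨hℓ, h𝔰, ?_, hadj⟩
  intro j hj
  obtain ⟨h1, h2⟩ := hw j (List.mem_range.mpr hj)
  rcases h2 with h2 | h2
  · exact Or.inl ⟨w j, h1, h2⟩
  · exact Or.inr ⟨w j, h1, h2⟩

/-- The conditions for the height functional. -/
theorem heights {T : FastTab} {m : ℕ} (hC : chkC T D = true) (hposL : D.posRoots = List.range' m m)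
    (hn : D.nroots = m + m) {v : ℕ → ℤ} {a : ℕ}
    (hpos : ∀ s ∈ List.range' m m, 0 < fAd T D v s) (hmin : ∀ s ∈ List.range' m m, fAd T D v a ≤ fAd T D v s)
    (ha : a < D.nroots) :
    (∀ s, D.IsPosRoot s → 0 < Ad D v s) ∧ (∀ s, D.IsPosRoot s → Ad D v a ≤ Ad D v s) := by
  have hm : ∀ {s}, D.IsPosRoot s → s ∈ List.range' m m := by
    intro s hs
    rw [← hposL, mem_posRoots]
    exact hs
  constructor
  · intro s hs
    rw [Ad_fast hC v hs.1]
    exact hpos s (hm hs)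
  · intro s hs
    rw [Ad_fast hC v hs.1, Ad_fast hC v ha]
    exact hmin s (hm hs)

section Coeffs

variable (p : ℕ) [hp : Fact p.Prime] [CharP F p]
include hp

theorem good1 : ∀ N ∈ ([1, -1] : List ℤ), (N : F) ≠ 0 := by
  intro N hN
  simp only [List.mem_cons, List.not_mem_nil, or_false] at hN
  rcases hN with rfl | rfl <;> simp

theorem good12 (h : p ≠ 2) : ∀ N ∈ ([1, -1, 2, -2] : List ℤ), (N : F) ≠ 0 := by
  have h2 : (2 : F) ≠ 0 := by
    intro h0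
    have h1 : ((2 : ℕ) : F) = 0 := by simpa using h0
    rw [CharP.cast_eq_zero_iff F p] at h1
    exact h ((Nat.prime_dvd_prime_iff_eq hp.out Nat.prime_two).mp h1)
  intro N hN
  simp only [List.mem_cons, List.not_mem_nil, or_false] at hN
  rcases hN with rfl | rfl | rfl | rfl <;> simp [h2]

theorem good13 (h : p ≠ 3) : ∀ N ∈ ([1, -1, 3, -3] : List ℤ), (N : F) ≠ 0 := by
  have h2 : (3 : F) ≠ 0 := by
    intro h0
    have h1 : ((3 : ℕ) : F) = 0 := by simpa using h0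
    rw [CharP.cast_eq_zero_iff F p] at h1
    exact h ((Nat.prime_dvd_prime_iff_eq hp.out Nat.prime_three).mp h1)
  intro N hN
  simp only [List.mem_cons, List.not_mem_nil, or_false] at hN
  rcases hN with rfl | rfl | rfl | rfl <;> simp [h2]

theorem bad2 (h : p = 2) : ∀ N ∈ ([2, -2] : List ℤ), (N : F) = 0 := by
  subst h
  have h2 : (2 : F) = 0 := CharTwo.two_eq_zero
  intro N hN
  simp only [List.mem_cons, List.not_mem_nil, or_false] at hN
  rcases hN with rfl | rfl <;> simp [h2]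

theorem bad3 (h : p = 3) : ∀ N ∈ ([3, -3] : List ℤ), (N : F) = 0 := by
  subst h
  have h2 : (3 : F) = 0 := by
    have h1 : ((3 : ℕ) : F) = 0 := CharP.cast_eq_zero F 3
    simpa using h1
  intro N hN
  simp only [List.mem_cons, List.not_mem_nil, or_false] at hN
  rcases hN with rfl | rfl <;> simp [h2]

end Coeffs

theorem bad0 : ∀ N ∈ ([] : List ℤ), (N : F) = 0 := by simp

end Cfsg.Agent.Lib.SubMax.Tab
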