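import Cfsg.Agent.Lib.SubMax.Odd2

/-!
# The top of `U` and the Borel subgroup, for a generated subgroup
-/

set_option autoImplicit false
set_option linter.unusedSectionVars false
set_option linter.style.haveILetI false

namespace Cfsg.Agent.Lib.SubMax.TopB

open Cfsg.Lie Cfsg.Agent.Lib.ChevBN.Elem Cfsg.Agent.Lib.ChevBN.Entries Cfsg.Agent.Lib.ChevBN.Table
open Cfsg.Agent.Lib.ChevBN.Collect Cfsg.Agent.Lib.ChevBN.Rel Cfsg.Agent.Lib.ChevBN.Torus
open Cfsg.Agent.Lib.ChevBN.Monomial Cfsg.Agent.Lib.ChevBN.Core Cfsg.Agent.Lib.ChevBN.Pair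
open Cfsg.Agent.Lib.ChevBN.Stmts Cfsg.Agent.Lib.ChevBN.Levi Cfsg.Agent.Lib.ChevBN.Fix
open Cfsg.Agent.Lib.BorelTits.Weight Cfsg.Agent.Lib.BorelTits.Tbl3 Cfsg.Agent.Lib.BorelTits.Funct
open Cfsg.Agent.Lib.BorelTits.Cent
open Cfsg.Agent.Lib.SubMax.Fx Cfsg.Agent.Lib.SubMax.Strong Cfsg.Agent.Lib.SubMax.Strong2
open Cfsg.Agent.Lib.SubMax.Local2 Cfsg.Agent.Lib.SubMax.Even2 Cfsg.Agent.Lib.SubMax.Odd2
open Cfsg.Agent.Lib.SubMax.Orbit Cfsg.Agent.Lib.SubMax.Tor Cfsg.Agent.Lib.SubMax.TopElt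
open Cfsg.Agent.Lib.SubMax.Tab

variable {D : ChevalleyDatum} {F : Type*} [Field F] {η : ℕ → ℕ → ℤ}

variable (hR : Sys D F η) (hT : Tbl D) (hT3 : Tbl3 D) (σ : F →+* F)
variable {H : Subgroup (GL D.Idx F)} (hL : fixL hR σ ≤ H) (hHG : H ≤ D.group F)
variable {Top : List ℕ} {v : ℕ → ℤ} (hTop : TopTab D F Top v)
include hR hT hT3 hTop hL hHG

/-- A non-rational element of `H ∩ U` gives a non-rational element of the top. -/
theorem exists_top_elt' (p : ℕ) [hp : Fact p.Prime] [CharP F p] [Finite ↥H]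
    (hne : ∃ u ∈ H, u ∈ D.posUnipotent F ∧ u ∉ Fx D σ) :
    ∃ τ : ℕ → F, W hR.toAddRel (Top.map fun r => (r, τ r)) ∈ H ∧
      W hR.toAddRel (Top.map fun r => (r, τ r)) ∉ Fx D σ := by
  classical
  let T : Subgroup (GL D.Idx F) := H ⊓ D.posUnipotent F
  haveI : Finite ↥T := Finite.of_injective _ (Subgroup.inclusion_injective (inf_le_left : T ≤ H))
  have hTp : IsPGroup p ↥T := by
    intro x
    obtain ⟨k, hk⟩ := U_pow' hR hT hT3 p x.2.2
    refine ⟨k, ?_⟩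
    apply Subtype.ext
    simpa using hk
  let K : Subgroup ↥T := (D.posUnipotent F ⊓ Fx D σ).subgroupOf T
  have hKtop : K ≠ ⊤ := by
    intro h
    obtain ⟨u, huH, huU, huM⟩ := hne
    have h1 : (⟨u, huH, huU⟩ : ↥T) ∈ K := by
      rw [h]
      trivial
    exact huM (Subgroup.mem_subgroupOf.mp h1).2
  have hnil : Group.IsNilpotent ↥T := hTp.isNilpotent
  have hlt := Group.normalizerCondition_of_isNilpotent (G := ↥T) K (lt_top_iff_ne_top.2 hKtop)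
  obtain ⟨t, ht, htK⟩ := SetLike.exists_of_lt hlt
  rw [Subgroup.mem_normalizer_iff] at ht
  set z : GL D.Idx F := (t : GL D.Idx F) with hz
  have hzH : z ∈ H := t.2.1
  have hzU : z ∈ D.posUnipotent F := t.2.2
  have hzM : z ∉ Fx D σ := fun h => htK (Subgroup.mem_subgroupOf.mpr ⟨hzU, h⟩)
  have hc : ∀ r, D.IsPosRoot r → (z⁻¹ * mapG D σ z) * X hR.toAddRel r 1 =
      X hR.toAddRel r 1 * (z⁻¹ * mapG D σ z) := by
    intro r hr
    have hxU : X hR.toAddRel r (1 : F) ∈ D.posUnipotent F := X_mem_U hR hT hr 1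
    have hxM := X_one_mem_Fx hR hT σ hr.1
    have hxT : X hR.toAddRel r (1 : F) ∈ T := ⟨hL (X_mem_fixL hR σ hr.1 (map_one σ)), hxU⟩
    have h1 := (ht ⟨_, hxT⟩).mp (Subgroup.mem_subgroupOf.mpr ⟨hxU, hxM⟩)
    have h2 : z * X hR.toAddRel r 1 * z⁻¹ ∈ Fx D σ := (Subgroup.mem_subgroupOf.mp h1).2
    have h3 : mapG D σ (z * X hR.toAddRel r 1 * z⁻¹) = z * X hR.toAddRel r 1 * z⁻¹ := h2.2
    rw [map_mul, map_mul, map_inv, mapG_X σ hR.toAddRel hR.toAddRel, map_one] at h3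
    have e : mapG D σ z * X hR.toAddRel r 1 = z * X hR.toAddRel r 1 * z⁻¹ * mapG D σ z := by
      rw [← h3]
      group
    calc (z⁻¹ * mapG D σ z) * X hR.toAddRel r 1 = z⁻¹ * (mapG D σ z * X hR.toAddRel r 1) := by group
      _ = z⁻¹ * (z * X hR.toAddRel r 1 * z⁻¹ * mapG D σ z) := by rw [e]
      _ = _ := by group
  obtain ⟨τ, z₀, hz₀, e⟩ := top_decomp hR hT hT3 σ hTop hzU hc
  refine ⟨τ, ?_, ?_⟩
  · have h1 : W hR.toAddRel (Top.map fun r => (r, τ r)) = z₀⁻¹ * z := by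
      rw [e]
      group
    rw [h1]
    have hWU : W hR.toAddRel (Top.map fun r => (r, τ r)) ∈ D.posUnipotent F := by
      rw [posUnipotent_eq hR.toAddRel]
      apply W_mem_gen
      intro w hw
      obtain ⟨r, hr, rfl⟩ := List.mem_map.mp hw
      exact hTop.pos r hr
    have hz₀U : z₀ ∈ D.posUnipotent F := by
      have e2 : z₀ = z * (W hR.toAddRel (Top.map fun r => (r, τ r)))⁻¹ := by
        rw [e]
        group
      rw [e2]
      exact Subgroup.mul_mem _ hzU (Subgroup.inv_mem _ hWU)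
    have hz₀L := fix_U hR hT σ hz₀U hz₀.2
    exact Subgroup.mul_mem _ (Subgroup.inv_mem _ (hL hz₀L)) hzH
  · intro h
    apply hzM
    rw [e]
    exact Subgroup.mul_mem _ hz₀ h


/-- A torus and `U` part: the Borel subgroup. -/
theorem B_le' (hHU : ∀ u ∈ H, u ∈ D.posUnipotent F → u ∈ Fx D σ)
    (hv : ∀ τ : ℕ → F, (∀ s < D.nroots, W hR.toAddRel (Top.map fun r => (r, τ r)) * X hR.toAddRel s 1 *
      (W hR.toAddRel (Top.map fun r => (r, τ r)))⁻¹ ∈ H) → W hR.toAddRel (Top.map fun r => (r, τ r)) ∈ Fx D σ)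
    {b : GL D.Idx F} (hb : b ∈ H) (hbB : b ∈ D.borelSubgroup F) : b ∈ Fx D σ := by
  obtain ⟨u, hu, k, hk, rfl⟩ := (mem_B_iff hR hT).mp hbB
  have hk' := hk
  rw [diagonal_eq hR hT] at hk
  obtain ⟨a, ha, rfl⟩ := hk
  have h1 : ∀ j < D.rank, σ (chi D a (D.simple j)) = chi D a (D.simple j) := by
    intro j hj
    have hp := hT.simple_pos j hj
    set s : Fin D.nroots := ⟨D.simple j, hp.1⟩ with hs
    set y := X hR.toAddRel s.val (1 : F) with hy
    have hyH : y ∈ H := hL (X_mem_fixL hR σ hp.1 (map_one σ))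
    have e : (u * hP hR a) * y * (u * hP hR a)⁻¹ = u * X hR.toAddRel s.val (chi D a s.val * 1) * u⁻¹ := by
      calc (u * hP hR a) * y * (u * hP hR a)⁻¹ = u * (hP hR a * y * (hP hR a)⁻¹) * u⁻¹ := by group
        _ = _ := by rw [hy, hP_conj hR ha s.2 1]
    have h2 : u * X hR.toAddRel s.val (chi D a s.val * 1) * u⁻¹ ∈ H := by
      rw [← e]
      exact Subgroup.mul_mem _ (Subgroup.mul_mem _ hb hyH) (Subgroup.inv_mem _ hb)
    have h3 : u * X hR.toAddRel s.val (chi D a s.val * 1) * u⁻¹ ∈ D.posUnipotent F :=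
      Subgroup.mul_mem _ (Subgroup.mul_mem _ hu (X_mem_U hR hT hp _)) (Subgroup.inv_mem _ hu)
    have h4 : mapG D σ (u * X hR.toAddRel s.val (chi D a s.val * 1) * u⁻¹) =
        u * X hR.toAddRel s.val (chi D a s.val * 1) * u⁻¹ := (hHU _ h2 h3).2
    obtain ⟨i, hi⟩ := Tbl.exists_coroot_ne (F := F) hT hp.1
    have h5 := entry_conj hR hT hT3 hu (s := s) hp (chi D a s.val * 1) i
    have h6 := congrArg (fun g : GL D.Idx F => (g : Matrix D.Idx D.Idx F) (Sum.inl i)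
      (Sum.inr (negF hT s))) h4
    simp only [coe_mapG, Matrix.map_apply] at h6
    rw [h5, map_mul, map_intCast] at h6
    have h7 := mul_left_cancel₀ hi h6
    simpa [hs] using h7
  have hall : ∀ s, Reach D Set.univ s → σ (chi D a s) = chi D a s := by
    intro s hs
    induction hs with
    | base _ hl => exact h1 _ hl
    | @step q r _ hl hr ih =>
      rw [chi_w hT ha hl (hr.lt hT), map_mul, map_zpow₀, ih, h1 q hl]
  have hfix := hP_fix hR hT σ ha h1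
  have hkM : hP hR a ∈ Fx D σ := ⟨H_le_G hR hT hk', hfix⟩
  -- conjugates of all the root elements
  have hconj : ∀ s < D.nroots, u * X hR.toAddRel s 1 * u⁻¹ ∈ H := by
    intro s hs
    have hχ : chi D a s ≠ 0 := chi_ne_zero ha _
    have hχ' : σ (chi D a s)⁻¹ = (chi D a s)⁻¹ := by
      rw [map_inv₀, hall s (reach_univ hT hs)]
    have hy : X hR.toAddRel s (chi D a s)⁻¹ ∈ H := hL (X_mem_fixL hR σ hs hχ')
    have e : (u * hP hR a) * X hR.toAddRel s (chi D a s)⁻¹ * (u * hP hR a)⁻¹ = u * X hR.toAddRel s 1 * u⁻¹ := by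
      calc (u * hP hR a) * X hR.toAddRel s (chi D a s)⁻¹ * (u * hP hR a)⁻¹
          = u * (hP hR a * X hR.toAddRel s (chi D a s)⁻¹ * (hP hR a)⁻¹) * u⁻¹ := by group
        _ = _ := by rw [hP_conj hR ha hs, mul_inv_cancel₀ hχ]
    rw [← e]
    exact Subgroup.mul_mem _ (Subgroup.mul_mem _ hb hy) (Subgroup.inv_mem _ hb)
  have hc : ∀ r, D.IsPosRoot r → (u⁻¹ * mapG D σ u) * X hR.toAddRel r 1 =
      X hR.toAddRel r 1 * (u⁻¹ * mapG D σ u) := by
    intro r hr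
    have h2 := hconj r hr.1
    have hxU : X hR.toAddRel r (1 : F) ∈ D.posUnipotent F := X_mem_U hR hT hr 1
    have h3 : mapG D σ (u * X hR.toAddRel r 1 * u⁻¹) = u * X hR.toAddRel r 1 * u⁻¹ :=
      (hHU _ h2 (Subgroup.mul_mem _ (Subgroup.mul_mem _ hu hxU) (Subgroup.inv_mem _ hu))).2
    rw [map_mul, map_mul, map_inv, mapG_X σ hR.toAddRel hR.toAddRel, map_one] at h3
    have e : mapG D σ u * X hR.toAddRel r 1 = u * X hR.toAddRel r 1 * u⁻¹ * mapG D σ u := by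
      rw [← h3]
      group
    calc (u⁻¹ * mapG D σ u) * X hR.toAddRel r 1 = u⁻¹ * (mapG D σ u * X hR.toAddRel r 1) := by group
      _ = u⁻¹ * (u * X hR.toAddRel r 1 * u⁻¹ * mapG D σ u) := by rw [e]
      _ = _ := by group
  obtain ⟨τ, z₀, hz₀, e⟩ := top_decomp hR hT hT3 σ hTop hu hc
  have hWU : W hR.toAddRel (Top.map fun r => (r, τ r)) ∈ D.posUnipotent F := by
    rw [posUnipotent_eq hR.toAddRel]
    apply W_mem_gen
    intro w hw
    obtain ⟨r, hr, rfl⟩ := List.mem_map.mp hw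
    exact hTop.pos r hr
  have hz₀U : z₀ ∈ D.posUnipotent F := by
    have e2 : z₀ = u * (W hR.toAddRel (Top.map fun r => (r, τ r)))⁻¹ := by
      rw [e]
      group
    rw [e2]
    exact Subgroup.mul_mem _ hu (Subgroup.inv_mem _ hWU)
  have hz₀H : z₀ ∈ H := hL (fix_U hR hT σ hz₀U hz₀.2)
  have hW : W hR.toAddRel (Top.map fun r => (r, τ r)) ∈ Fx D σ := by
    apply hv
    intro s hs
    have e2 : W hR.toAddRel (Top.map fun r => (r, τ r)) * X hR.toAddRel s 1 *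
        (W hR.toAddRel (Top.map fun r => (r, τ r)))⁻¹ = z₀⁻¹ * (u * X hR.toAddRel s 1 * u⁻¹) * z₀ := by
      rw [e]
      group
    rw [e2]
    exact Subgroup.mul_mem _ (Subgroup.mul_mem _ (Subgroup.inv_mem _ hz₀H) (hconj s hs)) hz₀H
  rw [e]
  exact Subgroup.mul_mem _ (Subgroup.mul_mem _ hz₀ hW) hkM

/-- The assembly: from the facts on the top of `U` to `H ≤ M`. -/
theorem main_gen' [IsAlgClosed F] (hT2 : Tbl2 D) (p : ℕ) [hp : Fact p.Prime] [CharP F p] [Finite ↥H]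
    (hfin : {c : F | σ c = c}.Finite)
    (hcg : CommG hR.toAddRel) {O : Set ℕ} {ρ β : ℕ} (hRT : RootTab D O ρ β)
    (hEven : p = 2 → ∃ t ∈ fixL hR σ, t * t = 1 ∧ t ≠ 1 ∧
      ∀ v ∈ D.posUnipotent F, ∀ s ∈ O, ∀ d : F, d ≠ 0 → t ≠ v * X hR.toAddRel s d * v⁻¹)
    (hvB : ∀ τ : ℕ → F, W hR.toAddRel (Top.map fun r => (r, τ r)) ∈ H →
      W hR.toAddRel (Top.map fun r => (r, τ r)) ∈ Fx D σ)
    (hvC : (∀ u ∈ H, u ∈ D.posUnipotent F → u ∈ Fx D σ) → ∀ τ : ℕ → F,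
      (∀ s < D.nroots, W hR.toAddRel (Top.map fun r => (r, τ r)) * X hR.toAddRel s 1 *
      (W hR.toAddRel (Top.map fun r => (r, τ r)))⁻¹ ∈ H) → W hR.toAddRel (Top.map fun r => (r, τ r)) ∈ Fx D σ) :
    H ≤ Fx D σ := by
  have hHU : ∀ u ∈ H, u ∈ D.posUnipotent F → u ∈ Fx D σ := by
    intro u hu hu'
    by_contra hn
    obtain ⟨τ, h1, h2⟩ := exists_top_elt' hR hT hT3 σ hL hHG hTop p ⟨u, hu, hu', hn⟩
    exact h2 (hvB τ h1)
  have hB : ∀ b ∈ H, b ∈ D.borelSubgroup F → b ∈ Fx D σ := fun b hb hbB =>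
    B_le' hR hT hT3 σ hL hHG hTop hHU (hvC hHU) hb hbB
  by_cases h2 : p = 2
  · subst h2
    obtain ⟨t, ht, htt, htne, hnc⟩ := hEven rfl
    have hcj : ∀ R : Subgroup (GL D.Idx F), R ≤ Fx D σ → IsPGroup 2 ↥R →
        ∃ g ∈ D.group F, cj g R ≤ D.posUnipotent F := fun R h1 h2 =>
      exists_conj_Fx hR hT σ hfin hT3 2 h1 h2
    exact even_main' hR hT hT2 hT3 σ hL hHG hHU hB hcj hRT.hOl hRT.hO hRT.hρO hRT.hρ hRT.hcen
      (fixL_le_Fx hR hT σ ht) (hL ht) htt htne hnc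
  · have hcj : ∀ R : Subgroup (GL D.Idx F), R ≤ Fx D σ → IsPGroup p ↥R →
        ∃ g ∈ D.group F, cj g R ≤ D.posUnipotent F := fun R h1 h2 =>
      exists_conj_Fx hR hT σ hfin hT3 p h1 h2
    exact odd_main' hR hT hT2 hT3 σ hL hHG hHU hB p hcj h2 hRT.hOl hRT.hO hRT.hρO hRT.hρ hRT.hcen hcg hRT.hO2
      hRT.hT1 hRT.hTc hRT.hβ hRT.hβ0

end Cfsg.Agent.Lib.SubMax.TopB
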