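import Cfsg.Agent.Lib.SubMax.Odd

/-!
# A non-rational element of `H ∩ U` gives a non-rational element in the top of `U`
-/

set_option autoImplicit false
set_option linter.unusedSectionVars false

namespace Cfsg.Agent.Lib.SubMax.TopElt

open Cfsg.Lie Cfsg.Agent.Lib.ChevBN.Elem Cfsg.Agent.Lib.ChevBN.Entries Cfsg.Agent.Lib.ChevBN.Table
open Cfsg.Agent.Lib.ChevBN.Collect Cfsg.Agent.Lib.ChevBN.Rel Cfsg.Agent.Lib.ChevBN.Torus
open Cfsg.Agent.Lib.ChevBN.Monomial Cfsg.Agent.Lib.ChevBN.Core Cfsg.Agent.Lib.ChevBN.Pair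
open Cfsg.Agent.Lib.ChevBN.Stmts Cfsg.Agent.Lib.ChevBN.Levi Cfsg.Agent.Lib.ChevBN.Fix
open Cfsg.Agent.Lib.BorelTits.Weight Cfsg.Agent.Lib.BorelTits.Tbl3 Cfsg.Agent.Lib.BorelTits.Funct
open Cfsg.Agent.Lib.BorelTits.Cent
open Cfsg.Agent.Lib.SubMax.Fx Cfsg.Agent.Lib.SubMax.Strong Cfsg.Agent.Lib.SubMax.Local
open Cfsg.Agent.Lib.SubMax.Orbit Cfsg.Agent.Lib.SubMax.Even

variable {D : ChevalleyDatum} {F : Type*} [Field F] {η : ℕ → ℕ → ℤ}

/-- The table facts on the top of `U`. -/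
structure TopTab (D : ChevalleyDatum) (F : Type*) [Field F] (Top : List ℕ) (v : ℕ → ℤ) : Prop where
  sorted : Top.Pairwise (· < ·)
  pos : ∀ a ∈ Top, D.IsPosRoot a
  closed : ∀ r ∈ Top, ∀ s ∈ Top, r < s → ∀ c ∈ D.commTerms r s, c.1 ∈ Top
  filt : D.posRoots.filter (· ∈ Top) = Top
  central : ∀ a ∈ Top, ∀ s, D.IsPosRoot s → s ≠ a → ∀ c ∈ D.commTerms a s, (c.2.1 : F) = 0
  mono : ∀ r s, D.IsPosRoot r → D.IsPosRoot s → r < s → Ad D v r < Ad D v s
  vpos : ∀ s, D.IsPosRoot s → 0 < Ad D v s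
  wit : ∀ a, D.IsPosRoot a → a ∉ Top → ∃ (r q : ℕ) (N : ℤ) (rest : List (ℕ × ℤ × ℕ × ℕ)),
    D.IsPosRoot r ∧ r ≠ a ∧ D.IsPosRoot q ∧ D.commTerms r a = (q, N, 1, 1) :: rest ∧ (N : F) ≠ 0 ∧
      Ad D v q = Ad D v r + Ad D v a ∧ ∀ c ∈ rest, D.IsPosRoot c.1 ∧ Ad D v q < Ad D v c.1

section Le

variable {ι : Type*} [Fintype ι] [DecidableEq ι]

theorem Le_mul_sub {w : ι → ℝ} {l : ℝ} (hl : 0 ≤ l) {g h : GL ι F}
    (hg : Le w w l ((g : Matrix ι ι F) - 1)) (hh : Le w w l ((h : Matrix ι ι F) - 1)) :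
    Le w w l (((g * h : GL ι F) : Matrix ι ι F) - 1) := by
  have e : ((g * h : GL ι F) : Matrix ι ι F) - 1 =
      ((g : Matrix ι ι F) - 1) + ((h : Matrix ι ι F) - 1) +
        ((g : Matrix ι ι F) - 1) * ((h : Matrix ι ι F) - 1) := by
    rw [Units.val_mul]
    noncomm_ring
  rw [e]
  exact (hg.add hh).add ((hg.mul hh).mono (by linarith))

end Le

variable (hR : Sys D F η) (hT : Tbl D) (hT3 : Tbl3 D)

section Lead

variable {Top : List ℕ} {v : ℕ → ℤ} (hTop : TopTab D F Top v)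
include hR hT hT3 hTop

theorem central_comm {a : ℕ} (ha : a ∈ Top) {s : ℕ} (hs : D.IsPosRoot s) (u t : F) :
    X hR.toAddRel s u * X hR.toAddRel a t = X hR.toAddRel a t * X hR.toAddRel s u := by
  by_cases hsr : s = a
  · subst hsr
    rw [X_mul, X_mul, add_comm]
  · have h1 := commPos hR a s (hTop.pos a ha) hs hsr t u
    have h2 : W hR.toAddRel (D.commWord F a s t u) = 1 := by
      rw [ChevalleyDatum.commWord]
      have key : ∀ l : List (ℕ × ℤ × ℕ × ℕ), (∀ c ∈ l, (c.2.1 : F) = 0) →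
          W hR.toAddRel (l.map fun c => (c.1, (c.2.1 : F) * (-t) ^ c.2.2.1 * u ^ c.2.2.2)) = 1 := by
        intro l
        induction l with
        | nil => intro _; rfl
        | cons b l ih =>
          intro hl
          rw [List.map_cons, W_cons, ih (fun c hc => hl c (List.mem_cons_of_mem _ hc))]
          rw [hl b (by simp)]
          simp
      exact key _ (hTop.central a ha s hs hsr)
    rw [h1, h2, mul_one]

theorem U_central_comm {a : ℕ} (ha : a ∈ Top) {u : GL D.Idx F} (hu : u ∈ D.posUnipotent F) (t : F) :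
    u * X hR.toAddRel a t = X hR.toAddRel a t * u := by
  rw [posUnipotent_eq hR.toAddRel] at hu
  refine gen_induction hR.toAddRel
    (P := fun u => u * X hR.toAddRel a t = X hR.toAddRel a t * u) (by simp) ?_ ?_ hu
  · intro s hs b
    exact central_comm hR hT hT3 hTop ha hs b t
  · intro x y hx hy
    rw [mul_assoc, hy, ← mul_assoc, hx, mul_assoc]

/-- The vanishing of the leading coordinate. -/
theorem lead_zero {a : ℕ} (ha : D.IsPosRoot a) (haT : a ∉ Top) {τ : F} {g₁ : GL D.Idx F}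
    (hg₁ : g₁ ∈ gen hR.toAddRel {s | D.IsPosRoot s ∧ a < s})
    (hcomm : ∀ r, D.IsPosRoot r → (X hR.toAddRel a τ * g₁) * X hR.toAddRel r 1 =
      X hR.toAddRel r 1 * (X hR.toAddRel a τ * g₁)) : τ = 0 := by
  obtain ⟨r, q, N, rest, hr, hra, hq, hct, hN, hadd, hrest⟩ := hTop.wit a ha haT
  set ψ := adF D v with hψdef
  have hψ : ψ ∈ Funct D := adF_mem v
  have hreg : ∀ s (hs : D.IsPosRoot s), 0 < ψ ⟨s, hs.1⟩ := by
    intro s hs
    have := hTop.vpos s hs
    simp only [hψdef, adF]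
    exact_mod_cast this
  have hdom : Dom hT ψ := fun q hq => (hreg _ (hT.simple_pos q hq)).le
  have hBP := borel_le_Par (F := F) hR hT hT3 hψ hdom
  have hUP : ∀ {u : GL D.Idx F}, u ∈ D.posUnipotent F → u ∈ Par (F := F) (wt ψ) :=
    fun hu => hBP (U_le_B hR hT hu)
  have hXle : ∀ {s : ℕ} (hs : D.IsPosRoot s) (t : F),
      Le (wt ψ) (wt ψ) (ψ ⟨s, hs.1⟩) ((X hR.toAddRel s t : Matrix D.Idx D.Idx F) - 1) := by
    intro s hs t
    rw [coe_X]
    exact le_x_sub_one hT hT3 hψ ⟨s, hs.1⟩ t (hreg s hs).le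
  have hψval : ∀ {s : ℕ} (hs : s < D.nroots), ψ ⟨s, hs⟩ = ((Ad D v s : ℤ) : ℝ) := fun _ => rfl
  set l := ψ ⟨q, hq.1⟩ + 1 with hl
  have hl0 : 0 ≤ l := by
    have := hreg q hq
    rw [hl]
    linarith
  have hqval : ψ ⟨q, hq.1⟩ = ψ ⟨r, hr.1⟩ + ψ ⟨a, ha.1⟩ := by
    rw [hψval, hψval, hψval, hadd]
    push_cast
    ring
  -- elements generated by high roots
  have hgen : ∀ (Ψ : Set ℕ) (l' : ℝ), 0 ≤ l' → (∀ s ∈ Ψ, D.IsPosRoot s ∧ ∀ hs : s < D.nroots, l' ≤ ψ ⟨s, hs⟩) →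
      ∀ g ∈ gen hR.toAddRel Ψ, Le (wt ψ) (wt ψ) l' ((g : Matrix D.Idx D.Idx F) - 1) := by
    intro Ψ l' h0 hΨ g hg
    refine gen_induction hR.toAddRel
      (P := fun g => Le (wt ψ) (wt ψ) l' ((g : Matrix D.Idx D.Idx F) - 1)) ?_ ?_ ?_ hg
    · simpa using le_zero (F := F) (wt ψ) (wt ψ) l'
    · intro s hs t
      exact (hXle (hΨ s hs).1 t).mono ((hΨ s hs).2 _)
    · intro x y hx hy
      exact Le_mul_sub h0 hx hy
  -- the level of `g₁`
  have hg₁le : Le (wt ψ) (wt ψ) (ψ ⟨a, ha.1⟩ + 1) ((g₁ : Matrix D.Idx D.Idx F) - 1) := by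
    refine hgen _ _ (by have := hreg a ha; linarith) ?_ g₁ hg₁
    rintro s ⟨hs, has⟩
    refine ⟨hs, fun _ => ?_⟩
    have h1 := hTop.mono a s ha hs has
    rw [hψval, hψval]
    have h2 : Ad D v a + 1 ≤ Ad D v s := h1
    exact_mod_cast h2
  have hg₁U : g₁ ∈ D.posUnipotent F := by
    rw [posUnipotent_eq hR.toAddRel]
    exact gen_mono _ (fun s hs => hs.1) hg₁
  set X₀ := X hR.toAddRel r (1 : F) with hX₀
  have hX₀U : X₀ ∈ D.posUnipotent F := X_mem_U hR hT hr 1
  set A₀ := X hR.toAddRel a τ with hA₀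
  have hc := hcomm r hr
  -- the commutator
  set κ := g₁ * X₀ * g₁⁻¹ * X₀⁻¹ with hκ
  have hκle : Le (wt ψ) (wt ψ) l ((κ : Matrix D.Idx D.Idx F) - 1) := by
    have e : (κ : Matrix D.Idx D.Idx F) - 1 =
        (((g₁ : Matrix D.Idx D.Idx F) - 1) * ((X₀ : Matrix D.Idx D.Idx F) - 1) -
         ((X₀ : Matrix D.Idx D.Idx F) - 1) * ((g₁ : Matrix D.Idx D.Idx F) - 1)) *
          (((X₀ * g₁)⁻¹ : GL D.Idx F) : Matrix D.Idx D.Idx F) := by
      have h1 : (κ : Matrix D.Idx D.Idx F) =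
          ((g₁ * X₀ : GL D.Idx F) : Matrix D.Idx D.Idx F) *
            (((X₀ * g₁)⁻¹ : GL D.Idx F) : Matrix D.Idx D.Idx F) := by
        rw [← Units.val_mul]
        congr 1
        rw [hκ]
        group
      have h2 : ((X₀ * g₁ : GL D.Idx F) : Matrix D.Idx D.Idx F) *
          (((X₀ * g₁)⁻¹ : GL D.Idx F) : Matrix D.Idx D.Idx F) = 1 := by
        rw [← Units.val_mul, mul_inv_cancel, Units.val_one]
      rw [h1]
      have e3 : ((g₁ : Matrix D.Idx D.Idx F) - 1) * ((X₀ : Matrix D.Idx D.Idx F) - 1) -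
         ((X₀ : Matrix D.Idx D.Idx F) - 1) * ((g₁ : Matrix D.Idx D.Idx F) - 1) =
         ((g₁ * X₀ : GL D.Idx F) : Matrix D.Idx D.Idx F) - ((X₀ * g₁ : GL D.Idx F) : Matrix D.Idx D.Idx F) := by
        rw [Units.val_mul, Units.val_mul]
        noncomm_ring
      rw [e3, sub_mul, h2]
    rw [e]
    have h1 : Le (wt ψ) (wt ψ) l (((g₁ : Matrix D.Idx D.Idx F) - 1) * ((X₀ : Matrix D.Idx D.Idx F) - 1)) :=
      (hg₁le.mul (hXle hr 1)).mono (by rw [hl, hqval]; linarith)
    have h2 : Le (wt ψ) (wt ψ) l (((X₀ : Matrix D.Idx D.Idx F) - 1) * ((g₁ : Matrix D.Idx D.Idx F) - 1)) :=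
      ((hXle hr 1).mul hg₁le).mono (by rw [hl, hqval]; linarith)
    have h3 : Le (wt ψ) (wt ψ) l (((g₁ : Matrix D.Idx D.Idx F) - 1) * ((X₀ : Matrix D.Idx D.Idx F) - 1) -
         ((X₀ : Matrix D.Idx D.Idx F) - 1) * ((g₁ : Matrix D.Idx D.Idx F) - 1)) := by
      intro i j hij
      rw [Matrix.sub_apply] at hij
      by_cases h4 : (((g₁ : Matrix D.Idx D.Idx F) - 1) * ((X₀ : Matrix D.Idx D.Idx F) - 1)) i j = 0
      · apply h2 i j
        intro h5
        rw [h4, h5, sub_zero] at hij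
        exact hij rfl
      · exact h1 i j h4
    have hP : (X₀ * g₁)⁻¹ ∈ Par (F := F) (wt ψ) :=
      Subgroup.inv_mem _ (Subgroup.mul_mem _ (hUP hX₀U) (hUP hg₁U))
    have h4 := h3.mul hP.1
    simpa using h4
  -- the word
  have hW₁ := commPos hR r a hr ha (Ne.symm hra) (1 : F) τ
  rw [← hA₀, ← hX₀] at hW₁
  set W₁ := W hR.toAddRel (D.commWord F r a 1 τ) with hW₁def
  have e1 : g₁ * X₀ = κ * X₀ * g₁ := by
    rw [hκ]
    group
  have e2 : A₀ * κ * X₀ = X₀ * A₀ := by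
    have h1 : A₀ * κ * X₀ * g₁ = X₀ * A₀ * g₁ := by
      calc A₀ * κ * X₀ * g₁ = A₀ * (κ * X₀ * g₁) := by group
        _ = A₀ * (g₁ * X₀) := by rw [e1]
        _ = A₀ * g₁ * X₀ := by group
        _ = X₀ * (A₀ * g₁) := hc
        _ = _ := by group
    exact mul_right_cancel h1
  have e3 : W₁⁻¹ = X₀⁻¹ * κ * X₀ := by
    have h1 : X₀ * A₀ = A₀ * X₀ * W₁⁻¹ := by
      rw [hW₁]
      group
    have h2 : A₀ * (κ * X₀) = A₀ * (X₀ * W₁⁻¹) := by
      calc A₀ * (κ * X₀) = A₀ * κ * X₀ := by group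
        _ = X₀ * A₀ := e2
        _ = A₀ * X₀ * W₁⁻¹ := h1
        _ = _ := by group
    have h3 := mul_left_cancel h2
    calc W₁⁻¹ = X₀⁻¹ * (X₀ * W₁⁻¹) := by group
      _ = X₀⁻¹ * (κ * X₀) := by rw [h3]
      _ = _ := by group
  have hW₁le : Le (wt ψ) (wt ψ) l (((W₁⁻¹ : GL D.Idx F) : Matrix D.Idx D.Idx F) - 1) := by
    have h1 := le_conj_sub_one hκle (Subgroup.inv_mem _ (hUP hX₀U))
    rw [inv_inv, ← e3] at h1
    exact h1
  -- the splitting of the word
  set κ' : F := (N : F) * (-1) ^ 1 * τ ^ 1 with hκ'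
  set rest' := rest.map fun c => (c.1, (c.2.1 : F) * (-(1 : F)) ^ c.2.2.1 * τ ^ c.2.2.2) with hrest'
  have hsplit : W₁ = X hR.toAddRel q κ' * W hR.toAddRel rest' := by
    rw [hW₁def, ChevalleyDatum.commWord, hct, List.map_cons, W_cons]
  have hW₂ : W hR.toAddRel rest' ∈ gen hR.toAddRel {s | D.IsPosRoot s ∧ Ad D v q < Ad D v s} := by
    apply W_mem_gen
    intro w hw
    obtain ⟨c, hc', rfl⟩ := List.mem_map.mp hw
    exact hrest c hc'
  have hW₂le := hgen _ l hl0 (by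
    rintro s ⟨hs, hqs⟩
    refine ⟨hs, fun _ => ?_⟩
    rw [hl, hψval, hψval]
    have h2 : Ad D v q + 1 ≤ Ad D v s := hqs
    exact_mod_cast h2) _ hW₂
  have e4 : X hR.toAddRel q (-κ') = W hR.toAddRel rest' * W₁⁻¹ := by
    rw [hsplit, ← X_inv]
    group
  have h5 : Le (wt ψ) (wt ψ) l ((X hR.toAddRel q (-κ') : Matrix D.Idx D.Idx F) - 1) := by
    rw [e4]
    exact Le_mul_sub hl0 hW₂le hW₁le
  by_contra hτ
  have hκ'0 : -κ' ≠ 0 := by
    rw [hκ', neg_ne_zero]
    refine mul_ne_zero (mul_ne_zero hN ?_) (pow_ne_zero _ hτ)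
    simp
  rw [coe_X] at h5
  have h6 := le_entry hT hψ ⟨q, hq.1⟩ hκ'0 h5
  rw [hl] at h6
  linarith

/-- The coordinates outside the top vanish. -/
theorem coord_zero : ∀ (L : List ℕ), L.Pairwise (· < ·) → (∀ r ∈ L, D.IsPosRoot r) → ∀ t : ℕ → F,
    (∀ r, D.IsPosRoot r → W hR.toAddRel (L.map fun r => (r, t r)) * X hR.toAddRel r 1 =
      X hR.toAddRel r 1 * W hR.toAddRel (L.map fun r => (r, t r))) →
    ∀ s ∈ L, s ∉ Top → t s = 0 := by
  intro L
  induction L with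
  | nil =>
    intro _ _ _ _ s hs
    simp at hs
  | cons a L ih =>
    intro hs hp t hc s hsL hsT
    rw [List.pairwise_cons] at hs
    have hpa := hp a (by simp)
    have hpL : ∀ r ∈ L, D.IsPosRoot r := fun r hr => hp r (by simp [hr])
    simp only [List.map_cons, W_cons] at hc
    have hW : W hR.toAddRel (L.map fun r => (r, t r)) ∈ gen hR.toAddRel {s | D.IsPosRoot s ∧ a < s} := by
      apply W_mem_gen
      intro w hw
      obtain ⟨r, hr, rfl⟩ := List.mem_map.mp hw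
      exact ⟨hpL r hr, hs.1 r hr⟩
    by_cases haT : a ∈ Top
    · have h1 : ∀ r, D.IsPosRoot r → W hR.toAddRel (L.map fun r => (r, t r)) * X hR.toAddRel r 1 =
          X hR.toAddRel r 1 * W hR.toAddRel (L.map fun r => (r, t r)) := by
        intro r hr
        have h2 := hc r hr
        have h3 := central_comm hR hT hT3 hTop haT hr (1 : F) (t a)
        apply mul_left_cancel (a := X hR.toAddRel a (t a))
        calc X hR.toAddRel a (t a) * (W hR.toAddRel (L.map fun r => (r, t r)) * X hR.toAddRel r 1)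
            = X hR.toAddRel a (t a) * W hR.toAddRel (L.map fun r => (r, t r)) * X hR.toAddRel r 1 := by group
          _ = X hR.toAddRel r 1 * (X hR.toAddRel a (t a) * W hR.toAddRel (L.map fun r => (r, t r))) := h2
          _ = (X hR.toAddRel r 1 * X hR.toAddRel a (t a)) * W hR.toAddRel (L.map fun r => (r, t r)) := by group
          _ = (X hR.toAddRel a (t a) * X hR.toAddRel r 1) * W hR.toAddRel (L.map fun r => (r, t r)) := by rw [h3]
          _ = _ := by group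
      rcases List.mem_cons.mp hsL with rfl | hsL'
      · exact absurd haT hsT
      · exact ih hs.2 hpL t h1 s hsL' hsT
    · have h0 := lead_zero hR hT hT3 hTop hpa haT hW hc
      rcases List.mem_cons.mp hsL with rfl | hsL'
      · exact h0
      · rw [h0, X_zero] at hc
        simp only [one_mul] at hc
        exact ih hs.2 hpL t hc s hsL' hsT

/-- Moving the central factors to the right. -/
theorem W_split (L : List ℕ) (hL : ∀ r ∈ L, D.IsPosRoot r) (μ : ℕ → F) :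
    W hR.toAddRel (L.map fun r => (r, μ r)) =
      W hR.toAddRel ((L.filter (· ∉ Top)).map fun r => (r, μ r)) *
      W hR.toAddRel ((L.filter (· ∈ Top)).map fun r => (r, μ r)) := by
  induction L with
  | nil => simp [W]
  | cons a L ih =>
    have hpa := hL a (by simp)
    have ih' := ih fun r hr => hL r (by simp [hr])
    by_cases ha : a ∈ Top
    · simp only [List.map_cons, W_cons, List.filter_cons, ha, decide_true, decide_false, if_true, if_false,
        not_true_eq_false, Bool.false_eq_true]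
      rw [ih', ← mul_assoc, ← mul_assoc]
      congr 1
      refine (U_central_comm hR hT hT3 hTop ha ?_ (μ a)).symm
      rw [posUnipotent_eq hR.toAddRel]
      apply W_mem_gen
      intro w hw
      obtain ⟨r, hr, rfl⟩ := List.mem_map.mp hw
      exact hL r (by simp [(List.mem_filter.mp hr).1])
    · simp only [List.map_cons, W_cons, List.filter_cons, ha, decide_true, decide_false, if_true, if_false,
        not_false_eq_true, Bool.false_eq_true]
      rw [ih', mul_assoc]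

end Lead

section Main

variable (hT2 : Tbl2 D) (σ : F →+* F)
variable {H : Subgroup (GL D.Idx F)} (hMH : Fx D σ ≤ H) (hHG : H ≤ D.group F)
variable {Top : List ℕ} {v : ℕ → ℤ} (hTop : TopTab D F Top v)
include hR hT hT3 hTop

/-- The reduction to the top, for a single element of `U`. -/
theorem top_decomp {z : GL D.Idx F} (hz : z ∈ D.posUnipotent F)
    (hc : ∀ r, D.IsPosRoot r → (z⁻¹ * mapG D σ z) * X hR.toAddRel r 1 =
      X hR.toAddRel r 1 * (z⁻¹ * mapG D σ z)) :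
    ∃ τ : ℕ → F, ∃ z₀ ∈ Fx D σ, z = z₀ * W hR.toAddRel (Top.map fun r => (r, τ r)) := by
  set L := D.posRoots with hL
  have hposL : ∀ r ∈ L, D.IsPosRoot r := fun r hr => mem_posRoots.mp hr
  have hsort : L.Pairwise (· < ·) := posRoots_sorted
  have hcl := posRoots_closed hR hT
  have hU : ∀ u ∈ D.posUnipotent F, u ∈ gen hR.toAddRel {r | r ∈ L} := by
    intro u hu
    rwa [← posUnipotent_eq_list hR hT]
  obtain ⟨τ, hτ⟩ := exists_ordered hT (commPos hR) L hsort hposL hcl z (hU z hz)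
  have hcU : z⁻¹ * mapG D σ z ∈ D.posUnipotent F :=
    Subgroup.mul_mem _ (Subgroup.inv_mem _ hz) (mapG_U hR hT σ hz)
  obtain ⟨t', ht'⟩ := exists_ordered hT (commPos hR) L hsort hposL hcl _ (hU _ hcU)
  have h0 : ∀ s ∈ L, s ∉ Top → t' s = 0 := by
    refine coord_zero hR hT hT3 hTop L hsort hposL t' ?_
    intro r hr
    rw [← ht']
    exact hc r hr
  have hfilt : L.filter (· ∈ Top) = Top := hTop.filt
  -- the splitting of `z`, `σ z`, `c`
  have hmapW : ∀ (l : List ℕ) (μ : ℕ → F), mapG D σ (W hR.toAddRel (l.map fun r => (r, μ r))) =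
      W hR.toAddRel (l.map fun r => (r, σ (μ r))) := by
    intro l μ
    induction l with
    | nil => simp [W]
    | cons a l ih =>
      simp only [List.map_cons, W_cons, map_mul, ih, mapG_X σ hR.toAddRel hR.toAddRel]
  set L₁ := L.filter (· ∉ Top) with hL₁
  have hzero : ∀ (l : List ℕ) (μ : ℕ → F), (∀ r ∈ l, μ r = 0) →
      W hR.toAddRel (l.map fun r => (r, μ r)) = 1 := by
    intro l μ h
    induction l with
    | nil => simp [W]
    | cons a l ih =>
      simp only [List.map_cons, W_cons]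
      rw [h a (by simp), X_zero, one_mul, ih fun r hr => h r (by simp [hr])]
  have hsplitz := W_split hR hT hT3 hTop L hposL τ
  rw [hfilt] at hsplitz
  have hsplitc := W_split hR hT hT3 hTop L hposL t'
  rw [hfilt, hzero _ t' (fun r hr => h0 r (List.mem_filter.mp hr).1 (by
    simpa using (List.mem_filter.mp hr).2)), one_mul] at hsplitc
  set z₀ := W hR.toAddRel (L₁.map fun r => (r, τ r)) with hz₀
  set e := W hR.toAddRel (Top.map fun r => (r, τ r)) with he
  have hzz : z = z₀ * e := by rw [hτ, hsplitz]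
  set c' := W hR.toAddRel (Top.map fun r => (r, t' r)) with hc'
  have hcc : z⁻¹ * mapG D σ z = c' := by rw [ht', hsplitc]
  have hσz : mapG D σ z = z * c' := by
    rw [← hcc]
    group
  -- comparison
  have hTopgen : ∀ r ∈ Top, r ∈ Top := fun _ h => h
  have hf : e * c' * (mapG D σ e)⁻¹ ∈ gen hR.toAddRel {r | r ∈ Top} := by
    have hgen1 : ∀ μ : ℕ → F, W hR.toAddRel (Top.map fun r => (r, μ r)) ∈ gen hR.toAddRel {r | r ∈ Top} := by
      intro μ
      apply W_mem_gen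
      intro w hw
      obtain ⟨r, hr, rfl⟩ := List.mem_map.mp hw
      exact hr
    have h2 : mapG D σ e = W hR.toAddRel (Top.map fun r => (r, σ (τ r))) := hmapW Top τ
    rw [h2]
    exact Subgroup.mul_mem _ (Subgroup.mul_mem _ (hgen1 _) (hgen1 _)) (Subgroup.inv_mem _ (hgen1 _))
  obtain ⟨f', hf'⟩ := exists_ordered hT (commPos hR) Top hTop.sorted hTop.pos hTop.closed _ hf
  have hσz₀ : mapG D σ z₀ = z₀ * W hR.toAddRel (Top.map fun r => (r, f' r)) := by
    rw [← hf']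
    have h3 : mapG D σ z₀ * mapG D σ e = z₀ * e * c' := by
      rw [← map_mul, ← hzz, hσz, hzz]
    calc mapG D σ z₀ = mapG D σ z₀ * mapG D σ e * (mapG D σ e)⁻¹ := by group
      _ = z₀ * e * c' * (mapG D σ e)⁻¹ := by rw [h3]
      _ = _ := by group
  -- use uniqueness
  classical
  let μ₁ : ℕ → F := fun s => if s ∈ Top then 0 else σ (τ s)
  let μ₂ : ℕ → F := fun s => if s ∈ Top then f' s else τ s
  have hcongr : ∀ (l : List ℕ) (μ μ' : ℕ → F), (∀ r ∈ l, μ r = μ' r) →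
      W hR.toAddRel (l.map fun r => (r, μ r)) = W hR.toAddRel (l.map fun r => (r, μ' r)) := by
    intro l μ μ' h
    congr 1
    apply List.map_congr_left
    intro r hr
    rw [h r hr]
  have h1 : W hR.toAddRel (L.map fun r => (r, μ₁ r)) = mapG D σ z₀ := by
    rw [W_split hR hT hT3 hTop L hposL μ₁, hfilt, hzero Top μ₁ (fun r hr => by simp [μ₁, hr]), mul_one,
      hz₀, hmapW]
    apply hcongr
    intro r hr
    have : r ∉ Top := by simpa using (List.mem_filter.mp hr).2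
    simp [μ₁, this]
  have h2 : W hR.toAddRel (L.map fun r => (r, μ₂ r)) = z₀ * W hR.toAddRel (Top.map fun r => (r, f' r)) := by
    rw [W_split hR hT hT3 hTop L hposL μ₂, hfilt, hz₀]
    congr 1
    · apply hcongr
      intro r hr
      have : r ∉ Top := by simpa using (List.mem_filter.mp hr).2
      simp [μ₂, this]
    · apply hcongr
      intro r hr
      simp [μ₂, hr]
  have h3 := ordered_unique (hA := hR.toAddRel) hT L hsort hposL μ₁ μ₂ (by rw [h1, h2, hσz₀])
  have hfix : mapG D σ z₀ = z₀ := by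
    rw [hz₀, hmapW]
    apply hcongr
    intro r hr
    have hrT : r ∉ Top := by simpa using (List.mem_filter.mp hr).2
    have := h3 r (List.mem_filter.mp hr).1
    simpa [μ₁, μ₂, hrT] using this
  have hz₀U : z₀ ∈ D.posUnipotent F := by
    rw [posUnipotent_eq hR.toAddRel]
    apply W_mem_gen
    intro w hw
    obtain ⟨r, hr, rfl⟩ := List.mem_map.mp hw
    exact hposL r (List.mem_filter.mp hr).1
  exact ⟨τ, z₀, ⟨U_le_G hR hT hz₀U, hfix⟩, hzz⟩

include hMH hHG in
/-- A non-rational element of `H ∩ U` gives a non-rational element of the top. -/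
theorem exists_top_elt [Fintype F] (p : ℕ) [hp : Fact p.Prime] [CharP F p]
    (hne : ∃ u ∈ H, u ∈ D.posUnipotent F ∧ u ∉ Fx D σ) :
    ∃ τ : ℕ → F, W hR.toAddRel (Top.map fun r => (r, τ r)) ∈ H ∧
      W hR.toAddRel (Top.map fun r => (r, τ r)) ∉ Fx D σ := by
  classical
  let T : Subgroup (GL D.Idx F) := H ⊓ D.posUnipotent F
  have hTp : IsPGroup p ↥T := by
    intro x
    obtain ⟨k, hk⟩ := U_pow hR hT p x.2.2
    refine ⟨k, ?_⟩
    apply Subtype.ext
    simpa using hk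
  let K : Subgroup ↥T := (D.posUnipotent F ⊓ Fx D σ).subgroupOf T
  have hKtop : K ≠ ⊤ := by
    intro h
    obtain ⟨u, huH, huU, huM⟩ := hne
    have h1 : (⟨u, huH, huU⟩ : ↥T) ∈ K := by
      rw [h]
      trivial
    exact huM (Subgroup.mem_subgroupOf.mp h1).2
  have hnil : Group.IsNilpotent ↥T := hTp.isNilpotent
  have hlt := Group.normalizerCondition_of_isNilpotent (G := ↥T) K (lt_top_iff_ne_top.2 hKtop)
  obtain ⟨t, ht, htK⟩ := SetLike.exists_of_lt hlt
  rw [Subgroup.mem_normalizer_iff] at ht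
  set z : GL D.Idx F := (t : GL D.Idx F) with hz
  have hzH : z ∈ H := t.2.1
  have hzU : z ∈ D.posUnipotent F := t.2.2
  have hzM : z ∉ Fx D σ := fun h => htK (Subgroup.mem_subgroupOf.mpr ⟨hzU, h⟩)
  have hc : ∀ r, D.IsPosRoot r → (z⁻¹ * mapG D σ z) * X hR.toAddRel r 1 =
      X hR.toAddRel r 1 * (z⁻¹ * mapG D σ z) := by
    intro r hr
    have hxU : X hR.toAddRel r (1 : F) ∈ D.posUnipotent F := X_mem_U hR hT hr 1
    have hxM := X_one_mem_Fx hR hT σ hr.1
    have hxT : X hR.toAddRel r (1 : F) ∈ T := ⟨hMH hxM, hxU⟩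
    have h1 := (ht ⟨_, hxT⟩).mp (Subgroup.mem_subgroupOf.mpr ⟨hxU, hxM⟩)
    have h2 : z * X hR.toAddRel r 1 * z⁻¹ ∈ Fx D σ := (Subgroup.mem_subgroupOf.mp h1).2
    have h3 : mapG D σ (z * X hR.toAddRel r 1 * z⁻¹) = z * X hR.toAddRel r 1 * z⁻¹ := h2.2
    rw [map_mul, map_mul, map_inv, mapG_X σ hR.toAddRel hR.toAddRel, map_one] at h3
    have e : mapG D σ z * X hR.toAddRel r 1 = z * X hR.toAddRel r 1 * z⁻¹ * mapG D σ z := by
      rw [← h3]
      group
    calc (z⁻¹ * mapG D σ z) * X hR.toAddRel r 1 = z⁻¹ * (mapG D σ z * X hR.toAddRel r 1) := by group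
      _ = z⁻¹ * (z * X hR.toAddRel r 1 * z⁻¹ * mapG D σ z) := by rw [e]
      _ = _ := by group
  obtain ⟨τ, z₀, hz₀, e⟩ := top_decomp hR hT hT3 σ hTop hzU hc
  refine ⟨τ, ?_, ?_⟩
  · have h1 : W hR.toAddRel (Top.map fun r => (r, τ r)) = z₀⁻¹ * z := by
      rw [e]
      group
    rw [h1]
    exact Subgroup.mul_mem _ (Subgroup.inv_mem _ (hMH hz₀)) hzH
  · intro h
    apply hzM
    rw [e]
    exact Subgroup.mul_mem _ hz₀ h

end Main

end Cfsg.Agent.Lib.SubMax.TopElt
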