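import Cfsg.Agent.Lib.SubMax.Tab
import Cfsg.Agent.Lib.SubMax.KFx
import Cfsg.Agent.Lib.SubMax.Kempf2

/-!
# Sylow subgroups of the fixed points over an arbitrary field
-/

set_option autoImplicit false
set_option linter.unusedSectionVars false

namespace Cfsg.Agent.Lib.SubMax.Tor

open Cfsg.Lie Cfsg.Agent.Lib.ChevBN.Elem Cfsg.Agent.Lib.ChevBN.Entries Cfsg.Agent.Lib.ChevBN.Table
open Cfsg.Agent.Lib.ChevBN.Collect Cfsg.Agent.Lib.ChevBN.Rel Cfsg.Agent.Lib.ChevBN.Torus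
open Cfsg.Agent.Lib.ChevBN.Monomial Cfsg.Agent.Lib.ChevBN.Core Cfsg.Agent.Lib.ChevBN.Pair
open Cfsg.Agent.Lib.ChevBN.Stmts Cfsg.Agent.Lib.ChevBN.BruhatForm Cfsg.Agent.Lib.ChevBN.Fix
open Cfsg.Agent.Lib.ChevBN.Levi
open Cfsg.Agent.Lib.ChevOrder.Chev Cfsg.Agent.Lib.ChevOrder.BNCount
open Cfsg.Agent.Lib.BNPair.Basic Cfsg.Agent.Lib.BNPair.Parabolic
open Cfsg.Agent.Lib.BorelTits.Weight Cfsg.Agent.Lib.BorelTits.Tbl3 Cfsg.Agent.Lib.BorelTits.Funct
open Cfsg.Agent.Lib.SubMax.Fx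

set_option linter.dupNamespace false
set_option linter.style.haveILetI false

variable {D : ChevalleyDatum} {F : Type*} [Field F] {η : ℕ → ℕ → ℤ}

section PGroup

variable {ι : Type*} [Fintype ι] [DecidableEq ι] [Nonempty ι]

/-- A subgroup of raising matrices is a `p`-group. -/
theorem isPGroup_of_le' (p : ℕ) [hp : Fact p.Prime] [CharP F p] {T : Subgroup (GL ι F)}
    {w : ι → ℝ} {M : ℝ} (hM : 0 < M) (h : ∀ z ∈ T, Le w w M ((z : Matrix ι ι F) - 1)) :
    IsPGroup p ↥T := by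
  obtain ⟨B, hB⟩ : ∃ B : ℝ, ∀ i j : ι, w i - w j ≤ B := by
    have hf : (Set.range fun q : ι × ι => w q.1 - w q.2).Finite := Set.finite_range _
    obtain ⟨B, hB⟩ := hf.bddAbove
    exact ⟨B, fun i j => hB ⟨(i, j), rfl⟩⟩
  obtain ⟨k, hk⟩ := exists_nat_gt (B / M)
  rw [div_lt_iff₀ hM] at hk
  intro z
  refine ⟨k, ?_⟩
  apply Subtype.ext
  apply Units.ext
  simp only [SubmonoidClass.coe_pow, Units.val_pow_eq_pow_val, OneMemClass.coe_one, Units.val_one]
  have hz := h z z.2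
  have h1 : (((z : GL ι F) : Matrix ι ι F) - 1) ^ k = 0 := by
    ext i j
    by_contra hne
    have h2 := Cfsg.Agent.Lib.SubMax.Odd.Le_pow hz k i j hne
    have h3 := hB i j
    simp only [Matrix.zero_apply] at hne
    linarith
  have hkp : k ≤ p ^ k := (Nat.lt_pow_self hp.out.one_lt).le
  have h2 : (((z : GL ι F) : Matrix ι ι F) - 1) ^ p ^ k = 0 := pow_eq_zero_of_le hkp h1
  haveI : CharP (Matrix ι ι F) p := Matrix.charP p
  rw [sub_pow_char_pow_of_commute (p := p) (n := k) (Commute.one_right _), one_pow, sub_eq_zero] at h2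
  exact h2

end PGroup

variable (hR : Sys D F η) (hT : Tbl D)

section UPow

variable (hT3 : Tbl3 D)
include hR hT hT3

theorem U_pow' (p : ℕ) [hp : Fact p.Prime] [CharP F p] {u : GL D.Idx F} (hu : u ∈ D.posUnipotent F) :
    ∃ k, u ^ (p ^ k) = 1 := by
  rcases isEmpty_or_nonempty D.Idx with h | h
  · refine ⟨0, ?_⟩
    apply Units.ext
    ext i
    exact (h.false i).elim
  obtain ⟨ψ, hψ, hreg⟩ := exists_reg hT hT3
  obtain ⟨c, hc, hlow⟩ := exists_pos_low (F := F) (Q := D.posUnipotent F) (w := wt ψ) (fun y hy i j hij =>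
    U_strict hR hT hT3 hψ hreg hy i j hij)
  have hP : IsPGroup p ↥(D.posUnipotent F) := isPGroup_of_le' p hc hlow
  obtain ⟨k, hk⟩ := hP ⟨u, hu⟩
  refine ⟨k, ?_⟩
  have := congrArg Subtype.val hk
  simpa using this

end UPow

section NB

include hR hT

/-- A non-trivial Weyl element makes a simple root negative. -/
theorem exists_simple_neg {n : GL D.Idx F} (hn : n ∈ D.monomialSubgroup F)
    (hnH : n ∉ D.diagonalSubgroup F) :
    ∃ i : Fin D.rank, ∃ hm : n ∈ monoSub D F, permOf ⟨n, hm⟩ (alphaR hT i) ∉ PosR D := by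
  have hnG := N_le_G hR hT hn
  let n' : ↥(pair hR hT).N := ⟨⟨n, hnG⟩, (mem_PN hR hT).2 hn⟩
  set w : WW (pair hR hT) := QuotientGroup.mk n'⁻¹ with hw
  have hw1 : w ≠ 1 := by
    intro h
    have h1 : (QuotientGroup.mk n'⁻¹ : WW (pair hR hT)) = QuotientGroup.mk 1 := h
    rw [mk_eq] at h1
    have h2 : (⟨n, hnG⟩ : ↥(D.group F)) ∈ (pair hR hT).B := by
      simpa [n'] using h1
    have h3 := (mem_PB hR hT).1 h2
    apply hnH
    rw [← B_inf_N hR hT]
    exact ⟨h3, hn⟩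
  have hs := setupW hR hT
  obtain ⟨l, hl, hlen⟩ := hs.ex w
  cases l with
  | nil =>
    exact absurd hl.symm hw1
  | cons i l =>
    have h1 : fW hR hT i * w = Cfsg.Agent.Lib.BNPair.CoxeterExchange.pr (fW hR hT) l := by
      rw [← hl, Cfsg.Agent.Lib.BNPair.CoxeterExchange.pr_cons, ← mul_assoc, hs.sq, one_mul]
    have h2 : LL (pair hR hT) (fW hR hT i * w) < LL (pair hR hT) w := by
      rw [h1, ← hlen]
      have := hs.le l
      simp only [List.length_cons]
      omega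
    have h3 := hK hR hT i w h2
    have hm := mem_mono_of_N hR hT hn
    refine ⟨i, hm, ?_⟩
    have e : (σW hR hT w)⁻¹ = σW hR hT (QuotientGroup.mk n') := by
      rw [hw, QuotientGroup.mk_inv, map_inv, inv_inv]
    rw [e, σW_mk] at h3
    exact h3

/-- An element conjugating the simple root elements into `U` lies in `B`. -/
theorem mem_B_of_conj_U {x : GL D.Idx F} (hx : x ∈ D.group F)
    (h : ∀ i < D.rank, x * X hR.toAddRel (D.simple i) 1 * x⁻¹ ∈ D.posUnipotent F) :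
    x ∈ D.borelSubgroup F := by
  obtain ⟨b, hb, n, hn, u, hu, rfl⟩ := normal_form_exists hR hT hx
  by_cases hnH : n ∈ D.diagonalSubgroup F
  · exact Subgroup.mul_mem _ (Subgroup.mul_mem _ hb (H_le_B hR hT hnH)) (U_le_B hR hT (Un_le_U hR hT _ hu))
  · exfalso
    obtain ⟨i, hm, hneg⟩ := exists_simple_neg hR hT hn hnH
    have hrpos := hT.simple_pos i i.2
    set r := D.simple i with hr
    have hXU : X hR.toAddRel r (1 : F) ∈ Un D F n := by
      apply Subgroup.subset_closure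
      refine ⟨r, 1, hrpos, ?_, coe_X _ _ _⟩
      rw [Subgroup.map_le_iff_le_comap, rootSubgroup_eq hR.toAddRel]
      refine gen_le _ ?_
      intro r' hr' t'
      rw [Set.mem_singleton_iff] at hr'
      subst hr'
      rw [Subgroup.mem_comap]
      show n * X hR.toAddRel r t' * n⁻¹ ∈ _
      obtain ⟨κ, -, h1⟩ := conj_of_mem_N hR hT hn hm (alphaR hT i)
      have h1' := h1 t'
      have h2 : (alphaR hT i).val = r := rfl
      rw [h2] at h1'
      rw [h1', negUnipotent_eq hR.toAddRel]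
      apply X_mem_gen
      show D.IsNegRoot _
      have h3 := hT.pos_or_neg (permOf ⟨n, hm⟩ (alphaR hT i)).2
      rcases h3 with h3 | h3
      · exact absurd h3 hneg
      · exact h3
    have hy : u * X hR.toAddRel r 1 * u⁻¹ ∈ Un D F n :=
      Subgroup.mul_mem _ (Subgroup.mul_mem _ hu hXU) (Subgroup.inv_mem _ hu)
    have h1 := conj_Un_le hR hT hy
    have h2 := h i i.2
    set y := u * X hR.toAddRel r 1 * u⁻¹ with hydef
    have e : n * y * n⁻¹ = b⁻¹ * ((b * n * u) * X hR.toAddRel r 1 * (b * n * u)⁻¹) * b⁻¹⁻¹ := by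
      rw [hydef]
      group
    have hU : n * y * n⁻¹ ∈ D.posUnipotent F := by
      rw [e]
      obtain ⟨u₁, hu₁, k, hk, e₁⟩ := (mem_B_iff hR hT).mp (Subgroup.inv_mem _ hb)
      rw [e₁]
      have e₂ : ∀ z : GL D.Idx F, (u₁ * k) * z * (u₁ * k)⁻¹ = u₁ * (k * z * k⁻¹) * u₁⁻¹ := by
        intro z
        group
      rw [e₂]
      exact Subgroup.mul_mem _ (Subgroup.mul_mem _ hu₁ (H_norm_U hR hT hk h2)) (Subgroup.inv_mem _ hu₁)
    have hH : n * y * n⁻¹ ∈ D.diagonalSubgroup F := by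
      rw [← B_inf_VH hR hT]
      exact ⟨U_le_B hR hT hU, Subgroup.mem_sup_left h1⟩
    have h3 : n * y * n⁻¹ ∈ D.posUnipotent F ⊓ D.diagonalSubgroup F := ⟨hU, hH⟩
    rw [U_inf_H hR hT, Subgroup.mem_bot] at h3
    have h4 : y = 1 := by
      have : y = n⁻¹ * (n * y * n⁻¹) * n := by group
      rw [this, h3]
      group
    have h5 : X hR.toAddRel r (1 : F) = 1 := by
      have : X hR.toAddRel r (1 : F) = u⁻¹ * y * u := by
        rw [hydef]
        group
      rw [this, h4]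
      group
    exact one_ne_zero (X_inj hR hT hrpos (by rw [h5, X_zero]))

/-- A torus element of `p`-power order is trivial. -/
theorem H_pow_eq_one (p : ℕ) [hp : Fact p.Prime] [CharP F p] {h : GL D.Idx F}
    (hh : h ∈ D.diagonalSubgroup F) {k : ℕ} (hk : h ^ (p ^ k) = 1) : h = 1 := by
  rw [diagonal_eq hR hT] at hh
  obtain ⟨a, ha, rfl⟩ := hh
  have h1 := congrArg (fun g : GL D.Idx F => (g : Matrix D.Idx D.Idx F)) hk
  simp only [Units.val_pow_eq_pow_val, Units.val_one, coe_hP hR ha, dgMat, Matrix.diagonal_pow] at h1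
  apply Units.ext
  rw [coe_hP hR ha, dgMat, Units.val_one]
  ext i j
  by_cases hij : i = j
  · subst hij
    rcases i with i | s
    · simp
    · have h2 := congrFun (congrFun h1 (Sum.inr s)) (Sum.inr s)
      simp only [Matrix.diagonal_apply_eq, Pi.pow_apply, Sum.elim_inr, Matrix.one_apply_eq] at h2 ⊢
      have h3 : (iterateFrobenius F p k) (chi D a s) = (iterateFrobenius F p k) 1 := by
        rw [iterateFrobenius_def, h2, map_one]
      exact (iterateFrobenius F p k).injective h3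
  · simp [Matrix.diagonal_apply_ne _ hij, Matrix.one_apply_ne hij]

/-- A `p`-element of `B` lies in `U`. -/
theorem mem_U_of_pow (p : ℕ) [hp : Fact p.Prime] [CharP F p] {x : GL D.Idx F}
    (hx : x ∈ D.borelSubgroup F) {k : ℕ} (hk : x ^ (p ^ k) = 1) : x ∈ D.posUnipotent F := by
  obtain ⟨u, hu, h, hh, rfl⟩ := (mem_B_iff hR hT).mp hx
  have key : ∀ n : ℕ, ∃ u' ∈ D.posUnipotent F, (u * h) ^ n = u' * h ^ n := by
    intro n
    induction n with
    | zero => exact ⟨1, Subgroup.one_mem _, by simp⟩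
    | succ n ih =>
      obtain ⟨u', hu', e⟩ := ih
      refine ⟨u' * (h ^ n * u * (h ^ n)⁻¹), Subgroup.mul_mem _ hu'
        (H_norm_U hR hT (Subgroup.pow_mem _ hh n) hu), ?_⟩
      rw [pow_succ, e, pow_succ]
      group
  obtain ⟨u', hu', e⟩ := key (p ^ k)
  rw [hk] at e
  have h1 : h ^ (p ^ k) = u'⁻¹ := by
    have : h ^ (p ^ k) = u'⁻¹ * (u' * h ^ (p ^ k)) := by group
    rw [this, ← e, mul_one]
  have h2 : h ^ (p ^ k) ∈ D.posUnipotent F ⊓ D.diagonalSubgroup F :=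
    ⟨by rw [h1]; exact Subgroup.inv_mem _ hu', Subgroup.pow_mem _ hh _⟩
  rw [U_inf_H hR hT, Subgroup.mem_bot] at h2
  rw [H_pow_eq_one hR hT p hh h2, mul_one]
  exact hu

end NB

section Sylow

variable (σ : F →+* F)

/-- Fixed points of a finite fixed field are finite. -/
theorem finite_Fx (hfin : {c : F | σ c = c}.Finite) : Finite ↥(Fx D σ) := by
  haveI : Finite {c : F | σ c = c} := hfin
  let f : ↥(Fx D σ) → D.Idx → D.Idx → {c : F | σ c = c} := fun g i j =>
    ⟨((g : GL D.Idx F) : Matrix D.Idx D.Idx F) i j, by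
      have h2 : mapG D σ (g : GL D.Idx F) = g := (mem_Fx.mp g.2).2
      have h3 := congrArg (fun x : GL D.Idx F => (x : Matrix D.Idx D.Idx F) i j) h2
      simp only [coe_mapG, Matrix.map_apply] at h3
      exact h3⟩
  apply Finite.of_injective f
  intro g g' e
  apply Subtype.ext
  apply Units.ext
  ext i j
  have := congrFun (congrFun e i) j
  exact congrArg Subtype.val this

include hR hT

/-- The `p`-subgroups of the fixed points are conjugate into `U`. -/
theorem exists_conj_Fx (hfin : {c : F | σ c = c}.Finite) (hT3 : Tbl3 D) (p : ℕ) [hp : Fact p.Prime] [CharP F p]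
    {R : Subgroup (GL D.Idx F)} (hRM : R ≤ Fx D σ) (hRp : IsPGroup p ↥R) :
    ∃ g ∈ D.group F, cj g R ≤ D.posUnipotent F := by
  classical
  haveI := finite_Fx (D := D) σ hfin
  -- the subgroup `Q = U ∩ M`
  let Q : Subgroup ↥(Fx D σ) := (D.posUnipotent F).subgroupOf (Fx D σ)
  have hQp : IsPGroup p ↥Q := by
    intro x
    obtain ⟨k, hk⟩ := U_pow' hR hT hT3 p (Subgroup.mem_subgroupOf.mp x.2)
    refine ⟨k, ?_⟩
    apply Subtype.ext
    apply Subtype.ext
    simpa using hk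
  obtain ⟨P, hP⟩ := hQp.exists_le_sylow
  have hPQ : (P : Subgroup ↥(Fx D σ)) = Q := by
    by_contra hne
    have hlt : Q < (P : Subgroup ↥(Fx D σ)) := lt_of_le_of_ne hP (Ne.symm hne)
    let K : Subgroup ↥(P : Subgroup ↥(Fx D σ)) := Q.subgroupOf (P : Subgroup ↥(Fx D σ))
    have hKtop : K ≠ ⊤ := by
      intro h
      apply hne
      apply le_antisymm _ hP
      intro z hz
      have h1 : (⟨z, hz⟩ : ↥(P : Subgroup ↥(Fx D σ))) ∈ K := by
        rw [h]
        trivial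
      exact Subgroup.mem_subgroupOf.mp h1
    haveI : Group.IsNilpotent ↥(P : Subgroup ↥(Fx D σ)) := P.isPGroup'.isNilpotent
    have hlt2 := Group.normalizerCondition_of_isNilpotent
      (G := ↥(P : Subgroup ↥(Fx D σ))) K (lt_top_iff_ne_top.2 hKtop)
    obtain ⟨t, ht, htK⟩ := SetLike.exists_of_lt hlt2
    rw [Subgroup.mem_normalizer_iff] at ht
    set x : GL D.Idx F := ((t : ↥(Fx D σ)) : GL D.Idx F) with hx
    have hxM : x ∈ Fx D σ := (t : ↥(Fx D σ)).2
    have hconj : ∀ i < D.rank, x * X hR.toAddRel (D.simple i) 1 * x⁻¹ ∈ D.posUnipotent F := by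
      intro i hi
      have hp1 := hT.simple_pos i hi
      have h1 : X hR.toAddRel (D.simple i) (1 : F) ∈ Fx D σ := X_one_mem_Fx hR hT σ hp1.1
      let y : ↥(Fx D σ) := ⟨_, h1⟩
      have hyQ : y ∈ Q := Subgroup.mem_subgroupOf.mpr (X_mem_U hR hT hp1 1)
      let y' : ↥(P : Subgroup ↥(Fx D σ)) := ⟨y, hP hyQ⟩
      have hy'K : y' ∈ K := Subgroup.mem_subgroupOf.mpr hyQ
      have h2 := (ht y').mp hy'K
      have h3 := Subgroup.mem_subgroupOf.mp (Subgroup.mem_subgroupOf.mp h2)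
      simpa using h3
    have hxB := mem_B_of_conj_U hR hT hxM.1 hconj
    obtain ⟨k, hk⟩ := P.isPGroup' t
    have hxk : x ^ (p ^ k) = 1 := by
      have := congrArg (fun z : ↥(P : Subgroup ↥(Fx D σ)) => ((z : ↥(Fx D σ)) : GL D.Idx F)) hk
      simpa using this
    have hxU := mem_U_of_pow hR hT p hxB hxk
    exact htK (Subgroup.mem_subgroupOf.mpr (Subgroup.mem_subgroupOf.mpr hxU))
  -- conjugate `R` into `P`
  have hpg : IsPGroup p ↥(R.subgroupOf (Fx D σ)) :=
    hRp.of_injective (Subgroup.subgroupOfEquivOfLe hRM).toMonoidHom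
      (Subgroup.subgroupOfEquivOfLe hRM).injective
  obtain ⟨S', hS'⟩ := hpg.exists_le_sylow
  obtain ⟨g, hg⟩ := MulAction.exists_smul_eq (↥(Fx D σ)) S' P
  refine ⟨((g⁻¹ : ↥(Fx D σ)) : GL D.Idx F), (g⁻¹ : ↥(Fx D σ)).2.1, ?_⟩
  intro y hy
  rw [mem_cj] at hy
  have hyM : y ∈ Fx D σ := by
    have h1 := hRM hy
    have h2 : y = (g : GL D.Idx F) * (((g⁻¹ : ↥(Fx D σ)) : GL D.Idx F) * y *
        ((g⁻¹ : ↥(Fx D σ)) : GL D.Idx F)⁻¹) * (g : GL D.Idx F)⁻¹ := by
      simp only [InvMemClass.coe_inv]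
      group
    rw [h2]
    simp only [InvMemClass.coe_inv] at h1
    exact Subgroup.mul_mem _ (Subgroup.mul_mem _ g.2 h1) (Subgroup.inv_mem _ g.2)
  have h3 : g⁻¹ * (⟨y, hyM⟩ : ↥(Fx D σ)) * g ∈ (S' : Subgroup ↥(Fx D σ)) := by
    apply hS'
    rw [Subgroup.mem_subgroupOf]
    simpa using hy
  have h4 : g * (g⁻¹ * (⟨y, hyM⟩ : ↥(Fx D σ)) * g) * g⁻¹ ∈ (P : Subgroup ↥(Fx D σ)) := by
    rw [← hg, Sylow.coe_subgroup_smul]
    exact ⟨_, h3, rfl⟩
  have h5 : g * (g⁻¹ * (⟨y, hyM⟩ : ↥(Fx D σ)) * g) * g⁻¹ = ⟨y, hyM⟩ := by group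
  rw [h5, hPQ, Subgroup.mem_subgroupOf] at h4
  exact h4

end Sylow

end Cfsg.Agent.Lib.SubMax.Tor
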